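/-
The Tits group has no doubly transitive action: counting fixed points of elements of odd order.
-/
import Cfsg.Agent.Spor.TitsL

set_option autoImplicit false
set_option maxRecDepth 200000

namespace CL.TitsL

open MulAction CL.PG

variable {G Ω : Type*} [Group G] [MulAction G Ω]

theorem card_fixedBy_conj (y a : G) : Nat.card (fixedBy Ω (y * a * y⁻¹)) = Nat.card (fixedBy Ω a) := by
  rw [← smul_fixedBy]
  exact (Nat.card_congr (Equiv.Set.image _ _ (MulAction.injective y))).symm

/-- Orbit counting for a subgroup whose non-trivial elements are conjugate. -/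
theorem count_cls [Finite G] [Finite Ω] {K : Subgroup G} {k : ℕ} (hK : Nat.card K = k + 1) {a : G}
    (h : ∀ z ∈ K, z = 1 ∨ ∃ y : G, y * a * y⁻¹ = z) :
    Nat.card Ω + k * Nat.card (fixedBy Ω a) = Nat.card (orbitRel.Quotient K Ω) * (k + 1) := by
  classical
  have := Fintype.ofFinite K
  have := Fintype.ofFinite Ω
  have := Fintype.ofFinite (orbitRel.Quotient K Ω)
  have h1 := sum_card_fixedBy_eq_card_orbits_mul_card_group K Ω
  rw [← Finset.add_sum_erase _ _ (Finset.mem_univ (1 : K)),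
    Finset.sum_congr rfl (g := fun _ => Nat.card (fixedBy Ω a)) fun z hz => by
      obtain h2 | ⟨y, hy⟩ := h z z.2
      · exact absurd (Subtype.ext h2) (Finset.ne_of_mem_erase hz)
      · rw [← card_fixedBy_conj y, hy, ← Nat.card_eq_fintype_card]; rfl,
    Finset.sum_const, Finset.card_erase_of_mem (Finset.mem_univ _), Finset.card_univ] at h1
  simp only [← Nat.card_eq_fintype_card, hK, smul_eq_mul, Nat.add_sub_cancel] at h1
  rw [← h1, fixedBy_one_eq_univ, Nat.card_univ]

theorem orbits_mul_le {K : Type*} [Group K] [MulAction K Ω] [Finite Ω] {m : ℕ}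
    (h : ∀ ω : Ω, m ≤ Nat.card (orbit K ω)) : Nat.card (orbitRel.Quotient K Ω) * m ≤ Nat.card Ω := by
  have := Fintype.ofFinite (orbitRel.Quotient K Ω)
  rw [Nat.card_congr (selfEquivSigmaOrbits K Ω), Nat.card_sigma, Nat.card_eq_fintype_card, ← smul_eq_mul,
    ← Finset.card_univ]
  exact Finset.card_nsmul_le_sum _ _ _ fun q _ => h _

theorem card_fixedBy_lt [FaithfulSMul G Ω] [Finite Ω] {a : G} (ha : a ≠ 1) : Nat.card (fixedBy Ω a) < Nat.card Ω := by
  by_contra hn
  have h := Set.eq_of_subset_of_ncard_le (Set.subset_univ (fixedBy Ω a)) (by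
    rw [Set.ncard_univ, ← Nat.card_coe_set_eq]; exact not_lt.mp hn)
  exact ha (FaithfulSMul.eq_of_smul_eq_smul (α := Ω) fun ω => by
    rw [one_smul]; exact (h ▸ Set.mem_univ ω : ω ∈ fixedBy Ω a))

theorem degrees : ∀ n < 4241, 3 ≤ n → n * (n - 1) ∣ 17971200 → n < 27 ∨ n = 27 ∨ n = 40 ∨ n = 65 := by
  decide +kernel

theorem not_two [FaithfulSMul G Ω] [Fintype Ω] (hG : Nat.card G = 17971200) {R Q : Subgroup G} {a b x y : G}
    (hR : Nat.card R = 26 + 1) (hRa : ∀ z ∈ R, z = 1 ∨ ∃ g : G, g * a * g⁻¹ = z)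
    (hQ : Nat.card Q = 24 + 1) (hQb : ∀ z ∈ Q, z = 1 ∨ ∃ g : G, g * b * g⁻¹ = z)
    (hx : Nat.card (Subgroup.zpowers x) = 13) (hy : Nat.card (Subgroup.zpowers y) = 3) (hyx : y * x = x ^ 9 * y)
    (hΩ : 3 ≤ Fintype.card Ω) : ¬ IsMultiplyPretransitive G Ω 2 := fun h2 => by
  classical
  have : Finite G := Nat.finite_of_card_ne_zero (by rw [hG]; norm_num)
  have ht : IsPretransitive G Ω := isPretransitive_of_is_two_pretransitive
  rw [← Nat.card_eq_fintype_card] at hΩ
  have hd : Nat.card Ω * (Nat.card Ω - 1) ∣ 17971200 := by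
    obtain ⟨u⟩ : Nonempty (Fin 2 ↪ Ω) := Function.Embedding.nonempty_of_card_le (by
      rw [Fintype.card_fin, ← Nat.card_eq_fintype_card]; omega)
    have h1 := (stabilizer G u).index_dvd_card
    rw [index_stabilizer_of_transitive, hG, Nat.card_eq_fintype_card, Fintype.card_embedding_eq, Fintype.card_fin,
      ← Nat.card_eq_fintype_card] at h1
    simpa [Nat.descFactorial, mul_comm] using h1
  have hs : ∀ (ω : Ω) (K : Subgroup G), K ≤ stabilizer G ω → Nat.card K * Nat.card Ω ∣ 17971200 := fun ω K hK => by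
    rw [← hG, ← (stabilizer G ω).card_mul_index, index_stabilizer_of_transitive]
    exact Nat.mul_dvd_mul_right (Subgroup.card_dvd_of_le hK) _
  have ne : ∀ {K : Subgroup G} {c : G}, 1 < Nat.card K → (∀ z ∈ K, z = 1 ∨ ∃ g : G, g * c * g⁻¹ = z) → c ≠ 1 := by
    rintro K c h1 h rfl
    rw [(Subgroup.eq_bot_iff_forall K).mpr fun z hz => (h z hz).elim id fun ⟨g, hg⟩ => by simpa using hg.symm] at h1
    simp at h1
  have h3 := count_cls (Ω := Ω) hR hRa
  have h4 := card_fixedBy_lt (Ω := Ω) (ne (by omega) hRa)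
  have h5 := count_cls (Ω := Ω) hQ hQb
  have h6 := card_fixedBy_lt (Ω := Ω) (ne (by omega) hQb)
  have h7 : ¬ 25 * Nat.card Ω ∣ 17971200 → Nat.card (orbitRel.Quotient Q Ω) * 5 ≤ Nat.card Ω := fun hn =>
    orbits_mul_le fun ω => by
      have h8 : Nat.card (orbit Q ω) ∣ 5 ^ 2 := by
        rw [Nat.card_coe_set_eq, ← index_stabilizer]; exact (stabilizer Q ω).index_dvd_card.trans (by rw [hQ]; norm_num)
      obtain ⟨i, -, hi⟩ := (Nat.dvd_prime_pow (by norm_num)).mp h8
      rcases i with _ | i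
      · refine absurd ((congrArg (· * Nat.card Ω) hQ).symm.dvd.trans (hs ω Q fun g hg => ?_)) hn
        rw [Nat.card_coe_set_eq, ← index_stabilizer, pow_zero, Subgroup.index_eq_one] at hi
        exact (hi ▸ Subgroup.mem_top _ : (⟨g, hg⟩ : Q) ∈ stabilizer Q ω)
      · rw [hi, pow_succ]; exact Nat.le_mul_of_pos_left _ (by positivity)
  have hle : Nat.card Ω < 4241 := by
    have := Nat.le_of_dvd (by norm_num) hd
    by_contra hn
    have := Nat.mul_le_mul (not_lt.mp hn) (show 4240 ≤ Nat.card Ω - 1 by omega)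
    omega
  obtain h | h | h | h := degrees _ hle hΩ hd
  · omega
  · have : Fact (Nat.Prime 13) := ⟨by norm_num⟩
    have : Fact (Nat.Prime 3) := ⟨by norm_num⟩
    have h8 := (IsPGroup.of_card (p := 13) (n := 1) hx).card_modEq_card_fixedPoints Ω
    have h9 : fixedPoints (Subgroup.zpowers x) Ω = fixedBy Ω x := by
      ext ω
      exact ⟨fun h => h ⟨x, Subgroup.mem_zpowers x⟩, fun h g =>
        (Subgroup.zpowers_le_of_mem (H := stabilizer G ω) h g.2 : _)⟩
    have hx1 : x ≠ 1 := by rintro rfl; simp at hx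
    have h10 := card_fixedBy_lt (Ω := Ω) hx1
    have hxo : x ^ 13 = 1 := by rw [← hx, Nat.card_zpowers, pow_orderOf_eq_one]
    have hyo : y ^ 3 = 1 := by rw [← hy, Nat.card_zpowers, pow_orderOf_eq_one]
    have hp : ∀ ω ∈ fixedBy Ω x, y • ω ∈ fixedBy Ω x := fun ω hω => by
      have e : x = y * x ^ 3 * y⁻¹ := by
        rw [← conj_pow, hyx, mul_inv_cancel_right, ← pow_mul, show 9 * 3 = 13 * 2 + 1 from rfl, pow_succ, pow_mul, hxo]
        simp
      rw [mem_fixedBy, e, mul_smul, inv_smul_smul, mul_smul, (stabilizer G ω).pow_mem hω 3]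
    let S : SubMulAction (Subgroup.zpowers y) Ω := ⟨fixedBy Ω x, fun g ω hω => by
      obtain ⟨k, hk⟩ := (Submonoid.mem_powers_iff _ _).mp (mem_powers_iff_mem_zpowers.mpr g.2)
      rw [Subgroup.smul_def, ← hk]
      clear hk
      induction k with
      | zero => simpa using hω
      | succ k ih => rw [pow_succ', mul_smul]; exact hp _ ih⟩
    have h11 := (IsPGroup.of_card (p := 3) (n := 1) hy).card_modEq_card_fixedPoints S
    have h12 : fixedPoints (Subgroup.zpowers y) S = ∅ := Set.eq_empty_of_forall_notMem fun ω hω => by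
      have := hs ω (Subgroup.zpowers y) fun g hg => congrArg Subtype.val (hω ⟨g, hg⟩)
      rw [hy, h] at this
      norm_num at this
    rw [h12, Nat.card_of_isEmpty (α := (∅ : Set S))] at h11
    rw [h9, h] at h8
    have h13 : Nat.card S = Nat.card (fixedBy Ω x) := rfl
    unfold Nat.ModEq at h8 h11
    omega
  · have := h7 (by rw [h]; norm_num)
    omega
  · have := h7 (by rw [h]; norm_num)
    omega

theorem of_cls {H : Subgroup G} {gs : List G} {w : List ℕ} (h : Cls 0 H ⊤ gs [[], w]) :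
    ∀ z ∈ H, z = 1 ∨ ∃ g : G, g * wordG gs w * g⁻¹ = z := fun z hz => by
  obtain ⟨r, hr, g, -, hg⟩ := h z hz (pow_zero z)
  simp only [List.mem_cons, List.not_mem_nil, or_false] at hr
  rcases hr with rfl | rfl
  · exact Or.inl (by rw [← hg, wordG_nil]; simp)
  · exact Or.inr ⟨g, hg⟩

theorem main {A : Type*} [Group A] (K : Subgroup A) [MulAction K Ω] [FaithfulSMul K Ω] [Fintype Ω]
    (f : Nonempty (subW CL.Std.Tits.gs1 [[0], [2]] ≃* K)) (hΩ : 3 ≤ Fintype.card Ω) :
    ¬ IsMultiplyPretransitive K Ω 2 := by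
  obtain ⟨_, cs, t⟩ := xtop f
  have h1 := xx13 t.c
  have h2 := xy3 t.c
  rw [subW_single] at h1 h2
  refine not_two t.card (xP3_card t.c) (of_cls (xv3_cls t.c)) (xP5_card t.c) (of_cls (xv5_cls t.c)) h1 h2 ?_ hΩ
  rw [← wordG_append, ← wordG_powW, ← wordG_append]
  exact xyx t.c

end CL.TitsL
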