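/-
Local structure of groups isomorphic to the third Janko group: the subgroup `SL₂(16).2` and the Sylow 17- and
19-subgroups.
-/
import Cfsg.Agent.Spor.J3LocD
import Cfsg.Agent.Spor.J3Main
import Cfsg.Agent.Spor.SelfCent
import Cfsg.Agent.Inv.ElemCentPSL
import Cfsg.Agent.Perm.SpecGL2
import Cfsg.Agent.S0727

set_option autoImplicit false
set_option maxRecDepth 100000

namespace CL.Mx.J3

open CL.Mx Subgroup Cfsg CL.Inv.SE

variable {G : Type*} [Group G]

theorem elemCent_of_pow (h : ∀ g : G, g ^ 2 = 1 ∨ g ^ 15 = 1 ∨ g ^ 17 = 1) : ElemCentHyp G := by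
  intro t ht
  have key : ∀ c ∈ centralizer ({t} : Set G), c ^ 2 = 1 := fun c hc => by
    have hct : Commute c t := mem_centralizer_singleton_iff.1 hc
    have h2 : t ^ 2 = 1 := ht ▸ pow_orderOf_eq_one t
    have odd : ∀ k, t ^ (2 * k + 1) = t := fun k => by rw [pow_succ, pow_mul, h2, one_pow, one_mul]
    have k1 : ∀ a b, c ^ (2 * a + 1) = 1 → (c * t) ^ (2 * b + 1) = 1 → False := fun a b e e' => by
      have := congrArg (· ^ (2 * a + 1)) e'
      simp only [← pow_mul, one_pow] at this
      rw [mul_comm, pow_mul, hct.mul_pow, e, one_mul, odd, odd] at this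
      exact ne_one_of_inv ht this
    rcases h (c * t) with e | e
    · rwa [hct.mul_pow, h2, mul_one] at e
    · rcases h c with e' | e' | e'
      · exact e'
      · exact (e.elim (k1 7 7 e') (k1 7 8 e')).elim
      · exact (e.elim (k1 8 7 e') (k1 8 8 e')).elim
  refine ⟨⟨⟨fun a b => Subtype.ext ?_⟩⟩, key⟩
  exact (Commute.of_orderOf_dvd_two (G := centralizer ({t} : Set G))
    (fun g => orderOf_dvd_of_pow_eq_one (Subtype.ext (key g g.2))) a b).eq ▸ rfl

/-- recognition of `SL₂(16)` -/
theorem sl216 (hG : Nat.card G = 4080) (h : ∀ g : G, g ^ 2 = 1 ∨ g ^ 15 = 1 ∨ g ^ 17 = 1) :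
    ∃ (K : Type) (_ : Field K) (_ : Fintype K), Fintype.card K = 16 ∧
      Nonempty (G ≃* Matrix.SpecialLinearGroup (Fin 2) K) := by
  have : Finite G := Nat.finite_of_card_ne_zero (by omega)
  have := Fact.mk Nat.prime_two
  have := Fact.mk (by norm_num : Nat.Prime 17)
  have hC := elemCent_of_pow h
  obtain ⟨T⟩ : Nonempty (Sylow 2 G) := inferInstance
  have hT : Nat.card (T : Subgroup G) = 16 := by rw [T.card_eq_multiplicity, hG]; decide +kernel
  obtain ⟨K, _, _, hK, ⟨e⟩⟩ := hC.psl @Cfsg.Agent.S0727.result T (fun hc => by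
    have := hc.exponent_eq_card
    have h2 : Monoid.exponent (T : Subgroup G) ∣ 2 := Monoid.exponent_dvd_of_forall_pow_eq_one fun g => by
      by_cases e : (g : G) = 1
      · rw [show g = 1 from Subtype.ext e, one_pow]
      · exact Subtype.ext (orderOf_dvd_iff_pow_eq_one.1 (hC.centralizer_eq T g.2 e).1.dvd)
    rw [this, hT] at h2
    omega) fun hn => by
    obtain ⟨b, hb⟩ := exists_prime_orderOf_dvd_card' (G := G) 17 (by rw [hG]; norm_num)
    have h1 := CL.Spor.card_modEq_inf_centralizer (Q := T) (by norm_num) hb (by rw [normalizer_eq_top]; trivial)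
    obtain ⟨⟨t, ht⟩, h2⟩ := ne_bot_iff_exists_ne_one.1 (show (T : Subgroup G) ⊓ centralizer {b} ≠ ⊥ from fun e => by
      rw [e, hT, card_bot] at h1; exact absurd h1 (by decide))
    have h3 : b ∈ (T : Subgroup G) := (hC.centralizer_eq T ht.1 fun e => h2 (Subtype.ext e)).2 ▸
      mem_centralizer_singleton_iff.2 (mem_centralizer_singleton_iff.1 ht.2).symm
    have := orderOf_dvd_natCard (⟨b, h3⟩ : (T : Subgroup G))
    rw [orderOf_mk, hb, hT] at this
    omega
  have hK' : Fintype.card K = 2 ^ 4 := hK.trans hT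
  have : CharP K 2 := charP_of_card_eq_prime_pow hK'
  exact ⟨K, _, _, hK', ⟨e.trans CL.Perm.psl2EquivSL2⟩⟩

/-- self-centralising Sylow subgroups of prime order -/
theorem sylow_selfcent [Finite G] {p e m : ℕ} (hp : p.Prime) (hG : Nat.card G = p ^ 1 * m) (hm : ¬ p ∣ m)
    (he : m % p = e) {a : G} (ha : orderOf a = p) (hc : Nat.card (centralizer ({a} : Set G)) = p) (X : Sylow p G) :
    centralizer ((X : Subgroup G) : Set G) = X ∧
      ∃ _ : ((X : Subgroup G).subgroupOf (normalizer ((X : Subgroup G) : Set G))).Normal,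
        IsCyclic (normalizer ((X : Subgroup G) : Set G) ⧸ (X : Subgroup G).subgroupOf _) ∧
        Nat.card (normalizer ((X : Subgroup G) : Set G) ⧸ (X : Subgroup G).subgroupOf _) = e := by
  have := Fact.mk hp
  have hX : Nat.card (X : Subgroup G) = p := by
    rw [X.card_eq_multiplicity, hG, Nat.factorization_mul (by simpa using hp.ne_zero) (by rintro rfl; exact hm (dvd_zero p)),
      Finsupp.add_apply, Nat.factorization_eq_zero_of_not_dvd hm, hp.factorization_pow, Finsupp.single_eq_same,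
      add_zero, pow_one]
  obtain ⟨⟨b, hb⟩, hb'⟩ := exists_prime_orderOf_dvd_card' p hX.symm.dvd
  rw [orderOf_mk] at hb'
  have hz : zpowers b = X := eq_of_le_of_card_ge (zpowers_le.2 hb) (by rw [hX, Nat.card_zpowers, hb'])
  rw [CL.Spor.card_centralizer_eq_of_orderOf hp hG hm ha hb'] at hc
  have hN := CL.Spor.card_normalizer_of_selfcent hp hG hm he hb' hc
  have hC : centralizer ((X : Subgroup G) : Set G) = X := by
    rw [← hz, zpowers_eq_closure, centralizer_closure, ← zpowers_eq_closure]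
    exact (eq_of_le_of_card_ge (zpowers_le.2 (mem_centralizer_singleton_iff.2 rfl))
      (by rw [hc, Nat.card_zpowers, hb'])).symm
  rw [hz] at hN
  refine ⟨hC, inferInstance, ?_, ?_⟩
  · have := isCyclic_of_prime_card hX
    have : IsCyclic (MulAut (X : Subgroup G)) :=
      (IsCyclic.mulAutMulEquiv _).isCyclic.2 (ZMod.isCyclic_units_prime (hX.symm ▸ hp))
    exact isCyclic_of_injective _ ((QuotientGroup.injective_lift_iff ((X : Subgroup G).subgroupOf _)
      (X : Subgroup G).normalizerMonoidHom (by rw [normalizerMonoidHom_ker, hC])).2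
      (by rw [normalizerMonoidHom_ker, hC]))
  · have := ((X : Subgroup G).subgroupOf (normalizer ((X : Subgroup G) : Set G))).card_mul_index
    rw [CL.Grp.card_subgroupOf_of_le le_normalizer, hX, hN] at this
    exact Nat.eq_of_mul_eq_mul_left hp.pos this

theorem cent19 (hG : Nat.card G = 50232960)
    (h2 : ∀ t : G, orderOf t = 2 → Nat.card (centralizer ({t} : Set G)) = 1920)
    (h17 : ∀ t : G, orderOf t = 17 → Nat.card (centralizer ({t} : Set G)) = 17) {y n : G} (hy : orderOf y = 19)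
    (hn : n * y * n⁻¹ = y ^ 4) : Nat.card (centralizer ({y} : Set G)) = 19 := by
  have : Finite G := Nat.finite_of_card_ne_zero (by omega)
  have := Fact.mk (by norm_num : Nat.Prime 19)
  have key : ∀ {q k : ℕ}, q.Prime → ¬ 19 ∣ k → (∀ t : G, orderOf t = q → Nat.card (centralizer ({t} : Set G)) = k) →
      (Nat.card (centralizer ({y} : Set G))).Coprime q := fun {q k} hq hk h =>
    (hq.coprime_iff_not_dvd.2 fun hd => hk (by
      have := Fact.mk hq
      obtain ⟨⟨u, hu⟩, hu'⟩ := exists_prime_orderOf_dvd_card' q hd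
      rw [← h u (by rw [← hu', orderOf_mk]), ← hy]
      exact (orderOf_mk _ _).symm.dvd.trans (orderOf_dvd_natCard (⟨y, mem_centralizer_singleton_iff.2
        (mem_centralizer_singleton_iff.1 hu).symm⟩ : centralizer {u})))).symm
  have hA : Nat.card (zpowers y) = 19 := by rw [Nat.card_zpowers, hy]
  have hnN : n ∈ normalizer (zpowers y : Set G) := mem_normalizer_fintype (by
    rintro _ ⟨k, rfl⟩
    exact ⟨4 * k, by simp only [← conj_zpow, hn, zpow_mul]; norm_cast⟩)
  let φ := (zpowers y).normalizerMonoidHom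
  have h1 := φ.ker.card_mul_index
  have h3 : Nat.card φ.ker = Nat.card (centralizer ({y} : Set G)) := by
    rw [normalizerMonoidHom_ker, CL.Grp.card_subgroupOf_of_le (centralizer_le_normalizer _), zpowers_eq_closure,
      centralizer_closure]
  have h4 : φ.ker.index ∣ 18 := by
    have := card_subgroup_dvd_card φ.range
    rwa [IsCyclic.card_mulAut, hA, ← index_ker] at this
  have h5 : ¬ φ.ker.index ∣ 6 := fun hd => by
    obtain ⟨k, hk⟩ := hd
    have e : (⟨n, hnN⟩ : normalizer _) ^ 6 ∈ φ.ker := by rw [hk, pow_mul]; exact pow_mem (pow_index_mem _ _) k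
    rw [normalizerMonoidHom_ker, mem_subgroupOf] at e
    have e1 : ∀ j, n ^ j * y * (n ^ j)⁻¹ = y ^ 4 ^ j := fun j => by
      induction j with
      | zero => simp
      | succ j ih => rw [pow_succ' n, show n * n ^ j * y * (n * n ^ j)⁻¹ = n * (n ^ j * y * (n ^ j)⁻¹) * n⁻¹ by group,
          ih, ← conj_pow, hn, ← pow_mul, pow_succ']
    have e2 := e1 6
    rw [show n ^ 6 * y = y * n ^ 6 from (e y (mem_zpowers y)).symm, mul_inv_cancel_right] at e2
    have := pow_eq_pow_iff_modEq.1 ((pow_one y).trans e2)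
    rw [hy] at this
    exact absurd this (by decide)
  let P : Sylow 19 G := Sylow.ofCard (zpowers y) (by rw [hA, hG]; decide +kernel)
  have h6 : Nat.card (normalizer (zpowers y : Set G)) * Nat.card (Sylow 19 G) = Nat.card G := by
    rw [P.card_eq_index_normalizer]; exact card_mul_index _
  have h7 := card_sylow_modEq_one 19 G
  have h8 := card_dvd_of_le (zpowers_le.2 (mem_centralizer_singleton_iff.2 rfl) : zpowers y ≤ centralizer {y})
  have c2 := key Nat.prime_two (by norm_num) h2
  have c17 := key (by norm_num) (by norm_num) h17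
  rw [← h1, h3, hG] at h6
  rw [hA] at h8
  generalize Nat.card (centralizer ({y} : Set G)) = c at *
  generalize φ.ker.index = r at *
  have h9 : r = 9 ∨ r = 18 := by
    have := Nat.le_of_dvd (by norm_num) h4
    interval_cases r <;> omega
  have h10 : c ∣ 2565 := ((c2.pow_right 7).mul_right c17).dvd_of_dvd_mul_left (by
    rcases h9 with rfl | rfl
    · exact ⟨Nat.card (Sylow 19 G), by linarith⟩
    · exact ⟨2 * Nat.card (Sylow 19 G), by linarith⟩)
  obtain ⟨d, rfl⟩ := h8
  have h11 : d ∈ Nat.divisors 135 := Nat.mem_divisors.2 ⟨Nat.dvd_of_mul_dvd_mul_left (by norm_num) h10, by norm_num⟩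
  rw [show Nat.divisors 135 = {1, 3, 5, 9, 15, 27, 45, 135} by decide +kernel] at h11
  unfold Nat.ModEq at h7
  simp only [Finset.mem_insert, Finset.mem_singleton] at h11
  rcases h11 with rfl | rfl | rfl | rfl | rfl | rfl | rfl | rfl <;> rcases h9 with rfl | rfl <;> omega

/-- the local data -/
def Loc (G : Type*) [Group G] : Prop :=
  (∃ x : G, orderOf x = 17 ∧ Nat.card (centralizer ({x} : Set G)) = 17) ∧
  (∃ y n : G, orderOf y = 19 ∧ n * y * n⁻¹ = y ^ 4) ∧ ∃ H N : Subgroup G, N ≤ H ∧ H ≤ normalizer (N : Set G) ∧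
    Nat.card H = 8160 ∧ Nat.card N = 4080 ∧ ∀ g ∈ N, g ^ 2 = 1 ∨ g ^ 15 = 1 ∨ g ^ 17 = 1

theorem conj_of_wordEq {V : Type*} {m : Model G V} {y n : ℕ} (hy : m.Ok y) (hn : m.Ok n)
    (h : m.wordEq [n, y] [y, y, y, y, n] = true) : m.val n * m.val y * (m.val n)⁻¹ = m.val y ^ 4 := by
  have := Model.wordEq_sound (by simp [hy, hn]) (by simp [hy, hn]) h
  simp only [List.map_cons, List.map_nil, List.prod_cons, List.prod_nil, mul_one] at this
  rw [this]
  simp only [pow_succ, pow_zero, one_mul, mul_assoc, mul_inv_cancel, mul_one]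

theorem loc_model {L : Type*} [Group L] {ρ : Act2 L 18} (hF : ρ.model.Faith 9 (one2 18))
    (h : ρ.model.AllIn ⊤ aS0) (e : G ≃* ρ.model.gen aS0 ⧸ center (ρ.model.gen aS0)) : Loc G := by
  have := finiteK hF h
  have hZ := card_center hF h
  have ho : ∀ {x : ρ.model.gen aS0} {p : ℕ}, orderOf (x : L) = p → p.Coprime 3 →
      orderOf (e.symm (x : _ ⧸ center _)) = p := fun {x p} hx hp => by
    rw [orderOf_coe] at hx
    rw [MulEquiv.orderOf_eq, orderOf_mk_of_coprime (by rwa [hx, hZ]), hx]
  let π := e.symm.toMonoidHom.comp (QuotientGroup.mk' (center (ρ.model.gen aS0)))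
  have hπ : π.ker = center _ := by
    rw [MonoidHom.ker_comp_of_injective _ _ e.symm.injective, QuotientGroup.ker_mk']
  have hb := b_in h
  have hn := Model.slp_mem hb.gen n_in
  have hn' := hn.mono le_top
  have hf := nflat hF hn'
  have hle := hn.gen_le.trans hb.gen_le
  have hy := Model.slp_mem h.gen y_in
  have hy1 := hy _ List.mem_cons_self
  have hy2 := hy _ (List.Mem.tail _ List.mem_cons_self)
  have hp : ∀ g ∈ ρ.model.gen nS, g ^ 2 = 1 ∨ g ^ 15 = 1 ∨ g ^ 17 = 1 := fun g hg => by
    simpa using hf.cover.forall_pow' hF ((ninB hn').mono le_top) n_pow hg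
  have : Finite (ρ.model.gen nS) := Nat.finite_of_card_ne_zero (by rw [hf.card]; norm_num)
  have hN : ρ.model.gen bS0 ≤ normalizer (ρ.model.gen nS : Set L) :=
    Model.normOk_sound (L := nL) (hb.mono le_top) hn' (Model.slp_mem hn.gen nL_in) n_norm
  refine ⟨⟨_, ho (x := ⟨_, (x_in h).2⟩) (x_order h) (by norm_num), ?_⟩,
    ⟨π ⟨_, hy1.2⟩, π ⟨_, hy2.2⟩, ho (Model.orderOf_eq_prime_of hy1.1 (k := 5) (by norm_num) (by norm_num) y_pow y_ne)
      (by norm_num), ?_⟩, ((ρ.model.gen bS0).subgroupOf _).map π, ((ρ.model.gen nS).subgroupOf _).map π,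
    map_mono (comap_mono hn.gen_le), ?_, ?_, ?_, ?_⟩
  · rw [← Nat.card_congr (centralizerEquiv e.symm _).toEquiv,
      centralizer_mk_eq le_rfl (by rw [← orderOf_coe, x_order h, hZ]; norm_num)]
    have := card_map_mk_mul (center_le_centralizer {(⟨ρ.model.val xc, (x_in h).2⟩ : ρ.model.gen aS0)})
    rw [hZ, x_cent_eq hF h] at this
    omega
  · rw [← map_mul, ← map_inv, ← map_mul, ← map_pow]
    refine congrArg π (Subtype.ext ?_)
    exact conj_of_wordEq hy1.1 hy2.1 y_conj
  · refine le_trans (map_mono fun g hg => ?_) (le_normalizer_map _)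
    exact fun x => hN hg x
  · have h1 : center (ρ.model.gen aS0) ≤ (ρ.model.gen bS0).subgroupOf (ρ.model.gen aS0) := by
      rw [center_eq hF h, zpowers_le, mem_subgroupOf]
      exact (Model.slp_mem hb.gen slpU _ (List.Mem.head _)).2
    have := CL.Grp.card_eq_card_inf_ker_mul_card_map π ((ρ.model.gen bS0).subgroupOf _)
    rw [hπ, inf_eq_left.2 h1, hZ, CL.Grp.card_subgroupOf_of_le hb.gen_le, bcard0 hF (hb.mono le_top)] at this
    omega
  · have := CL.Grp.card_eq_card_inf_ker_mul_card_map π ((ρ.model.gen nS).subgroupOf _)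
    rw [hπ, CL.Grp.card_subgroupOf_of_le hle, hf.card, show center _ ⊓ _ = ⊥ from eq_bot_iff.2 fun c hc => ?_,
      card_bot, one_mul] at this
    · exact this.symm
    have := Fact.mk Nat.prime_two
    obtain ⟨t, ht⟩ := exists_prime_orderOf_dvd_card' (G := ρ.model.gen nS) 2 (by rw [hf.card]; norm_num)
    have h2 : c ^ 2 = 1 := Subtype.ext (congrArg Subtype.val ((elemCent_of_pow (fun g => by
      simpa [Subtype.ext_iff] using hp g g.2) t ht).2 ⟨c, hc.2⟩ (mem_centralizer_singleton_iff.2 (Subtype.ext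
        (congrArg Subtype.val (mem_center_iff.1 hc.1 ⟨t, hle t.2⟩)).symm))) :)
    have h3 : c ^ 3 = 1 := congrArg Subtype.val (hZ ▸ pow_card_eq_one' (x := (⟨c, hc.1⟩ : center _)))
    rwa [pow_succ, h2, one_mul] at h3
  · rintro _ ⟨g, hg, rfl⟩
    have : ∀ k, (g : L) ^ k = 1 → π g ^ k = 1 := fun k e => by
      rw [← map_pow, show g ^ k = 1 from Subtype.ext e, map_one]
    exact (hp g hg).imp (this 2) (Or.imp (this 15) (this 17))

theorem loc (h : Spor.IsoJ3 G) : Loc G := by
  obtain ⟨F, _, _, ω, hF, hω, ⟨e⟩⟩ := h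
  let D : F4 F := ⟨ω, hω, by rw [Nat.card_eq_fintype_card, hF]⟩
  have : ∀ K, K = (ρ9 D).model.gen aS0 → (G ≃* K ⧸ center K) → Loc G := by
    rintro _ rfl e
    exact loc_model (faith9 D) (a_top D σ9) e
  exact this _ (threeJ3_eq D) e

end CL.Mx.J3
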