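/-
An affine group `F^{2×2} : (±1 × SL₂(q))`, `q = 3^α` with `α` odd, whose element orders are the
divisors of `6, 9, q - 1, (q + 1) / 2`.
-/
import Cfsg.Agent.Cls.SL2Tori

set_option autoImplicit false
set_option linter.unusedSectionVars false

namespace CL.AffSpec

open Matrix Subgroup
open scoped MatrixGroups

section Gen

variable {K V : Type*} [Group K] [AddCommGroup V] (R : K →* AddMonoid.End V)

theorem R_mul (k l : K) (X : V) : R (k * l) X = R k (R l X) := by rw [map_mul]; rfl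

theorem app_inv (φ : Equiv.Perm V) (X : V) : φ (φ⁻¹ X) = X := φ.apply_symm_apply X

theorem R_one (X : V) : R 1 X = X := by rw [map_one]; rfl

/-- The affine maps with linear part in the image of `R`. -/
def aff : Subgroup (Equiv.Perm V) where
  carrier := {φ | ∃ k : K, ∀ X, φ X = R k X + φ 0}
  one_mem' := ⟨1, fun X => by simp [R_one]⟩
  mul_mem' := by
    rintro φ ψ ⟨k, hk⟩ ⟨l, hl⟩
    refine ⟨k * l, fun X => ?_⟩
    rw [Equiv.Perm.mul_apply, Equiv.Perm.mul_apply, hl X, hk (_ + _), hk (ψ 0), map_add, R_mul]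
    abel
  inv_mem' := by
    rintro φ ⟨k, hk⟩
    refine ⟨k⁻¹, fun X => ?_⟩
    apply φ.injective
    have h0 := hk (φ⁻¹ 0)
    rw [app_inv] at h0
    rw [app_inv, hk (_ + _), map_add, ← R_mul, mul_inv_cancel, R_one, add_assoc,
      ← h0, add_zero]

/-- The affine map `X ↦ R k X + Y`. -/
def mkAff (k : K) (Y : V) : aff R :=
  ⟨{ toFun := fun X => R k X + Y
     invFun := fun X => R k⁻¹ (X - Y)
     left_inv := fun X => by simp [← R_mul, R_one]
     right_inv := fun X => by simp only [← R_mul, mul_inv_cancel, R_one]; abel },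
    k, fun X => by simp⟩

theorem mkAff_apply (k : K) (Y X : V) : (mkAff R k Y : Equiv.Perm V) X = R k X + Y := rfl

variable {R}

theorem pow_apply {φ : Equiv.Perm V} {k : K} (hk : ∀ X, φ X = R k X + φ 0) (m : ℕ) (X : V) :
    (φ ^ m) X = R (k ^ m) X + (φ ^ m) 0 := by
  induction m generalizing X with
  | zero => simp [R_one]
  | succ m ih =>
    rw [pow_succ', pow_succ', Equiv.Perm.mul_apply, Equiv.Perm.mul_apply, ih X, hk (_ + _),
      hk ((φ ^ m) 0), map_add, R_mul]
    abel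

theorem fix_pow {φ : Equiv.Perm V} {k : K} (hk : ∀ X, φ X = R k X + φ 0) {m : ℕ}
    (hm : ∀ X, R (k ^ m) X = X) : R k ((φ ^ m) 0) = (φ ^ m) 0 := by
  have h1 := hk ((φ ^ m) 0)
  have h2 := pow_apply hk m (φ 0)
  rw [← Equiv.Perm.mul_apply, ← pow_succ'] at h1
  rw [← Equiv.Perm.mul_apply, ← pow_succ, hm, h1, add_comm] at h2
  exact add_left_cancel h2

theorem pow_eq_one_of_free {φ : Equiv.Perm V} {k : K} (hk : ∀ X, φ X = R k X + φ 0) {m : ℕ}
    (hm : ∀ X, R (k ^ m) X = X) (hf : ∀ Z, R k Z = Z → Z = 0) : φ ^ m = 1 := by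
  ext X
  rw [pow_apply hk, hm, hf _ (fix_pow hk hm), add_zero]; rfl

theorem pow_three_mul (h3 : ∀ X : V, X + X + X = 0) {φ : Equiv.Perm V} {k : K}
    (hk : ∀ X, φ X = R k X + φ 0) {m : ℕ} (hm : ∀ X, R (k ^ m) X = X) : φ ^ (m * 3) = 1 := by
  ext X
  have h : ∀ X, (φ ^ m) X = X + (φ ^ m) 0 := fun X => by rw [pow_apply hk, hm]
  rw [pow_mul, pow_succ, pow_two, Equiv.Perm.mul_apply, Equiv.Perm.mul_apply, h X, h (X + _),
    h (X + _ + _), add_assoc, add_assoc, ← add_assoc ((φ ^ m) 0), h3, add_zero]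
  rfl

theorem lin_pow_eq_one {k : K} {m : ℕ} (h : mkAff R k 0 ^ m = 1) (X : V) : R (k ^ m) X = X := by
  have h1 : ((mkAff R k 0 : aff R) : Equiv.Perm V) ^ m = 1 := by
    rw [← Subgroup.coe_pow, h]; rfl
  have h2 := pow_apply (R := R) (φ := (mkAff R k 0 : aff R)) (k := k)
    (fun X => by simp [mkAff_apply]) m X
  rw [h1] at h2
  simpa using h2.symm

theorem lin_pow_eq_one' {k : K} {m : ℕ} (h : ∀ X, R (k ^ m) X = X) : mkAff R k 0 ^ m = 1 := by
  apply Subtype.ext
  have h0 : ∀ n : ℕ, (((mkAff R k 0 : aff R) : Equiv.Perm V) ^ n) 0 = 0 := fun n => by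
    induction n with
    | zero => rfl
    | succ n ih => rw [pow_succ', Equiv.Perm.mul_apply, ih, mkAff_apply]; simp
  ext X
  rw [Subgroup.coe_pow, pow_apply (R := R) (k := k) (fun X => by simp [mkAff_apply]), h, h0]
  simp

variable (R)

/-- The translations. -/
def trans : Subgroup (aff R) where
  carrier := {φ | ∀ X, (φ : Equiv.Perm V) X = X + (φ : Equiv.Perm V) 0}
  one_mem' := fun X => by simp
  mul_mem' := by
    intro φ ψ hφ hψ X
    rw [Subgroup.coe_mul, Equiv.Perm.mul_apply, Equiv.Perm.mul_apply, hψ X, hφ (_ + _),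
      hφ ((ψ : Equiv.Perm V) 0)]
    abel
  inv_mem' := by
    intro φ hφ X
    apply (φ : Equiv.Perm V).injective
    have h0 := hφ ((φ : Equiv.Perm V)⁻¹ 0)
    rw [app_inv] at h0
    rw [Subgroup.coe_inv, app_inv, hφ (_ + _), add_assoc, ← h0, add_zero]

theorem trans_normal : (trans R).Normal := by
  refine ⟨fun φ hφ ψ X => ?_⟩
  obtain ⟨k, hk⟩ := ψ.2
  obtain ⟨l, hl⟩ := (ψ⁻¹).2
  have e : ∀ Y, (ψ : Equiv.Perm V) ((φ : Equiv.Perm V) ((ψ : Equiv.Perm V)⁻¹ Y)) =
      Y + R k ((φ : Equiv.Perm V) 0) := fun Y => by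
    have h1 := hk ((ψ : Equiv.Perm V)⁻¹ Y)
    rw [app_inv] at h1
    rw [hφ ((ψ : Equiv.Perm V)⁻¹ Y), hk (_ + _), map_add]
    conv_rhs => rw [h1]
    abel
  simp only [Subgroup.coe_mul, Subgroup.coe_inv, Equiv.Perm.mul_apply]
  rw [e, e, zero_add]

theorem trans_isPGroup (h3 : ∀ X : V, X + X + X = 0) : IsPGroup 3 (trans R) := by
  intro φ
  refine ⟨1, Subtype.ext (Subtype.ext ?_)⟩
  have := pow_three_mul (R := R) h3 (φ := φ.1.1) (k := 1) (m := 1)
    (fun X => by rw [R_one]; exact φ.2 X) (fun X => by rw [one_pow, R_one])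
  simpa using this

theorem trans_ne_bot {Y : V} (hY : Y ≠ 0) : trans R ≠ ⊥ := by
  intro h
  have : mkAff R 1 Y ∈ trans R := fun X => by simp [mkAff_apply, R_one]
  rw [h, Subgroup.mem_bot] at this
  have h2 := congrArg (fun φ : aff R => (φ : Equiv.Perm V) 0) this
  simp [mkAff_apply] at h2
  exact hY h2

end Gen

theorem maxset_eq {S T : Set ℕ} (h1 : T ⊆ S) (h2 : ∀ n ∈ S, ∃ m ∈ T, n ∣ m)
    (h3 : ∀ a ∈ T, ∀ b ∈ T, a ∣ b → b = a) : {n | n ∈ S ∧ ∀ m ∈ S, n ∣ m → m = n} = T := by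
  ext n
  constructor
  · rintro ⟨hn, h⟩
    obtain ⟨m, hm, hd⟩ := h2 n hn
    rw [← h m (h1 hm) hd]; exact hm
  · intro hn
    refine ⟨h1 hn, fun m hm hd => ?_⟩
    obtain ⟨k, hk, hd'⟩ := h2 m hm
    have := h3 n hn k hk (hd.trans hd')
    rw [this] at hd'
    exact Nat.dvd_antisymm hd' hd

section Mat

variable {F : Type*} [Field F] [CharP F 3]

/-- The transposed Frobenius twist. -/
def tw (g : Matrix (Fin 2) (Fin 2) F) : Matrix (Fin 2) (Fin 2) F := (g.map (frobenius F 3))ᵀ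

theorem tw_mul (g h : Matrix (Fin 2) (Fin 2) F) : tw (g * h) = tw h * tw g := by
  unfold tw
  rw [Matrix.map_mul, transpose_mul]

theorem tw_one : tw (1 : Matrix (Fin 2) (Fin 2) F) = 1 := by
  unfold tw
  rw [Matrix.map_one _ (map_zero _) (map_one _), transpose_one]

theorem tw_neg (g : Matrix (Fin 2) (Fin 2) F) : tw (-g) = -tw g := by
  ext i j; simp [tw]

theorem tw_apply (g : Matrix (Fin 2) (Fin 2) F) (i j : Fin 2) : tw g i j = g j i ^ 3 := rfl

/-- The action `X ↦ ± g X (g^σ)ᵀ`. -/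
def rho : ℤˣ × SL(2, F) →* AddMonoid.End (Matrix (Fin 2) (Fin 2) F) where
  toFun k :=
    { toFun := fun X => k.1 • ((k.2 : Matrix (Fin 2) (Fin 2) F) * X * tw k.2)
      map_zero' := by simp
      map_add' := fun X Y => by rw [mul_add, add_mul, smul_add] }
  map_one' := by
    refine AddMonoidHom.ext fun X => ?_
    simp [tw_one]
    rfl
  map_mul' k l := by
    refine AddMonoidHom.ext fun X => ?_
    change (k.1 * l.1) • (((k.2 * l.2 : SL(2, F)) : Matrix (Fin 2) (Fin 2) F) * X *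
      tw ((k.2 * l.2 : SL(2, F)) : Matrix (Fin 2) (Fin 2) F)) =
      k.1 • ((k.2 : Matrix (Fin 2) (Fin 2) F) * (l.1 • ((l.2 : Matrix (Fin 2) (Fin 2) F) * X *
        tw l.2)) * tw k.2)
    have e : ((k.2 * l.2 : SL(2, F)) : Matrix (Fin 2) (Fin 2) F) =
      (k.2 : Matrix (Fin 2) (Fin 2) F) * (l.2 : Matrix (Fin 2) (Fin 2) F) := rfl
    rw [e, tw_mul, mul_smul_comm, smul_mul_assoc, mul_smul]
    simp only [mul_assoc]

theorem rho_apply (e : ℤˣ) (g : SL(2, F)) (X : Matrix (Fin 2) (Fin 2) F) :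
    rho (e, g) X = e • ((g : Matrix (Fin 2) (Fin 2) F) * X * tw g) := rfl

theorem rho_pm {g : SL(2, F)} (h : g = 1 ∨ g = -1) (X : Matrix (Fin 2) (Fin 2) F) :
    rho (1, g) X = X := by
  rcases h with rfl | rfl
  · rw [rho_apply]; simp [tw_one]
  · rw [rho_apply]; simp [tw_neg, tw_one]

theorem three_eq : (3 : F) = 0 := by exact_mod_cast CharP.cast_eq_zero F 3

theorem two_ne : (2 : F) ≠ 0 := fun h => by
  have h3 : (3 : F) = 0 := three_eq
  have : (1 : F) = 0 := by linear_combination h3 - h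
  exact one_ne_zero this

theorem add3 (X : Matrix (Fin 2) (Fin 2) F) : X + X + X = 0 := by
  ext i j
  simp only [Matrix.add_apply, Matrix.zero_apply]
  linear_combination (X i j) * (three_eq (F := F))

theorem ch (g : Matrix (Fin 2) (Fin 2) F) (h : g.det = 1) : g * g = g.trace • g - 1 := by
  rw [det_fin_two] at h
  ext i j
  fin_cases i <;> fin_cases j <;> simp [Matrix.mul_apply, Fin.sum_univ_two, trace_fin_two] <;>
    first | ring1 | linear_combination (-1 : F) * h

theorem det_tw (g : Matrix (Fin 2) (Fin 2) F) (h : g.det = 1) : (tw g).det = 1 := by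
  unfold tw
  rw [det_transpose, ← RingHom.mapMatrix_apply, ← RingHom.map_det, h, map_one]

theorem trace_tw (g : Matrix (Fin 2) (Fin 2) F) : (tw g).trace = g.trace ^ 3 := by
  rw [trace_fin_two, trace_fin_two, tw_apply, tw_apply, add_pow_char]

theorem key {c : F} (hc : c * c = 1) {g Z : Matrix (Fin 2) (Fin 2) F} (hg : g.det = 1) (hZ : Z ≠ 0)
    (h : c • (g * Z * tw g) = Z) : g.trace = 0 ∨ g.trace ^ 2 = c := by
  set s := g.trace with hs
  set m := tw g with hm
  have hmm : m * m = s ^ 3 • m - 1 := by rw [← trace_tw]; exact ch _ (det_tw _ hg)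
  have hgg : g * g = s • g - 1 := ch _ hg
  have h1 : g * Z * m = c • Z := by
    conv_rhs => rw [← h, smul_smul, hc, one_smul]
  -- `g Z = c (s³ Z - Z m)`
  have h2 : g * Z = c • (s ^ 3 • Z - Z * m) := by
    have : g * Z * (m * m) = c • (Z * m) := by rw [← mul_assoc, h1, smul_mul_assoc]
    rw [hmm, mul_sub, mul_one, mul_smul_comm, h1] at this
    rw [smul_sub, smul_comm c, ← this]; abel
  have h3 : g * g * Z = c • (s ^ 3 • (g * Z) - c • Z) := by
    rw [mul_assoc, h2, mul_smul_comm, mul_sub, mul_smul_comm, ← mul_assoc, h1, ← h2]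
  rw [hgg, sub_mul, one_mul, smul_mul_assoc, smul_sub, smul_smul c c, hc, one_smul, sub_left_inj,
    smul_smul, ← sub_eq_zero, ← sub_smul, smul_eq_zero] at h3
  rcases h3 with h3 | h3
  · have : s * (s ^ 2 - c) = 0 := by linear_combination (-c) * h3 + (-s ^ 3) * hc
    rcases mul_eq_zero.1 this with h4 | h4
    · exact Or.inl h4
    · exact Or.inr (sub_eq_zero.1 h4)
  · rw [h3, zero_mul, smul_zero] at h
    exact absurd h.symm hZ

theorem sq_of_rho {g : SL(2, F)} (h : ∀ X, rho (1, g) X = X) : g * g = 1 := by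
  have h1 := h 1
  rw [rho_apply, one_smul, mul_one] at h1
  have h2 : ∀ X : Matrix (Fin 2) (Fin 2) F, (g : Matrix (Fin 2) (Fin 2) F) * X = X * g := fun X => by
    have h3 := h X
    rw [rho_apply, one_smul] at h3
    have h4 : tw (g : Matrix (Fin 2) (Fin 2) F) * g = 1 := mul_eq_one_comm.1 h1
    calc (g : Matrix (Fin 2) (Fin 2) F) * X = g * X * (tw (g : Matrix (Fin 2) (Fin 2) F) * g) := by
          rw [h4, mul_one]
      _ = X * g := by rw [← mul_assoc, h3]
  have hd := g.2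
  rw [det_fin_two] at hd
  have a1 := congrFun (congrFun (h2 !![0, 1; 0, 0]) 0) 0
  have a2 := congrFun (congrFun (h2 !![0, 1; 0, 0]) 0) 1
  have a3 := congrFun (congrFun (h2 !![0, 0; 1, 0]) 0) 0
  simp [Matrix.mul_apply, Fin.sum_univ_two] at a1 a2 a3
  apply Subtype.ext
  ext i j
  fin_cases i <;> fin_cases j <;>
    simp [Matrix.mul_apply, Fin.sum_univ_two, ← a1, a3, ← a2] <;>
    simp [← a1, a3, ← a2] at hd <;> exact hd

theorem rho_pow (e : ℤˣ) (g : SL(2, F)) {m : ℕ} (he : e ^ m = 1) (hg : g ^ m = 1 ∨ g ^ m = -1)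
    (X : Matrix (Fin 2) (Fin 2) F) : rho ((e, g) ^ m) X = X := by
  rw [Prod.pow_mk, he]; exact rho_pm hg X

theorem int_even (e : ℤˣ) {m : ℕ} (hm : Even m) : e ^ m = 1 := by
  obtain ⟨k, rfl⟩ := hm
  rw [← two_mul, pow_mul, Int.units_sq, one_pow]

variable [Fintype F]

theorem orders (h4 : Fintype.card F % 4 = 3) (φ : aff (rho (F := F))) :
    φ ^ 6 = 1 ∨ φ ^ 9 = 1 ∨ φ ^ (Fintype.card F - 1) = 1 ∨ φ ^ ((Fintype.card F + 1) / 2) = 1 := by
  classical
  simp only [Subtype.ext_iff, Subgroup.coe_pow, Subgroup.coe_one]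
  obtain ⟨φ, ⟨e, g⟩, hk⟩ := φ
  simp only
  by_cases hf : ∀ Z, rho (e, g) Z = Z → Z = 0
  · rcases CL.SL2.sl_pow_cases 3 g with h | h | h
    · refine Or.inr (Or.inr (Or.inr (pow_eq_one_of_free hk
        (rho_pow e g (int_even e ⟨(Fintype.card F + 1) / 4, by omega⟩) ?_) hf)))
      refine CL.SL2.sl_eq_of_mul_self two_ne ?_
      rw [← pow_add, ← h]; congr 1; omega
    · exact Or.inr (Or.inr (Or.inl (pow_eq_one_of_free hk
        (rho_pow e g (int_even e ⟨(Fintype.card F - 1) / 2, by omega⟩) (Or.inl h)) hf)))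
    · refine Or.inl (pow_eq_one_of_free hk (rho_pow e g (int_even e ⟨3, rfl⟩) (Or.inl ?_)) hf)
      rw [show 6 = 3 * 2 from rfl, pow_mul]
      rcases h with h | h <;> rw [h] <;> simp
  · push Not at hf
    obtain ⟨Z, hZ, hZ0⟩ := hf
    rw [rho_apply] at hZ
    have hgg := ch _ g.2
    have hc : (((e : ℤ) : F)) * ((e : ℤ) : F) = 1 := by
      rcases Int.units_eq_one_or e with rfl | rfl <;> simp
    have hZ' : ((e : ℤ) : F) • ((g : Matrix (Fin 2) (Fin 2) F) * Z * tw g) = Z := by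
      rw [Int.cast_smul_eq_zsmul]; exact hZ
    rcases key hc g.2 hZ0 hZ' with h | h
    · refine Or.inl (pow_three_mul add3 hk (m := 2) (rho_pow e g (int_even e ⟨1, rfl⟩) (Or.inr ?_)))
      apply Subtype.ext
      rw [h, zero_smul, zero_sub] at hgg
      rw [pow_two]; exact hgg
    · rcases Int.units_eq_one_or e with rfl | rfl
      · refine Or.inr (Or.inl (pow_three_mul add3 hk (m := 3) (rho_pow 1 g (one_pow _) ?_)))
        have h1 : (g : Matrix (Fin 2) (Fin 2) F).trace ^ 2 = 1 := by simpa using h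
        have h3 : (g : Matrix (Fin 2) (Fin 2) F) * g * g =
            (-(g : Matrix (Fin 2) (Fin 2) F).trace) • 1 := by
          rw [hgg, sub_mul, smul_mul_assoc, hgg, smul_sub, smul_smul, ← pow_two, h1]
          simp
        rcases mul_self_eq_one_iff.1 ((pow_two _).symm.trans h1) with h2 | h2
        · refine Or.inr (Subtype.ext ?_)
          rw [pow_three']
          change (g : Matrix (Fin 2) (Fin 2) F) * g * g = -1
          rw [h3, h2]; simp
        · refine Or.inl (Subtype.ext ?_)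
          rw [pow_three']
          change (g : Matrix (Fin 2) (Fin 2) F) * g * g = 1
          rw [h3, h2]; simp
      · exfalso
        have : IsSquare (-1 : F) := ⟨_, by rw [← pow_two, h]; simp⟩
        exact FiniteField.isSquare_neg_one_iff.1 this h4

/-- The unipotent element. -/
def uu : SL(2, F) := ⟨!![1, 1; 0, 1], by simp [det_fin_two]⟩

theorem uu_cube : (uu : SL(2, F)) ^ 3 = 1 := by
  apply Subtype.ext
  rw [pow_three']
  change (!![1, 1; 0, 1] : Matrix (Fin 2) (Fin 2) F) * !![1, 1; 0, 1] * !![1, 1; 0, 1] = 1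
  ext i j
  fin_cases i <;> fin_cases j <;> simp [Matrix.mul_apply, Fin.sum_univ_two]
  linear_combination three_eq (F := F)

theorem rho_uu (e : ℤˣ) (a b c d : F) :
    rho (e, (uu : SL(2, F))) !![a, b; c, d] = e • !![a + b + c + d, b + d; c + d, d] := by
  rw [rho_apply]
  congr 1
  ext i j
  fin_cases i <;> fin_cases j <;> simp [uu, tw_apply, Matrix.mul_apply, Fin.sum_univ_two] <;> ring

theorem exists_six : ∃ φ : aff (rho (F := F)), orderOf φ = 6 := by
  refine ⟨mkAff (rho (F := F)) (-1, uu) 0, orderOf_eq_of_pow_and_pow_div_prime (by norm_num) ?_ ?_⟩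
  · refine lin_pow_eq_one' (rho_pow _ _ (int_even _ ⟨3, rfl⟩) (Or.inl ?_))
    rw [show 6 = 3 * 2 from rfl, pow_mul, uu_cube, one_pow]
  · intro p hp hd h
    have : p = 2 ∨ p = 3 := by
      have := Nat.le_of_dvd (by norm_num) hd
      interval_cases p <;> simp_all (config := {decide := true})
    rcases this with rfl | rfl
    · have h1 := lin_pow_eq_one h !![0, 0; 0, 1]
      rw [show 6 / 2 = 3 from rfl, Prod.pow_mk, uu_cube, rho_apply] at h1
      have h2 := congrFun (congrFun h1 1) 1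
      simp [tw_one, pow_three'] at h2
      exact two_ne (F := F) (by linear_combination -h2)
    · have h1 := lin_pow_eq_one h !![0, 0; 0, 1]
      rw [show 6 / 3 = 2 from rfl, pow_two, R_mul, rho_uu, Units.neg_smul, one_smul, map_neg,
        rho_uu] at h1
      have h2 := congrFun (congrFun h1 0) 1
      simp at h2
      exact two_ne (F := F) (by linear_combination h2)

theorem exists_nine : ∃ φ : aff (rho (F := F)), orderOf φ = 9 := by
  refine ⟨mkAff (rho (F := F)) (1, uu) !![0, 0; 0, 1], orderOf_eq_prime_pow (p := 3) (n := 1) ?_ ?_⟩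
  · intro h
    have h1 := congrArg (fun φ : aff (rho (F := F)) => (φ : Equiv.Perm (Matrix (Fin 2) (Fin 2) F)) 0 0 0) h
    simp only [pow_one, pow_three', Subgroup.coe_mul, Equiv.Perm.mul_apply, mkAff_apply, map_zero,
      zero_add, rho_uu, one_smul, map_add] at h1
    simp at h1
    exact two_ne (F := F) (by linear_combination h1 - three_eq (F := F))
  · apply Subtype.ext
    exact pow_three_mul add3 (k := (1, uu)) (m := 3) (fun X => by simp [mkAff_apply])
      (rho_pow _ _ (one_pow _) (Or.inl uu_cube))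

theorem exists_sub_one (h4 : Fintype.card F % 4 = 3) :
    ∃ φ : aff (rho (F := F)), orderOf φ = Fintype.card F - 1 := by
  classical
  obtain ⟨l, hl⟩ := IsCyclic.exists_ofOrder_eq_natCard (α := Fˣ)
  rw [CL.SLn.card_units] at hl
  refine ⟨mkAff (rho (F := F)) (-1, CL.GL2.diagSL l) 0, Nat.dvd_antisymm (orderOf_dvd_of_pow_eq_one ?_) ?_⟩
  · exact lin_pow_eq_one' (rho_pow _ _ (int_even _ ⟨(Fintype.card F - 1) / 2, by omega⟩)
      (Or.inl (CL.SL2.diagSL_pow l)))
  · have h1 := lin_pow_eq_one (pow_orderOf_eq_one (mkAff (rho (F := F)) (-1, (CL.GL2.diagSL l : SL(2, F))) 0))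
      !![0, 0; 1, 0]
    generalize orderOf (mkAff (rho (F := F)) (-1, (CL.GL2.diagSL l : SL(2, F))) 0) = n at h1 ⊢
    rw [Prod.pow_mk, ← map_pow, rho_apply, CL.GL2.coe_diagSL] at h1
    have h2 := congrFun (congrFun h1 1) 0
    simp [tw_apply, Matrix.mul_apply, Fin.sum_univ_two, Units.smul_def, Matrix.vecMul, dotProduct] at h2
    have hl0 : (l : F) ^ n ≠ 0 := pow_ne_zero _ l.ne_zero
    have h3 : (-1 : F) ^ n * ((l : F) ^ n) ^ 2 = 1 := by
      field_simp at h2
      linear_combination h2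
    have h5 : l ^ (n * 4) = 1 := by
      apply Units.ext
      rw [Units.val_pow_eq_pow_val, pow_mul, Units.val_one]
      have : ((-1 : F) ^ n) ^ 2 = 1 := by rw [← pow_mul, mul_comm, pow_mul]; simp
      linear_combination (((-1 : F) ^ n * ((l : F) ^ n) ^ 2) + 1) * h3 - ((l : F) ^ n) ^ 4 * this
    have h6 := orderOf_dvd_of_pow_eq_one h5
    rw [hl] at h6
    obtain ⟨m, hm⟩ : ∃ m, Fintype.card F - 1 = 2 * (2 * m + 1) := ⟨Fintype.card F / 4, by omega⟩
    have hco : Nat.Coprime (2 * m + 1) 2 := by simp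
    have h7 : 2 * m + 1 ∣ n := by
      have : 2 * m + 1 ∣ n * 4 := (Dvd.intro_left 2 hm.symm).trans h6
      exact (Nat.Coprime.pow_right 2 hco).dvd_of_dvd_mul_right this
    have h8 : ((l : F) ^ n) ^ 2 = 1 := by
      obtain ⟨k, hk⟩ := h7
      have : l ^ (Fintype.card F - 1) = 1 := hl ▸ pow_orderOf_eq_one l
      rw [← pow_mul, hk, show (2 * m + 1) * k * 2 = 2 * (2 * m + 1) * k by ring, ← hm, pow_mul,
        ← Units.val_pow_eq_pow_val, this]
      simp
    rw [h8, mul_one] at h3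
    have h9 : 2 ∣ n := by
      rcases Nat.even_or_odd n with h | h
      · exact h.two_dvd
      · rw [h.neg_one_pow] at h3
        exact absurd (by linear_combination -h3) (two_ne (F := F))
    rw [hm]
    exact Nat.Coprime.mul_dvd_of_dvd_of_dvd hco.symm h9 h7

theorem exists_add_one (h4 : Fintype.card F % 4 = 3) :
    ∃ φ : aff (rho (F := F)), orderOf φ = (Fintype.card F + 1) / 2 := by
  classical
  obtain ⟨g, hg⟩ := CL.SL2.exists_sl_orderOf_add_one (F := F)
  refine ⟨mkAff (rho (F := F)) (1, g) 0, Nat.dvd_antisymm (orderOf_dvd_of_pow_eq_one ?_) ?_⟩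
  · refine lin_pow_eq_one' (rho_pow _ _ (one_pow _) (CL.SL2.sl_eq_of_mul_self two_ne ?_))
    rw [← pow_add, ← pow_orderOf_eq_one g, hg]; congr 1; omega
  · set n := orderOf (mkAff (rho (F := F)) (1, g) 0)
    have h1 := lin_pow_eq_one (pow_orderOf_eq_one (mkAff (rho (F := F)) (1, g) 0))
    rw [Prod.pow_mk, one_pow] at h1
    have h2 := sq_of_rho h1
    rw [← pow_add] at h2
    have h3 := orderOf_dvd_of_pow_eq_one h2
    rw [hg] at h3
    obtain ⟨k, hk⟩ := h3
    refine ⟨k, ?_⟩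
    obtain ⟨m, hm⟩ : ∃ m, Fintype.card F + 1 = 2 * m := ⟨(Fintype.card F + 1) / 2, by omega⟩
    rw [hm] at hk ⊢
    rw [Nat.mul_div_cancel_left _ two_pos]
    change n + n = _ at hk
    rw [mul_assoc] at hk
    omega

end Mat

theorem main (α : ℕ) (hα : 3 ≤ α) (hodd : Odd α) :
    ∃ (H : Type) (_ : Group H) (_ : Fintype H), (∃ P : Subgroup H, P.Normal ∧ P ≠ ⊥ ∧ IsPGroup 3 ↥P) ∧
      {n : ℕ | n ∈ Set.range (orderOf : H → ℕ) ∧ ∀ m ∈ Set.range (orderOf : H → ℕ), n ∣ m → m = n} =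
        ({6, 9, 3 ^ α - 1, (3 ^ α + 1) / 2} : Set ℕ) := by
  classical
  let F := GaloisField 3 α
  letI : Fintype F := Fintype.ofFinite F
  have hq : Fintype.card F = 3 ^ α := by
    rw [← Nat.card_eq_fintype_card]; exact GaloisField.card 3 α (by omega)
  obtain ⟨k, rfl⟩ := hodd
  have h4 : Fintype.card F % 4 = 3 := by
    rw [hq, pow_succ, pow_mul, Nat.mul_mod, Nat.pow_mod]; simp
  have h3 : Fintype.card F % 3 = 0 := by
    rw [hq, pow_succ]; omega
  have h27 : 27 ≤ Fintype.card F := by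
    rw [hq]; exact Nat.pow_le_pow_right (n := 3) (by norm_num) hα
  refine ⟨aff (rho (F := F)), inferInstance, Fintype.ofFinite _,
    ⟨trans (rho (F := F)), trans_normal _, trans_ne_bot _ (Y := 1) one_ne_zero, trans_isPGroup _ add3⟩, ?_⟩
  rw [← hq]
  refine maxset_eq ?_ ?_ ?_
  · rintro n (rfl | rfl | rfl | rfl)
    · exact exists_six
    · exact exists_nine
    · exact exists_sub_one h4
    · exact exists_add_one h4
  · rintro n ⟨φ, rfl⟩
    rcases orders h4 φ with h | h | h | h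
    · exact ⟨_, by simp, orderOf_dvd_of_pow_eq_one h⟩
    · exact ⟨_, by simp, orderOf_dvd_of_pow_eq_one h⟩
    · exact ⟨_, by simp, orderOf_dvd_of_pow_eq_one h⟩
    · exact ⟨_, by simp, orderOf_dvd_of_pow_eq_one h⟩
  · obtain ⟨d, hd⟩ : ∃ d, Fintype.card F = 2 * d + 1 := ⟨Fintype.card F / 2, by omega⟩
    rw [hd] at h3 h27 h4 ⊢
    rw [show (2 * d + 1 + 1) / 2 = d + 1 by omega, show 2 * d + 1 - 1 = 2 * d by omega]
    rintro a (rfl | rfl | rfl | rfl) b (rfl | rfl | rfl | rfl) h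
    all_goals first | rfl | omega | (have := Nat.le_of_dvd (by omega) h; omega) | skip
    have h2 : d + 1 ∣ 2 := by
      have : d + 1 ∣ 2 * (d + 1) := Dvd.intro_left 2 rfl
      rw [mul_add] at this
      exact (Nat.dvd_add_right h).1 this
    have := Nat.le_of_dvd two_pos h2
    omega

end CL.AffSpec
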