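/-
Order and numbers of elements of each order: a group with the invariants of `M₂₂`, `M₂₃` or `M₂₄` is simple.
-/
import Cfsg.Agent.Spor.SelfCent
import Cfsg.Agent.Spor.M24Class
import Cfsg.Agent.Known.MathieuIso
import Cfsg.Statements.S1663
import Cfsg.Statements.S1664
import Cfsg.Statements.S0422
import Cfsg.Statements.S3594
import Cfsg.Statements.S3595
import Cfsg.Statements.S3596

set_option autoImplicit false

open Cfsg

namespace CL.Spor

universe u

theorem primePow_mod_ne {m p : ℕ} (hm : m ∣ 2 ^ 10 * 3 ^ 3 * 5 * 7 * 11)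
    (h : ∀ d ∈ [2, 4, 8, 16, 32, 64, 128, 256, 512, 1024, 3, 9, 27, 5, 7, 11], d ∣ m → d % p ≠ 1) :
    ∀ d ∈ m.divisors, IsPrimePow d → d % p ≠ 1 := by
  intro d hd hpp
  have hdm := Nat.dvd_of_mem_divisors hd
  refine h d ?_ hdm
  have h1 := hdm.trans hm
  have key : ∀ {q k : ℕ}, q.Prime → d ∣ q ^ k → ∃ i, 1 ≤ i ∧ i ≤ k ∧ d = q ^ i := fun hq h => by
    obtain ⟨i, hi, rfl⟩ := (Nat.dvd_prime_pow hq).1 h
    exact ⟨i, Nat.pos_of_ne_zero fun e => not_isPrimePow_one (by simpa [e] using hpp), hi, rfl⟩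
  rw [Nat.Coprime.isPrimePow_dvd_mul (by norm_num) hpp, Nat.Coprime.isPrimePow_dvd_mul (by norm_num) hpp,
    Nat.Coprime.isPrimePow_dvd_mul (by norm_num) hpp, Nat.Coprime.isPrimePow_dvd_mul (by norm_num) hpp] at h1
  rcases h1 with (((h1 | h1) | h1) | h1) | h1
  · obtain ⟨i, h2, h3, rfl⟩ := key Nat.prime_two h1
    interval_cases i <;> simp
  · obtain ⟨i, h2, h3, rfl⟩ := key Nat.prime_three h1
    interval_cases i <;> simp
  · obtain ⟨i, h2, h3, rfl⟩ := key (k := 1) Nat.prime_five (by simpa using h1)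
    interval_cases i; simp
  · obtain ⟨i, h2, h3, rfl⟩ := key (q := 7) (k := 1) (by norm_num) (by simpa using h1)
    interval_cases i; simp
  · obtain ⟨i, h2, h3, rfl⟩ := key (q := 11) (k := 1) (by norm_num) (by simpa using h1)
    interval_cases i; simp

theorem m24_cent11 {a : M24} (ha : orderOf a = 11) : Nat.card (Subgroup.centralizer ({a} : Set M24)) = 11 := by
  obtain ⟨c, hc⟩ := class_11 ha
  rw [card_centralizer_eq_of_isConj (isConj_iff.2 ⟨c, hc⟩), card_C11]

theorem m24_cent23 {a : M24} (ha : orderOf a = 23) : Nat.card (Subgroup.centralizer ({a} : Set M24)) = 23 := by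
  obtain ⟨c, hc⟩ | ⟨c, hc⟩ := class_23 ha
  · rw [card_centralizer_eq_of_isConj (isConj_iff.2 ⟨c, hc⟩), card_C23]
  · rw [card_centralizer_eq_of_isConj (isConj_iff.2 ⟨c, hc⟩), ← card_C23]
    congr 2
    ext g
    simp only [Subgroup.mem_centralizer_singleton_iff]
    exact Commute.inv_right_iff

theorem cent_of_injective {H K : Type*} [Group H] [Group K] [Finite K] (f : H →* K) (hf : Function.Injective f)
    {p : ℕ} (hK : ∀ b : K, orderOf b = p → Nat.card (Subgroup.centralizer ({b} : Set K)) = p) {a : H}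
    (ha : orderOf a = p) : Nat.card (Subgroup.centralizer ({a} : Set H)) = p := by
  refine Nat.dvd_antisymm ?_ ?_
  · rw [← hK (f a) ((orderOf_injective f hf a).trans ha), ← Subgroup.card_map_of_injective hf]
    refine Subgroup.card_dvd_of_le ?_
    rintro _ ⟨g, hg, rfl⟩
    rw [Subgroup.mem_centralizer_singleton_iff, ← map_mul, Subgroup.mem_centralizer_singleton_iff.1 hg, map_mul]
  · rw [← ha]
    exact Subgroup.orderOf_dvd_natCard _ (Subgroup.mem_centralizer_singleton_iff.2 rfl)

theorem s3594_of (h : type_of% @Cfsg.CfsgFrozen.S1663.{u}) : type_of% @Cfsg.CfsgFrozen.S3594.{u} := by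
  intro G _ _ hcard hnse
  have hs : IsSimpleGroup G := isSimpleGroup_of_nse (M := Spor.M22) (p := 11) (e := 5) (m := 40320)
    (q := 2) (by norm_num) (by norm_num) (by norm_num) card_M22 (by norm_num) (by norm_num) (by norm_num)
    (by norm_num) (by norm_num) (by norm_num) (primePow_mod_ne (by norm_num) (by decide))
    (fun a ha => cent_of_injective (Subgroup.inclusion (show Spor.M22 ≤ M24 from inf_le_left.trans inf_le_left))
      (Subgroup.inclusion_injective _) (fun _ => m24_cent11) ha) hcard hnse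
  exact h ⟨hs, hcard.trans card_M22⟩

theorem s3595_of (h : type_of% @Cfsg.CfsgFrozen.S1664.{u}) : type_of% @Cfsg.CfsgFrozen.S3595.{u} := by
  intro G _ _ hcard hnse
  have hs : IsSimpleGroup G := isSimpleGroup_of_nse (M := Spor.M23) (p := 23) (e := 11) (m := 443520)
    (q := 2) (by norm_num) (by norm_num) (by norm_num) card_M23 (by norm_num) (by norm_num) (by norm_num)
    (by norm_num) (by norm_num) (by norm_num) (primePow_mod_ne (by norm_num) (by decide))
    (fun a ha => cent_of_injective (Subgroup.inclusion (show Spor.M23 ≤ M24 from inf_le_left))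
      (Subgroup.inclusion_injective _) (fun _ => m24_cent23) ha) hcard hnse
  exact h ⟨hs, hcard.trans card_M23⟩

theorem s3596_of (h : type_of% @Cfsg.CfsgFrozen.S0422.{u}) : type_of% @Cfsg.CfsgFrozen.S3596.{u} := by
  intro G _ _ hcard hnse
  have hs : IsSimpleGroup G := isSimpleGroup_of_nse (M := M24) (p := 23) (e := 11) (m := 10644480)
    (q := 2) (by norm_num) (by norm_num) (by norm_num) card_M24 (by norm_num) (by norm_num) (by norm_num)
    (by norm_num) (by norm_num) (by norm_num) (primePow_mod_ne (by norm_num) (by decide))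
    (fun a ha => m24_cent23 ha) hcard hnse
  exact h ⟨hs, hcard.trans card_M24⟩

end CL.Spor
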