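/-
Involution classes with products of prime power order (consequence of the Z* theorem).
-/
import Cfsg.Agent.Inv.ZStar
import Cfsg.Agent.Grp.Coprime
import Cfsg.Agent.Grp.Cores

set_option autoImplicit false

open Cfsg CL.Grp

namespace CL.TT

variable {G : Type*} [Group G]

theorem zz_eq_one_of_two_primes {p q : ℕ} (hp : p.Prime) (hq : q.Prime) (h : p ≠ q) {x : G} {k l : ℕ}
    (h1 : orderOf x = p ^ k) (h2 : x ^ q ^ l = 1) : x = 1 := by
  rw [← orderOf_eq_one_iff]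
  have h3 : orderOf x ∣ q ^ l := orderOf_dvd_of_pow_eq_one h2
  have h4 : (p ^ k).Coprime (q ^ l) := Nat.Coprime.pow k l ((Nat.coprime_primes hp hq).2 h)
  rw [h1] at h3 ⊢
  exact Nat.Coprime.eq_one_of_dvd h4 h3

/-- If all products of two conjugates of the involution `d` have order a power of the odd prime `p`, they lie
in `O_p(G)`. -/
theorem mul_mem_pCore_of_prime_pow [Finite G] {p : ℕ} (hp : p.Prime) (hp2 : p ≠ 2) {d : G} (hd : orderOf d = 2)
    (hprod : ∀ a ∈ conjugatesOf d, ∀ b ∈ conjugatesOf d, ∃ k : ℕ, orderOf (a * b) = p ^ k) :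
    ∀ a ∈ conjugatesOf d, ∀ b ∈ conjugatesOf d, a * b ∈ pCore p G := by
  have hdd : d * d = 1 := by rw [← pow_two, ← hd]; exact pow_orderOf_eq_one d
  have hdi : d⁻¹ = d := inv_eq_of_mul_eq_one_left hdd
  have hc : ∀ g : G, g * d * g⁻¹ ∈ conjugatesOf d := fun g => isConj_iff.2 ⟨g, rfl⟩
  have hd0 : d ∈ conjugatesOf d := IsConj.refl d
  have hiso : IsIsolatedInvolution d := by
    refine ⟨hd, fun g hg => ?_⟩
    obtain ⟨k, hk⟩ := hprod _ hd0 _ (hc g)
    have h1 : (d * (g * d * g⁻¹)) ^ 2 ^ 1 = 1 := by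
      rw [pow_one, hg.mul_pow, pow_two, hdd, one_mul, pow_two]
      calc g * d * g⁻¹ * (g * d * g⁻¹) = g * (d * d) * g⁻¹ := by group
        _ = 1 := by rw [hdd]; group
    have h2 := zz_eq_one_of_two_primes hp Nat.prime_two hp2 hk h1
    rw [← hdi, inv_mul_eq_one] at h2
    rw [hdi] at h2
    exact h2.symm
  set N := oddCore G with hN
  haveI hNn : N.Normal := inferInstance
  have hodd : Odd (Nat.card N) := CL.Inv.odd_card_oddCore
  have hsup := CL.Inv.zstar_oddCore_sup_centralizer hiso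
  set C := Subgroup.centralizer ({d} : Set G) with hC
  have hsyl : ∀ (q : ℕ) [Fact q.Prime], ∃ S : Subgroup G, IsSylowIn q S N ∧ d ∈ Subgroup.normalizer (S : Set G) := by
    intro q _
    obtain ⟨S, h1, h3⟩ := exists_isSylowIn_le_normalizer q (A := Subgroup.zpowers d) (K := N)
      (by rw [Subgroup.normalizer_eq_top]; exact le_top)
      (by rw [Nat.card_zpowers, hd]; exact Nat.coprime_two_left.mpr hodd)
      (Or.inl (Group.isSolvable_of_comm fun a b => mul_comm' a b))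
    exact ⟨S, h1, h3 (Subgroup.mem_zpowers d)⟩
  have hmemn : ∀ {S : Subgroup G}, d ∈ Subgroup.normalizer (S : Set G) → ∀ s ∈ S, s * d * s⁻¹ * d ∈ S := by
    intro S hS s hs
    have := (Subgroup.mem_normalizer_iff.1 hS s⁻¹).1 (S.inv_mem hs)
    rw [hdi] at this
    have h2 := S.mul_mem hs this
    simpa only [mul_assoc] using h2
  have hidx : ∃ n, C.relIndex N = p ^ n := by
    have hne : C.relIndex N ≠ 0 := Subgroup.index_ne_zero_of_finite
    refine ⟨_, Nat.eq_prime_pow_of_unique_prime_dvd hne fun {q} hq hqd => ?_⟩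
    by_contra hqp
    haveI : Fact q.Prime := ⟨hq⟩
    obtain ⟨S, hS, hdS⟩ := hsyl q
    have hSC : S ≤ C := by
      intro s hs
      obtain ⟨k, hk⟩ := hprod _ (hc s) _ hd0
      obtain ⟨l, hl⟩ := hS.isPGroup ⟨_, hmemn hdS s hs⟩
      have h2 := zz_eq_one_of_two_primes hp hq (Ne.symm hqp) hk (congrArg Subtype.val hl)
      rw [hC, Subgroup.mem_centralizer_singleton_iff]
      calc s * d = (s * d * s⁻¹ * d) * (d * s) := by
            rw [mul_assoc (s * d * s⁻¹), ← mul_assoc d d, hdd]; group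
        _ = d * s := by rw [h2, one_mul]
    apply hS.not_dvd_relIndex_of_le (K := C ⊓ N) (le_inf hSC hS.le) inf_le_right
    rwa [Subgroup.inf_relIndex_right]
  haveI : Fact p.Prime := ⟨hp⟩
  obtain ⟨n, hn⟩ := hidx
  obtain ⟨P, hP, hdP⟩ := hsyl p
  have hP1 : ∀ a ∈ conjugatesOf d, a * d ∈ P := by
    intro a ha
    obtain ⟨g, rfl⟩ := isConj_iff.1 ha
    have hg : g ∈ ((N ⊔ C : Subgroup G) : Set G) := by rw [hsup]; trivial
    rw [Subgroup.normal_mul] at hg
    obtain ⟨x, hx, c, hcC, rfl⟩ := hg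
    obtain ⟨k, hk, s, hs, e⟩ := hP.exists_mul_eq_of_relIndex_pow hn (N.inv_mem hx)
    have e' : x = s⁻¹ * k⁻¹ := by rw [← mul_inv_rev, ← e, inv_inv]
    have h1 : k⁻¹ * c ∈ C := C.mul_mem (C.inv_mem hk) hcC
    rw [hC, Subgroup.mem_centralizer_singleton_iff] at h1
    have h2 : x * c * d * (x * c)⁻¹ = s⁻¹ * d * s⁻¹⁻¹ := by
      calc x * c * d * (x * c)⁻¹ = s⁻¹ * (k⁻¹ * c * d) * (k⁻¹ * c)⁻¹ * s := by rw [e']; group
        _ = s⁻¹ * d * s⁻¹⁻¹ := by rw [h1]; group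
    change x * c * d * (x * c)⁻¹ * d ∈ P
    rw [h2]
    exact hmemn hdP _ (P.inv_mem hs)
  have hP2 : ∀ a ∈ conjugatesOf d, ∀ b ∈ conjugatesOf d, a * b ∈ P := by
    intro a ha b hb
    obtain ⟨g, rfl⟩ := isConj_iff.1 hb
    have := P.mul_mem (hP1 a ha) (P.inv_mem (hP1 _ (hc g)))
    have e : a * d * (g * d * g⁻¹ * d)⁻¹ = a * (g * d * g⁻¹) := by
      calc a * d * (g * d * g⁻¹ * d)⁻¹ = a * (g * d⁻¹ * g⁻¹) := by group
        _ = _ := by rw [hdi]
    rwa [e] at this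
  let T : Set G := {x | ∃ a ∈ conjugatesOf d, ∃ b ∈ conjugatesOf d, x = a * b}
  have hT : Subgroup.normalClosure T ≤ P := by
    rw [Subgroup.normalClosure, Subgroup.closure_le]
    intro y hy
    obtain ⟨x, ⟨a, ha, b, hb, rfl⟩, hxy⟩ := Group.mem_conjugatesOfSet_iff.1 hy
    obtain ⟨g, rfl⟩ := isConj_iff.1 hxy
    have e : g * (a * b) * g⁻¹ = (g * a * g⁻¹) * (g * b * g⁻¹) := by group
    rw [e]
    exact hP2 _ (IsConj.trans ha (isConj_iff.2 ⟨g, rfl⟩)) _ (IsConj.trans hb (isConj_iff.2 ⟨g, rfl⟩))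
  intro a ha b hb
  exact le_pCore (hP.isPGroup.to_le hT) (Subgroup.subset_normalClosure ⟨a, ha, b, hb, rfl⟩)

end CL.TT
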