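/-
3-local recognition of `Co2`, job B: the normaliser of `J`.
-/
import Cfsg.Agent.Spor.C23Defs
import Cfsg.Agent.Fgs.ClassBasic

set_option autoImplicit false
set_option maxRecDepth 100000

namespace CL.C23

open Subgroup

/-- representatives of the orbits of the stabiliser of `z` -/
def borb (m : ℕ) : ℕ :=
  [0, 1, 2, 3, 4, 5, 3, 4, 5, 3, 4, 5, 5, 3, 4, 15, 15, 15, 3, 4, 5, 15, 15, 15, 4, 5, 3, 15, 15, 15, 5, 3, 4, 4, 5, 3,
    5, 3, 4, 3, 4, 5, 15, 15, 15, 4, 5, 3, 15, 15, 15, 3, 4, 5, 15, 15, 15, 5, 3, 4, 4, 5, 3, 5, 3, 4, 3, 4, 5, 15, 15,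
    15, 4, 5, 3, 15, 15, 15, 3, 4, 5].getD m 0
def bD (k : K4) (m : ℕ) : ℕ := ad (lin k m) (sm 2 m)
def bsel (b2 b3 b4 b5 : Bool) (m : ℕ) : Bool := [false, true, b2, b3, b4, b5].getD m false

theorem b_orb : ∀ m < 81, ∃ k ∈ KBc, lin k (borb m) = m := by decide +kernel
theorem b_orb' : ∀ m < 81, borb m ∈ [0, 1, 2, 3, 4, 5, 15] ∧ (3 ≤ m → borb m ∈ [3, 4, 5, 15]) := by decide +kernel
theorem b_cube : ∀ k ∈ KBc, (∀ m ∈ [3, 9, 27], lin k (lin k (lin k m)) = m) → ∀ m < 81, bD k (bD k m) < 3 := by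
  decide +kernel
theorem b_cnt : ∀ b2 b3 b4 b5 : Bool, (b3 || b4 || b5) = true → (b2 = true → b4 = b5) →
    (∀ p ∈ [7, 11, 19, 37], ¬ p ∣ ((Finset.range 81).filter fun m => bsel b2 b3 b4 b5 (borb m) = true).card) →
    ∀ m < 81, (bsel b2 b3 b4 b5 (borb m) = true ↔ m ∈ Om) := by decide +kernel
theorem b_div : ∀ p ∈ [7, 11, 19, 37], p.Prime ∧ ¬ p ∣ 3 ∧ ∀ d ∈ Nat.divisors 81, 81 % p = d % p → d = 81 := by
  decide +kernel

variable {G : Type*} [Group G] [Finite G]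

omit [Finite G] in
theorem JC.b_D {E : ℕ → G} (h : JC E) {n : G} {k : K4} (a : Ac E n k) {m : ℕ} (hm : m < 81) :
    E (bD k m) = n * E m * n⁻¹ * (E m)⁻¹ := by
  rw [bD, h.ad _ (lin_lt _ _) _ (sm_lt _ _), h.neg hm, a m hm]

omit [Finite G] in
theorem JC.b_cp {E : ℕ → G} (h : JC E) {n : G} {l : K4} (a : Ac E n l) {p q r s : ℕ} (h1 : p < 81) (h2 : q < 81)
    (h3 : r < 81) (h4 : s < 81) (m : ℕ) : E (lin (cp l (p, q, r, s)) m) = n * E (lin (p, q, r, s) m) * n⁻¹ := by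
  rw [cp, h.lin_eq (lin_lt _ _) (lin_lt _ _) (lin_lt _ _) (lin_lt _ _), lin_1 h1, lin_3 h2, lin_9 h3, lin_27 h4,
    ← a p h1, ← a q h2, ← a r h3, ← a s h4, conj_pow, conj_pow, conj_pow, conj_pow, conj_mul, conj_mul, conj_mul,
    ← h.lin_eq h1 h2 h3 h4]

namespace CF

variable (c : CF G)

/-- the codes of the conjugates of `z` -/
def bT (m : ℕ) : Prop := ∃ n ∈ normalizer (c.J : Set G), n * c.z * n⁻¹ = c.E m

theorem b_fus {a : G} {m : ℕ} (hm : m < 81) (e : a * c.z * a⁻¹ = c.E m) : c.bT m := by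
  have key := c.uniq (c.J.map (MulAut.conj a⁻¹).toMonoidHom) ?_
    ((card_map_of_injective (MulAut.conj a⁻¹).injective).trans c.jc.card_J) ?_ ?_
  · obtain ⟨d, h1, h2⟩ := key
    refine ⟨a * d⁻¹, (inv_mem_iff (x := a * d⁻¹)).1 (mem_normalizer_fintype fun x hx => ?_), ?_⟩
    · simpa [mul_assoc] using h2 _ ⟨x, hx, rfl⟩
    · rw [← e, mul_assoc a, (Commute.inv_left h1).eq]; simp [mul_assoc]
  · rintro _ ⟨x, hx, rfl⟩
    refine mem_centralizer_singleton_iff.2 ?_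
    have := c.jc.J_comm hx (c.jc.mem_J hm)
    rw [← e] at this
    calc a⁻¹ * x * a⁻¹⁻¹ * c.z = a⁻¹ * (x * (a * c.z * a⁻¹)) * a := by group
      _ = c.z * (a⁻¹ * x * a⁻¹⁻¹) := by rw [this]; group
  · rintro _ ⟨x, hx, rfl⟩ _ ⟨y, hy, rfl⟩
    rw [← map_mul, c.jc.J_comm hx hy, map_mul]
  · rintro _ ⟨x, hx, rfl⟩
    rw [← map_pow, c.jc.J_cube hx, map_one]

omit [Finite G] in
theorem b_conj {n : G} (hn : n ∈ normalizer (c.J : Set G)) {m m' : ℕ} (e : n * c.E m * n⁻¹ = c.E m') :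
    c.bT m ↔ c.bT m' :=
  ⟨fun ⟨a, ha, h⟩ => ⟨n * a, mul_mem hn ha, by rw [← e, ← h]; group⟩,
    fun ⟨a, ha, h⟩ => ⟨n⁻¹ * a, mul_mem (inv_mem hn) ha, by
      rw [show n⁻¹ * a * c.z * (n⁻¹ * a)⁻¹ = n⁻¹ * (a * c.z * a⁻¹) * n by group, h, ← e]; group⟩⟩

omit [Finite G] in
theorem b_real {k : K4} (hk : k ∈ KBc) : ∃ b, Ac c.E b k := by
  obtain ⟨l, -, rfl⟩ := List.mem_map.1 (KBc_eq ▸ hk)
  exact c.realB l

theorem b_T {m : ℕ} (hm : m < 81) : c.bT (borb m) ↔ c.bT m := by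
  obtain ⟨k, hk, e⟩ := b_orb m hm
  obtain ⟨b, hb⟩ := c.b_real hk
  have h1 := (b_orb' m hm).1
  exact c.b_conj (c.jc.ac_norm hb) (by rw [hb _ (by simp at h1; omega), e])

omit [Finite G] in
theorem b_pow {t : ℕ} (ht : t < 3) : c.E t = c.z ^ t := by
  rw [← c.e1, ← c.jc.pow ht (by omega)]
  interval_cases t <;> rfl

theorem b_big : ∃ m < 81, 3 ≤ m ∧ c.bT m := by
  obtain ⟨a, h1, h2⟩ := c.nwc
  obtain ⟨d, h3, m, hm, e⟩ := c.cls3 _ h1 (by rw [conj_pow, ← c.e1, c.jc.cube (by omega), conj_eq_one_iff])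
  refine ⟨m, hm, not_lt.1 fun h => h2 ⟨m, ?_⟩, c.b_fus (a := d * a) hm (by rw [e]; group)⟩
  rw [c.b_pow h] at e
  calc c.z ^ (m : ℤ) = d⁻¹ * c.z ^ m * d := by
        rw [zpow_natCast, mul_assoc, ← (Commute.pow_right h3 m).eq, inv_mul_cancel_left]
    _ = _ := by rw [e]; group

theorem b_15 : ¬ c.bT 15 := fun h => by
  obtain ⟨n, hn, e⟩ := (c.b_T (m := 27) (by omega)).1 h
  have u3 : c.u * c.u * c.u = 1 := by simpa [TC.ev, hl, mul_assoc] using c.lt.rel [0, 0, 0] (by decide)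
  have h1 := (c.jc.ac_fix c.au (m := 27) (by omega)).2 rfl
  rw [← e] at h1
  obtain ⟨k, hk, a⟩ := c.codeB (n⁻¹ * c.u * n)
    (calc _ = n⁻¹ * (c.u * (n * c.z * n⁻¹)) * n := by group
      _ = _ := by rw [h1]; group) (mul_mem (mul_mem (inv_mem hn) (c.jc.ac_norm c.au)) hn)
  obtain ⟨m, hm, e1⟩ := (mem_normalizer_iff''.1 hn _).1 (c.jc.mem_J (m := 3) (by omega))
  have h2 := b_cube k hk (fun t ht => ?_) m hm
  · have h3 := c.jc.b_D a (m := bD k m) (ad_lt _ _)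
    have h4 := c.jc.b_D c.au (m := bD ku 3) (ad_lt _ _)
    rw [c.jc.b_D c.au (m := 3) (by omega)] at h4
    rw [c.jc.b_D a hm, e1, c.b_pow h2] at h3
    have h5 : c.E (sm (bD k (bD k m)) 27) = c.E (bD ku (bD ku 3)) := by
      rw [c.jc.pow h2 (by omega), ← e, conj_pow, h3, h4]; group
    have h6 := c.jc.inj (sm_lt _ _) (ad_lt _ _) h5
    generalize bD k (bD k m) = t at h2 h6
    revert t
    decide
  · have h3 : t < 81 := by simp at ht; omega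
    refine c.jc.inj (lin_lt _ _) h3 ?_
    rw [← a _ (lin_lt _ _), ← a _ (lin_lt _ _), ← a _ h3]
    calc _ = n⁻¹ * (c.u * c.u * c.u) * n * c.E t * n⁻¹ * (c.u * c.u * c.u)⁻¹ * n := by group
      _ = _ := by rw [u3]; group

theorem b_prime {p : ℕ} (hp : p ∈ [7, 11, 19, 37]) : ¬ p ∣ Nat.card (normalizer (c.J : Set G)) := fun h => by
  obtain ⟨h1, h2, h3⟩ := b_div p hp
  have : Fact p.Prime := ⟨h1⟩
  obtain ⟨⟨g, hg⟩, e⟩ := exists_prime_orderOf_dvd_card' p h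
  rw [orderOf_mk] at e
  have h4 := CL.Grp.card_modEq_card_inf_centralizer (Q := zpowers g) (K := c.J)
    (IsPGroup.of_card (n := 1) (by rw [Nat.card_zpowers, e, pow_one])) (zpowers_le.2 hg)
  have h5 := card_dvd_of_le (inf_le_left : c.J ⊓ centralizer (zpowers g) ≤ c.J)
  rw [c.jc.card_J] at h4 h5
  have h6 := eq_of_le_of_card_ge (inf_le_left : c.J ⊓ centralizer (zpowers g) ≤ c.J)
    (by rw [c.jc.card_J, h3 _ (Nat.mem_divisors.2 ⟨h5, by omega⟩) h4])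
  refine h2 (e ▸ orderOf_dvd_of_pow_eq_one (c.jc.J_cube (c.cent_J fun m hm => ?_)))
  rw [(c_sm m hm).2.2.2.2.1, (h6.ge (c.jc.mem_J hm)).2 g (mem_zpowers g), mul_inv_cancel_right]

omit [Finite G] in
theorem b_card {P : ℕ → Bool} (h : ∀ m < 81, c.bT m ↔ P m = true) :
    ((Finset.range 81).filter fun m => P m = true).card ∣ Nat.card (normalizer (c.J : Set G)) := by
  have h1 := CL.Fgs.ncard_conj_subgroup (normalizer (c.J : Set G)) c.z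
  rw [show {y : G | ∃ n ∈ normalizer (c.J : Set G), n * c.z * n⁻¹ = y} =
    c.E '' ((Finset.range 81).filter fun m => P m = true) from ?_, Set.InjOn.ncard_image, Set.ncard_coe_finset] at h1
  · exact h1 ▸ relIndex_dvd_card _ _
  · exact fun a ha b hb => c.jc.inj (Finset.mem_range.1 (Finset.mem_filter.1 ha).1)
      (Finset.mem_range.1 (Finset.mem_filter.1 hb).1)
  · ext y
    simp only [Set.mem_ofPred_eq, Set.mem_image, Finset.coe_filter, Finset.mem_range]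
    constructor
    · rintro ⟨n, hn, rfl⟩
      obtain ⟨m, hm, e⟩ := (mem_normalizer_iff.1 hn _).1 (c.e1 ▸ c.jc.mem_J (m := 1) (by omega))
      exact ⟨m, ⟨hm, (h m hm).1 ⟨n, hn, e.symm⟩⟩, e⟩
    · rintro ⟨m, ⟨hm, h2⟩, rfl⟩
      exact (h m hm).2 h2

theorem b_Om {m : ℕ} (hm : m < 81) : c.bT m ↔ m ∈ Om := by
  classical
  have h0 : ¬ c.bT 0 := fun ⟨n, _, e⟩ => by
    rw [c.jc.zero, conj_eq_one_iff, ← c.e1] at e
    exact one_ne_zero (c.jc.ne 1 (by omega) e)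
  have h1 : c.bT 1 := ⟨1, one_mem _, by simp [c.e1]⟩
  have h2 : ∀ m < 81, c.bT m ↔ bsel (c.bT 2) (c.bT 3) (c.bT 4) (c.bT 5) (borb m) = true := fun m hm => by
    have h3 := (b_orb' m hm).1
    rw [← c.b_T hm]
    generalize borb m = t at h3
    simp only [List.mem_cons, List.not_mem_nil, or_false] at h3
    rcases h3 with rfl | rfl | rfl | rfl | rfl | rfl | rfl <;> simp [bsel, h0, h1, c.b_15]
  have h3 : c.bT 2 → ∀ m < 81, c.bT m → c.bT (sm 2 m) := fun ⟨n, hn, e⟩ m hm ⟨n', hn', e'⟩ =>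
    ⟨n' * n, mul_mem hn' hn, by
      rw [c.jc.neg hm, ← e', show n' * n * c.z * (n' * n)⁻¹ = n' * (n * c.z * n⁻¹) * n'⁻¹ by group, e,
        show c.E 2 = c.z⁻¹ from c.e1 ▸ c.jc.neg (a := 1) (by omega)]
      group⟩
  refine (h2 m hm).trans (b_cnt _ _ _ _ ?_ (fun e => ?_) (fun p hp e => c.b_prime hp (e.trans (c.b_card h2))) m hm)
  · obtain ⟨t, ht, h4, h5⟩ := c.b_big
    have h6 := (b_orb' t ht).2 h4
    rw [← c.b_T ht] at h5
    generalize borb t = t at h5 h6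
    simp only [List.mem_cons, List.not_mem_nil, or_false] at h6
    rcases h6 with rfl | rfl | rfl | rfl
    exacts [by simp [h5], by simp [h5], by simp [h5], (c.b_15 h5).elim]
  · have e' := h3 (of_decide_eq_true e)
    exact decide_eq_decide.2 ⟨fun h => (c.b_T (sm_lt 2 4)).2 (e' 4 (by omega) h),
      fun h => (c.b_T (sm_lt 2 5)).2 (e' 5 (by omega) h)⟩

theorem b_code {n : G} (hn : n ∈ normalizer (c.J : Set G)) : ∃ k, pres k = true ∧ Ac c.E n k := by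
  obtain ⟨p, hp, q, hq, r, hr, s, hs, a⟩ := c.jc.exists_ac hn
  refine ⟨_, pres_iff.2 ⟨⟨fun m hm => ?_, fun m hm e => c.jc.ne m hm ?_⟩, ⟨⟨hp, hq⟩, hr⟩, hs⟩, a⟩
  · have h1 : m < 81 := (by decide : ∀ m ∈ Om, m < 81) m hm
    exact (c.b_Om (lin_lt _ _)).1 ((c.b_conj hn (a m h1)).1 ((c.b_Om h1).2 hm))
  · exact conj_eq_one_iff.1 (by rw [a m hm, e, c.jc.zero])

theorem b_real0 {k : K4} (hk : pres k = true) : ∃ n, Ac c.E n k := by
  obtain ⟨p, q, r, s⟩ := k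
  obtain ⟨⟨h1, h2⟩, ⟨⟨hp, hq⟩, hr⟩, hs⟩ := pres_iff.1 hk
  dsimp only at hp hq hr hs
  obtain ⟨n, hn, e⟩ := (c.b_Om hp).2 (lin_1 hp ▸ h1 1 (by decide))
  obtain ⟨l, hl, a⟩ := c.b_code (inv_mem hn)
  obtain ⟨⟨h3, h4⟩, -⟩ := pres_iff.1 hl
  have h5 := c.jc.b_cp a hp hq hr hs
  have h6 : ∀ m, lin (cp l (p, q, r, s)) m = lin l (lin (p, q, r, s) m) := fun m =>
    c.jc.inj (lin_lt _ _) (lin_lt _ _) ((h5 m).trans (a _ (lin_lt _ _)))
  have h7 : pres (cp l (p, q, r, s)) = true := pres_iff.2 ⟨⟨fun m hm => h6 m ▸ h3 _ (h1 m hm), fun m hm e =>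
    h2 m hm (h4 _ (lin_lt _ _) (h6 m ▸ e))⟩, ⟨⟨lin_lt _ _, lin_lt _ _⟩, lin_lt _ _⟩, lin_lt _ _⟩
  have h8 : lin l (lin (p, q, r, s) 1) = 1 := c.jc.inj (lin_lt _ _) (by omega) (by
    rw [← a _ (lin_lt _ _), lin_1 hp, ← e, c.e1]; group)
  obtain ⟨b, hb⟩ := c.b_real (k := cp l (p, q, r, s)) (by
    rw [cp, h8] at h7 ⊢
    exact c_KB h7)
  refine ⟨n * b, fun m hm => ?_⟩
  rw [show n * b * c.E m * (n * b)⁻¹ = n * (b * c.E m * b⁻¹) * n⁻¹ by group, hb m hm, h5]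
  group

theorem b_real1 {σ : G} (hσ : Ac c.E σ kN) {k : K4} (hk : pres k = true) : ∃ n, σ * n = n * σ ∧ Ac c.E n k := by
  obtain ⟨n, a⟩ := c.b_real0 hk
  have h1 : ∀ x ∈ c.J, σ * x * σ⁻¹ = x⁻¹ := by
    rintro _ ⟨m, hm, rfl⟩
    rw [hσ m hm, (c_sm m hm).2.2.2.2.2.1, c.jc.neg hm]
  have h2 : σ * n * σ⁻¹ * n⁻¹ ∈ c.J := c.cent_J fun m hm => by
    have h3 := h1 _ (inv_mem ((mem_normalizer_iff''.1 (c.jc.ac_norm a) _).1 (c.jc.mem_J hm)))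
    rw [inv_inv] at h3
    rw [(c_sm m hm).2.2.2.2.1]
    calc _ = σ * n * σ⁻¹ * (n⁻¹ * c.E m * n) * σ * n⁻¹ * σ⁻¹ := by group
      _ = σ * (c.E m)⁻¹ * σ⁻¹ := by rw [← h3]; group
      _ = _ := by rw [h1 _ (inv_mem (c.jc.mem_J hm)), inv_inv]
  obtain ⟨d, hd⟩ : ∃ d, d = σ * n * σ⁻¹ * n⁻¹ := ⟨_, rfl⟩
  rw [← hd] at h2
  refine ⟨d * d * n, mul_inv_eq_iff_eq_mul.1 ?_, fun m hm => ?_⟩
  · calc _ = σ * (d * d) * σ⁻¹ * (σ * n * σ⁻¹ * n⁻¹) * n := by group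
      _ = (d ^ 3)⁻¹ * (d * d * n) := by rw [h1 _ (mul_mem h2 h2), ← hd]; group
      _ = _ := by rw [c.jc.J_cube h2, inv_one, one_mul]
  · rw [show d * d * n * c.E m * (d * d * n)⁻¹ = d * d * (n * c.E m * n⁻¹) * (d * d)⁻¹ by group, a m hm,
      c.jc.J_comm (mul_mem h2 h2) (c.jc.mem_J (lin_lt _ _)), mul_inv_cancel_right]

theorem exists_jf (c : CF G) : ∃ b : JF G, b.toCF = c := by
  obtain ⟨n, -, e⟩ := (c.b_Om (m := 2) (by omega)).2 (by decide)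
  obtain ⟨σ, h1, h2, h3, h4, h5, h6, h7⟩ := c.ext n (e.trans (c.e1 ▸ c.jc.neg (a := 1) (by omega)))
  obtain ⟨s, h8, h9⟩ := c.b_real1 h1 (k := ks) (by decide +kernel)
  exact ⟨⟨c, σ, s, h1, h2, h3, h4, h5, h6, h7, h9, h8, fun _ hn => c.b_code hn, fun _ hk => c.b_real1 h1 hk,
    fun _ _ hm e => (c.b_Om hm).1 (c.b_fus hm e)⟩, rfl⟩

end CF

end CL.C23
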