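/-
3-local recognition of `Co2`: the group `2 ^ (1 + 4) . A₅` acts faithfully on `3 ^ 4`.
-/
import Cfsg.Agent.Spor.C23QDefs
import Cfsg.Agent.Grp.Primitive

set_option autoImplicit false

namespace CL.C23

open Subgroup Cfsg CL.Grp Equiv
open scoped commutatorElement

universe u

theorem exists_mem_notMem_list {Γ : Type*} [Group Γ] (B : Subgroup Γ) (l : List Γ) (h : l.length < Nat.card B) :
    ∃ x ∈ B, x ∉ l := by
  classical
  by_contra! k
  have := Set.ncard_le_ncard (s := (B : Set Γ)) (t := l.toFinset) fun x hx => by simpa using k x hx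
  rw [Set.ncard_coe_finset] at this
  exact (this.trans (List.toFinset_card_le l)).not_gt h

theorem a5_four : ∃ a b t : alternatingGroup (Fin 5), a * a = 1 ∧ b * b = 1 ∧ a * b = b * a ∧ t * a = b * t ∧
    t * b = a * b * t ∧ a ≠ 1 ∧ b ≠ 1 ∧ a ≠ b :=
  ⟨⟨swap 0 1 * swap 2 3, Perm.mem_alternatingGroup.2 (by decide)⟩,
    ⟨swap 0 3 * swap 1 2, Perm.mem_alternatingGroup.2 (by decide)⟩,
    ⟨swap 0 1 * swap 1 2, Perm.mem_alternatingGroup.2 (by decide)⟩, by decide⟩

theorem kThm (s : SpThm) : KThm.{u} := by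
  intro Y _ _ R _ hR c32 e ψ sp hK
  let f : Y →* alternatingGroup (Fin 5) := e.toMonoidHom.comp (QuotientGroup.mk' R)
  have fs : Function.Surjective f := e.surjective.comp (QuotientGroup.mk'_surjective R)
  have fk : ∀ {x}, f x = 1 ↔ x ∈ R := (map_eq_one_iff e e.injective).trans (QuotientGroup.eq_one_iff _)
  have n : ∀ y, ψ y * ng = ng * ψ y := fun y => Sim.ng_comm (sp y)
  have hA : ∀ X : Subgroup Y, X.map f = ⊤ → (∀ x ∈ X, x ∈ R → ψ x = 1) → False := fun X h1 h2 => by
    have e1 : ∀ {x y}, x ∈ X → y ∈ X → f x = f y → ψ x = ψ y := fun hx hy e => by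
      rw [← mul_inv_eq_one, ← map_inv, ← map_mul] at e ⊢
      exact h2 _ (mul_mem hx (inv_mem hy)) (fk.1 e)
    have e2 : ∀ {x y}, ψ x = ψ y → f x = f y := fun e => by
      rw [← mul_inv_eq_one, ← map_inv, ← map_mul] at e ⊢
      exact fk.2 (hK e)
    obtain ⟨a0, b0, t0, k1, k2, k3, k4, k5, k6, k7, k8⟩ := a5_four
    obtain ⟨a, ha, rfl⟩ := h1.ge (mem_top a0)
    obtain ⟨b, hb, rfl⟩ := h1.ge (mem_top b0)
    obtain ⟨t, ht, rfl⟩ := h1.ge (mem_top t0)
    simp only [← map_mul] at k1 k2 k3 k4 k5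
    replace k1 := h2 _ (mul_mem ha ha) (fk.1 k1)
    replace k2 := h2 _ (mul_mem hb hb) (fk.1 k2)
    replace k3 := e1 (mul_mem ha hb) (mul_mem hb ha) k3
    replace k4 := e1 (mul_mem ht ha) (mul_mem hb ht) k4
    replace k5 := e1 (mul_mem ht hb) (mul_mem (mul_mem ha hb) ht) k5
    replace k6 : ψ a ≠ 1 := fun e => k6 (fk.2 (hK e))
    replace k7 : ψ b ≠ 1 := fun e => k7 (fk.2 (hK e))
    replace k8 : ψ a ≠ ψ b := fun e => k8 (e2 e)
    simp only [map_mul] at k1 k2 k3 k4 k5
    rcases s.four _ (sp a) _ (sp b) k1 k2 k3 with h | h | h | h | h | h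
    · exact k6 h
    · exact k7 h
    · exact k8 h
    · exact k8 (mul_right_cancel ((h ▸ n t).symm.trans k4))
    · exact k6 (mul_eq_right.1 (mul_right_cancel (k5.symm.trans (h ▸ n t))))
    · exact k6 (mul_eq_right.1 (mul_left_cancel ((h ▸ n t).trans k5.symm)))
  obtain ⟨⟨c, hc⟩, c1, cu⟩ := (Nat.card_eq_two_iff' (1 : center R)).1 (extra_card_center hR)
  replace c1 : c ≠ 1 := fun e => c1 (Subtype.ext e)
  replace cu : ∀ x ∈ center R, x = 1 ∨ x = c := fun x hx =>
    (em _).imp_right fun e => congrArg Subtype.val (cu ⟨x, hx⟩ fun e' => e (congrArg Subtype.val e'))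
  have cc : c * c = 1 := (pow_two c).symm.trans (extra_pow_eq_one_of_mem_center hR hc)
  have sq : ∀ a : R, a * a = 1 ∨ a * a = c := fun a => cu _ (pow_two a ▸ extra_pow_mem_center hR a)
  have cY : ∀ y : Y, y * c = c * y := fun y => by
    rcases cu (MulAut.conjNormal y c) ((characteristic_iff_map_le.1 inferInstance) _ (mem_map_of_mem _ hc)) with h | h
    · exact absurd ((map_eq_one_iff _ (MulAut.conjNormal y).injective).1 h) c1
    · exact mul_inv_eq_iff_eq_mul.1 (congrArg Subtype.val h)
  have hB : ψ c ≠ 1 := fun hc1 => by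
    have := Fact.mk Nat.prime_five
    obtain ⟨t, ht⟩ := exists_prime_orderOf_dvd_card' (G := Y) 5 ((show 5 ∣ Nat.card (alternatingGroup (Fin 5)) by
      rw [nat_card_alternatingGroup, Nat.card_fin]; decide).trans (card_dvd_of_surjective f fs))
    have hQ : IsPGroup 5 (zpowers t) := IsPGroup.of_card (n := 1) (by rw [Nat.card_zpowers, ht, pow_one])
    have two : ∀ {m : ℕ}, m ∣ 32 → 2 ≡ m [MOD 5] → m = 2 ∨ m = 32 := fun {m} h1 h2 => by
      have := Nat.le_of_dvd (by norm_num) h1
      interval_cases m <;> simp_all (config := {decide := true})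
    have h1 := card_modEq_card_inf_centralizer hQ (K := R) le_normalizer_of_normal
    have h2 := card_modEq_card_inf_centralizer hQ (K := ψ.ker) le_normalizer_of_normal
    rw [c32] at h1
    rcases two (c32 ▸ card_dvd_of_le inf_le_left) h1 with h3 | h3
    · have h4 : zpowers (c : Y) ≤ ψ.ker ⊓ centralizer (zpowers t : Set Y) :=
        zpowers_le.2 ⟨hc1, fun y _ => cY y⟩
      have h5 := card_le_of_le h4
      have h6 := card_le_of_le (inf_le_inf_right (centralizer (zpowers t : Set Y)) hK)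
      rw [Nat.card_zpowers, orderOf_coe, orderOf_eq_prime ((pow_two c).trans cc) c1] at h5
      rw [le_antisymm (h3 ▸ h6) h5] at h2
      rcases two (c32 ▸ card_dvd_of_le hK) h2.symm with h7 | h7
      · have h8 := card_mul_relIndex hK
        rw [relIndex_ker, h7, c32] at h8
        obtain ⟨_, ⟨a, ha, rfl⟩, k1⟩ := exists_mem_notMem_list (R.map ψ) [1, ng] (show 2 < _ by omega)
        obtain ⟨_, ⟨b, hb, rfl⟩, k2⟩ := exists_mem_notMem_list (R.map ψ) [1, ng, ψ a, (ψ a)⁻¹ * ng]
          (show 4 < _ by omega)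
        have z : ∀ x ∈ center R, ψ x = 1 := fun x hx => by
          rcases cu x hx with rfl | rfl
          exacts [map_one ψ, hc1]
        have q : ∀ a ∈ R, ψ a * ψ a = 1 := fun a ha => by
          simpa [pow_two] using z _ (extra_pow_mem_center hR ⟨a, ha⟩)
        have h9 : ⁅ψ a, ψ b⁆ = 1 := (map_commutatorElement ψ a b).symm.trans
          (z _ (extra_comm_mem_center hR ⟨a, ha⟩ ⟨b, hb⟩))
        simp only [List.mem_cons, List.not_mem_nil, or_false, not_or, eq_inv_mul_iff_mul_eq] at k1 k2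
        have := s.four _ (sp a) _ (sp b) (q a ha) (q b hb) (commutatorElement_eq_one_iff_mul_comm.1 h9)
        tauto
      · exact hA ⊤ (map_top_of_surjective f fs) fun x _ hx => (eq_of_le_of_card_ge hK (by omega)).ge hx
    · have h4 : t ∈ centralizer (R : Set Y) := fun x hx =>
        (((eq_of_le_of_card_ge inf_le_left (by omega)).ge hx : x ∈ R ⊓ centralizer (zpowers t : Set Y)).2 t
          (mem_zpowers t)).symm
      have : IsSimpleGroup (alternatingGroup (Fin 5)) := alternatingGroup.isSimpleGroup (by simp)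
      refine hA (centralizer (R : Set Y)) ((Normal.map inferInstance f fs).eq_bot_or_eq_top.resolve_left fun h => ?_)
        fun x hx hx' => ?_
      · have := orderOf_dvd_natCard R (fk.1 (mem_bot.1 (h.le (mem_map_of_mem f h4))))
        rw [ht, c32] at this
        omega
      · rcases cu ⟨x, hx'⟩ (mem_center_iff.2 fun y => Subtype.ext (hx y y.2)) with h | h
        · rw [show x = 1 from congrArg Subtype.val h, map_one]
        · rw [show x = c from congrArg Subtype.val h, hc1]
  have inj : Function.Injective ψ := (MonoidHom.ker_eq_bot_iff ψ).1 (by_contra fun h =>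
    hB (extra_center_le_of_normal hR (N := ψ.ker.subgroupOf R) (fun e => h
      ((subgroupOf_eq_bot.1 e).eq_bot_of_le hK)) hc))
  obtain ⟨a, a2, aZ⟩ : ∃ a : R, a * a = 1 ∧ a ∉ center R := by
    obtain ⟨a, -, ha⟩ := SetLike.exists_of_lt (lt_top_iff_ne_top.2 (extra_center_ne_top hR))
    rcases sq a with h | h
    · exact ⟨a, h, ha⟩
    have h1 := card_mul_index (centralizer ({a} : Set R))
    rw [extra_index_centralizer hR ha, c32] at h1
    obtain ⟨b, hb, k⟩ := exists_mem_notMem_list (centralizer ({a} : Set R)) [1, c, a⁻¹, a] (show 4 < _ by omega)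
    simp only [List.mem_cons, List.not_mem_nil, or_false, not_or] at k
    rcases sq b with h' | h'
    · exact ⟨b, h', fun e => (cu b e).elim k.1 k.2.1⟩
    · exact ⟨a * b, by rw [(show Commute b a from mem_centralizer_singleton_iff.1 hb).mul_mul_mul_comm, h, h', cc],
        fun e => (cu _ e).elim (fun e => k.2.2.1 (eq_inv_of_mul_eq_one_right e))
          fun e => k.2.2.2 (mul_left_cancel (e.trans h.symm))⟩
  have cen : ∀ x : R, ψ x = ng → x ∈ center R := fun x e => mem_center_iff.2 fun y =>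
    Subtype.ext (inj (by rw [coe_mul, coe_mul, map_mul, map_mul, e, n]))
  have m1 : ∀ {x : R}, x * x = 1 → ψ x * ψ x = 1 := fun e => by rw [← map_mul, ← coe_mul, e, coe_one, map_one]
  have hc2 : ψ c = ng := by
    rcases s.four _ (sp a) _ (sp c) (m1 a2) (m1 cc) (by rw [← map_mul, cY, map_mul]) with h | h | h | h | h | h
    · exact absurd (show a = 1 from Subtype.ext (inj (h.trans (map_one ψ).symm))) fun e => aZ (e ▸ one_mem _)
    · exact absurd h hB
    · exact absurd (show a = c from Subtype.ext (inj h)) fun e => aZ (e ▸ hc)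
    · exact absurd (cen a h) aZ
    · exact h
    · exact absurd ((mul_mem_cancel_right hc).1 (cen (a * c) ((map_mul ψ _ _).trans h))) aZ
  exact ⟨inj, fun a ha => (sq ⟨a, ha⟩).imp m1 fun e => by
    rw [← map_mul, ← hc2, ← e]; rfl, c, c.2, hc2⟩

end CL.C23
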