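/-
3-local recognition of `Co2` (helper51, job C23-T of helper65): the image of `N(Σ)` is `2 ^ 8 : W(E₆)` or
`2 ^ 8 : Sp₆(2)`.
-/
import Cfsg.Agent.Spor.C23Hat

set_option autoImplicit false
set_option maxRecDepth 100000
set_option linter.unusedSectionVars false

namespace CL.C23

open Cfsg Subgroup MulAction CL.CoR CL.PG CL.Grp CL.Cls CL.C23.M5

section gen

variable {N : Type*} [Group N] [Finite N]

/-- a subgroup `R ≤ H` that acts freely on the other cosets of `H` -/
theorem free_mod {H R : Subgroup N} (hR : R ≤ H) (fr : ∀ g, ∀ a ∈ R, a ≠ 1 → g⁻¹ * a * g ∈ H → g ∈ H) :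
    H.index ≡ 1 [MOD Nat.card R] := by
  classical
  have := Fintype.ofFinite R
  have := Fintype.ofFinite (N ⧸ H)
  have := Fintype.ofFinite (Quotient (orbitRel R (N ⧸ H)))
  have h1 := sum_card_fixedBy_eq_card_orbits_mul_card_group R (N ⧸ H)
  rw [← Finset.add_sum_erase _ _ (Finset.mem_univ 1), Finset.sum_congr rfl (g := fun _ => 1) (fun a ha => by
    rw [Fintype.card_eq_one_iff]
    refine ⟨⟨((1 : N) : N ⧸ H), ?_⟩, fun ⟨q, hq⟩ => Subtype.ext ?_⟩
    · exact QuotientGroup.eq.2 (by simpa using hR a.2)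
    · obtain ⟨g, rfl⟩ := QuotientGroup.mk_surjective q
      have h2 : (a * g)⁻¹ * g ∈ H := QuotientGroup.eq.1 hq
      exact QuotientGroup.eq.2 (by
        simpa using fr g a a.2 (fun e => (Finset.mem_erase.1 ha).1 (Subtype.ext e)) (by
          simpa [mul_assoc] using inv_mem h2)))] at h1
  simp only [fixedBy_one_eq_univ, Finset.sum_const, Finset.card_erase_of_mem (Finset.mem_univ _), smul_eq_mul,
    mul_one, Finset.card_univ] at h1
  have h3 : 0 < Fintype.card R := Fintype.card_pos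
  rw [index_eq_card, Nat.card_eq_fintype_card, Nat.card_eq_fintype_card]
  rw [Fintype.card_congr (Equiv.Set.univ _)] at h1
  refine Nat.ModEq.add_right_cancel' (Fintype.card R - 1) ?_
  rw [h1, show 1 + (Fintype.card R - 1) = Fintype.card R by omega]
  exact (Nat.modEq_zero_iff_dvd.2 (dvd_mul_left _ _)).trans (Nat.modEq_zero_iff_dvd.2 dvd_rfl).symm

/-- the cosets fixed by an element of prime order with one class in `H` -/
theorem fix_mod {H : Subgroup N} {x : N} {p : ℕ} (hp : p.Prime) (hx : x ∈ H) (x1 : x ≠ 1) (xp : x ^ p = 1)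
    (cls : ∀ z ∈ H, z ^ p = 1 → z = 1 ∨ ∃ k ∈ H, k * x * k⁻¹ = z) :
    H.index ≡ H.relIndex (centralizer {x}) [MOD p] := by
  have := Fact.mk hp
  have hP : IsPGroup p (zpowers x) := IsPGroup.of_card (n := 1) (by
    rw [Nat.card_zpowers, orderOf_eq_prime xp x1, pow_one])
  have h1 := hP.card_modEq_card_fixedPoints (N ⧸ H)
  have h2 : fixedPoints (zpowers x) (N ⧸ H) = orbit (centralizer {x}) ((1 : N) : N ⧸ H) := by
    ext q
    obtain ⟨g, rfl⟩ := QuotientGroup.mk_surjective q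
    constructor
    · intro hq
      have h3 : (x * g)⁻¹ * g ∈ H := QuotientGroup.eq.1 (hq ⟨x, mem_zpowers x⟩)
      obtain e | ⟨k, hk, e⟩ := cls (g⁻¹ * x * g) (by simpa [mul_assoc] using inv_mem h3) (by
        rw [show g⁻¹ * x * g = g⁻¹ * x * g⁻¹⁻¹ by group, conj_pow, xp]; simp)
      · exact (x1 (by rw [show x = g * (g⁻¹ * x * g) * g⁻¹ by group, e]; simp)).elim
      · refine ⟨⟨g * k, mem_centralizer_singleton_iff.2 ?_⟩, QuotientGroup.eq.2 (by simpa using hk)⟩
        calc _ = g * (k * x * k⁻¹) * k := by group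
          _ = _ := by rw [e]; group
    · rintro ⟨⟨c, hc⟩, e⟩ ⟨_, n, rfl⟩
      rw [← e]
      refine QuotientGroup.eq.2 ?_
      have h4 : Commute c x := mem_centralizer_singleton_iff.1 hc
      simpa [← (h4.zpow_right n).eq, mul_assoc] using zpow_mem hx n
  have h5 : stabilizer (centralizer {x}) ((1 : N) : N ⧸ H) = H.subgroupOf _ := by
    ext c
    exact QuotientGroup.eq.trans (by simp [mem_subgroupOf])
  rwa [h2, Nat.card_coe_set_eq, ← index_stabilizer, h5] at h1

theorem pow_step {p : ℕ} (hp : p.Prime) {A B : Subgroup N} (hB : IsPGroup p B) (hAB : A ≤ B) {x : N} (hx : x ∈ B)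
    (hA : x ∉ A) : p * Nat.card A ∣ Nat.card B := by
  have := Fact.mk hp
  obtain ⟨n, hn⟩ := hB.index (A.subgroupOf B)
  rw [← (A.subgroupOf B).index_mul_card, Nat.card_congr (subgroupOfEquivOfLe hAB).toEquiv, hn]
  rcases n with _ | n
  · exact (hA (show (⟨x, hx⟩ : B) ∈ A.subgroupOf B from index_eq_one.1 hn ▸ mem_top _)).elim
  · exact Nat.mul_dvd_mul_right (dvd_pow_self p n.succ_ne_zero) _

/-- a group of order 30 with a central element of order five has a normal subgroup of order three -/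
theorem norm30 {Y : Subgroup N} (hY : Nat.card Y = 30) {x : N} (hx : x ∈ Y) (x5 : orderOf x = 5)
    (hc : Y ≤ centralizer {x}) : ∃ A ≤ Y, Nat.card A = 3 ∧ Y ≤ normalizer (A : Set N) := by
  have := Fact.mk Nat.prime_three
  obtain ⟨P⟩ : Nonempty (Sylow 3 Y) := inferInstance
  have h1 : Nat.card P = 3 := by
    rw [P.card_eq_multiplicity, hY, show 30 = 3 ^ 1 * 10 by norm_num, Nat.factorization_mul (by norm_num) (by norm_num),
      Nat.prime_three.factorization_pow]
    simp [Nat.factorization_eq_zero_of_not_dvd (show ¬ 3 ∣ 10 by norm_num)]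
  have h2 := card_sylow_modEq_one 3 Y
  rw [P.card_eq_index_normalizer] at h2
  have h3 := (normalizer (P : Set Y)).card_mul_index
  have h4 : 3 ∣ Nat.card (normalizer (P : Set Y)) := h1.symm.dvd.trans (card_dvd_of_le (P : Subgroup Y).le_normalizer)
  have h5 : 5 ∣ Nat.card (normalizer (P : Set Y)) := by
    rw [← x5, ← orderOf_mk x hx, ← Nat.card_zpowers]
    refine card_dvd_of_le (zpowers_le.2 (centralizer_le_normalizer _ fun a _ => Subtype.ext ?_))
    exact mem_centralizer_singleton_iff.1 (hc a.2)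
  obtain ⟨k, hk⟩ := Nat.Coprime.mul_dvd_of_dvd_of_dvd (by norm_num) h4 h5
  rw [hY, hk] at h3
  have h6 : (normalizer (P : Set Y)).index = 1 := by
    have : k * (normalizer (P : Set Y)).index = 2 := by linarith [mul_assoc (3 * 5) k (normalizer (P : Set Y)).index]
    have h7 := Nat.le_of_dvd two_pos (Dvd.intro_left _ this)
    unfold Nat.ModEq at h2
    omega
  refine ⟨(P : Subgroup Y).map Y.subtype, map_subtype_le _, by rw [card_map_of_injective Y.subtype_injective, h1], ?_⟩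
  intro y hy
  refine mem_normalizer_fintype ?_
  rintro _ ⟨a, ha, rfl⟩
  exact ⟨_, (mem_normalizer_iff.1 (show (⟨y, hy⟩ : Y) ∈ normalizer (P : Set Y) from index_eq_one.1 h6 ▸ mem_top _) a).1 ha,
    rfl⟩

end gen

theorem wd2 (a b : ℕ) : wd [a, b] = wd [a] * wd [b] := wordG_append gs1 [a] [b]
theorem wd3 (a b c : ℕ) : wd [a, b, c] = wd [a] * wd [b] * wd [c] := (wordG_append gs1 [a, b] [c]).trans (by
  rw [← wd2])
theorem wdi (a b : ℕ) (e : b = Nat.xor a 1 := by decide) : wd [b] = (wd [a])⁻¹ := by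
  rw [wd, wd, wordG_single, wordG_single, e, letG_xor]
theorem wd_comm {a b : ℕ} (h : ([a, b], [b, a]) ∈ zR207 := by decide +kernel) : wd [a] * wd [b] = wd [b] * wd [a] := by
  rw [← wd2, ← wd2]; exact rel h
theorem wd_cube {a : ℕ} (h : ([a, a, a], []) ∈ zR207 := by decide +kernel) : wd [a] ^ 3 = 1 := by
  rw [pow_three', ← wd3]; exact rel h
theorem wd_conj {a b c d : ℕ} (h : ([a, b, c], [d]) ∈ zR207) (e : c = Nat.xor a 1 := by decide) :
    wd [a] * wd [b] * (wd [a])⁻¹ = wd [d] := by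
  rw [← wdi a c e, ← wd3]; exact rel h
theorem d_sq : wd [350] ^ 2 = 1 := by rw [pow_two, ← wd2]; exact rel (v := [])
theorem X_ord : orderOf (wd [356]) = 5 := by rw [← Nat.card_zpowers, ← subW_single]; exact P5_card c1
theorem c_ord : orderOf (wd [392]) = 3 := by rw [← Nat.card_zpowers, ← subW_single]; exact Cc_card c1
theorem cent_single (w : List ℕ) : centralizer (subW gs1 [w] : Set Γ) = centralizer {wd w} := by
  rw [subW_single, zpowers_eq_closure, centralizer_closure]
theorem dcd : wd [350] * wd [392] * (wd [350])⁻¹ = (wd [392])⁻¹ :=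
  (wd_conj (c := 351) (by decide +kernel)).trans (wdi 392 393)
theorem dωd : wd [350] * wd [396] * (wd [350])⁻¹ = (wd [396])⁻¹ :=
  (wd_conj (c := 351) (by decide +kernel)).trans (wdi 396 397)
theorem d2c : wd [394] * wd [392] * (wd [394])⁻¹ = wd [396] := wd_conj (c := 395) (by decide +kernel)
theorem d2ω : wd [394] * wd [396] * (wd [394])⁻¹ = wd [392] := wd_conj (c := 395) (by decide +kernel)
theorem T10_eq : SH1 ⊓ centralizer {wd [356]} = subW gs1 [[356], [350]] := cent_single [356] ▸ c10 c1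
theorem C300_eq : SA ⊓ centralizer {wd [356]} = subW gs1 [[356], [392], [350], [394]] :=
  cent_single [356] ▸ c300 c1 ψ_eq.2
theorem d_ne : wd [350] ≠ 1 := fun e => by
  have h1 := dcd
  rw [e, one_mul, inv_one, mul_one, eq_inv_iff_mul_eq_one, ← pow_two, ← orderOf_dvd_iff_pow_eq_one, c_ord] at h1
  omega

/-- the centraliser of `d` in `C300` keeps `{c, c⁻¹, ω, ω⁻¹}` -/
theorem c20_norm : subW gs1 [[356], [350], [394]] ≤
    normalizer ({wd [392], (wd [392])⁻¹, wd [396], (wd [396])⁻¹} : Set Γ) := subW_le.2 fun w hw => by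
  have key : ∀ u : Γ, u * wd [392] * u⁻¹ ∈ ({wd [392], (wd [392])⁻¹, wd [396], (wd [396])⁻¹} : Set Γ) →
      u * wd [396] * u⁻¹ ∈ ({wd [392], (wd [392])⁻¹, wd [396], (wd [396])⁻¹} : Set Γ) →
      u ∈ normalizer ({wd [392], (wd [392])⁻¹, wd [396], (wd [396])⁻¹} : Set Γ) := fun u h1 h2 => by
    have inv : ∀ a ∈ ({wd [392], (wd [392])⁻¹, wd [396], (wd [396])⁻¹} : Set Γ),
        a⁻¹ ∈ ({wd [392], (wd [392])⁻¹, wd [396], (wd [396])⁻¹} : Set Γ) := by
      rintro _ (rfl | rfl | rfl | rfl)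
      exacts [.inr (.inl rfl), .inl (inv_inv _), .inr (.inr (.inr rfl)), .inr (.inr (.inl (inv_inv _)))]
    refine mem_normalizer_fintype ?_
    rintro _ (rfl | rfl | rfl | rfl)
    exacts [h1, conj_inv (b := u) ▸ inv _ h1, h2, conj_inv (b := u) ▸ inv _ h2]
  simp only [List.mem_cons, List.not_mem_nil, or_false] at hw
  rcases hw with rfl | rfl | rfl
  · exact key _ (.inl (mul_inv_eq_iff_eq_mul.2 wd_comm)) (.inr (.inr (.inl (mul_inv_eq_iff_eq_mul.2 wd_comm))))
  · exact key _ (.inr (.inl dcd)) (.inr (.inr (.inr dωd)))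
  · exact key _ (.inr (.inr (.inl d2c))) (.inl d2ω)

/-- a subgroup of order 30 of `C300` that contains `X` and `d` contains `c` or `ω` -/
theorem c_or {Y : Subgroup Γ} (hY : Nat.card Y = 30) (hX : wd [356] ∈ Y) (hd : wd [350] ∈ Y)
    (le : Y ≤ SA ⊓ centralizer {wd [356]}) : wd [392] ∈ Y ∨ wd [396] ∈ Y := by
  obtain ⟨A, hA, h3, hn⟩ := norm30 hY hX X_ord (le.trans inf_le_right)
  rw [C300_eq] at le
  have := Fact.mk Nat.prime_three
  obtain ⟨g, hg, h1⟩ := exists_conj_le (k := 1) Nat.prime_three (C300_card c1)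
    (fact_eq (m := 100) Nat.prime_three (by norm_num) (by norm_num)) ((Cc_card c1).trans (pow_one 3).symm)
    (subW_le.2 fun w hw => mem_subW ((by decide : ∀ w ∈ _, w ∈ _) w hw))
    (IsPGroup.of_card (h3.trans (pow_one 3).symm)) (hA.trans le)
  have h2 : A.map (MulAut.conj g).toMonoidHom = subW gs1 [[392]] := eq_of_le_of_card_ge
    (by rintro _ ⟨a, ha, rfl⟩; exact h1 a ha)
    (by rw [card_map_of_injective (MulAut.conj g).injective, h3, Cc_card c1])
  have h4 : g * wd [350] * g⁻¹ ∈ subW gs1 [[356], [392], [350]] := by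
    rw [← n30 c1]
    refine mem_inf.2 ⟨mul_mem (mul_mem hg (le hd)) (inv_mem hg), mem_normalizer_fintype fun x hx => ?_⟩
    obtain ⟨a, ha, rfl⟩ : x ∈ A.map (MulAut.conj g).toMonoidHom := h2 ▸ hx
    have := h1 _ ((mem_normalizer_iff.1 (hn hd) a).1 ha)
    simpa [mul_assoc] using this
  have := Fact.mk Nat.prime_two
  obtain ⟨t, ht, h5⟩ := exists_conj_le (k := 1) (H := zpowers (wd [350])) Nat.prime_two (T30_card c1)
    (fact_eq (m := 15) Nat.prime_two (by norm_num) (by norm_num))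
    (by rw [Nat.card_zpowers, orderOf_eq_prime d_sq d_ne, pow_one])
    (zpowers_le.2 (mem_subW (by decide)))
    (isPGroup_zpowers Nat.prime_two (z := g * wd [350] * g⁻¹) (by rw [conj_pow, d_sq]; simp)) (zpowers_le.2 h4)
  have h6 : t * g * wd [350] * (t * g)⁻¹ = wd [350] := by
    have h7 := h5 _ (mem_zpowers _)
    rw [mem_zpowers_iff_mem_range_orderOf, orderOf_eq_prime d_sq d_ne] at h7
    obtain ⟨k, hk, e⟩ := Finset.mem_image.1 h7
    rw [Finset.mem_range] at hk
    interval_cases k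
    · rw [pow_zero, eq_comm, conj_eq_one_iff, conj_eq_one_iff] at e
      exact (d_ne e).elim
    · rw [pow_one] at e
      exact Eq.trans (by group) e.symm
  have ht' := n30 c1 ▸ ht
  have h8 : t * g ∈ subW gs1 [[356], [350], [394]] := by
    rw [← c20 c1, cent_single]
    exact ⟨mul_mem ht'.1 hg, mem_centralizer_singleton_iff.2 (mul_inv_eq_iff_eq_mul.1 h6)⟩
  obtain ⟨a, ha, e⟩ : t⁻¹ * wd [392] * t ∈ A.map (MulAut.conj g).toMonoidHom :=
    h2 ▸ (mem_normalizer_iff''.1 ht'.2 _).1 (mem_subW (by decide))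
  have h9 := (inv_mem (c20_norm h8) (wd [392])).1 (.inl rfl)
  rw [inv_inv] at h9
  rw [show (t * g)⁻¹ * wd [392] * (t * g) = a by
    calc _ = g⁻¹ * (t⁻¹ * wd [392] * t) * g := by group
      _ = _ := by rw [← e]; simp [mul_assoc]] at h9
  rcases h9 with rfl | rfl | rfl | rfl
  exacts [.inl (hA ha), .inl (inv_mem_iff.1 (hA ha)), .inr (hA ha), .inr (inv_mem_iff.1 (hA ha))]

variable {G : Type*} [Group G] [Finite G] {c : JF G} {F : ℕ → G}

theorem JF.w3 (c : JF G) : c.w ^ 3 = 1 := by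
  rw [pow_three']
  exact c.lift ((Commute.mul_right (Commute.mul_right c.σw c.σw) c.σw)) (Commute.one_right _)
    (c.jc.ac_mulc (c.jc.ac_mul c.aw c.aw) c.aw kI) (c.jc.ac_J (one_mem _))

namespace S1

variable (h : S1 c F)
include h

theorem index_eq : (pre F SH1).relIndex (normalizer (h.qc.sub 0 : Set G)) = SH1.relIndex (hat h.qc).range := by
  rw [← index_comap, relIndex]
  congr 1
  ext a
  exact ⟨fun ⟨g, hg, e⟩ => show hat h.qc a ∈ SH1 from (rp_hat h.qc a).uniq h.qc e ▸ hg,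
    fun e => ⟨_, e, rp_hat h.qc a⟩⟩

theorem index_mod : SH1.relIndex (hat h.qc).range ≡ 1 [MOD 27] := by
  have := Fact.mk Nat.prime_three
  have hw := c.jc.ac_norm c.aw
  have hP : IsPGroup 3 (c.J ⊔ zpowers c.w : Subgroup G) :=
    (IsPGroup.of_card (n := 4) c.jc.card_J).to_sup_of_normal_left' (isPGroup_zpowers Nat.prime_three c.w3)
      (zpowers_le.2 hw)
  set R := (c.J ⊔ zpowers c.w) ⊓ centralizer {c.i} with hR
  have hRP : IsPGroup 3 R := hP.to_le inf_le_left
  have hz : c.z ∈ c.J := c.e1 ▸ c.jc.mem_J (by omega)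
  have hy : c.y ∈ c.J := c.e27 ▸ c.jc.mem_J (by omega)
  have mem : ∀ a ∈ c.J, a * c.i = c.i * a → a ∈ R ⊓ c.J := fun a ha e =>
    ⟨⟨mem_sup_left ha, mem_centralizer_singleton_iff.2 e⟩, ha⟩
  have h27 : 27 ∣ Nat.card R := by
    have s1 := pow_step Nat.prime_three (A := ⊥) (B := R ⊓ c.J ⊓ centralizer {c.w})
      (hRP.to_le (inf_le_left.trans inf_le_left)) bot_le (x := c.z)
      ⟨mem _ hz c.zi, mem_centralizer_singleton_iff.2 (c.e1 ▸ ((c.jc.ac_fix c.aw (by omega)).2 rfl).symm)⟩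
      (fun e => absurd (c.jc.ne 1 (by omega) (c.e1.trans e)) (by omega))
    have s2 := pow_step Nat.prime_three (A := R ⊓ c.J ⊓ centralizer {c.w}) (hRP.to_le inf_le_left) inf_le_left
      (mem _ hy c.yi) fun e => absurd ((c.jc.ac_fix c.aw (m := 27) (by omega)).1
        (c.e27 ▸ (mem_centralizer_singleton_iff.1 e.2).symm)) (by decide)
    have s3 := pow_step Nat.prime_three (A := R ⊓ c.J) hRP inf_le_left (x := c.w)
      ⟨mem_sup_right (mem_zpowers _), mem_centralizer_singleton_iff.2 c.wi⟩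
      fun e => absurd (c.jc.ac_uniq c.aw (c.jc.ac_J e.2) (m := 27) (by omega)) (by decide)
    rw [card_bot] at s1
    exact (Nat.mul_dvd_mul_left 3 ((Nat.mul_dvd_mul_left 3 s1).trans s2)).trans s3
  have hle : R ≤ pre F SH1 := fun a ha => h.norm_J ((sup_le le_normalizer (zpowers_le.2 hw) :) ha.1)
    (Commute.mul_right (mem_centralizer_singleton_iff.1 ha.2) (mem_centralizer_singleton_iff.1 ha.2))
  have hN : pre F SH1 ≤ normalizer (h.qc.sub 0 : Set G) := fun _ ⟨_, _, e⟩ => e.norm h.qc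
  have key := free_mod (H := (pre F SH1).subgroupOf (normalizer (h.qc.sub 0 : Set G))) (R := R.subgroupOf _)
    (fun a ha => hle ha) fun g a ha a1 e => by
      replace ha : (a : G) ∈ R := ha
      obtain ⟨k, hk⟩ := (IsPGroup.iff_orderOf.1 hRP) ⟨a, ha⟩
      rw [orderOf_mk] at hk
      have h3 : orderOf ((a : G) ^ (orderOf (a : G) / 3)) = 3 := orderOf_pow_orderOf_div (orderOf_pos _).ne' (by
        rcases k with _ | k
        · exact (a1 (Subtype.ext (orderOf_eq_one_iff.1 hk))).elim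
        · exact hk ▸ dvd_pow_self 3 k.succ_ne_zero)
      have hb : (a : G) ^ (orderOf (a : G) / 3) ∈ R := pow_mem ha _
      have e' : (g : G)⁻¹ * (a : G) ^ (orderOf (a : G) / 3) * g ∈ pre F SH1 := by
        have := pow_mem (show (g : G)⁻¹ * a * (g : G)⁻¹⁻¹ ∈ pre F SH1 by rw [inv_inv]; exact e) (orderOf (a : G) / 3)
        rwa [conj_pow, inv_inv] at this
      generalize (a : G) ^ (orderOf (a : G) / 3) = b at h3 hb e'
      have b3 : b ^ 3 = 1 := h3 ▸ pow_orderOf_eq_one b
      refine h.ctl (k := (g : G)) (h.norm_r g.2) e' (by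
        rw [show (g : G)⁻¹ * b * g = (g : G)⁻¹ * b * (g : G)⁻¹⁻¹ by group, conj_pow, b3]; simp) ?_
      rw [show (g : G) * ((g : G)⁻¹ * b * g) * (g : G)⁻¹ = b by group]
      exact h.tight (hle hb) b3 (fun e => by rw [e, orderOf_one] at h3; omega) (m := 419) (by omega) (by omega)
        (h.fi ▸ mem_centralizer_singleton_iff.1 hb.2)
  rw [Nat.card_congr (subgroupOfEquivOfLe (hle.trans hN)).toEquiv] at key
  rw [← h.index_eq]
  exact key.of_dvd h27

theorem ω_not : wd [396] ∉ (hat h.qc).range := fun hω => by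
  obtain ⟨a, ha⟩ := (mem_range h.qc).1 hω
  obtain ⟨b, hb, -⟩ := h.lift_odd ha (n := 3) (by decide) wd_cube
  obtain ⟨g, hg, e⟩ := h.tight_z b (h.comm_odd hb h.rz (n := 3) (by decide) (c.e1 ▸ c.jc.cube (by omega)) wd_comm)
    (h.rp_r hb)
  rw [e.uniq h.qc hb] at hg
  have h1 : wd [396] ∈ subW gs1 [[356], [350]] := T10_eq ▸ ⟨hg, mem_centralizer_singleton_iff.2 (Eq.symm wd_comm)⟩
  have h2 := orderOf_dvd_natCard (⟨_, h1⟩ : subW gs1 [[356], [350]])
  rw [T10_card c1, orderOf_mk, ← d2c, ← MulAut.conj_apply, MulEquiv.orderOf_eq, c_ord] at h2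
  omega

theorem range_or : (hat h.qc).range = SH1 ∨ ((hat h.qc).range = SH ∧ Nat.card SH = 371589120) := by
  have hm := h.index_mod
  have hle := h.SH1_le_range
  have hle' := range_le h.qc
  have hω := h.ω_not
  generalize (hat h.qc).range = W at hm hle hle' hω ⊢
  have c0 : ∀ {A B : Subgroup Γ}, A ≤ B → A.relIndex B * Nat.card A = Nat.card B := fun hAB => by
    rw [← Nat.card_congr (subgroupOfEquivOfLe hAB).toEquiv]; exact index_mul_card _
  have c1' := c0 hle
  have c2 := c0 hle'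
  rw [card_SH1] at c1'
  rw [show Nat.card SA = 89181388800 from ψ_eq.2.card_eq (GA_lb c1), ← c1'] at c2
  have hd : SH1.relIndex W ∣ 6720 := Dvd.intro_left (W.relIndex SA) (by linarith [mul_assoc (W.relIndex SA) (SH1.relIndex W) 13271040])
  rcases (by decide +kernel : ∀ n ∈ Nat.divisors 6720, n % 27 = 1 % 27 → n = 1 ∨ n = 28) _
    (Nat.mem_divisors.2 ⟨hd, by omega⟩) hm with e | e
  · exact .inl (le_antisymm (relIndex_eq_one.1 e) hle)
  have hX : wd [356] ∈ SH1 := mem_SH1
  have X5 : wd [356] ^ 5 = 1 := X_ord ▸ pow_orderOf_eq_one _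
  have p5 : Nat.Prime 5 := by norm_num
  have cls : Cls 5 SH1 SH1 gs1 [[], [356]] := (c5_cls c1).up (k := 1) p5 card_SH1
    (fact_eq (m := 2654208) p5 (by norm_num) (by norm_num)) ((P5_card c1).trans (pow_one 5).symm)
    (subW_le.2 fun w hw => by rw [List.mem_singleton.1 hw]; exact hX)
  have hf := fix_mod (H := SH1.subgroupOf W) (x := ⟨_, hle hX⟩) p5 hX
    (fun e => by have := X_ord; rw [show wd [356] = 1 from congrArg Subtype.val e, orderOf_one] at this; omega)
    (Subtype.ext X5) fun z hz z5 => by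
      obtain ⟨r, hr, y, hy, e⟩ := cls z hz (congrArg Subtype.val z5)
      simp only [List.mem_cons, List.not_mem_nil, or_false] at hr
      rcases hr with rfl | rfl
      · exact .inl (Subtype.ext (by rw [← e, wordG_nil]; simp))
      · exact .inr ⟨⟨y, hle hy⟩, hy, Subtype.ext e⟩
  rw [show centralizer {(⟨_, hle hX⟩ : W)} = (W ⊓ centralizer {wd [356]}).subgroupOf W by
    ext a
    rw [mem_subgroupOf, mem_inf, mem_centralizer_singleton_iff, mem_centralizer_singleton_iff, Subtype.ext_iff]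
    exact ⟨fun e => ⟨a.2, e⟩, fun e => e.2⟩, relIndex_subgroupOf inf_le_left, ← relIndex, e,
    ← inf_relIndex_right, ← inf_assoc, inf_eq_left.2 hle] at hf
  have c3 := c0 (inf_le_inf_right (centralizer {wd [356]}) hle)
  have c4 := card_dvd_of_le (inf_le_inf_right (centralizer {wd [356]}) hle')
  rw [C300_eq, C300_card c1, ← c3] at c4
  generalize (SH1 ⊓ centralizer {wd [356]}).relIndex (W ⊓ centralizer {wd [356]}) = f at hf c3 c4
  rw [T10_eq, T10_card c1] at c3 c4
  have f3 : f = 3 := (by decide : ∀ f ∈ Nat.divisors 30, 28 % 5 = f % 5 → f = 3) f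
    (Nat.mem_divisors.2 ⟨Nat.dvd_of_mul_dvd_mul_right (k := 10) (by omega) c4, by omega⟩) hf
  have hc := (c_or (Y := W ⊓ centralizer {wd [356]}) (by rw [← c3, f3]) ⟨hle hX, mem_centralizer_singleton_iff.2 rfl⟩
    ⟨hle mem_SH1, mem_centralizer_singleton_iff.2 (Eq.symm wd_comm)⟩ (inf_le_inf_right _ hle')).resolve_right
    fun e => hω e.1
  have h5 : SH ≤ W := (G_le c1).trans (subW_le.2 fun w hw => by
    by_cases e : w = [392]
    exacts [e ▸ hc.1, hle (mem_subW ((by decide : ∀ w ∈ _, w ≠ [392] → w ∈ _) w hw e))])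
  have h6 : SH = W := (UB.of_card (m := 371589120) (by rw [← c1', e]) (by omega)).eq_of_lb (G_lb c1) h5
  exact .inr ⟨h6.symm, by rw [h6, ← c1', e]⟩

end S1

end CL.C23
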