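/-
Standard subgroups `2^2.L_3(4)`: a model of the Sylow 2-subgroup of order 256.
-/
import Cfsg.Agent.Spor.ONSDat

set_option autoImplicit false
set_option synthInstance.maxSize 2000

namespace CL.HeS
open Subgroup

/-- evaluate `n` first -/
noncomputable def fr {α : Type} (n : ℕ) (f : ℕ → α) : α :=
  Nat.rec (motive := fun _ => α) (f (nat_lit 0)) (fun k _ => f k) (Nat.add n (nat_lit 1))
/-- bounded conjunction -/
noncomputable def al (N : ℕ) (p : ℕ → Bool) : Bool :=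
  Nat.rec (motive := fun _ => Bool) true (fun k ih => Bool.rec false ih (p k)) N

theorem al_iff (N : ℕ) (p : ℕ → Bool) : al N p = true ↔ ∀ c < N, p c = true := by
  induction N with
  | zero => exact ⟨fun _ c hc => absurd hc (Nat.not_lt_zero c), fun _ => rfl⟩
  | succ N ih =>
    rw [Nat.forall_lt_succ_right, ← ih, show al (N + 1) p = Bool.rec false (al N p) (p N) from rfl]
    cases p N <;> simp

noncomputable scoped instance (priority := high) fastAll (N : ℕ) (P : ℕ → Prop) [DecidablePred P] :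
    Decidable (∀ c < N, P c) :=
  decidable_of_iff (al N (fun c => decide (P c)) = true) (by simp only [al_iff, decide_eq_true_eq])

noncomputable scoped instance (priority := high) fastEx (N : ℕ) (P : ℕ → Prop) [DecidablePred P] :
    Decidable (∃ c < N, P c) :=
  decidable_of_iff (al N (fun c => !decide (P c)) = false) (by
    rw [← Bool.not_eq_true, al_iff]; simp)

/-- product of codes -/
noncomputable def tm (x y : ℕ) : ℕ := fr x fun x => fr y fun y => Nat.xor (Nat.xor x y) (Nat.mul (nat_lit 16)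
  (Nat.mul (Nat.mod (Nat.div x (nat_lit 4)) (nat_lit 4)) (Nat.add (Nat.mod y (nat_lit 2))
    (Nat.mul (nat_lit 2) (Nat.sub (Nat.mod y (nat_lit 4)) (Nat.mod y (nat_lit 2)))))))
theorem tm_def (x y : ℕ) : tm x y = x ^^^ y ^^^ 16 * (x / 4 % 4 * (y % 2 + 2 * (y % 4 - y % 2))) := rfl
/-- inverse of a code -/
noncomputable def ti (x : ℕ) : ℕ := fr x fun x => tm x (tm x x)
/-- conjugation of codes -/
noncomputable def cj (s x : ℕ) : ℕ := fr s fun s => tm (tm s x) (ti s)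
/-- commutator of two involutions -/
noncomputable def cm (x y : ℕ) : ℕ := fr (tm x y) fun u => tm u u
/-- an element of a four group, as a code -/
noncomputable def bn (x y a : ℕ) : ℕ := fr a fun a => tm (cond (a.testBit 0) x 0) (cond (a.testBit 1) y 0)
/-- images of the four generators -/
abbrev W4 := ℕ × ℕ × ℕ × ℕ
/-- the endomorphism with given images of the generators -/
noncomputable def ap (w : W4) (c : ℕ) : ℕ := fr c fun c => tm (tm (tm (bn w.1 w.2.1 c) (bn w.2.2.1 w.2.2.2 (c / 4)))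
  (bn (cm w.1 w.2.2.1) (cm w.1 w.2.2.2) (c / 16))) (bn (cm w.2.1 w.2.2.1) (cm w.2.1 w.2.2.2) (c / 64))
/-- composition -/
noncomputable def cp (w u : W4) : W4 := (ap w u.1, ap w u.2.1, ap w u.2.2.1, ap w u.2.2.2)

theorem fr_eq {α : Type} (n : ℕ) (f : ℕ → α) : fr n f = f n := rfl

variable {G H : Type*} [Group G] [Group H]

/-- an element of a four group -/
def bg (x y : G) (a : ℕ) : G := cond (a.testBit 0) x 1 * cond (a.testBit 1) y 1

theorem bg_xor {x y : G} (hx : x * x = 1) (hy : y * y = 1) (h : x * y = y * x) (a b : ℕ) :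
    bg x y (a ^^^ b) = bg x y a * bg x y b := by
  have h1 : ∀ t, x * (x * t) = t := fun t => by rw [← mul_assoc, hx, one_mul]
  have h2 : ∀ t, y * (x * t) = x * (y * t) := fun t => by rw [← mul_assoc, ← h, mul_assoc]
  simp only [bg, Nat.testBit_xor]
  cases a.testBit 0 <;> cases a.testBit 1 <;> cases b.testBit 0 <;> cases b.testBit 1 <;>
    simp [hx, hy, ← h, h1, h2, mul_assoc]

theorem bg_mod (x y : G) (a : ℕ) : bg x y (a % 4) = bg x y a := by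
  simp only [bg, show 4 = 2 ^ 2 from rfl, Nat.testBit_mod_two_pow]; simp

theorem bg_comm {x y t : G} (hx : Commute x t) (hy : Commute y t) (a : ℕ) : Commute (bg x y a) t := by
  unfold bg
  cases a.testBit 0 <;> cases a.testBit 1 <;> simp [hx, hy, hx.mul_left hy]

theorem map_bg (f : G →* H) (x y : G) (a : ℕ) : f (bg x y a) = bg (f x) (f y) a := by
  unfold bg
  cases a.testBit 0 <;> cases a.testBit 1 <;> simp

/-- four generators -/
structure Gen (G : Type*) where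
  (p₁ p₂ q₁ q₂ : G)

namespace Gen
variable (X : Gen G)

/-- the element with a given code -/
def v (c : ℕ) : G := bg X.p₁ X.p₂ c * bg X.q₁ X.q₂ (c / 4) *
  bg (X.p₁ * X.q₁ * (X.p₁ * X.q₁)) (X.p₁ * X.q₂ * (X.p₁ * X.q₂)) (c / 16) *
  bg (X.p₂ * X.q₁ * (X.p₂ * X.q₁)) (X.p₂ * X.q₂ * (X.p₂ * X.q₂)) (c / 64)

/-- image under a homomorphism -/
def map (f : G →* H) : Gen H := ⟨f X.p₁, f X.p₂, f X.q₁, f X.q₂⟩

theorem map_v (f : G →* H) (c : ℕ) : (X.map f).v c = f (X.v c) := by simp only [v, map, map_mul, map_bg]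

theorem v0 : X.v 0 = 1 := by simp [v, bg]
theorem v1 : X.v 1 = X.p₁ := by simp [v, bg, Nat.testBit]
theorem v2 : X.v 2 = X.p₂ := by simp [v, bg, Nat.testBit]
theorem v4 : X.v 4 = X.q₁ := by simp [v, bg, Nat.testBit]
theorem v8 : X.v 8 = X.q₂ := by simp [v, bg, Nat.testBit]

theorem v_mem {K : Subgroup G} (h1 : X.p₁ ∈ K) (h2 : X.p₂ ∈ K) (h3 : X.q₁ ∈ K) (h4 : X.q₂ ∈ K) (c : ℕ) : X.v c ∈ K := by
  have h : ∀ {x y : G} (a : ℕ), x ∈ K → y ∈ K → bg x y a ∈ K := fun a hx hy => by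
    unfold bg
    cases a.testBit 0 <;> cases a.testBit 1 <;> simp [hx, hy, mul_mem hx hy]
  have h' : ∀ {x y : G}, x ∈ K → y ∈ K → x * y * (x * y) ∈ K := fun hx hy => mul_mem (mul_mem hx hy) (mul_mem hx hy)
  exact mul_mem (mul_mem (mul_mem (h _ h1 h2) (h _ h3 h4)) (h _ (h' h1 h3) (h' h1 h4))) (h _ (h' h2 h3) (h' h2 h4))

/-- the defining relations -/
structure Rel : Prop where
  sq : ∀ x ∈ [X.p₁, X.p₂, X.q₁, X.q₂], x * x = 1
  pp : X.p₁ * X.p₂ = X.p₂ * X.p₁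
  qq : X.q₁ * X.q₂ = X.q₂ * X.q₁
  cc : ∀ p ∈ [X.p₁, X.p₂], ∀ q ∈ [X.q₁, X.q₂], ∀ x ∈ [X.p₁, X.p₂, X.q₁, X.q₂], Commute (p * q * (p * q)) x

variable {X}

theorem Rel.map (h : X.Rel) (f : G →* H) : (X.map f).Rel := by
  have e : ∀ l : List G, (∀ x ∈ l.map f, ∃ y ∈ l, x = f y) := fun l x hx => by
    obtain ⟨y, hy, rfl⟩ := List.mem_map.1 hx
    exact ⟨y, hy, rfl⟩
  refine ⟨fun x hx => ?_, by simp only [Gen.map, ← map_mul, h.pp], by simp only [Gen.map, ← map_mul, h.qq],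
    fun p hp q hq x hx => ?_⟩
  · obtain ⟨x, hx', rfl⟩ := e [X.p₁, X.p₂, X.q₁, X.q₂] x hx
    rw [← map_mul, h.sq x hx', map_one]
  · obtain ⟨x, hx', rfl⟩ := e [X.p₁, X.p₂, X.q₁, X.q₂] x hx
    obtain ⟨p, hp', rfl⟩ := e [X.p₁, X.p₂] p hp
    obtain ⟨q, hq', rfl⟩ := e [X.q₁, X.q₂] q hq
    simpa only [map_mul] using (h.cc p hp' q hq' x hx').map f

theorem swap {p q : G} (hp : p * p = 1) (hq : q * q = 1) (h : Commute (p * q * (p * q)) p) :
    p * q * (p * q) * (p * q * (p * q)) = 1 ∧ q * p = p * q * (p * q * (p * q)) := by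
  have ip := inv_eq_of_mul_eq_one_right hp
  have iq := inv_eq_of_mul_eq_one_right hq
  have h1 : p * q * (p * q) = (p * q * (p * q))⁻¹ := by
    calc _ = p⁻¹ * (p * q * (p * q) * p) := by rw [h.eq]; group
      _ = _ := by simp only [mul_inv_rev, ip, iq]; simp only [← mul_assoc, hp, one_mul]
  have h2 := eq_inv_iff_mul_eq_one.1 h1
  refine ⟨h2, ?_⟩
  calc q * p = (p * q)⁻¹ * (p * q * (p * q) * (p * q * (p * q))) := by rw [h2, mul_inv_rev, ip, iq, mul_one]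
    _ = _ := by group

theorem swap_bg {p x y c d : G} (h1 : x * p = p * x * c) (h2 : y * p = p * y * d) (h3 : Commute c y) (a : ℕ) :
    bg x y a * p = p * bg x y a * bg c d a := by
  unfold bg
  cases a.testBit 0 <;> cases a.testBit 1 <;> simp only [cond, one_mul, mul_one, h1, h2]
  rw [mul_assoc, h2, ← mul_assoc, ← mul_assoc, h1, mul_assoc _ c, h3.eq]; simp only [mul_assoc]

theorem Rel.mul (h : X.Rel) (a b : ℕ) : X.v (tm a b) = X.v a * X.v b := by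
  obtain ⟨h1, h2, h3, h4⟩ := h
  have h6 : ∀ p ∈ [X.p₁, X.p₂], ∀ q ∈ [X.q₁, X.q₂], _ := fun p hp q hq =>
    swap (h1 p (by rcases List.mem_pair.1 hp with rfl | rfl <;> simp))
      (h1 q (by rcases List.mem_pair.1 hq with rfl | rfl <;> simp))
      (h4 p hp q hq p (by rcases List.mem_pair.1 hp with rfl | rfl <;> simp))
  simp only [List.forall_mem_cons, List.not_mem_nil, false_imp_iff, implies_true, and_true] at h1 h4 h6
  obtain ⟨⟨⟨a1, a2, a3, a4⟩, b1, b2, b3, b4⟩, ⟨c1, c2, c3, c4⟩, d1, d2, d3, d4⟩ := h4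
  obtain ⟨⟨⟨s1, t1⟩, s2, t2⟩, ⟨s3, t3⟩, s4, t4⟩ := h6
  have cm : ∀ {c p q : G}, Commute c p → Commute c q → Commute c (p * q * (p * q)) := fun h h' =>
    (h.mul_right h').mul_right (h.mul_right h')
  have e1 := cm a1 a4
  have e2 := cm c2 c4
  have f1 := cm a2 a3
  have f2 := cm a2 a4
  have f3 := cm b2 b3
  have f4 := cm b2 b4
  rw [tm_def]
  unfold v
  generalize X.p₁ * X.q₁ * (X.p₁ * X.q₁) = c11 at *
  generalize X.p₁ * X.q₂ * (X.p₁ * X.q₂) = c12 at *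
  generalize X.p₂ * X.q₁ * (X.p₂ * X.q₁) = c21 at *
  generalize X.p₂ * X.q₂ * (X.p₂ * X.q₂) = c22 at *
  have g1 : ∀ i j, Commute (bg c11 c12 i) (bg X.p₁ X.p₂ j) := fun i j =>
    bg_comm (bg_comm a1.symm a2.symm _).symm (bg_comm b1.symm b2.symm _).symm _
  have g2 : ∀ i j, Commute (bg c11 c12 i) (bg X.q₁ X.q₂ j) := fun i j =>
    bg_comm (bg_comm a3.symm a4.symm _).symm (bg_comm b3.symm b4.symm _).symm _
  have g3 : ∀ i j, Commute (bg c21 c22 i) (bg X.p₁ X.p₂ j) := fun i j =>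
    bg_comm (bg_comm c1.symm c2.symm _).symm (bg_comm d1.symm d2.symm _).symm _
  have g4 : ∀ i j, Commute (bg c21 c22 i) (bg X.q₁ X.q₂ j) := fun i j =>
    bg_comm (bg_comm c3.symm c4.symm _).symm (bg_comm d3.symm d4.symm _).symm _
  have g5 : ∀ i j, Commute (bg c21 c22 i) (bg c11 c12 j) := fun i j =>
    bg_comm (bg_comm f1 f3 _).symm (bg_comm f2 f4 _).symm _
  have key : ∀ α < 4, ∀ β < 4, ∀ k, k = 16 * (α * (β % 2 + 2 * (β - β % 2))) → bg X.p₁ X.p₂ k = 1 ∧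
      bg X.q₁ X.q₂ (k / 4) = 1 ∧ bg X.q₁ X.q₂ α * bg X.p₁ X.p₂ β =
        bg X.p₁ X.p₂ β * bg X.q₁ X.q₂ α * (bg c11 c12 (k / 16) * bg c21 c22 (k / 64)) := by
    intro α hα β hβ k hk
    refine ⟨by rw [← bg_mod, show k % 4 = 0 by omega]; simp [bg], by
      rw [← bg_mod, show k / 4 % 4 = 0 by omega]; simp [bg], ?_⟩
    have u1 := swap_bg t1 t2 a4 α
    have u2 := swap_bg t3 t4 c4 α
    have u0 : ∀ x y : G, bg x y 0 = 1 := fun x y => by simp [bg]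
    interval_cases β <;> norm_num at hk
    · simp [hk, u0]
    · rw [show k / 16 = α by omega, show k / 64 = 0 by omega, u0, mul_one]
      simpa [bg, Nat.testBit] using u1
    · rw [← bg_mod c11, show k / 16 % 4 = 0 by omega, show k / 64 = α by omega, u0, one_mul]
      simpa [bg, Nat.testBit] using u2
    · rw [← bg_mod c11, show k / 16 % 4 = α by omega, show k / 64 = α by omega,
        show bg X.p₁ X.p₂ 3 = X.p₁ * X.p₂ by simp [bg, Nat.testBit], ← mul_assoc, u1, mul_assoc,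
        (bg_comm a2 b2 α).eq, ← mul_assoc, mul_assoc X.p₁, u2, ← (g5 α α).eq]
      simp only [mul_assoc]
  obtain ⟨k1, k2, k3⟩ := key (a / 4 % 4) (Nat.mod_lt _ (by norm_num)) (b % 4) (Nat.mod_lt _ (by norm_num)) _ rfl
  rw [Nat.mod_mod_of_dvd b (by norm_num : 2 ∣ 4)] at k1 k2 k3
  rw [bg_mod, bg_mod] at k3
  generalize 16 * (a / 4 % 4 * (b % 2 + 2 * (b % 4 - b % 2))) = k at *
  have x4 : ∀ m n : ℕ, (m ^^^ n) / 4 = m / 4 ^^^ n / 4 := fun m n => Nat.xor_div_two_pow (n := 2)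
  have x16 : ∀ m n : ℕ, (m ^^^ n) / 16 = m / 16 ^^^ n / 16 := fun m n => Nat.xor_div_two_pow (n := 4)
  have x64 : ∀ m n : ℕ, (m ^^^ n) / 64 = m / 64 ^^^ n / 64 := fun m n => Nat.xor_div_two_pow (n := 6)
  simp only [x4, x16, x64, bg_xor h1.1 h1.2.1 h2, bg_xor h1.2.2.1 h1.2.2.2 h3, bg_xor s1 s2 e1.eq,
    bg_xor s3 s4 e2.eq, k1, k2, mul_one]
  simp only [mul_assoc, (g1 _ _).left_comm, (g2 _ _).left_comm, (g3 _ _).left_comm, (g4 _ _).left_comm,
    (g5 _ _).left_comm]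
  rw [← mul_assoc (bg X.q₁ X.q₂ (a / 4)) (bg X.p₁ X.p₂ b), k3]
  have g6 : ∀ {x y : G}, Commute x y → ∀ i j, Commute (bg x y i) (bg x y j) := fun h i j =>
    bg_comm (bg_comm (Commute.refl _) h.symm _).symm (bg_comm h (Commute.refl _) _).symm _
  simp only [mul_assoc, (g2 _ _).left_comm, (g4 _ _).left_comm, (g5 _ _).left_comm]
  rw [(g6 e1 (k / 16) (a / 16)).left_comm, (g6 e1 (k / 16) (b / 16)).left_comm, (g6 e2 (k / 64) (a / 64)).left_comm,
    (g6 e2 (k / 64) (b / 64)).eq]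

theorem v_mod (X : Gen G) (c : ℕ) : X.v (c % 256) = X.v c := by
  unfold v
  rw [← bg_mod _ _ (c % 256), ← bg_mod _ _ (c % 256 / 4), ← bg_mod _ _ (c % 256 / 16), ← bg_mod _ _ (c % 256 / 64),
    show c % 256 % 4 = c % 4 by omega, show c % 256 / 4 % 4 = c / 4 % 4 by omega,
    show c % 256 / 16 % 4 = c / 16 % 4 by omega, show c % 256 / 64 % 4 = c / 64 % 4 by omega]
  simp only [bg_mod]

theorem v_congr (X : Gen G) {a b : ℕ} (h : a % 256 = b % 256) : X.v a = X.v b := by rw [← v_mod, h, v_mod]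

theorem Rel.inv (h : X.Rel) (a : ℕ) : X.v (ti a) = (X.v a)⁻¹ := by
  have h1 := congrArg X.v ((by decide +kernel : ∀ c < 256, tm c (ti c) = 0) (a % 256) (Nat.mod_lt _ (by norm_num)))
  simp only [ti, fr_eq, h.mul, v_mod, v0] at h1 ⊢
  exact eq_inv_of_mul_eq_one_right h1

theorem Rel.cj (h : X.Rel) (s a : ℕ) : X.v (cj s a) = X.v s * X.v a * (X.v s)⁻¹ := by
  rw [HeS.cj, fr_eq, h.mul, h.mul, h.inv]

theorem Rel.cm (h : X.Rel) (a b : ℕ) : X.v (cm a b) = X.v a * X.v b * (X.v a * X.v b) := by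
  rw [HeS.cm, fr_eq, h.mul, h.mul]

theorem Rel.bn (h : X.Rel) (x y a : ℕ) : X.v (bn x y a) = bg (X.v x) (X.v y) a := by
  rw [HeS.bn, fr_eq, bg]
  cases a.testBit 0 <;> cases a.testBit 1 <;> simp [h.mul, v0]

theorem Rel.ap (h : X.Rel) (w : W4) (c : ℕ) :
    X.v (ap w c) = Gen.v ⟨X.v w.1, X.v w.2.1, X.v w.2.2.1, X.v w.2.2.2⟩ c := by
  simp only [HeS.ap, fr_eq, h.mul, h.bn, h.cm]; rfl

/-- the subgroup of the coded elements -/
def Rel.T (h : X.Rel) : Subgroup G where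
  carrier := {x | ∃ c < 256, X.v c = x}
  one_mem' := ⟨0, by norm_num, X.v0⟩
  mul_mem' := by
    rintro _ _ ⟨a, -, rfl⟩ ⟨b, -, rfl⟩
    exact ⟨_, Nat.mod_lt _ (by norm_num), (X.v_mod _).trans (h.mul a b)⟩
  inv_mem' := by
    rintro _ ⟨a, -, rfl⟩
    exact ⟨_, Nat.mod_lt _ (by norm_num), (X.v_mod _).trans (h.inv a)⟩

theorem Rel.memT (h : X.Rel) (c : ℕ) : X.v c ∈ h.T := ⟨_, Nat.mod_lt _ (by norm_num), X.v_mod _⟩

variable (X) in
/-- `n` acts as the automorphism `w` -/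
def Act (n : G) (w : W4) : Prop := ∀ c, n * X.v c * n⁻¹ = X.v (HeS.ap w c)

theorem Rel.act (h : X.Rel) {n : G} {w : W4} (h1 : n * X.v 1 * n⁻¹ = X.v w.1) (h2 : n * X.v 2 * n⁻¹ = X.v w.2.1)
    (h3 : n * X.v 4 * n⁻¹ = X.v w.2.2.1) (h4 : n * X.v 8 * n⁻¹ = X.v w.2.2.2) : X.Act n w := fun c => by
  rw [h.ap, ← h1, ← h2, ← h3, ← h4, v1, v2, v4, v8]
  exact (X.map_v (MulAut.conj n).toMonoidHom c).symm

theorem Rel.act_mul (h : X.Rel) {n m : G} {w u : W4} (h1 : X.Act n w) (h2 : X.Act m u) : X.Act (n * m) (cp w u) := by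
  have e : ∀ c, n * m * X.v c * (n * m)⁻¹ = X.v (HeS.ap w (HeS.ap u c)) := fun c => by rw [← h1, ← h2]; group
  have e' : ∀ c d, X.v (HeS.ap u c) = X.v d → X.v (HeS.ap w (HeS.ap u c)) = X.v (HeS.ap w d) := fun c d k => by
    rw [← h1, ← h1, k]
  refine h.act ((e _).trans (e' _ _ ?_)) ((e _).trans (e' _ _ ?_)) ((e _).trans (e' _ _ ?_))
    ((e _).trans (e' _ _ ?_)) <;> rw [h.ap]
  exacts [v1 _, v2 _, v4 _, v8 _]

theorem Rel.act_id (h : X.Rel) {n : G} : X.Act n (1, 2, 4, 8) ↔ ∀ c, n * X.v c = X.v c * n := by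
  have e : ∀ c, X.v (HeS.ap (1, 2, 4, 8) c) = X.v c := fun c => by rw [h.ap, v1, v2, v4, v8]
  exact forall_congr' fun c => by rw [e, mul_inv_eq_iff_eq_mul]

theorem Act.inv (h : X.Rel) {n : G} {w u : W4} (h1 : X.Act n w) (e : cp w u = (1, 2, 4, 8)) : X.Act n⁻¹ u := by
  simp only [cp, Prod.mk.injEq] at e
  obtain ⟨e1, e2, e3, e4⟩ := e
  refine h.act ?_ ?_ ?_ ?_
  · rw [← e1, ← h1]; group
  · rw [← e2, ← h1]; group
  · rw [← e3, ← h1]; group
  · rw [← e4, ← h1]; group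

theorem Rel.inj (h : X.Rel) {n : G} (hn : X.Act n (2, 3, 8, 12)) (h1 : X.v 96 ≠ 1) (h2 : X.v 176 ≠ 1)
    (h3 : X.v 208 ≠ 1) (h4 : X.v 112 ≠ 1) {a b : ℕ} (e : X.v a = X.v b) : a % 256 = b % 256 := by
  have k : ∀ c < 256, X.v c = 1 → c = 0 := fun c hc e => by
    by_contra h0
    obtain ⟨s, -, d, hd, h5⟩ := (by decide +kernel : ∀ c < 256, c ≠ 0 → ∃ s < 9, ∃ d ∈ [c, tm (HeS.cj s c) (ti c)],
      d = 96 ∨ d = 176 ∨ d = 208 ∨ ∃ i ∈ [tm d (HeS.ap (2, 3, 8, 12) d)],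
        i = 112 ∨ HeS.ap (2, 3, 8, 12) i = 112 ∨ HeS.ap (2, 3, 8, 12) (HeS.ap (2, 3, 8, 12) i) = 112) c hc h0
    have h6 : X.v d = 1 := by
      rcases List.mem_pair.1 hd with rfl | rfl
      · exact e
      · rw [h.mul, h.cj, h.inv, e]; simp
    have h7 : ∀ i, X.v i = 1 → X.v (HeS.ap (2, 3, 8, 12) i) = 1 := fun i hi => by rw [← hn, hi]; simp
    have h8 : X.v (tm d (HeS.ap (2, 3, 8, 12) d)) = 1 := by rw [h.mul, h6, h7 d h6, one_mul]
    simp only [List.mem_singleton, exists_eq_left] at h5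
    rcases h5 with rfl | rfl | rfl | h5 | h5 | h5
    exacts [h1 h6, h2 h6, h3 h6, h4 (h5 ▸ h8), h4 (h5 ▸ h7 _ h8), h4 (h5 ▸ h7 _ (h7 _ h8))]
  have h5 := k _ (Nat.mod_lt (tm (a % 256) (ti (b % 256))) (by norm_num)) (by
    rw [v_mod, h.mul, h.inv, v_mod, v_mod, e, mul_inv_cancel])
  exact (by decide +kernel : ∀ a < 256, ∀ b < 256, tm a (ti b) % 256 = 0 → a = b) _ (Nat.mod_lt _ (by norm_num)) _
    (Nat.mod_lt _ (by norm_num)) h5

theorem Rel.cen (h : X.Rel) {c : ℕ} (hc : c % 16 = 0) (d : ℕ) : X.v c * X.v d = X.v d * X.v c := by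
  rw [← h.mul, ← h.mul, tm_def, tm_def, show c / 4 % 4 = 0 by omega, show c % 2 = 0 by omega,
    show c % 4 = 0 by omega, Nat.xor_comm c]
  simp

theorem Rel.sqc (h : X.Rel) {c : ℕ} (hc : c % 16 = 0) : X.v c * X.v c = 1 := by
  rw [← h.mul, tm_def, show c / 4 % 4 = 0 by omega]
  simp [v0]

theorem Rel.pow4 (h : X.Rel) (c : ℕ) : X.v c ^ 2 ^ 2 = 1 := by
  have h1 := h.sqc ((by decide +kernel : ∀ c < 256, tm c c % 16 = 0) (c % 256) (Nat.mod_lt _ (by norm_num)))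
  rw [h.mul, v_mod] at h1
  rw [← h1, show 2 ^ 2 = 4 from rfl]; simp only [pow_succ, pow_zero, one_mul, mul_assoc]

theorem Rel.pT (h : X.Rel) : IsPGroup 2 h.T := by
  rintro ⟨_, c, -, rfl⟩
  exact ⟨2, Subtype.ext (h.pow4 c)⟩

theorem Act.mod {n : G} {w : W4} (h : X.Act n w) (c : ℕ) : X.v (HeS.ap w (c % 256)) = X.v (HeS.ap w c) := by
  rw [← h, ← h, v_mod]

theorem Act.cen (h : X.Rel) {n : G} {w : W4} (h1 : X.Act n w) {e : ℕ} (he : e % 16 = 0) : X.Act (X.v e * n) w :=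
  fun c => by
    rw [mul_inv_rev, mul_assoc, mul_assoc, ← mul_assoc (X.v c), ← mul_assoc n, ← mul_assoc n, h1, ← mul_assoc,
      h.cen he, mul_inv_cancel_right]

theorem Act.sq (h : X.Rel) {n : G} {w : W4} (h1 : X.Act n w) (c : ℕ) :
    X.v c * n * (X.v c * n) = X.v (tm c (HeS.ap w c)) * (n * n) := by
  rw [h.mul, ← h1]; group

variable (X) in
/-- `n` acts as `w` followed by an inner automorphism -/
def Pat (n : G) (w : W4) : Prop := ∃ s < 16, X.Act (X.v s * n) w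

theorem Rel.pat (h : X.Rel) {n : G} {w : W4} {s : ℕ} (h1 : X.Act (X.v s * n) w) : X.Pat n w := by
  obtain ⟨e, he, h2⟩ : ∃ e, e % 16 = 0 ∧ X.v (s % 16) = X.v e * X.v s := by
    obtain ⟨h3, h4⟩ := (by decide +kernel : ∀ s < 256, tm (s % 16) (ti s) % 16 = 0 ∧
      s % 16 = tm (tm (s % 16) (ti s)) s) (s % 256) (Nat.mod_lt _ (by norm_num))
    rw [show s % 256 % 16 = s % 16 by omega] at h3 h4
    exact ⟨_, h3, by rw [← v_mod X s, ← h.mul, ← h4]⟩
  exact ⟨s % 16, Nat.mod_lt _ (by norm_num), by rw [h2, mul_assoc]; exact h1.cen h he⟩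

theorem Act.pat (h : X.Rel) {n : G} {w : W4} (h1 : X.Act n w) : X.Pat n w :=
  ⟨0, by norm_num, by rwa [v0, one_mul]⟩

theorem Pat.mul (h : X.Rel) {n m : G} {w u : W4} (h1 : X.Pat n w) (h2 : X.Pat m u) : X.Pat (n * m) (cp w u) := by
  obtain ⟨s, -, h1⟩ := h1
  obtain ⟨s', -, h2⟩ := h2
  refine h.pat (s := tm (HeS.ap w s') s) ?_
  rw [h.mul, ← h1, show X.v s * n * X.v s' * (X.v s * n)⁻¹ * X.v s * (n * m) = X.v s * n * (X.v s' * m) by group]
  exact h.act_mul h1 h2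

theorem Pat.cen (h : X.Rel) {n : G} {w : W4} (h1 : X.Pat n w) {c : ℕ} (hc : HeS.ap w c % 16 = 0) :
    n * X.v c * n⁻¹ = X.v (HeS.ap w c) := by
  obtain ⟨s, -, h1⟩ := h1
  calc _ = (X.v s)⁻¹ * (X.v s * n * X.v c * (X.v s * n)⁻¹) * X.v s := by group
    _ = _ := by rw [h1, mul_assoc, h.cen hc, inv_mul_cancel_left]

theorem Pat.memT (h : X.Rel) {n : G} {w : W4} (h1 : X.Pat n w) {x : G} (hx : x ∈ h.T) : n * x * n⁻¹ ∈ h.T := by
  obtain ⟨s, -, h1⟩ := h1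
  obtain ⟨c, -, rfl⟩ := hx
  rw [show n * X.v c * n⁻¹ = (X.v s)⁻¹ * (X.v s * n * X.v c * (X.v s * n)⁻¹) * X.v s by group, h1]
  exact mul_mem (mul_mem (inv_mem (h.memT _)) (h.memT _)) (h.memT _)

end Gen

/-- the centre of `M` -/
def Zc : List ℕ := [0, 96, 176, 208]
/-- the involutions of the centre of `M` -/
def Z3 : List ℕ := [96, 176, 208]
/-- the involutions of the second four group -/
def A3 : List ℕ := [112, 144, 224]
/-- representatives of the outer automorphism group -/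
def Sec : List W4 := [(1, 2, 4, 8), (1, 3, 4, 12), (2, 1, 12, 8), (2, 3, 12, 4), (3, 1, 8, 12), (3, 2, 8, 4),
  (4, 8, 1, 2), (4, 12, 1, 3), (8, 4, 3, 2), (8, 12, 3, 1), (12, 4, 2, 3), (12, 8, 2, 1)]
/-- the stabilizer of `z` -/
def D8 : List W4 := [(1, 2, 4, 8), (1, 2, 4, 12), (1, 3, 4, 8), (1, 3, 4, 12), (4, 8, 1, 2), (4, 8, 1, 3),
  (4, 12, 1, 2), (4, 12, 1, 3)]
/-- the conjugates of the central involutions -/
def L30 : List ℕ := [1, 2, 3, 4, 8, 12, 17, 20, 33, 40, 49, 60, 66, 68, 83, 84, 96, 112, 130, 136, 144, 163, 168, 176,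
  194, 204, 208, 224, 243, 252]

/-- What is used about the standard subgroup `M`. -/
structure Loc (X : Gen G) (M : Subgroup G) (h : G) : Prop where
  rel : X.Rel
  inj : ∀ {a b}, X.v a = X.v b → a % 256 = b % 256
  mem : ∀ c, X.v c ∈ M
  hM : h ∈ M
  ah : X.Act h (2, 3, 8, 12)
  zc : ∀ c ∈ Zc, X.v c ∈ centralizer (M : Set G)
  kz : ∀ x ∈ M, x ∈ centralizer (M : Set G) → ∃ c ∈ Zc, x = X.v c
  tight : ∀ g x, x ∈ centralizer (M : Set G) → g * x * g⁻¹ ∈ centralizer (M : Set G) →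
    Odd (orderOf x) ∨ g ∈ normalizer (M : Set G)
  p1 : ∀ n ∈ normalizer (M : Set G), ∃ m ∈ M, ∃ w ∈ Sec, X.Act (m * n) w ∧
    (w = (1, 2, 4, 8) → m * n ∈ centralizer (M : Set G))
  p2 : ∀ m ∈ M, ∀ c ∈ Zc, m * X.v 112 * m⁻¹ = X.v 112 * X.v c → ∃ s, m = X.v s
  p3 : ∀ x ∈ M, x * x ∈ centralizer (M : Set G) → x ∉ centralizer (M : Set G) →
    ∃ m ∈ M, ∃ c ∈ Zc, m * x * m⁻¹ = X.v 112 * X.v c
  out : ∀ y ∈ normalizer (M : Set G), y * y = 1 → (∀ m ∈ M, m * y ∉ centralizer (M : Set G)) →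
    ∃ m ∈ M, y * (m * y * m⁻¹) = m * y * m⁻¹ * y ∧ m * y * m⁻¹ * y ∉ centralizer (M : Set G)
  m1 : ∃ m ∈ M, m * X.v 112 * m⁻¹ = X.v 1 ∧ m * X.v 144 * m⁻¹ = X.v 2
  m2 : ∃ m ∈ M, m * X.v 112 * m⁻¹ = X.v 4 ∧ m * X.v 144 * m⁻¹ = X.v 8
  cd : 63 ∣ Nat.card M
  ns : ¬ Group.IsSolvable M

end CL.HeS
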