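/-
Weight functions of a character: the traces on the weight spaces of a subgroup for a sign character.
-/
import Cfsg.Agent.Inv.SymSq
import Cfsg.Agent.Char.Kernel

set_option autoImplicit false
set_option linter.unusedSectionVars false

namespace CL.INC
open Cfsg Subgroup CL.Char Finset

variable {G : Type*} [Group G] [Finite G]

/-- The elements of a subgroup. -/
noncomputable def fs (X : Subgroup G) : Finset G := (Set.toFinite (X : Set G)).toFinset

@[simp] theorem mem_fs {X : Subgroup G} {x : G} : x ∈ fs X ↔ x ∈ X := Set.Finite.mem_toFinset _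

theorem card_fs (X : Subgroup G) : (fs X).card = Nat.card X := by
  rw [fs, ← Set.ncard_eq_toFinset_card, ← Nat.card_coe_set_eq]; rfl

theorem card_ne (X : Subgroup G) : (Nat.card X : ℂ) ≠ 0 := Nat.cast_ne_zero.2 Nat.card_pos.ne'

theorem sum_fs_equiv {M : Type*} [AddCommMonoid M] {X Y : Subgroup G} (e : G ≃ G) (h : ∀ x, x ∈ X ↔ e x ∈ Y)
    (f : G → M) : ∑ x ∈ fs X, f (e x) = ∑ y ∈ fs Y, f y :=
  Finset.sum_equiv e (fun x => by rw [mem_fs, mem_fs, h]) fun _ _ => rfl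

theorem sum_fs_mul {M : Type*} [AddCommMonoid M] {X : Subgroup G} {y : G} (hy : y ∈ X) (f : G → M) :
    ∑ x ∈ fs X, f (y * x) = ∑ x ∈ fs X, f x :=
  sum_fs_equiv (Equiv.mulLeft y) (fun _ => (X.mul_mem_cancel_left hy).symm) f

/-- `l` is a sign character of `X`. -/
structure Lin (X : Subgroup G) (l : G → ℂ) : Prop where
  mul : ∀ x ∈ X, ∀ y ∈ X, l (x * y) = l x * l y
  sq : ∀ x ∈ X, l x * l x = 1

theorem lin_one (X : Subgroup G) : Lin X fun _ => 1 := ⟨fun _ _ _ _ => (one_mul _).symm, fun _ _ => one_mul _⟩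

/-- The trace of `g` on the weight space of `l`. -/
noncomputable def wt (χ : G → ℂ) (X : Subgroup G) (l : G → ℂ) (g : G) : ℂ :=
  (Nat.card X : ℂ)⁻¹ * ∑ x ∈ fs X, l x * χ (g * x)

/-- The stabiliser of a weight. -/
def St (X : Subgroup G) (l : G → ℂ) : Subgroup G where
  carrier := {g | (∀ x, x ∈ X ↔ g * x * g⁻¹ ∈ X) ∧ ∀ x ∈ X, l (g * x * g⁻¹) = l x}
  one_mem' := by simp
  mul_mem' {a b} ha hb := by
    have e : ∀ x, a * b * x * (a * b)⁻¹ = a * (b * x * b⁻¹) * a⁻¹ := fun x => by group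
    exact ⟨fun x => by rw [e, ← ha.1, ← hb.1], fun x hx => by rw [e, ha.2 _ ((hb.1 x).1 hx), hb.2 x hx]⟩
  inv_mem' {a} ha := by
    have e : ∀ x, a * (a⁻¹ * x * a⁻¹⁻¹) * a⁻¹ = x := fun x => by group
    have h1 : ∀ x, x ∈ X ↔ a⁻¹ * x * a⁻¹⁻¹ ∈ X := fun x => by rw [ha.1 (a⁻¹ * x * a⁻¹⁻¹), e]
    exact ⟨h1, fun x hx => by rw [← ha.2 _ ((h1 x).1 hx), e]⟩

variable {χ : G → ℂ} {X Y : Subgroup G} {l m : G → ℂ} {g y : G}

theorem wt_congr (h : ∀ x ∈ X, l x = m x) (g : G) : wt χ X l g = wt χ X m g := by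
  rw [wt, wt, Finset.sum_congr rfl fun x hx => by rw [h x (mem_fs.1 hx)]]

theorem wt_conj (hχ : IsCharacter G χ) (k : G) (hX : ∀ x, x ∈ X ↔ k * x * k⁻¹ ∈ Y)
    (hl : ∀ x ∈ X, m (k * x * k⁻¹) = l x) (g : G) : wt χ Y m (k * g * k⁻¹) = wt χ X l g := by
  have h1 : Nat.card X = Nat.card Y := by
    rw [← card_fs, ← card_fs]
    exact Finset.card_equiv (MulAut.conj k).toEquiv fun x => by rw [mem_fs, mem_fs, hX]; rfl
  rw [wt, wt, h1, ← sum_fs_equiv (MulAut.conj k).toEquiv hX]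
  refine congrArg _ (Finset.sum_congr rfl fun x hx => ?_)
  change m (k * x * k⁻¹) * χ (k * g * k⁻¹ * (k * x * k⁻¹)) = _
  rw [hl x (mem_fs.1 hx), conj_mul, hχ.mul_comm, inv_mul_cancel_left]

namespace Lin

variable (hl : Lin X l)
include hl

theorem one : l 1 = 1 := by
  have := hl.mul 1 (one_mem _) 1 (one_mem _)
  rwa [hl.sq 1 (one_mem _), one_mul] at this

theorem inv (hy : y ∈ X) : l y⁻¹ = l y := by
  have := hl.mul y hy y⁻¹ (inv_mem hy)
  rw [mul_inv_cancel, hl.one] at this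
  rw [← one_mul (l y⁻¹), ← hl.sq y hy, mul_assoc, ← this, mul_one]

theorem le_St (hy : y ∈ X) : y ∈ St X l :=
  ⟨fun x => by rw [X.mul_mem_cancel_right (inv_mem hy), X.mul_mem_cancel_left hy], fun x hx => by
    rw [hl.mul _ (mul_mem hy hx) _ (inv_mem hy), hl.mul _ hy _ hx, hl.inv hy, mul_right_comm, hl.sq y hy, one_mul]⟩

theorem sum_eq_zero (hy : y ∈ X) (h1 : l y ≠ 1) : ∑ x ∈ fs X, l x = 0 := by
  have := sum_fs_mul hy l
  rw [Finset.sum_congr rfl fun x hx => hl.mul y hy x (mem_fs.1 hx), ← Finset.mul_sum, ← sub_eq_zero,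
    ← sub_one_mul] at this
  exact (mul_eq_zero.1 this).resolve_left (sub_ne_zero.2 h1)

theorem wt_mul (hy : y ∈ X) (g : G) : wt χ X l (g * y) = l y * wt χ X l g := by
  rw [wt, wt, mul_left_comm, ← sum_fs_mul hy fun x => l x * χ (g * x), Finset.mul_sum (a := l y)]
  refine congrArg _ (Finset.sum_congr rfl fun x hx => ?_)
  rw [hl.mul y hy x (mem_fs.1 hx), ← mul_assoc, ← mul_assoc, ← mul_assoc, hl.sq y hy, one_mul, mul_assoc g]

theorem wt_eq_zero (hχ : IsCharacter G χ) (hy : y ∈ X) (hy' : g⁻¹ * y * g ∈ X) (hne : l (g⁻¹ * y * g) ≠ l y) :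
    wt χ X l g = 0 := by
  have h1 := wt_conj hχ y (hl.le_St hy).1 (hl.le_St hy).2 g
  rw [show y * g * y⁻¹ = g * (g⁻¹ * y * g) * y⁻¹ by group, hl.wt_mul (inv_mem hy), hl.wt_mul hy', ← mul_assoc,
    ← sub_eq_zero, ← sub_one_mul, hl.inv hy] at h1
  refine (mul_eq_zero.1 h1).resolve_left fun e => hne ?_
  rw [← one_mul (l (g⁻¹ * y * g)), ← hl.sq y hy, mul_assoc, sub_eq_zero.1 e, mul_one]

theorem wt_char (hχ : IsCharacter G χ) : IsCharacter (St X l) fun g => wt χ X l g := by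
  obtain ⟨n, ρ, rfl⟩ := hχ
  let S : Module.End ℂ (Fin n → ℂ) := ∑ x ∈ fs X, l x • ρ x
  have h1 : ∀ y ∈ X, ρ y * S = l y • S := fun y hy => by
    simp only [S]
    conv_rhs => rw [← sum_fs_mul hy fun x => l x • ρ x]
    rw [Finset.mul_sum, Finset.smul_sum]
    refine Finset.sum_congr rfl fun x hx => ?_
    rw [mul_smul_comm, ← map_mul, hl.mul y hy x (mem_fs.1 hx), smul_smul, ← mul_assoc, hl.sq y hy, one_mul]
  have h2 : S * S = (Nat.card X : ℂ) • S := by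
    conv_lhs => enter [1]; simp only [S]
    rw [Finset.sum_mul, Finset.sum_congr rfl fun x hx => by
      rw [smul_mul_assoc, h1 x (mem_fs.1 hx), smul_smul, hl.sq x (mem_fs.1 hx), one_smul],
      Finset.sum_const, card_fs, Nat.cast_smul_eq_nsmul]
  have h3 : ∀ g : St X l, ρ g * S = S * ρ g := fun g => by
    simp only [S]
    rw [Finset.mul_sum, Finset.sum_mul, ← sum_fs_equiv (MulAut.conj (g : G)).toEquiv g.2.1 fun x => l x • ρ x * ρ g]
    refine Finset.sum_congr rfl fun x hx => ?_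
    change _ = l (g * x * (g : G)⁻¹) • ρ (g * x * (g : G)⁻¹) * ρ g
    rw [g.2.2 x (mem_fs.1 hx), mul_smul_comm, smul_mul_assoc, ← map_mul, ← map_mul, inv_mul_cancel_right]
  have h4 := CL.Inv.isCharacter_trace_mul_proj (ρ.comp (St X l).subtype) ((Nat.card X : ℂ)⁻¹ • S)
    (by rw [smul_mul_smul_comm, h2, smul_smul, mul_assoc, inv_mul_cancel₀ (card_ne X), mul_one])
    fun g => by rw [mul_smul_comm, smul_mul_assoc]; exact congrArg _ (h3 g)
  convert h4 using 2 with g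
  simp only [wt, S, mul_smul_comm, map_smul, Finset.mul_sum, map_sum, smul_eq_mul, Representation.character,
    MonoidHom.comp_apply, map_mul, coe_subtype]

theorem wt_nat (hχ : IsCharacter G χ) : ∃ d : ℕ, wt χ X l 1 = d := (hl.wt_char hχ).exists_nat_one

theorem wt_zero (hχ : IsCharacter G χ) (h0 : wt χ X l 1 = 0) (hg : g ∈ St X l) : wt χ X l g = 0 :=
  congrFun ((hl.wt_char hχ).eq_zero_of_one_eq_zero h0) ⟨g, hg⟩

theorem wt_hom (hχ : IsCharacter G χ) (h1 : wt χ X l 1 = 1) :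
    ∃ μ : St X l →* ℂˣ, ∀ g : St X l, wt χ X l g = μ g :=
  let ⟨μ, h⟩ := (hl.wt_char hχ).exists_monoidHom_of_one h1; ⟨μ, congrFun h⟩

/-- An element conjugate to its square is trivial on a weight space of dimension at most one. -/
theorem wt_three (hχ : IsCharacter G χ) {d : ℕ} (hd : wt χ X l 1 = d) (h1 : d ≤ 1) {w : G} (hg : g ∈ St X l)
    (hw : w ∈ St X l) (hi : w * g = g * g * w) : wt χ X l g = d := by
  obtain rfl | rfl := Nat.le_one_iff_eq_zero_or_eq_one.1 h1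
  · rw [Nat.cast_zero] at hd ⊢; exact hl.wt_zero hχ hd hg
  · rw [Nat.cast_one] at hd ⊢
    obtain ⟨μ, hμ⟩ := hl.wt_hom hχ hd
    have h2 := congrArg μ (show (⟨w, hw⟩ * ⟨g, hg⟩ : St X l) = ⟨g, hg⟩ * ⟨g, hg⟩ * ⟨w, hw⟩ from Subtype.ext hi)
    rw [map_mul, map_mul, map_mul, mul_comm, mul_left_inj, eq_comm, mul_eq_left] at h2
    rw [hμ ⟨g, hg⟩, h2, Units.val_one]

end Lin

end CL.INC
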