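/-
Characters of a group of Monster type: the weight spaces of the extraspecial group.
-/
import Cfsg.Agent.Spor.IncE1
import Cfsg.Agent.Spor.MjP2

set_option autoImplicit false
set_option linter.unusedSectionVars false

namespace CL.INC
open Cfsg Cfsg.Spor Subgroup CL.Even CL.Grp CL.Spor.Leech CL.Spor.Mon CL.Char
open scoped commutatorElement

variable {G : Type*} [Group G] [Finite G]

open Classical in
/-- The sign of the commutator. -/
noncomputable def sg (y x : G) : ℂ := if x * y = y * x then 1 else -1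

theorem sg_iff {x y a b : G} (h : x * y = y * x ↔ a * b = b * a) : sg y x = sg b a := by
  classical exact if_congr h rfl rfl
theorem sg_comm (x y : G) : sg y x = sg x y := sg_iff eq_comm
theorem sg_pos {x y : G} (h : x * y = y * x) : sg y x = 1 := if_pos h
theorem sg_neg {x y : G} (h : x * y ≠ y * x) : sg y x = -1 := if_neg h
theorem sg_eq_one {x y : G} (h : sg y x = 1) : x * y = y * x := by
  by_contra e
  rw [sg_neg e] at h
  norm_num at h
theorem sg_conj (k x y : G) : sg (k * y * k⁻¹) (k * x * k⁻¹) = sg y x :=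
  sg_iff (by rw [conj_mul, conj_mul, mul_left_inj, mul_right_inj])

section XE
variable {z : G} {Q : Subgroup G} (h : XE z Q) {χ : G → ℂ} {y g : G}
include h

theorem lin_sg (hy : y ∈ Q) {P : Subgroup G} (hP : P ≤ Q) : Lin P (sg y) := by
  refine ⟨fun a ha b hb => ?_, fun a _ => by unfold sg; split_ifs <;> simp⟩
  have p : ∀ {x}, x ∈ centralizer {y} → sg y x = 1 := fun e => sg_pos (mem_centralizer_singleton_iff.1 e)
  have q : ∀ {x}, x ∉ centralizer {y} → sg y x = -1 := fun e => sg_neg (mt mem_centralizer_singleton_iff.2 e)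
  by_cases h1 : a ∈ centralizer {y} <;> by_cases h2 : b ∈ centralizer {y}
  · rw [p h1, p h2, p (mul_mem h1 h2), one_mul]
  · rw [p h1, q h2, q (mt (Subgroup.mul_mem_cancel_left _ h1).1 h2), one_mul]
  · rw [q h1, p h2, q (mt (Subgroup.mul_mem_cancel_right _ h2).1 h1), mul_one]
  · rw [q h1, q h2, p (h.mul_mem_cent hy (hP ha) (hP hb) h1 h2), neg_mul_neg, one_mul]

theorem sg_z {x : G} (hx : x ∈ Q) (y : G) : sg (z * y) x = sg y x :=
  sg_iff (by rw [← mul_assoc, h.comm hx, mul_assoc, mul_assoc, mul_right_inj])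

theorem norm_iff (hg : g ∈ centralizer {z}) (x : G) : x ∈ Q ↔ g * x * g⁻¹ ∈ Q := mem_normalizer_iff.1 (h.norm hg) x

theorem w_conj (hχ : IsCharacter G χ) (hg : g ∈ centralizer {z}) (y k : G) :
    wt χ Q (sg (g * y * g⁻¹)) (g * k * g⁻¹) = wt χ Q (sg y) k :=
  wt_conj hχ g (norm_iff h hg) (fun x _ => sg_conj g x y) k

theorem mem_St (hg : g ∈ centralizer {z}) (e : g * y * g⁻¹ = y ∨ g * y * g⁻¹ = z * y) : g ∈ St Q (sg y) :=
  ⟨norm_iff h hg, fun x hx => by
    rw [← sg_conj g x y]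
    rcases e with e | e <;> rw [e]
    exact (sg_z h ((norm_iff h hg x).1 hx) y).symm⟩

theorem w_cases (hχ : IsCharacter G χ) (hy : y ∈ Q) (hg : g ∈ centralizer {z}) :
    (g * y * g⁻¹ = y ∨ g * y * g⁻¹ = z * y) ∨ wt χ Q (sg y) g = 0 := by
  by_cases h1 : ∀ x ∈ Q, sg y (g⁻¹ * x * g) = sg y x
  · have h2 := (norm_iff h hg y).1 hy
    have h3 : g * y * g⁻¹ * y⁻¹ ∈ zpowers z := h.cent_eq.le fun x hx => sg_eq_one (by
      rw [sg_comm, (lin_sg h hx le_rfl).mul _ h2 _ (inv_mem hy), (lin_sg h hx le_rfl).inv hy, sg_comm _ x, sg_comm _ x,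
        ← h1 x hx, ← sg_conj g (g⁻¹ * x * g), show g * (g⁻¹ * x * g) * g⁻¹ = x by group]
      exact (lin_sg h h2 le_rfl).sq x hx)
    exact Or.inl ((h.mem_Z.1 h3).imp mul_inv_eq_one.1 mul_inv_eq_iff_eq_mul.1)
  · push Not at h1
    obtain ⟨x, hx, e⟩ := h1
    exact Or.inr ((lin_sg h hy le_rfl).wt_eq_zero hχ hx
      (by simpa using (norm_iff h (inv_mem hg) x).1 hx) e)

theorem w_zero (hχ : IsCharacter G χ) (hy : y ∈ Q) (hg : g ∈ centralizer {z}) (h0 : wt χ Q (sg y) 1 = 0) :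
    wt χ Q (sg y) g = 0 :=
  (w_cases h hχ hy hg).elim (fun e => (lin_sg h hy le_rfl).wt_zero hχ h0 (mem_St h hg e)) id

theorem sum_w {P : Subgroup G} (hP : P ≤ Q) (g : G) : ∑ y ∈ fs P, wt χ Q (sg y) g =
    (Nat.card Q : ℂ)⁻¹ * Nat.card P * ∑ x ∈ fs (Q ⊓ centralizer P), χ (g * x) := by
  classical
  simp only [wt, ← Finset.mul_sum]
  rw [Finset.sum_comm, mul_assoc, Finset.mul_sum (a := (Nat.card P : ℂ)),
    ← Finset.sum_subset (s₁ := fs (Q ⊓ centralizer P)) (fun x hx => mem_fs.2 (mem_fs.1 hx).1) fun x hx hx' => ?_]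
  · refine congrArg _ (Finset.sum_congr rfl fun x hx => ?_)
    rw [← Finset.sum_mul, Finset.sum_congr rfl fun y hy => sg_pos ((mem_fs.1 hx).2 y (mem_fs.1 hy)).symm,
      Finset.sum_const, card_fs, nsmul_one]
  · obtain ⟨y, hy, e⟩ : ∃ y ∈ P, y * x ≠ x * y := by
      by_contra! hc
      exact hx' (mem_fs.2 ⟨mem_fs.1 hx, hc⟩)
    rw [← Finset.sum_mul, Finset.sum_congr rfl fun y _ => sg_comm x y,
      (lin_sg h (mem_fs.1 hx) hP).sum_eq_zero hy fun e' => e (sg_eq_one e'), zero_mul]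

theorem sum_wQ (g : G) : ∑ y ∈ fs Q, wt χ Q (sg y) g = χ g + χ (g * z) := by
  classical
  rw [sum_w h le_rfl, inv_mul_cancel₀ (card_ne Q), one_mul, h.inf_cent_eq,
    show fs (zpowers z) = {1, z} by ext x; simp [h.mem_Z], Finset.sum_pair h.ne_one.symm, mul_one]

theorem w_one (g : G) : wt χ Q (sg 1) g = wt χ Q (fun _ => 1) g := wt_congr (fun x _ => sg_pos (by simp)) g
theorem w_z (g : G) : wt χ Q (sg z) g = wt χ Q (fun _ => 1) g := wt_congr (fun _ hx => sg_pos (h.comm hx)) g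

end XE

variable {z : G} {Q : Subgroup G} {π : centralizer ({z} : Set G) →* Co1} {R : leechLattice → G → Prop}
  (h : MT z Q π R) {χ : G → ℂ} {v w : leechLattice} {s y g : G}

/-- The elements over a set of vectors. -/
noncomputable def ov (R : leechLattice → G → Prop) (T : Set leechLattice) : Finset G :=
  (Set.toFinite {x | ∃ v ∈ T, R v x}).toFinset

theorem mem_ov {T : Set leechLattice} {x : G} : x ∈ ov R T ↔ ∃ v ∈ T, R v x := Set.Finite.mem_toFinset _

include h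

theorem card_ov {T : Set leechLattice} {N : ℤ} (h0 : 0 < N) (h64 : N < 64)
    (hT : ∀ v ∈ T, sqNorm (v : GolayPt → ℤ) = N ∧ -v ∈ T) : (ov R T).card = T.ncard := by
  classical
  have hf : T.Finite := (finite_shell_sub N).subset fun v hv => (hT v hv).1
  have h1 : (ov R T).card = 2 * (co '' T).ncard := by
    rw [← h.ncard_over, ov, ← Set.ncard_eq_toFinset_card]
    refine congrArg _ (Set.ext fun x => ⟨fun ⟨v, hv, e⟩ => ⟨v, e, v, hv, rfl⟩, ?_⟩)
    rintro ⟨v, e, w, hw, e'⟩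
    exact ⟨w, hw, h.congr e (co_eq_iff.1 e')⟩
  rw [h1, Set.ncard_eq_toFinset_card T hf, Finset.card_eq_sum_card_image co, Finset.sum_const_nat (m := 2), mul_comm,
    ← Set.ncard_coe_finset, Finset.coe_image, hf.coe_toFinset]
  intro a ha
  obtain ⟨v, hv, rfl⟩ := Finset.mem_image.1 ha
  have hv' := hT v (hf.mem_toFinset.1 hv)
  have h2 : v ≠ -v := fun e => by
    have h3 := congrArg (fun u : leechLattice => dotInt (v : GolayPt → ℤ) u) e
    simp only [AddSubgroup.coe_neg, dot_neg_right, ← sqNorm_eq_dot, hv'.1] at h3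
    omega
  refine Eq.trans (congrArg _ (Finset.ext fun u => ?_)) (Finset.card_pair h2)
  simp only [Finset.mem_filter, Finset.mem_insert, Finset.mem_singleton, hf.mem_toFinset, co_eq_iff]
  constructor
  · exact fun ⟨h3, h4⟩ => h4.pm_of_lt (by rw [(hT u h3).1]; omega) (by rw [hv'.1]; omega)
  · rintro (rfl | rfl)
    exacts [⟨hf.mem_toFinset.1 hv, Dbl.refl _⟩, ⟨hv'.2, Dbl.neg_sub _⟩]

theorem w_type (hχ : IsCharacter G χ) (hs : R v s) (hy : R w y)
    (hn : sqNorm (v : GolayPt → ℤ) = sqNorm (w : GolayPt → ℤ))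
    (hw : sqNorm (w : GolayPt → ℤ) = 32 ∨ sqNorm (w : GolayPt → ℤ) = 48 ∨ sqNorm (w : GolayPt → ℤ) = 64) :
    wt χ Q (sg y) 1 = wt χ Q (sg s) 1 := by
  obtain ⟨k, hk⟩ : ∃ k : Co0, k • v = w := by
    rcases hw with e | e | e
    exacts [trans32 (hn.trans e) e, trans48 (hn.trans e) e, trans64 (hn.trans e) e]
  obtain ⟨c, -, rfl⟩ := h.conj_of_dbl hs hy (not_dbl_of_short (by omega) (by omega)) (g := k) (hk ▸ Dbl.refl _)
  simpa using w_conj h.xe hχ c.2 s 1

omit h in
theorem ncard_odd : {v : leechLattice | sqNorm (v : GolayPt → ℤ) = 32 ∧ (v : GolayPt → ℤ) none % 2 = 1}.ncard =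
    98304 := by
  rw [ncard_subtype fun x => sqNorm x = 32 ∧ x none % 2 = 1,
    ← count_box {-5, -3, -1, 1, 3, 5} 32 98304 (by decide +kernel) (by decide +kernel)]
  refine congrArg Set.ncard (Set.ext fun x => ?_)
  simp only [Set.mem_ofPred_eq, Finset.mem_insert, Finset.mem_singleton, Nat.cast_ofNat]
  refine and_congr_right fun hx => ⟨fun ⟨h1, h2⟩ => ⟨fun i => ?_, h1⟩, fun ⟨h1, h2⟩ => ⟨h2, ?_⟩⟩
  · have h3 := odd_of_one hx h2 i
    have h4 := Finset.mem_Icc.1 (mem_Icc_of_sqNorm (k := 5) (by norm_num) (by rw [h1]; norm_num) i)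
    omega
  · have := h1 none
    omega

/-- The dimensions of the weight spaces. -/
theorem dims (hχ : IsCharacter G χ) {n : ℕ} (hn : χ 1 = n) (hlt : n ≤ 196882) (hz : χ z ≠ χ 1) :
    (∀ v y, R v y → sqNorm (v : GolayPt → ℤ) = 32 → wt χ Q (sg y) 1 = 1) ∧
      (∀ v y, R v y → sqNorm (v : GolayPt → ℤ) = 64 → wt χ Q (sg y) 1 = 0) ∧
      wt χ Q (fun _ => 1) 1 + 196584 = n := by
  classical
  choose! d hd using fun y (hy : y ∈ Q) => (lin_sg h.xe hy le_rfl).wt_nat hχ
  let T : ℤ → Finset G := fun N => ov R {v | sqNorm (v : GolayPt → ℤ) = N}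
  have hT : ∀ N, T N ⊆ fs Q := fun N y hy => let ⟨_, _, e⟩ := mem_ov.1 hy; mem_fs.2 (h.mem e)
  have hc : ∀ N, N = 32 ∨ N = 48 ∨ N = 64 → ∀ x ∈ T N, ∀ y ∈ T N, d y = d x := fun N hN x hx y hy => by
    obtain ⟨v, hv, e⟩ := mem_ov.1 hx
    obtain ⟨w, hw, e'⟩ := mem_ov.1 hy
    rw [← Nat.cast_inj (R := ℂ), ← hd _ (h.mem e), ← hd _ (h.mem e')]
    exact w_type h hχ e e' (hv.trans hw.symm) (by rwa [show sqNorm _ = N from hw])
  have h1 : ((∑ y ∈ fs Q, d y : ℕ) : ℂ) = n + χ z := by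
    rw [Nat.cast_sum, ← Finset.sum_congr rfl fun y hy => hd y (mem_fs.1 hy), sum_wQ h.xe, one_mul, hn]
  have h2 : ∑ y ∈ fs Q, d y ≤ 2 * n := by
    have h3 := norm_add_le (n : ℂ) (χ z)
    have h4 := isChar_norm_le hχ z
    rw [← h1, Complex.norm_natCast, Complex.norm_natCast] at h3
    rw [hn, Complex.norm_natCast] at h4
    exact_mod_cast (by linarith : ((∑ y ∈ fs Q, d y : ℕ) : ℝ) ≤ 2 * n)
  have h3 : ∀ N, N = 32 ∨ N = 48 ∨ N = 64 → 2 * n < (T N).card → ∀ y ∈ T N, d y = 0 := fun N hN hl y hy => by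
    have h4 := (Finset.sum_le_sum_of_subset (hT N)).trans h2
    rw [Finset.sum_const_nat (hc N hN y hy)] at h4
    by_contra e
    nlinarith [Nat.pos_of_ne_zero e]
  have c32 : (T 32).card = 196560 := by
    exact (card_ov h (N := 32) (by norm_num) (by norm_num) fun v hv => ⟨hv, (sqNorm_neg _).trans hv⟩).trans
      ((ncard_shell_sub 32).trans ncard_32)
  have c48 : (T 48).card = 16773120 := by
    exact (card_ov h (N := 48) (by norm_num) (by norm_num) fun v hv => ⟨hv, (sqNorm_neg _).trans hv⟩).trans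
      ((ncard_shell_sub 48).trans ncard_48)
  have h4 : fs Q ⊆ {1, z} ∪ T 32 ∪ (T 48 ∪ T 64) := fun y hy => by
    obtain ⟨v, hv⟩ := h.exL y (mem_fs.1 hy)
    obtain ⟨w, h5, h6⟩ := exists_short' v
    have h7 := h.congr hv h5.symm
    simp only [Finset.mem_union, Finset.mem_insert, Finset.mem_singleton, T, mem_ov]
    rcases h6 with rfl | e | e | e
    exacts [Or.inl (Or.inl (h.xe.mem_Z.1 ((h.zero h7).1 Dbl.zero))), Or.inl (Or.inr ⟨w, e, h7⟩),
      Or.inr (Or.inl ⟨w, e, h7⟩), Or.inr (Or.inr ⟨w, e, h7⟩)]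
  have c64 : 2 * n < (T 64).card := by
    have h5 := (Finset.card_le_card h4).trans ((Finset.card_union_le _ _).trans
      (add_le_add (Finset.card_union_le _ _) (Finset.card_union_le _ _)))
    rw [card_fs, h.card, c32, c48, Finset.card_pair h.xe.ne_one.symm] at h5
    omega
  have z64 := h3 64 (by simp) c64
  obtain ⟨s, hs⟩ := h.exR leechU
  have hs' : s ∈ T 32 := mem_ov.2 ⟨_, sqNorm_U, hs⟩
  have h5 : ∀ φ : G → ℂ, ∑ y ∈ fs Q, φ y * d y = (φ 1 + φ z) * d 1 + (∑ y ∈ T 32, φ y) * d s := fun φ => by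
    rw [← Finset.sum_subset (s₁ := {1, z} ∪ T 32) (Finset.union_subset (fun y hy => mem_fs.2 (h.xe.Z_le
      (h.xe.mem_Z.2 (by simpa using hy)))) (hT 32)) fun y hy hy' => by
        rcases Finset.mem_union.1 ((Finset.mem_union.1 (h4 hy)).resolve_left hy') with e | e
        · rw [h3 48 (by simp) (by omega) y e, Nat.cast_zero, mul_zero]
        · rw [z64 y e, Nat.cast_zero, mul_zero],
      Finset.sum_union, Finset.sum_pair h.xe.ne_one.symm, Finset.sum_mul,
      Finset.sum_congr rfl fun y hy => by rw [hc 32 (by simp) s hs' y hy], ← hd z h.xe.mem, w_z h.xe, ← w_one h.xe,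
      hd 1 (one_mem _), add_mul]
    refine Finset.disjoint_left.2 fun y hy hy' => ?_
    obtain ⟨v, hv, e⟩ := mem_ov.1 hy'
    exact not_dbl_of_short (hv.trans_le (by norm_num)) (hv.trans_ne (by norm_num))
      ((h.zero e).2 (h.xe.mem_Z.2 (by simpa using hy)))
  obtain ⟨t, ht⟩ := h.exR (e8 none)
  have h6 : ∀ {u}, R (e8 none) u → χ u = χ z := fun hu => by
    obtain ⟨k, rfl⟩ := isConj_iff.1 (h.isConj_of_type hu (sqNorm_e8 _)).1
    rw [hχ.mul_comm, inv_mul_cancel_left]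
  have h7 : ∑ y ∈ T 32, sg y t = -48 := by
    have h8 : ((T 32).filter fun y => ¬ t * y = y * t).card = 98304 := by
      refine Eq.trans (congrArg _ (Finset.ext fun y => ?_)) ((card_ov h (N := 32) (by norm_num) (by norm_num)
        (T := {v | sqNorm (v : GolayPt → ℤ) = 32 ∧ (v : GolayPt → ℤ) none % 2 = 1})
        fun v hv => ⟨hv.1, (sqNorm_neg _).trans hv.1, by
          have := hv.2; change (-(v : GolayPt → ℤ) none) % 2 = 1; omega⟩).trans ncard_odd)
      simp only [Finset.mem_filter, T, mem_ov, Set.mem_ofPred_eq]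
      constructor
      · rintro ⟨⟨v, hv, e⟩, e'⟩
        rw [eq_comm, h.comm_iff e ht, dot_e8] at e'
        exact ⟨v, ⟨hv, by omega⟩, e⟩
      · rintro ⟨v, hv, e⟩
        refine ⟨⟨v, hv.1, e⟩, ?_⟩
        rw [eq_comm, h.comm_iff e ht, dot_e8]
        omega
    have h9 := Finset.card_filter_add_card_filter_not (s := T 32) fun y => t * y = y * t
    rw [h8, c32] at h9
    simp only [sg]
    rw [Finset.sum_ite, Finset.sum_const, Finset.sum_const, h8, show (Finset.filter _ _).card = 98256 by omega]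
    norm_num
  have e1 := h5 fun _ => 1
  have e2 := h5 fun y => sg y t
  simp only [one_mul, ← Nat.cast_sum, h1, Finset.sum_const, c32] at e1
  rw [← Finset.sum_congr rfl fun y hy => by rw [← hd y (mem_fs.1 hy), ← (lin_sg h.xe (mem_fs.1 hy) le_rfl).wt_mul
    (h.mem ht)], sum_wQ h.xe, one_mul, h6 ht, h6 (h.mulZ ht (mem_zpowers z)), h7, sg_pos (by simp),
    sg_pos (h.xe.comm (h.mem ht))] at e2
  have e3 : (n : ℂ) = d 1 + 196584 * d s := by
    simp only [nsmul_eq_mul] at e1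
    push_cast at e1
    linear_combination e1 - e2 / 2
  have e4 : d s = 1 := by
    have h8 : n = d 1 + 196584 * d s := by exact_mod_cast e3
    have h9 : d s ≠ 0 := fun e => hz (by rw [e] at e2 e3; rw [hn, e3]; linear_combination e2 / 2)
    omega
  refine ⟨fun v y hy hv => ?_, fun v y hy hv => ?_, ?_⟩
  · rw [hd y (h.mem hy), hc 32 (by simp) s hs' y (mem_ov.2 ⟨v, hv, hy⟩), e4, Nat.cast_one]
  · rw [hd y (h.mem hy), z64 y (mem_ov.2 ⟨v, hv, hy⟩), Nat.cast_zero]
  · rw [← w_one h.xe, hd 1 (one_mem _), e3, e4]; norm_num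

/-- The centraliser of an involution over a minimal vector has no further linear characters. -/
theorem hom_triv (hs : R v s) (hv : sqNorm (v : GolayPt → ℤ) = 32) {L : Subgroup G} (μ : L →* ℂˣ)
    (hL : ∀ c ∈ centralizer {z}, c * s * c⁻¹ = s → c ∈ L) (hQ : ∀ x : L, (x : G) ∈ Q → x * s * (x : G)⁻¹ = s → μ x = 1)
    (c : L) (hc : (c : G) ∈ centralizer {z}) (hcs : c * s * (c : G)⁻¹ = s) : μ c = 1 := by
  choose f f1 f2 using fun k : MulAction.stabilizer Co0 v => h.conj_of_dbl hs hs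
    (not_dbl_of_short (by omega) (by omega)) (g := k) (by rw [k.2]; exact Dbl.refl _)
  have key : ∀ (a b : L) (ha : (a : G) ∈ centralizer {z}) (hb : (b : G) ∈ centralizer {z}), a * s * (a : G)⁻¹ = s →
      b * s * (b : G)⁻¹ = s → π ⟨a, ha⟩ = π ⟨b, hb⟩ → μ a = μ b := fun a b ha hb h1 h2 e => by
    rw [← mul_inv_eq_one, ← map_inv, ← map_mul] at e ⊢
    refine hQ _ ((h.ker _).1 e) ?_
    rw [← h1]
    conv_lhs => rw [h1, ← h2]
    push_cast; group
  let φ : MulAction.stabilizer Co0 v →* ℂˣ := MonoidHom.mk' (fun k => μ ⟨f k, hL _ (f k).2 (f2 k)⟩) fun a b => by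
    rw [← map_mul]
    refine key _ _ (f _).2 (mul_mem (f a).2 (f b).2) (f2 _) ?_ ((f1 _).trans ?_)
    · conv_rhs => rw [← f2 a, ← f2 b]
      push_cast; group
    · rw [coe_mul, map_mul, ← f1, ← f1, ← map_mul]; rfl
  have h1 : φ.ker = ⊤ := ((simple_stab32 hv).eq_bot_or_eq_top_of_normal _ inferInstance).resolve_left fun e => by
    have := simple_stab32 hv
    have h2 : IsMulCommutative (MulAction.stabilizer Co0 v) :=
      ⟨⟨fun a b => (MonoidHom.ker_eq_bot_iff φ).1 e (by rw [map_mul, map_mul, mul_comm])⟩⟩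
    have h3 := Group.is_simple_iff_prime_card.1 this
    rw [card_stab32 hv] at h3
    exact absurd (h3.eq_one_or_self_of_dvd 2 (by norm_num)) (by norm_num)
  obtain ⟨k, hk⟩ := mk1_surjective (π ⟨c, hc⟩)
  obtain ⟨k, hk, h2⟩ : ∃ k : Co0, mk1 k = π ⟨c, hc⟩ ∧ k • v = v := by
    have h2 := (h.dbl_iff' (h.conj _ k hk.symm hs) hs).2 (Or.inl hcs)
    rcases h2.pm_of_lt (by rw [sqNorm_smul]; omega) (by omega) with e | e
    · exact ⟨k, hk, e⟩
    · exact ⟨negOne * k, by rw [map_mul, mk1_eq_one.2 negOne_mem_center, one_mul, hk], by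
        rw [mul_smul, e, negOne_smul, neg_neg]⟩
  rw [key c ⟨f ⟨k, h2⟩, hL _ (f _).2 (f2 _)⟩ hc (f _).2 hcs (f2 _) (hk.symm.trans (f1 ⟨k, h2⟩).symm)]
  exact h1.ge (mem_top (⟨k, h2⟩ : MulAction.stabilizer Co0 v))

open Classical in
/-- The trace on the weight line of an involution over a minimal vector. -/
theorem w_eq (hχ : IsCharacter G χ) (hs : R v s) (hv : sqNorm (v : GolayPt → ℤ) = 32) (h1 : wt χ Q (sg s) 1 = 1)
    (hg : g ∈ centralizer {z}) :
    wt χ Q (sg s) g = (if g * s * g⁻¹ = s then 1 else 0) - if g * s * g⁻¹ = z * s then 1 else 0 := by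
  have hl := lin_sg h.xe (h.mem hs) le_rfl
  obtain ⟨μ, hμ⟩ := hl.wt_hom hχ h1
  have h2 : ∀ g ∈ centralizer {z}, g * s * g⁻¹ = s → wt χ Q (sg s) g = 1 := fun g hg e => by
    rw [hμ ⟨g, mem_St h.xe hg (Or.inl e)⟩, hom_triv h hs hv μ (fun c hc e => mem_St h.xe hc (Or.inl e))
      (fun x hx e => Units.ext ?_) _ hg e, Units.val_one]
    rw [← hμ, ← one_mul (x : G), hl.wt_mul hx, h1, sg_pos (mul_inv_eq_iff_eq_mul.1 e), one_mul, Units.val_one]
  have h3 : s ≠ z * s := fun e => h.xe.ne_one (mul_eq_right.1 e.symm)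
  by_cases e1 : g * s * g⁻¹ = s
  · rw [h2 g hg e1, if_pos e1, if_neg (e1.trans_ne h3), sub_zero]
  by_cases e2 : g * s * g⁻¹ = z * s
  · obtain ⟨x, hx, e⟩ := h.xe.exists_conj_eq_mul (h.mem hs) fun e => not_dbl_of_short (by omega) (by omega)
      ((h.zero hs).2 (h.xe.cent_eq.le e))
    have h4 := h2 (g * x) (mul_mem hg (h.xe.le hx)) (by
      rw [show g * x * s * (g * x)⁻¹ = g * (x * s * x⁻¹) * g⁻¹ by group, e, ← mul_assoc,
        mem_centralizer_singleton_iff.1 hg, mul_assoc z, mul_assoc z, e2, ← mul_assoc, h.xe.mul_self, one_mul])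
    rw [hl.wt_mul hx, sg_neg fun e' => h3 (by rw [← e, e', mul_inv_cancel_right])] at h4
    rw [if_neg e1, if_pos e2]
    linear_combination -h4
  · rw [if_neg e1, if_neg e2, sub_zero]
    exact (w_cases h.xe hχ (h.mem hs) hg).resolve_left (not_or.2 ⟨e1, e2⟩)

end CL.INC
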