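/-
Characters of a group of Monster type: lattice facts for the minimal vectors with coordinates divisible by 4.
-/
import Cfsg.Agent.Spor.IncE3

set_option autoImplicit false

namespace CL.INC
open Cfsg Cfsg.Spor Subgroup CL.Spor CL.Spor.Leech CL.Char

theorem dbl_sum {x : leechLattice} (h : Dbl x) (h4 : (4 : ℤ) ∣ (x : GolayPt → ℤ) none) :
    (16 : ℤ) ∣ ∑ i, (x : GolayPt → ℤ) i := by
  have h1 := h.dvd_dot ⟨vecW, vecW_mem⟩
  have h2 : dotInt (x : GolayPt → ℤ) vecW = ∑ i, (x : GolayPt → ℤ) i - 4 * (x : GolayPt → ℤ) none := by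
    have : vecW = 1 + Pi.single none (-4) := by
      funext i
      by_cases e : i = none <;> simp [vecW, e]
    rw [this, dot_add_right, dot_single]
    simp only [dotInt, Pi.one_apply, mul_one]
    ring
  rw [h2] at h1
  omega

theorem not_dbl_pm (σ : M24) {v : leechLattice} (h4 : ∀ i, (4 : ℤ) ∣ (v : GolayPt → ℤ) i) :
    ¬ Dbl (pm σ • v - (e8 none + v)) := fun h => by
  have h1 := dbl_sum h (by
    simp only [AddSubgroup.coe_sub, AddSubgroup.coe_add, Pi.sub_apply, Pi.add_apply, pm_apply, coe_e8,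
      Pi.single_eq_same]
    exact dvd_sub (h4 _) (dvd_add (by norm_num) (h4 _)))
  simp only [AddSubgroup.coe_sub, AddSubgroup.coe_add, Pi.sub_apply, Pi.add_apply, pm_apply, coe_e8,
    Finset.sum_sub_distrib, Finset.sum_add_distrib, Finset.sum_pi_single', Finset.mem_univ, if_true] at h1
  rw [show ∑ x, (v : GolayPt → ℤ) (σ⁻¹ • x) = _ from Equiv.sum_comp (MulAction.toPerm σ⁻¹) _] at h1
  omega

theorem dbl_fix_congr (k : Co0) {v w : leechLattice} (h : Dbl (v - w)) (h1 : Dbl (k • v - v)) : Dbl (k • w - w) :=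
  ((h1.sub (h.smul k)).add h).of_eq (by rw [smul_sub]; abel)

theorem four_of_pairs {v : GolayPt → ℤ} (h : ∀ i j, i ≠ j → (4 : ℤ) ∣ v i + v j) :
    (∀ i, (4 : ℤ) ∣ v i) ∨ ∀ i, v i % 4 = 2 := by
  have h1 : ∀ i, (v i - v none) % 4 = 0 ∧ v none % 2 = 0 := fun i => by
    obtain ⟨j, h1, h2⟩ : ∃ j, j ≠ i ∧ j ≠ none := by revert i; decide
    obtain ⟨k, h3, h4, h5⟩ : ∃ k, k ≠ j ∧ k ≠ none ∧ j ≠ none := ⟨if j = some 0 then some 1 else some 0,
      by split_ifs with e <;> [rw [e]; exact Ne.symm e]; decide, by split_ifs <;> simp, h2⟩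
    have a1 := h j i h1
    have a2 := h j none h2
    have a3 := h k j h3
    have a4 := h k none h4
    omega
  by_cases e : v none % 4 = 0
  · exact Or.inl fun i => by have := h1 i; omega
  · exact Or.inr fun i => by have := h1 i; omega

/-- The pairs of points fixed by `σ`. -/
def DD (σ : M24) : Finset (GolayPt × GolayPt) := Finset.univ.filter fun x =>
  gIdx x.1 < gIdx x.2 ∧ (σ • x.1 = x.1 ∧ σ • x.2 = x.2 ∨ σ • x.1 = x.2 ∧ σ • x.2 = x.1)

theorem ncard_four (p : (GolayPt → ℤ) → Prop) (D : Finset (GolayPt × GolayPt))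
    (hD : ∀ x ∈ D, gIdx x.1 < gIdx x.2)
    (hp : ∀ i j, gIdx i < gIdx j → ∀ a b : ℤ, |a| = 4 → |b| = 4 → (p (Pi.single i a + Pi.single j b) ↔ (i, j) ∈ D)) :
    {x | x ∈ leechLattice ∧ sqNorm x = 32 ∧ (∀ i, (4 : ℤ) ∣ x i) ∧ p x}.ncard = 4 * D.card := by
  classical
  let U : Finset ℤ := {4, -4}
  have hU : ∀ a, a ∈ U ↔ |a| = 4 := fun a => by simp [U, abs_eq]
  let f : (GolayPt × GolayPt) × ℤ × ℤ → GolayPt → ℤ := fun y => Pi.single y.1.1 y.2.1 + Pi.single y.1.2 y.2.2
  have hne : ∀ {i j}, gIdx i < gIdx j → i ≠ j := fun h e => h.ne (congrArg _ e)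
  have h1 : Set.InjOn f (D ×ˢ U ×ˢ U : Finset _) := by
    rintro ⟨⟨i, j⟩, a, b⟩ hx ⟨⟨k, l⟩, c, d⟩ hy e
    simp only [Finset.coe_product, Set.mem_prod, Finset.mem_coe, hU] at hx hy
    have h2 := hD _ hx.1
    have h3 := hD _ hy.1
    have e1 := congrFun e i
    have e2 := congrFun e j
    simp only [f, Pi.add_apply, Pi.single_apply, if_true, hne h2, (hne h2).symm, if_false] at e1 e2 h2 h3
    have ha : a ≠ 0 := fun e => by simp [e] at hx
    have hb : b ≠ 0 := fun e => by simp [e] at hx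
    by_cases q1 : i = k
    · subst q1
      by_cases q2 : j = l
      · subst q2
        simp only [if_true, hne h2, (hne h2).symm, if_false] at e1 e2
        rw [show a = c by omega, show b = d by omega]
      · simp [q2, (hne h2).symm, hb] at e2
    · have q3 : i = l := by by_contra q; simp [q1, q, ha] at e1
      subst q3
      have q4 : j = k := by by_contra q; simp [q, (hne h2).symm, hb] at e2
      subst q4
      omega
  rw [mul_comm, show 4 = (U ×ˢ U).card by decide, ← Finset.card_product, ← Finset.card_image_of_injOn h1,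
    ← Set.ncard_coe_finset]
  congr 1
  ext x
  simp only [Finset.coe_image, Finset.coe_product, Set.mem_image, Set.mem_prod, Finset.mem_coe, hU, Set.mem_ofPred_eq]
  constructor
  · rintro ⟨hx, hn, h4, h5⟩
    obtain ⟨i, hi⟩ : ∃ i, x i ≠ 0 := Function.ne_iff.1 fun e : x = 0 => by rw [e, sqNorm_zero] at hn; omega
    have h6 : |x i| = 4 := by
      have h7 := Finset.mem_Icc.1 (mem_Icc_of_sqNorm (k := 5) (by norm_num) (by rw [hn]; norm_num) i)
      have := h4 i
      rw [abs_eq (by norm_num)]; omega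
    obtain ⟨j, h7, h8, h9⟩ := shape32_four hx hn h6
    have e : x = Pi.single i (x i) + Pi.single j (x j) := funext fun k => by
      by_cases q1 : k = i
      · simp [q1, h7.symm]
      · by_cases q2 : k = j
        · simp [q2, h7]
        · simp [q1, q2, h9 k q1 q2]
    rcases lt_or_gt_of_ne (gIdx_injective.ne h7) with q | q
    · exact ⟨((j, i), x j, x i), ⟨(hp j i q _ _ h8 h6).1 (by rwa [add_comm, ← e]), h8, h6⟩, (add_comm _ _).trans e.symm⟩
    · exact ⟨((i, j), x i, x j), ⟨(hp i j q _ _ h6 h8).1 (e ▸ h5), h6, h8⟩, e.symm⟩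
  · rintro ⟨⟨⟨i, j⟩, a, b⟩, ⟨h2, ha, hb⟩, rfl⟩
    have h3 := hD _ h2
    have ha' : a = 4 ∨ a = -4 := eq_or_eq_neg_of_abs_eq ha
    have hb' : b = 4 ∨ b = -4 := eq_or_eq_neg_of_abs_eq hb
    refine ⟨?_, ?_, fun k => ?_, (hp i j h3 a b ha hb).2 h2⟩
    · have := (four_mul_mem_iff (Pi.single i (a / 4) + Pi.single j (b / 4))).2 (by
        simp only [Pi.add_apply, Finset.sum_add_distrib, Finset.sum_pi_single', Finset.mem_univ, if_true]; omega)
      convert this using 1
      funext k
      simp only [f, Pi.add_apply, Pi.single_apply]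
      split_ifs <;> omega
    · simp only [f]
      rw [sqNorm_add, sqNorm_single, sqNorm_single, dot_single, Pi.single_eq_of_ne (hne h3).symm, ← sq_abs a,
        ← sq_abs b, ha, hb]
      norm_num
    · simp only [f, Pi.add_apply, Pi.single_apply]
      split_ifs <;> omega

/-- The minimal vectors with coordinates divisible by 4 whose class is fixed by `σ` and moved by `c`. -/
def TT (σ : M24) (c : Finset GolayPt) (hc : c ∈ Cset) : Set leechLattice :=
  {v | sqNorm (v : GolayPt → ℤ) = 32 ∧ (∀ i, (4 : ℤ) ∣ (v : GolayPt → ℤ) i) ∧ Dbl (pm σ • v - v) ∧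
    ¬ Dbl (eps c hc • v - v)}

theorem ncard_TT (σ : M24) (c : Finset GolayPt) (hc : c ∈ Cset) :
    (TT σ c hc).ncard = 4 * ((DD σ).filter fun x => ¬ (x.1 ∈ c ↔ x.2 ∈ c)).card := by
  rw [← ncard_four (fun x => ((∀ i, x (σ • i) = x i) ∨ ∀ i, x (σ • i) = -x i) ∧
    ¬ ((∀ i ∈ c, x i = 0) ∨ ∀ i ∉ c, x i = 0)) _ (fun x hx => (Finset.mem_filter.1 (Finset.mem_filter.1 hx).1).2.1),
    ← ncard_subtype]
  · refine congrArg _ (Set.ext fun v => and_congr_right fun hv => and_congr_right fun _ => ?_)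
    rw [← mem_clsStab, ← mem_clsStab, ← inv_mem_iff, ← map_inv, mem_clsStab_of_lt (by omega),
      mem_clsStab_of_lt (by omega)]
    simp only [Subtype.ext_iff, funext_iff, pm_apply, inv_inv, eps_apply, AddSubgroup.coe_neg, Pi.neg_apply]
    refine and_congr_right fun _ => not_congr (or_congr (forall_congr' fun i => ?_) (forall_congr' fun i => ?_)) <;>
      split_ifs with e <;> simp [e, neg_eq_self, self_eq_neg]
  · intro i j hij a b ha hb
    have hne : i ≠ j := fun e => hij.ne (congrArg _ e)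
    have ha0 : a ≠ 0 := fun e => by simp [e] at ha
    have hb0 : b ≠ 0 := fun e => by simp [e] at hb
    have hab : a = b ∨ a = -b := abs_eq_abs.1 (ha.trans hb.symm)
    simp only [DD, Finset.mem_filter, Finset.mem_univ, true_and, hij]
    refine and_congr ⟨fun h => ?_, fun h => ?_⟩ (not_congr ⟨fun h => ?_, fun h => ?_⟩)
    · have h1 : ∀ k, k = i ∨ k = j → σ • k = i ∨ σ • k = j := fun k hk => by
        by_contra! e
        rcases h with h | h <;> have := h k <;> rcases hk with rfl | rfl <;>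
          simp [e.1, e.2, hne, hne.symm, ha0.symm, hb0.symm, ha0, hb0] at this
      rcases h1 i (Or.inl rfl) with e | e <;> rcases h1 j (Or.inr rfl) with e' | e'
      exacts [absurd (smul_left_cancel _ (e.trans e'.symm)) hne, Or.inl ⟨e, e'⟩, Or.inr ⟨e, e'⟩,
        absurd (smul_left_cancel _ (e.trans e'.symm)) hne]
    · have h1 : ∀ {k l m : GolayPt}, σ • l = m → (σ • k = m ↔ k = l) := fun e => by
        rw [← e, smul_left_cancel_iff]
      rcases h with h | h
      · exact Or.inl fun k => by simp only [Pi.add_apply, Pi.single_apply, h1 h.1, h1 h.2]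
      · rcases hab with rfl | rfl
        · exact Or.inl fun k => by simp only [Pi.add_apply, Pi.single_apply, h1 h.1, h1 h.2, add_comm]
        · exact Or.inr fun k => by
            simp only [Pi.add_apply, Pi.single_apply, h1 h.1, h1 h.2]
            split_ifs <;> ring
    · rcases h with h | h
      · exact iff_of_false (fun e => by simpa [hne, ha0] using h i e) fun e => by simpa [hne.symm, hb0] using h j e
      · exact iff_of_true (by_contra fun e => by simpa [hne, ha0] using h i e)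
          (by_contra fun e => by simpa [hne.symm, hb0] using h j e)
    · by_cases e : i ∈ c
      · exact Or.inr fun k hk => by
          simp [show k ≠ i from fun q => hk (q ▸ e), show k ≠ j from fun q => hk (q ▸ h.1 e)]
      · exact Or.inl fun k hk => by
          simp [show k ≠ i from fun q => e (q ▸ hk), show k ≠ j from fun q => e (h.2 (q ▸ hk))]

/-- The sign of a diagonal element at a point. -/
noncomputable def li (i : GolayPt) (g : Co0) : ℂ := (((g • e8 i : leechLattice) : GolayPt → ℤ) i : ℂ) / 8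

theorem li_eps (i : GolayPt) (c : Finset GolayPt) (hc : c ∈ Cset) : li i (eps c hc) = if i ∈ c then -1 else 1 := by
  rw [li, eps_apply, coe_e8, Pi.single_eq_same]
  split_ifs <;> norm_num

theorem lin_li (i j : GolayPt) : Lin Eps fun g => li i g * li j g := by
  have h : ∀ i, ∀ x ∈ Eps, ∀ y ∈ Eps, li i (x * y) = li i x * li i y := fun i x hx y hy => by
    obtain ⟨c, hc, rfl⟩ := mem_Eps.1 hx
    obtain ⟨d, hd, rfl⟩ := mem_Eps.1 hy
    rw [li_eps, li_eps, li, mul_smul, eps_apply, eps_apply, coe_e8, Pi.single_eq_same]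
    split_ifs <;> norm_num
  refine ⟨fun x hx y hy => by rw [h i x hx y hy, h j x hx y hy]; ring, fun x hx => ?_⟩
  obtain ⟨c, hc, rfl⟩ := mem_Eps.1 hx
  simp only [li_eps]
  split_ifs <;> norm_num

/-- The average over the sign changes. -/
theorem wt_Eps {α : Co0 → ℂ} {σ : M24} (h : ∀ c hc, α (pm σ * eps c hc) =
    α (pm σ) - 2 * ((DD σ).filter fun x => ¬ (x.1 ∈ c ↔ x.2 ∈ c)).card) :
    wt α Eps (fun _ => 1) (pm σ) = α (pm σ) - (DD σ).card := by
  have h1 : ∀ g ∈ fs Eps, 1 * α (pm σ * g) = α (pm σ) - (DD σ).card + ∑ x ∈ DD σ, li x.1 g * li x.2 g := fun g hg => by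
    obtain ⟨c, hc, rfl⟩ := mem_Eps.1 (mem_fs.1 hg)
    rw [h, one_mul, sub_add, Finset.card_filter, Finset.card_eq_sum_ones (DD σ)]
    push_cast
    rw [← Finset.sum_sub_distrib, Finset.mul_sum]
    refine congrArg _ (Finset.sum_congr rfl fun x _ => ?_)
    by_cases e : x.1 ∈ c <;> by_cases e' : x.2 ∈ c <;> norm_num [li_eps, e, e']
  rw [wt, Finset.sum_congr rfl h1, Finset.sum_add_distrib, Finset.sum_comm, Finset.sum_eq_zero (s := DD σ), add_zero,
    Finset.sum_const, card_fs, nsmul_eq_mul, inv_mul_cancel_left₀ (card_ne _)]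
  intro x hx
  have hne : x.1 ≠ x.2 := fun e => (Finset.mem_filter.1 hx).2.1.ne (congrArg _ e)
  obtain ⟨c, hc, e⟩ := exists_Cset_inter_of_card_le (S := {x.1, x.2}) (A := {x.1}) (by simp)
    (Finset.card_le_two.trans (by norm_num))
  have h2 : x.1 ∈ c := (Finset.mem_inter.1 (e.ge (Finset.mem_singleton_self _))).1
  have h3 : x.2 ∉ c := fun q => hne (Finset.mem_singleton.1 (e.le (Finset.mem_inter.2 ⟨q, by simp⟩))).symm
  exact (lin_li x.1 x.2).sum_eq_zero (eps_mem_Eps c hc) (by norm_num [li_eps, h2, h3])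

/-- An involution of `M24` with eight fixed points. -/
def pS : ℕ := 21647169741103660076458455793304663
theorem rep_pS : Rep pS (m24 pS) := rep_m24 (by decide +kernel)
theorem o1_mem : ofMask 13062145 ∈ Cset := ofMask_mem_GC_of_isCode (by decide +kernel)
theorem o2_mem : ofMask 10558 ∈ Cset := ofMask_mem_GC_of_isCode (by decide +kernel)

theorem xi_fus : xi * eps _ o1_mem = pm (m24 pS) * eps _ o2_mem * xi := by
  refine co0_ext' fun v => funext fun p => mul_left_cancel₀ (two_ne_zero (α := ℤ)) ?_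
  obtain ⟨p, rfl⟩ := MulAction.surjective (m24 pS) p
  have h : ∀ i < 24, ∀ j < 24, xiM (pf pS i) j * (if Nat.testBit 13062145 j then -1 else 1) =
      (if Nat.testBit 10558 i then -1 else 1) * xiM i j := by decide +kernel
  have h1 := congrFun (xi_smul (eps _ o1_mem • v)) (m24 pS • p)
  have h2 := congrFun (xi_smul v) p
  simp only [Pi.smul_apply, smul_eq_mul, Matrix.mulVec, dotProduct, eps_apply, matOf, rep_pS.apply] at h1 h2
  rw [mul_smul, mul_smul, mul_smul, h1, pm_apply_smul, eps_apply, mul_ite, mul_neg, h2, ← Finset.sum_neg_distrib,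
    ← Finset.sum_ite_irrel]
  refine Finset.sum_congr rfl fun q _ => ?_
  have h3 := h _ (gIdx_lt p) _ (gIdx_lt q)
  simp only [mem_ofMask]
  split_ifs at h3 ⊢ <;> linear_combination (v : GolayPt → ℤ) q * h3

theorem DD_eq {P : ℕ} {σ : M24} (h : Rep P σ) : DD σ = Finset.univ.filter fun x : GolayPt × GolayPt =>
    gIdx x.1 < gIdx x.2 ∧ (pf P (gIdx x.1) = gIdx x.1 ∧ pf P (gIdx x.2) = gIdx x.2 ∨
      pf P (gIdx x.1) = gIdx x.2 ∧ pf P (gIdx x.2) = gIdx x.1) := by
  simp only [DD, ← gIdx_injective.eq_iff, h.apply]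

theorem card_DD_one : (DD 1).card = 276 := by rw [DD_eq rep_one]; decide +kernel
theorem card_DD_pS : (DD (m24 pS)).card = 36 := by rw [DD_eq rep_pS]; decide +kernel
theorem card_DD_o1 : ((DD 1).filter fun x => ¬ (x.1 ∈ ofMask 13062145 ↔ x.2 ∈ ofMask 13062145)).card = 128 := by
  simp only [DD_eq rep_one, mem_ofMask]; decide +kernel
theorem card_DD_o2 : ((DD (m24 pS)).filter fun x => ¬ (x.1 ∈ ofMask 10558 ↔ x.2 ∈ ofMask 10558)).card = 0 := by
  simp only [DD_eq rep_pS, mem_ofMask]; decide +kernel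

end CL.INC
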