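/-
A faithful complex representation of a group of Monster type has degree at least 196883.
-/
import Cfsg.Agent.Spor.IncE2
import Cfsg.Agent.Spor.IncE4

set_option autoImplicit false
set_option linter.unusedSectionVars false

namespace CL.INC
open Cfsg Cfsg.Spor Subgroup CL.Even CL.Grp CL.Spor CL.Spor.Leech CL.Spor.Mon CL.Char CL.Mj
open scoped commutatorElement

variable {G : Type*} [Group G] [Finite G] {z : G} {Q : Subgroup G} {π : centralizer ({z} : Set G) →* Co1}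
  {R : leechLattice → G → Prop}

/-- `k` interchanges `z` and an involution `t` over `e8 none`. -/
structure Sw (z : G) (R : leechLattice → G → Prop) (k t : G) : Prop where
  rt : R (e8 none) t
  zt : k * z * k⁻¹ = t
  tz : k * t * k⁻¹ = z

theorem exists_sw (h : MT z Q π R) : ∃ k t, Sw z R k t := by
  obtain ⟨t, ht⟩ := h.exR (e8 none)
  obtain ⟨h1, h2⟩ := h.isConj_of_type ht (sqNorm_e8 _)
  obtain ⟨g, rfl⟩ := isConj_iff.1 h1
  obtain ⟨k, -, h3, h4⟩ := h.xe.toXS.exists_conj_pair (h.mem ht) h2 (u := g * z * g⁻¹) (v := z)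
    (subset_closure (by simp)) (subset_closure (by simp)) (h.xe.conj g).ne_one h.xe.ne_one h2
  exact ⟨k, _, ht, h3, h4⟩

open Classical in
/-- The indicator of a proposition. -/
noncomputable def ix (p : Prop) : ℂ := if p then 1 else 0

theorem ix_pos {p : Prop} (h : p) : ix p = 1 := if_pos h
theorem ix_neg {p : Prop} (h : ¬ p) : ix p = 0 := if_neg h

open Classical in
/-- The involutions of `P` that are not conjugate to `z`. -/
noncomputable def SS (z : G) (P : Subgroup G) : Finset G := (fs P).filter fun y => y ≠ 1 ∧ ¬ IsConj z y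

theorem mem_SS {P : Subgroup G} {y : G} : y ∈ SS z P ↔ y ∈ P ∧ y ≠ 1 ∧ ¬ IsConj z y := by
  classical rw [SS, Finset.mem_filter, mem_fs]

variable (h : MT z Q π R) {k t : G} (hk : Sw z R k t) {χ : G → ℂ} {x y g q : G} {v : leechLattice}
include h hk

namespace Sw

theorem xe' : XE t (cj k Q) := hk.zt ▸ h.xe.conj k
theorem ne : t ≠ z := (h.isConj_of_type hk.rt (sqNorm_e8 _)).2

theorem eq_one (h1 : x ∈ zpowers z) (h2 : x ∈ zpowers t) : x = 1 :=
  (h.xe.mem_Z.1 h1).elim id fun e => ((hk.xe' h).mem_Z.1 h2).elim id fun e' => absurd (e'.symm.trans e) (hk.ne h)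

theorem mem_P (hx : R v x) (hv : ∀ i, (4 : ℤ) ∣ (v : GolayPt → ℤ) i) : x ∈ Q ⊓ cj k Q :=
  ⟨h.mem hx, p2_el h k (hk.zt ▸ hk.rt) v x hx hv⟩

theorem conj_P (x : G) : x ∈ Q ⊓ cj k Q ↔ k * x * k⁻¹ ∈ Q ⊓ cj k Q := by
  have h1 : k * k ∈ centralizer {z} := mem_centralizer_singleton_iff.2 (by
    rw [← mul_inv_eq_iff_eq_mul, show k * k * z * (k * k)⁻¹ = k * (k * z * k⁻¹) * k⁻¹ by group, hk.zt, hk.tz])
  rw [mem_inf, mem_inf, mem_cj, mem_cj, and_comm, norm_iff h.xe h1 (k⁻¹ * x * k)]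
  exact and_congr (by rw [show k * k * (k⁻¹ * x * k) * (k * k)⁻¹ = k * x * k⁻¹ by group])
    (by rw [show k⁻¹ * (k * x * k⁻¹) * k = x by group])

theorem pairs (hx : R v x) (hc : x ∈ centralizer ((Q ⊓ cj k Q : Subgroup G) : Set G)) :
    (∀ i, (4 : ℤ) ∣ (v : GolayPt → ℤ) i) ∨ ∀ i, (v : GolayPt → ℤ) i % 4 = 2 :=
  four_of_pairs fun i j hij => by
    obtain ⟨y, hy⟩ := h.exR (p2f i j)
    have h1 := (h.comm_iff hx hy).1 (hc y (hk.mem_P h hy fun l => by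
      simp only [p2f, Pi.add_apply, Pi.single_apply]; split_ifs <;> norm_num)).symm
    simp only [p2f, dot_add_right, dot_single] at h1
    omega

theorem P_le_cent : Q ⊓ cj k Q ≤ centralizer ((Q ⊓ cj k Q : Subgroup G) : Set G) := fun _ hx _ hy =>
  commutatorElement_eq_one_iff_mul_comm.1 (hk.eq_one h (h.xe.comm_mem hy.1 hx.1) ((hk.xe' h).comm_mem hy.2 hx.2))

theorem cent_P : Q ⊓ centralizer ((Q ⊓ cj k Q : Subgroup G) : Set G) = Q ⊓ cj k Q := by
  refine le_antisymm (fun x hx => ?_) (le_inf inf_le_left (hk.P_le_cent h))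
  obtain ⟨v, hv⟩ := h.exL x hx.1
  rcases hk.pairs h hv hx.2 with e | e
  · exact hk.mem_P h hv e
  · let u : leechLattice := ⟨vecW, vecW_mem⟩
    refine hk.mem_P h (h.congr hv (w := v + (u + u)) ⟨u, by abel⟩) fun i => ?_
    have := e i
    simp only [u, AddSubgroup.coe_add, Pi.add_apply, vecW]
    split_ifs <;> omega

theorem of_SS (hy : y ∈ SS z (Q ⊓ cj k Q)) :
    ∃ v, R v y ∧ sqNorm (v : GolayPt → ℤ) = 32 ∧ ∀ i, (4 : ℤ) ∣ (v : GolayPt → ℤ) i := by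
  obtain ⟨h1, h2, h3⟩ := mem_SS.1 hy
  obtain ⟨v, hv, h4⟩ := h.type_of_not_isConj h1.1
    (orderOf_eq_prime (hk.eq_one h (h.xe.sq y h1.1) ((hk.xe' h).sq y h1.2)) h2) h3
  refine ⟨v, hv, h4, (hk.pairs h hv (hk.P_le_cent h h1)).resolve_right fun e => ?_⟩
  have h5 : ∑ _i : GolayPt, (4 : ℤ) ≤ sqNorm (v : GolayPt → ℤ) := Finset.sum_le_sum fun i _ => by
    have := e i
    rcases (by omega : 2 ≤ (v : GolayPt → ℤ) i ∨ (v : GolayPt → ℤ) i ≤ -2) with e | e <;> nlinarith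
  rw [Finset.sum_const, Finset.card_univ, Leech.card_golayPt, h4] at h5
  norm_num at h5

variable (hχ : IsCharacter G χ) (H32 : ∀ v y, R v y → sqNorm (v : GolayPt → ℤ) = 32 → wt χ Q (sg y) 1 = 1)
  (H64 : ∀ v y, R v y → sqNorm (v : GolayPt → ℤ) = 64 → wt χ Q (sg y) 1 = 0)
include hχ H32 H64

theorem sum_P (hg : g ∈ centralizer {z}) : ∑ y ∈ fs (Q ⊓ cj k Q), wt χ Q (sg y) g = 2 * wt χ Q (fun _ => 1) g +
    ∑ s ∈ SS z (Q ⊓ cj k Q), (ix (g * s * g⁻¹ = s) - ix (g * s * g⁻¹ = z * s)) := by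
  classical
  rw [← Finset.sum_filter_add_sum_filter_not _ fun y => y ≠ 1 ∧ ¬ IsConj z y, add_comm]
  congr 1
  · rw [← Finset.sum_subset (s₁ := {1, z}) (fun y hy => ?_) fun y hy hy' => ?_, Finset.sum_pair h.xe.ne_one.symm,
      w_one h.xe, w_z h.xe, two_mul]
    · rcases Finset.mem_insert.1 hy with rfl | e
      · simp
      · rw [Finset.mem_singleton.1 e]
        exact Finset.mem_filter.2 ⟨mem_fs.2 ⟨h.xe.mem, h.xe.mem_cj_of_conj_mem (hk.zt ▸ h.mem hk.rt)⟩,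
          fun e => e.2 (IsConj.refl _)⟩
    · obtain ⟨h1, h2⟩ := Finset.mem_filter.1 hy
      simp only [Finset.mem_insert, Finset.mem_singleton, not_or] at hy'
      obtain ⟨v, hv, h3⟩ := h.type_of_isConj (mem_fs.1 h1).1 (by simpa [hy'.1] using h2) hy'.2
      exact w_zero h.xe hχ (h.mem hv) hg (H64 v y hv h3)
  · refine Finset.sum_congr (by ext; simp [mem_SS]) fun s hs => ?_
    obtain ⟨v, hv, h1, -⟩ := hk.of_SS h hs
    exact w_eq h hχ hv h1 (H32 v s hv h1) hg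

theorem tri (hg : g ∈ centralizer {z}) (hg' : g * t * g⁻¹ = t) :
    2 * wt χ Q (fun _ => 1) g - 2 * wt χ Q (fun _ => 1) (k⁻¹ * g * k) =
      ∑ s ∈ SS z (Q ⊓ cj k Q), (ix (g * s * g⁻¹ = z * s) - ix (g * s * g⁻¹ = t * s)) := by
  have h1 : k⁻¹ * g * k ∈ centralizer {z} := mem_centralizer_singleton_iff.2 (by
    rw [← mul_inv_eq_iff_eq_mul, show k⁻¹ * g * k * z * (k⁻¹ * g * k)⁻¹ = k⁻¹ * (g * (k * z * k⁻¹) * g⁻¹) * k by group,
      hk.zt, hg', ← hk.zt]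
    group)
  have h2 : ∑ y ∈ fs (Q ⊓ cj k Q), wt χ Q (sg y) g = ∑ y ∈ fs (Q ⊓ cj k Q), wt χ Q (sg y) (k⁻¹ * g * k) := by
    rw [sum_w h.xe inf_le_left, sum_w h.xe inf_le_left, hk.cent_P h,
      ← sum_fs_equiv (MulAut.conj k).toEquiv (hk.conj_P h)]
    refine congrArg _ (Finset.sum_congr rfl fun x _ => ?_)
    change χ (g * (k * x * k⁻¹)) = _
    rw [← mul_assoc, hχ.mul_comm]
    simp only [mul_assoc]
  have h3 : ∑ s ∈ SS z (Q ⊓ cj k Q), (ix (k⁻¹ * g * k * s * (k⁻¹ * g * k)⁻¹ = s) -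
      ix (k⁻¹ * g * k * s * (k⁻¹ * g * k)⁻¹ = z * s)) =
      ∑ s ∈ SS z (Q ⊓ cj k Q), (ix (g * s * g⁻¹ = s) - ix (g * s * g⁻¹ = t * s)) := by
    refine Finset.sum_equiv (MulAut.conj k).toEquiv (fun s => ?_) fun s _ => ?_
    · change _ ↔ k * s * k⁻¹ ∈ _
      rw [mem_SS, mem_SS, ← hk.conj_P h]
      exact and_congr_right fun _ => and_congr (by simp) (not_congr
        ⟨fun e => isConj_conj e k, fun e => by simpa [mul_assoc] using isConj_conj e k⁻¹⟩)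
    · change _ = ix (g * (k * s * k⁻¹) * g⁻¹ = k * s * k⁻¹) - ix (g * (k * s * k⁻¹) * g⁻¹ = t * (k * s * k⁻¹))
      rw [← hk.zt, conj_mul, show g * (k * s * k⁻¹) * g⁻¹ = k * (k⁻¹ * g * k * s * (k⁻¹ * g * k)⁻¹) * k⁻¹ by group]
      simp only [mul_left_inj, mul_right_inj]
  rw [hk.sum_P h hχ H32 H64 hg, hk.sum_P h hχ H32 H64 h1, h3, Finset.sum_sub_distrib, Finset.sum_sub_distrib] at h2
  rw [Finset.sum_sub_distrib]
  linear_combination h2

theorem key {σ : M24} {c : Finset GolayPt} (hc : c ∈ Cset) (hg : g ∈ centralizer {z}) (hg' : g * t * g⁻¹ = t)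
    (hσ : π ⟨g, hg⟩ = mk1 (pm σ)) (hq : q ∈ centralizer {z}) (hq' : q ∈ cj k Q) (hε : π ⟨q, hq⟩ = mk1 (eps c hc)) :
    wt χ Q (fun _ => 1) (g * q) =
      wt χ Q (fun _ => 1) g - 2 * ((DD σ).filter fun x => ¬ (x.1 ∈ c ↔ x.2 ∈ c)).card := by
  classical
  have h' := hk.xe' h
  have h1 := hk.tri h hχ H32 H64 hg hg'
  have h2 := hk.tri h hχ H32 H64 (mul_mem hg hq) (by
    rw [mul_assoc g, h'.comm hq', show g * (t * q) * (g * q)⁻¹ = g * t * g⁻¹ by group, hg'])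
  rw [show k⁻¹ * (g * q) * k = k⁻¹ * g * k * (k⁻¹ * q * k) by group, (lin_one Q).wt_mul (mem_cj.1 hq'), one_mul] at h2
  have h3 : ∀ s ∈ SS z (Q ⊓ cj k Q), ix (g * q * s * (g * q)⁻¹ = z * s) - ix (g * q * s * (g * q)⁻¹ = t * s) =
      ix (g * s * g⁻¹ = z * s) - ix (g * s * g⁻¹ = t * s) - if s ∈ ov R (TT σ c hc) then 1 else 0 := fun s hs => by
    obtain ⟨v, hv, h4, h5⟩ := hk.of_SS h hs
    have h6 : s ∈ ov R (TT σ c hc) ↔ Dbl (pm σ • v - v) ∧ ¬ Dbl (eps c hc • v - v) := by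
      rw [mem_ov]
      refine ⟨fun ⟨w, hw, e⟩ => ?_, fun e => ⟨v, ⟨h4, h5, e⟩, hv⟩⟩
      have h7 := (h.dbl_iff' e hv).2 (Or.inl rfl)
      exact ⟨dbl_fix_congr _ h7 hw.2.2.1, fun e' => hw.2.2.2 (dbl_fix_congr _ h7.symm e')⟩
    have h7 : R (pm σ • v) (g * s * g⁻¹) := h.conj ⟨g, hg⟩ _ hσ hv
    have h8 : R (eps c hc • v) (q * s * q⁻¹) := h.conj ⟨q, hq⟩ _ hε hv
    have h9 := h.mul hk.rt hv
    have h10 := not_or.1 (mt (h.dbl_iff' h7 h9).2 (not_dbl_pm σ h5))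
    rw [show g * q * s * (g * q)⁻¹ = g * (q * s * q⁻¹) * g⁻¹ by group]
    rcases h'.mem_Z.1 (h'.comm_mem hq' (mem_SS.1 hs).1.2) with e | e <;>
      rw [commutatorElement_def, mul_inv_eq_iff_eq_mul] at e
    · rw [one_mul] at e
      rw [e, if_neg fun e' => (h6.1 e').2 ((h.dbl_iff' h8 hv).2 (Or.inl e)), sub_zero]
    · have h11 : ¬ Dbl (eps c hc • v - v) := fun e' => not_dbl_of_short (v := e8 none) (sqNorm_e8 _).le
        (by rw [sqNorm_e8]; norm_num) ((e'.sub ((h.dbl_iff' h8 h9).2 (Or.inl e))).of_eq (by abel))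
      rw [e, ← conj_mul, hg', ix_neg h10.1, ix_neg (p := t * _ = z * s) fun e' => h10.2 (by
        rw [← mul_right_inj t, e', ← mul_assoc, h.xe.comm (h.mem hk.rt), mul_assoc, ← mul_assoc t, h'.mul_self,
          one_mul]), mul_right_inj]
      simp only [h6, h11, not_false_iff, and_true, h.dbl_iff' h7 hv]
      by_cases e1 : g * s * g⁻¹ = s
      · rw [ix_pos e1, ix_neg fun e2 => h.xe.ne_one (mul_eq_right.1 (e2.symm.trans e1)), if_pos (Or.inl e1)]; ring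
      · rw [ix_neg e1]
        by_cases e2 : g * s * g⁻¹ = z * s
        · rw [ix_pos e2, if_pos (Or.inr e2)]; ring
        · rw [ix_neg e2, if_neg (not_or.2 ⟨e1, e2⟩)]; ring
  have h4 : ((SS z (Q ⊓ cj k Q)).filter (· ∈ ov R (TT σ c hc))).card =
      4 * ((DD σ).filter fun x => ¬ (x.1 ∈ c ↔ x.2 ∈ c)).card := by
    rw [← ncard_TT σ c hc, ← card_ov h (N := 32) (T := TT σ c hc) (by norm_num) (by norm_num) fun v hv => ⟨hv.1,
      (sqNorm_neg _).trans hv.1, fun i => (hv.2.1 i).neg_right, dbl_fix_congr _ (Dbl.neg_sub v).symm hv.2.2.1,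
      fun e => hv.2.2.2 (dbl_fix_congr _ (Dbl.neg_sub v) e)⟩]
    refine congrArg _ (Finset.ext fun s => Finset.mem_filter.trans (and_iff_right_of_imp fun hs => ?_))
    obtain ⟨v, hv, e⟩ := mem_ov.1 hs
    refine mem_SS.2 ⟨hk.mem_P h e hv.2.1, fun e' => ?_, h.not_isConj_of_type e hv.1⟩
    exact not_dbl_of_short (hv.1.trans_le (by norm_num)) (hv.1.trans_ne (by norm_num))
      ((h.zero e).2 (e' ▸ one_mem _))
  rw [Finset.sum_congr rfl h3, Finset.sum_sub_distrib, ← h1, Finset.sum_boole, h4] at h2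
  push_cast at h2
  linear_combination h2 / 2

end Sw

omit hk in
theorem deg_ge (hχ : IsCharacter G χ) {n : ℕ} (hn : χ 1 = n) (hz : χ z ≠ χ 1) : 196883 ≤ n := by
  by_contra! hlt
  obtain ⟨H32, H64, h1⟩ := dims h hχ hn (by omega) hz
  obtain ⟨k, t, hk⟩ := exists_sw h
  have h2 : centralizer {z} ≤ St Q fun _ => 1 := fun g hg => ⟨norm_iff h.xe hg, fun _ _ => rfl⟩
  obtain ⟨ψ, hψ, h3⟩ := (((lin_one Q).wt_char hχ).comp (inclusion h2)).exists_comp_eq π h.surj fun c hc =>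
    mem_charKer_def.2 fun x => by
      change wt χ Q _ (c * x) = wt χ Q _ x
      rw [show (c : G) * x = x * ((x : G)⁻¹ * c * x) by group,
        (lin_one Q).wt_mul (conj_mem' (h.xe.norm x.2) ((h.ker c).1 hc)), one_mul]
  have h4 : ∀ c : centralizer {z}, wt χ Q (fun _ => 1) c = ψ (π c) := congrFun h3
  have hα := hψ.comp mk1
  have h5 : ∀ σ : M24, ∀ c hc, ψ (mk1 (pm σ * eps c hc)) =
      ψ (mk1 (pm σ)) - 2 * ((DD σ).filter fun x => ¬ (x.1 ∈ c ↔ x.2 ∈ c)).card := fun σ c hc => by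
    obtain ⟨g, hg, hg'⟩ := h.conj_of_dbl hk.rt hk.rt (not_dbl_of_short (sqNorm_e8 _).le
      (by rw [sqNorm_e8]; norm_num)) (g := pm σ) (mem_clsStab.1 ((clsStab_e8 none).ge (pm_mem σ)))
    obtain ⟨q, hq, hq'⟩ := p2_lift h (hk.zt ▸ hk.rt) c hc
    rw [map_mul, ← hg, ← hq', ← map_mul, ← h4, ← h4]
    exact hk.key h hχ H32 H64 hc g.2 hg' hg q.2 hq hq'
  have h6 : ∀ σ : M24, pm σ ∈ St Eps fun _ => 1 := fun σ => ⟨fun x => ⟨conj_mem_Eps (pm_mem σ), fun e => by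
    simpa [mul_assoc] using conj_mem_Eps (inv_mem (pm_mem σ)) e⟩, fun _ _ => rfl⟩
  have hφ := ((lin_one Eps).wt_char hα).comp (pm.codRestrict _ h6)
  have h7 : ∀ σ, wt (fun x => ψ (mk1 x)) Eps (fun _ => 1) (pm σ) = ψ (mk1 (pm σ)) - (DD σ).card := fun σ =>
    wt_Eps (α := fun x => ψ (mk1 x)) (h5 σ)
  obtain ⟨f, hf⟩ := hφ.exists_nat_one
  have h8 : ψ (mk1 (pm 1)) + 196584 = n := by rw [map_one, map_one, ← map_one π, ← h4]; exact h1
  have h9 := (h7 1).symm.trans hf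
  rw [card_DD_one] at h9
  have h10 := m24_min hφ hf (by
    have : ((f + 276 + 196584 : ℕ) : ℂ) = n := by push_cast at h9 ⊢; linear_combination h8 - h9
    have := Nat.cast_injective this
    omega) (m24 pS)
  have h11 := (h7 _).symm.trans (h10.trans (h7 1))
  have h12 := h5 1 _ o1_mem
  have h13 := h5 (m24 pS) _ o2_mem
  have h14 : ψ (mk1 (pm (m24 pS) * eps _ o2_mem)) = ψ (mk1 (pm 1 * eps _ o1_mem)) := by
    rw [← mul_inv_eq_iff_eq_mul.2 xi_fus, map_one, one_mul]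
    exact (hα.mul_comm _ _).trans (by rw [inv_mul_cancel_left])
  rw [card_DD_one, card_DD_pS] at h11
  rw [card_DD_o1] at h12
  rw [card_DD_o2, h14, h12] at h13
  have : (16 : ℂ) = 0 := by push_cast at h11 h13; linear_combination -h11 - h13
  norm_num at this

omit h hk in
theorem s5528_of (hG : IsGroupOfMonsterType G) (n : ℕ) (ρ : G →* GL (Fin n) ℂ) (hρ : Function.Injective ρ) :
    196883 ≤ n := by
  obtain ⟨z, Q₀, _, hS, e, ψ, hψ⟩ := hG
  have h := mt_of hS hψ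
  let σ : Representation ℂ G (Fin n → ℂ) :=
    (Matrix.toLinAlgEquiv' (R := ℂ) (n := Fin n)).toMonoidHom.comp ((Units.coeHom _).comp ρ)
  refine deg_ge h (isCharacter_character σ) (by simp) fun e => h.xe.ne_one (hρ ?_)
  rw [char_eq_char_one_iff] at e
  rw [map_one]
  exact Units.ext ((Matrix.toLinAlgEquiv' (R := ℂ) (n := Fin n)).injective (e.trans (map_one _).symm))

end CL.INC
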