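/-
The Schur multiplier of the presented Monster, from the structure of the Bimonster and the multiplier of `Fi₂₃`.
-/
import Cfsg.Agent.Spor.IncI1
import Cfsg.Statements.S1705
import Cfsg.Statements.S5589

set_option autoImplicit false
set_option linter.constructorNameAsVariable false

namespace CL.INC

open Cfsg Cfsg.Spor Subgroup CL.BM CL.TC

section swap
variable {M S : Type*} [Group M] [Finite M] [IsSimpleGroup M] [Group S] [IsSimpleGroup S] (hM : center M = ⊥)
include hM

theorem one_or (f g : M →* M) (h : ∀ x y, Commute (f x) (g y)) : (∀ x, f x = 1) ∨ ∀ y, g y = 1 := by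
  rcases (MonoidHom.normal_ker f).eq_bot_or_eq_top with e | e
  · refine Or.inr fun y => mem_bot.1 (hM ▸ Subgroup.mem_center_iff.2 fun x => ?_)
    obtain ⟨x, rfl⟩ := Finite.injective_iff_surjective.1 ((MonoidHom.ker_eq_bot_iff f).1 e) x
    exact h x y
  · exact Or.inl fun x => (e ▸ mem_top x : x ∈ f.ker)

theorem not_fpf (α : M →* M) (h2 : Function.Involutive α) : ¬ MonoidHom.FixedPointFree α := fun h =>
  bot_ne_top (hM.symm.trans (eq_top_iff.2 fun x _ => Subgroup.mem_center_iff.2 fun y =>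
    h.commute_all_of_involutive h2 y x))

/-- An involution of `M × M` whose fixed points lie in a simple group interchanges the factors. -/
theorem swap (c : M × M →* M × M) (hc : Function.Involutive c) (j : S →* M × M) (hj : ∀ w, c w = w → w ∈ j.range) :
    ∀ x, (c (x, 1)).1 = 1 := by
  have k : ∀ x y : M, Commute (c (x, 1)) (c (1, y)) := fun x y => Commute.map (Prod.ext (by simp) (by simp)) c
  refine (one_or hM ((MonoidHom.fst M M).comp (c.comp (MonoidHom.inl M M)))
    ((MonoidHom.fst M M).comp (c.comp (MonoidHom.inr M M))) fun x y => (k x y).map (MonoidHom.fst M M)).elim id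
    fun h1 => absurd ?_ id
  replace h1 : ∀ y, (c (1, y)).1 = 1 := h1
  rcases one_or hM ((MonoidHom.snd M M).comp (c.comp (MonoidHom.inl M M)))
    ((MonoidHom.snd M M).comp (c.comp (MonoidHom.inr M M))) fun x y => (k x y).map (MonoidHom.snd M M) with h2 | h2
  · replace h2 : ∀ x, (c (x, 1)).2 = 1 := h2
    rcases (MonoidHom.normal_ker ((MonoidHom.fst M M).comp j)).eq_bot_or_eq_top with e | e
    · refine not_fpf hM ((MonoidHom.snd M M).comp (c.comp (MonoidHom.inr M M))) (fun y => ?_) fun y hy => ?_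
      · exact congrArg Prod.snd ((congrArg c (Prod.ext (h1 y).symm rfl : (1, (c (1, y)).2) = c (1, y))).trans (hc (1, y)))
      · obtain ⟨s, hs⟩ := hj (1, y) (Prod.ext (h1 y) hy)
        rw [mem_bot.1 (e ▸ congrArg Prod.fst hs : s ∈ (⊥ : Subgroup S)), map_one] at hs
        exact (congrArg Prod.snd hs).symm
    · refine not_fpf hM ((MonoidHom.fst M M).comp (c.comp (MonoidHom.inl M M))) (fun x => ?_) fun x hx => ?_
      · exact congrArg Prod.fst ((congrArg c (Prod.ext rfl (h2 x).symm : ((c (x, 1)).1, 1) = c (x, 1))).trans (hc (x, 1)))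
      · obtain ⟨s, hs⟩ := hj (x, 1) (Prod.ext hx (h2 x))
        exact (congrArg Prod.fst hs).symm.trans (e ▸ mem_top s : s ∈ ((MonoidHom.fst M M).comp j).ker)
  · obtain ⟨y, hy⟩ := exists_ne (1 : M)
    exact hy (congrArg Prod.snd (hc.injective ((Prod.ext (h1 y) (h2 y) : c (1, y) = 1).trans (map_one c).symm)))

end swap

section near
variable {H E : Type*} [Group H] [Group E]

theorem fiW_comm {v : Fi23.Gen → H} {z : H} (h : ∀ i, Commute (v i) z) : Commute (fiW v) z := by
  unfold fiW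
  repeat' refine Commute.mul_left ?_ ?_
  all_goals exact h _

theorem fiW_mul {v z : Fi23.Gen → H} (h : ∀ i j, Commute (v i) (z j)) : fiW (fun i => v i * z i) = fiW v * fiW z := by
  have k : ∀ i j x, z j * (v i * x) = v i * (z j * x) := fun i j x => ((h i j).left_comm x).symm
  simp only [fiW, mul_assoc, k]

theorem near {v z : Fi23.Gen → H} (h : ∀ i j, Commute (v i) (z j)) (h1 : ∀ i j, Commute (z i) (z j))
    (h2 : ∀ i, z i * z i = 1) : fiW (fun i => v i * z i) ^ 10 = fiW v ^ 10 := by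
  have h3 := fiW_mul h1
  simp only [h2] at h3
  rw [fiW_mul h, (fiW_comm fun i => (fiW_comm fun j => (h i j).symm).symm).mul_pow, pow_mul (fiW z) 2 5, sq, ← h3]
  simp [fiW]

open Bimonster

/-- `Y₃₄₂` inside `Y₅₅₅` -/
def fM : Fi23.Gen → Gen
  | .a => .d1 | .b => .c1 | .c => .b1 | .d => .a | .e => .b2 | .f => .c2 | .g => .d2 | .j => .e2
  | .h => .b3 | .i => .c3

theorem comm_f1 {N : Gen → H} (hN : ∀ m n, (N m * N n) ^ coxLabel edges m n = 1) :
    (∀ m, N m * N m = 1) ∧ ∀ i, Commute (N (fM i)) (N .f1) :=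
  have h : ∀ m, N m * N m = 1 := fun m => by simpa [coxLabel] using hN m m
  ⟨h, fun i => comm_of_pow (h _) (h _) ((by cases i <;> decide : coxLabel edges (fM i) .f1 = 2) ▸ hN _ _)⟩

theorem fiR_M : FiR fun i => bo (fM i) * bo .f1 := by
  have k := coxList_mk edges extra
  obtain ⟨k1, k2⟩ := comm_f1 bo_cox
  refine ⟨fun i j => ?_, ?_, ?_⟩
  · rw [show coxLabel Fi23.edges i j = coxLabel edges (fM i) (fM j) by cases i <;> cases j <;> decide,
      (k2 j).symm.mul_mul_mul_comm, k1, mul_one]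
    exact bo_cox _ _
  · rw [near (fun i _ => k2 i) (fun _ _ => Commute.refl _) fun _ => k1 _]
    simpa only [map_pow, map_mul] using! k _ (mem_coxList.2 (Or.inr List.mem_cons_self))
  · have h1 := CL.PP.eq_one_of_cox k node_mem (x := (d1 * c1 * d1 * b1 * c1 * d1)⁻¹ *
      (d1 * f1 * (c1 * f1) * (b1 * f1) * (a * f1) * (b2 * f1) * (c2 * f1) * (b3 * f1)) ^ 9 *
      (d1 * c1 * d1 * b1 * c1 * d1) * (f1 * ((a * b1 * b2 * b3 * c1 * c2 * d1) ^ 9)⁻¹)) (by decide +kernel)
    rw [map_mul, k (f1 * _) (mem_coxList.2 (Or.inr (by simp [extra]))), mul_one, map_mul, map_mul, map_inv,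
      mul_assoc, inv_mul_eq_one, right_eq_mul] at h1
    simpa only [map_pow, map_mul] using! h1

theorem FiR.map {x : Fi23.Gen → H} (h : FiR x) (φ : H →* E) : FiR fun i => φ (x i) :=
  ⟨fun i j => by simpa only [map_pow, map_mul, map_one] using congrArg φ (h.cox i j),
    by simpa only [fiW, map_pow, map_mul, map_one] using congrArg φ h.sp,
    by simpa only [map_pow, map_mul, map_one] using congrArg φ h.e7⟩

theorem spider_lift {ρ : E →* H} (hs : Function.Surjective ρ) (hc : ρ.ker ≤ center E) {N : Gen → E}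
    (hN : ∀ m n, (N m * N n) ^ coxLabel edges m n = 1) (h : FiR fun i => ρ (N (fM i) * N .f1)) : spider N = 1 := by
  obtain ⟨w, hw, hx⟩ := h.lift ρ hs hc
  obtain ⟨k1, k2⟩ := comm_f1 hN
  have k3 : ∀ i g, Commute g ((N (fM i) * N .f1)⁻¹ * w i) := fun i => Subgroup.mem_center_iff.1 (hc (by
    rw [MonoidHom.mem_ker, map_mul, hx, map_inv, inv_mul_cancel]))
  have k4 : ∀ i, N (fM i) * (N .f1 * ((N (fM i) * N .f1)⁻¹ * w i)) = w i := fun i => by group
  have k5 := fun i j => (k2 i).mul_right (k3 j _)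
  have h1 := near k5 (fun i j => ((Commute.refl _).mul_left (k3 i _).symm).mul_right (k3 j _)) fun i => by
    have h2 : w i * w i = 1 := by simpa [coxLabel] using hw.cox i i
    rwa [← k4 i, (k5 i i).symm.mul_mul_mul_comm, k1, one_mul] at h2
  simp only [k4] at h1
  exact h1.symm.trans hw.sp

end near

section wreath
variable {G M X : Type*} [Group G] [Group M] [Group X]

/-- the embedding into a wreath product given by a transversal -/
def kk {Q : Type*} [Group Q] (s : G →* Q) (t : Q → G) (ht : ∀ u, s (t u) = u⁻¹) {N : Subgroup G}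
    (hN : ∀ g, s g = 1 → g ∈ N) (p : N →* M) : G →* M ≀ᵣ Q :=
  MonoidHom.mk' (fun g => ⟨fun u => p ⟨t u * g * (t ((s g)⁻¹ * u))⁻¹, hN _ (by simp [ht])⟩, s g⟩) fun g h => by
    ext u
    · simp only [RegularWreathProduct.mul_left, Pi.mul_apply, ← map_mul p]
      exact congrArg p (Subtype.ext (by simp [mul_assoc]))
    · exact map_mul s g h

/-- the map of wreath products -/
def wm (σ : X →* M) : X ≀ᵣ ℤˣ →* M ≀ᵣ ℤˣ :=
  MonoidHom.mk' (fun w => ⟨fun u => σ (w.left u), w.right⟩) fun _ _ => by ext <;> simp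

variable {σ : X →* M} (hc : σ.ker ≤ center X)

/-- the antidiagonal of the kernel -/
def anti : Subgroup (X ≀ᵣ ℤˣ) where
  carrier := {w | w.right = 1 ∧ σ (w.left 1) = 1 ∧ w.left 1 * w.left (-1) = 1}
  one_mem' := by simp
  mul_mem' := by
    rintro a b ⟨a1, a2, a3⟩ ⟨b1, b2, b3⟩
    refine ⟨by simp [a1, b1], by simp [a1, a2, b2], ?_⟩
    simp only [RegularWreathProduct.mul_left, Pi.mul_apply, a1, inv_one, one_mul]
    rw [mul_assoc, ← mul_assoc (b.left 1), ← Subgroup.mem_center_iff.1 (hc b2), mul_assoc, b3, mul_one, a3]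
  inv_mem' := by
    rintro a ⟨a1, a2, a3⟩
    refine ⟨by simp [a1], by simp [a1, a2], ?_⟩
    simp only [RegularWreathProduct.inv_left, Pi.inv_apply, a1, one_mul]
    rw [← mul_inv_rev, mul_eq_one_comm.1 a3, inv_one]

include hc in
theorem conj_left {w : X ≀ᵣ ℤˣ} (hw : wm σ w = 1) (g : X ≀ᵣ ℤˣ) (u : ℤˣ) :
    (g * w * g⁻¹).left u = w.left (g.right⁻¹ * u) := by
  have h1 : w.right = 1 := congrArg (·.right) hw
  have h2 := Subgroup.mem_center_iff.1 (hc (show σ (w.left (g.right⁻¹ * u)) = 1 from congrArg (·.left (g.right⁻¹ * u)) hw))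
  simp only [RegularWreathProduct.mul_left, RegularWreathProduct.mul_right, RegularWreathProduct.inv_left, h1, mul_one,
    Pi.mul_apply, Pi.inv_apply, mul_inv_cancel_left, h2, mul_inv_cancel_right]

theorem anti_le : anti hc ≤ (wm σ).ker := by
  rintro w ⟨h1, h2, h3⟩
  refine RegularWreathProduct.ext (funext fun u => ?_) h1
  rcases Int.units_eq_one_or u with rfl | rfl
  · exact h2
  · simpa [h2] using! congrArg σ h3

theorem conj_mem {w : X ≀ᵣ ℤˣ} (hw : wm σ w = 1) (g : X ≀ᵣ ℤˣ) : g * w * g⁻¹ * w⁻¹ ∈ anti hc := by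
  have h1 : w.right = 1 := congrArg (·.right) hw
  have h2 : ∀ u, σ (w.left u) = 1 := fun u => congrArg (·.left u) hw
  have h3 : ∀ u, (g * w * g⁻¹ * w⁻¹).left u = w.left (g.right⁻¹ * u) * (w.left u)⁻¹ := fun u => by
    rw [RegularWreathProduct.mul_left, Pi.mul_apply, conj_left hc hw]; simp [h1]
  refine ⟨by simp [h1], by simp [h3, h2], ?_⟩
  rw [h3, h3]
  rcases Int.units_eq_one_or g.right with e | e <;> simp [e]

instance : (anti hc).Normal :=
  ⟨fun w hw g => by simpa using (anti hc).mul_mem (conj_mem hc (anti_le hc hw) g) hw⟩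

/-- the central extension of the wreath product -/
def rho : (X ≀ᵣ ℤˣ) ⧸ anti hc →* M ≀ᵣ ℤˣ := QuotientGroup.lift _ (wm σ) (anti_le hc)

theorem rho_surj (hs : Function.Surjective σ) : Function.Surjective (rho hc) := fun w =>
  ⟨(⟨fun u => (hs (w.left u)).choose, w.right⟩ : X ≀ᵣ ℤˣ),
    RegularWreathProduct.ext (funext fun u => (hs (w.left u)).choose_spec) rfl⟩

theorem rho_ker : (rho hc).ker ≤ center _ := fun w hw => Subgroup.mem_center_iff.2 fun g => by
  obtain ⟨w, rfl⟩ := QuotientGroup.mk_surjective w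
  obtain ⟨g, rfl⟩ := QuotientGroup.mk_surjective g
  have := (QuotientGroup.eq_one_iff _).2 (conj_mem hc hw g)
  rwa [QuotientGroup.mk_mul, QuotientGroup.mk_mul, QuotientGroup.mk_mul, QuotientGroup.mk_inv, QuotientGroup.mk_inv,
    mul_inv_eq_one, mul_inv_eq_iff_eq_mul] at this

theorem nd_mem {x y : X} {k : ℕ} (h : σ ((x * y⁻¹) ^ k) = 1) : (nd x * nd y) ^ k ∈ anti hc := by
  rw [nd_mul, ← map_pow]
  refine ⟨rfl, by simpa [bs] using h, ?_⟩
  have : (x⁻¹ * y) ^ k = ((x * y⁻¹) ^ k)⁻¹ := by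
    rw [show x⁻¹ * y = x⁻¹ * (x * y⁻¹)⁻¹ * x⁻¹⁻¹ by group, conj_pow, inv_pow,
      Subgroup.mem_center_iff.1 (inv_mem (hc h)), mul_inv_cancel_right]
  simpa [bs] using mul_eq_one_iff_eq_inv'.2 this

theorem ker_of_sec (hσ : IsStemExtension σ) (η : M →* (X ≀ᵣ ℤˣ) ⧸ anti hσ.2.1)
    (h : ∀ m, (rho _ (η m)).right = 1 ∧ (rho _ (η m)).left 1 = m ∧ (rho _ (η m)).left (-1) = 1) : σ.ker = ⊥ := by
  let ι := (QuotientGroup.mk' (anti hσ.2.1)).comp (bs.comp (MonoidHom.mulSingle (fun _ : ℤˣ => X) 1))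
  have h2 := Schur.eq_top_of_stem hσ (η.range.comap ι) (eq_top_iff.2 fun m _ => by
    obtain ⟨w, hw⟩ := QuotientGroup.mk_surjective (η m)
    obtain ⟨h1, h2, h3⟩ := hw ▸ h m
    replace h1 : w.right = 1 := h1
    replace h2 : σ (w.left 1) = m := h2
    replace h3 : σ (w.left (-1)) = 1 := h3
    refine ⟨w.left 1 * w.left (-1), ⟨m, hw.symm.trans (QuotientGroup.eq.2 ?_).symm⟩, by simp [h2, h3]⟩
    exact ⟨by simp [bs, h1], by simp [bs, h3], by simp [bs]⟩)
  refine eq_bot_iff.2 fun z hz => ?_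
  obtain ⟨m, hm⟩ : z ∈ η.range.comap ι := h2 ▸ mem_top z
  have h3 : m = 1 := (h m).2.1.symm.trans ((congrArg (fun w => (rho _ w).left 1) hm).trans
    ((congrArg σ (Pi.mulSingle_eq_same (M := fun _ : ℤˣ => X) 1 z)).trans hz))
  rw [h3, map_one] at hm
  simpa [bs] using ((QuotientGroup.eq_one_iff _).1 hm.symm).2.2

end wreath

open Bimonster in
/-- The multiplier of the Monster, given the structure of the Bimonster. -/
theorem s2059_of (h1 : type_of% @CfsgFrozen.S1705) (h2 : type_of% @CfsgFrozen.S5589) :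
    HasCyclicSchurMultiplier Monster 1 := by
  obtain ⟨h2, -, ⟨e⟩⟩ := h2
  have : Finite Monster := Nat.finite_of_card_ne_zero (by rw [h1.2]; norm_num)
  have := h1.1
  have hM : center Monster = ⊥ := (Normal.eq_bot_or_eq_top (H := center Monster) inferInstance).resolve_right fun h =>
    bot_ne_top ((commutator_eq_bot_iff_center_eq_top _).2 h |>.symm.trans
      (perfect_of_card h1.1 h1.2 (by norm_num)).commutator_eq_top)
  have ha : ∀ n, bo n ∉ commutator Spor.Bimonster := fun n hn => by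
    have : commutator Spor.Bimonster = ⊤ := eq_top_iff.2 (PresentedGroup.closure_range_of _ ▸ (closure_le _).2 (by
      rintro _ ⟨m, rfl⟩
      obtain ⟨g, hg⟩ := isConj_iff.1 ((bo_conj n).symm.trans (bo_conj m))
      exact (hg ▸ Normal.conj_mem inferInstance _ hn g : bo m ∈ commutator Spor.Bimonster)))
    rw [this, index_top] at h2
    exact absurd h2 (by norm_num)
  classical
  let s : Spor.Bimonster →* ℤˣ := MonoidHom.mk' (fun g => if g ∈ commutator Spor.Bimonster then 1 else -1) fun g h => by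
    by_cases hg : g ∈ commutator Spor.Bimonster <;> by_cases hh : h ∈ commutator Spor.Bimonster <;>
      simp [mul_mem_iff_of_index_two h2, hg, hh]
  have s1 : ∀ g, s g = 1 → g ∈ commutator Spor.Bimonster := fun g hg => by_contra fun h =>
    absurd ((if_neg h).symm.trans hg) (by decide)
  have s2 : ∀ n, s (bo n) = -1 := fun n => if_neg (ha n)
  have s3 : ∀ g : commutator Spor.Bimonster, s g = 1 := fun g => if_pos g.2
  let p := (MonoidHom.fst Monster Monster).comp e.toMonoidHom
  let Θ := kk s (fun u => if u = 1 then 1 else bo .a)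
    (fun u => by rcases Int.units_eq_one_or u with rfl | rfl <;> simp [s2]) s1 p
  let y : Gen → commutator Spor.Bimonster := fun n => ⟨bo n * (bo .a)⁻¹, s1 _ (by simp [s2])⟩
  have Θ1 : ∀ n, Θ (bo n) = nd (p (y n)) := fun n => by
    refine RegularWreathProduct.ext (funext fun u => ?_) (s2 n)
    rcases Int.units_eq_one_or u with rfl | rfl
    · exact (congrArg p (Subtype.ext (by simp [s2, y]))).trans (zpow_one _).symm
    · exact (congrArg p (Subtype.ext (by simp [s2, y, inv_of_sq (bo_sq n)]))).trans ((map_inv p _).trans (zpow_neg_one _).symm)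
  let c := e.toMonoidHom.comp ((MulAut.conjNormal (bo .a)).toMonoidHom.comp e.symm.toMonoidHom)
  have c1 := swap (S := Monster) hM c (fun w => e.symm.injective (Subtype.ext (by
      simp [c, ← mul_assoc, bo_sq, inv_of_sq (bo_sq .a)]; rw [mul_assoc, bo_sq, mul_one])))
    (e.toMonoidHom.comp (inclusion inf_le_right)) fun w hw => by
      have := congrArg Subtype.val (e.symm_apply_eq.2 hw.symm)
      exact ⟨⟨e.symm w, mem_centralizer_singleton_iff.2 (eq_mul_inv_iff_mul_eq.1 this), (e.symm w).2⟩,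
        e.apply_symm_apply w⟩
  refine Schur.trivial_of_forall_stem fun X _ _ σ hσ => ?_
  choose x hx using fun n => hσ.1 (p (y n))
  let N : Gen → (X ≀ᵣ ℤˣ) ⧸ anti hσ.2.1 := fun n => nd (x n)
  have N1 : ∀ n, rho _ (N n) = Θ (bo n) := fun n =>
    Θ1 n ▸ RegularWreathProduct.ext (funext fun u => (map_zpow σ _ _).trans (congrArg (· ^ (u : ℤ)) (hx n))) rfl
  have N2 : ∀ m n, (N m * N n) ^ coxLabel edges m n = 1 := fun m n =>
    (QuotientGroup.eq_one_iff ((nd (x m) * nd (x n)) ^ _)).2 (nd_mem _ (by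
      rw [map_pow, map_mul, map_inv, hx, hx, ← map_inv, ← map_mul, ← map_pow, ← map_one p]
      exact congrArg p (Subtype.ext (by simpa [y, inv_of_sq (bo_sq n)] using bo_cox m n))))
  have N3 := spider_lift (rho_surj _ hσ.1) (rho_ker _) N2 (by simpa only [map_mul, N1] using fiR_M.map Θ)
  have r1 : ∀ r ∈ coxRelators edges, FreeGroup.lift N r = 1 := by
    rintro _ ⟨m, -, n, -, rfl⟩
    simpa only [map_pow, map_mul, FreeGroup.lift_apply_of] using N2 m n
  have r2 : ∀ r ∈ coxRelators edges ∪ {r | r ∈ extra}, FreeGroup.lift N r = 1 := fun r hr => hr.elim (r1 r)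
    (Y5.all (fun r hr => (mem_coxList.1 hr).elim (r1 r) fun hr => by
      rw [show r = spdW by simpa using hr]
      simpa only [map_pow, map_mul, FreeGroup.lift_apply_of] using! N3) r)
  have r3 : (rho _).comp (PresentedGroup.toGroup r2) = Θ := PresentedGroup.ext fun n =>
    (congrArg (rho _) (PresentedGroup.toGroup.of r2)).trans (N1 n)
  refine ker_of_sec hσ ((PresentedGroup.toGroup r2).comp ((commutator _).subtype.comp
    (e.symm.toMonoidHom.comp (MonoidHom.inl _ _)))) fun m => ?_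
  have r4 := DFunLike.congr_fun r3 (e.symm (m, 1) : Spor.Bimonster)
  refine ⟨(congrArg (·.right) r4).trans (s3 _), (congrArg (·.left 1) r4).trans ?_, (congrArg (·.left (-1)) r4).trans ?_⟩
  · exact (congrArg p (Subtype.ext (by simp [s3]))).trans (congrArg Prod.fst (e.apply_symm_apply (m, 1)))
  · exact (congrArg p (Subtype.ext (by simp [s3]))).trans (c1 m)

end CL.INC
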