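/-
Centralisers `2^{1+8}.(S₃ × S₃ × S₃)`: the Curtis–Tits theorem for `D₄(2)`.
-/
import Cfsg.Agent.Spor.O8D
import Cfsg.Agent.Perm.CTRecog
import Cfsg.Agent.Perm.CTClsD
import Cfsg.Agent.Cls.OrthNeg

set_option autoImplicit false

namespace CL.O8

open Subgroup CL.Chev Cfsg
open scoped commutatorElement

universe u

variable {G : Type u} [Group G]

/-- The root elements of an involution. -/
def pw (g : G) (t : ZMod 2) : G := g ^ t.val

theorem pw_zero (g : G) : pw g 0 = 1 := pow_zero g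

theorem pw_one (g : G) : pw g 1 = g := pow_one g

theorem zmod_two_cases (t : ZMod 2) : t = 0 ∨ t = 1 := by revert t; decide

theorem pw_add {g : G} (h : g * g = 1) (t u : ZMod 2) : pw g (t + u) = pw g t * pw g u := by
  rcases zmod_two_cases t with rfl | rfl <;> rcases zmod_two_cases u with rfl | rfl <;>
    simp [pw_zero, pw_one, h, show (1 : ZMod 2) + 1 = 0 from rfl]

theorem pw_comm (g k : G) (t u : ZMod 2) : ⁅pw g t, pw k u⁆ = pw ⁅g, k⁆ (t * u) := by
  rcases zmod_two_cases t with rfl | rfl <;> rcases zmod_two_cases u with rfl | rfl <;> simp [pw_zero, pw_one]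

theorem sl3Std_pw {a n b m : G} (ha : a * a = 1) (hb : b * b = 1) (hn : n * n = 1) (hm : m * m = 1)
    (nb : n * b * n = a * b * a * b) (ma : m * a * m = a * b * a * b) (br : n * m * n = m * n * m) :
    SL3Std (pw a) (pw (n * a * n)) (pw b) (pw (m * b * m)) := by
  let Y : Fin 3 → Fin 3 → G := ![![1, a, n * b * n], ![n * a * n, 1, b], ![n * (m * b * m) * n, m * b * m, 1]]
  have hn' : ∀ g, n * (n * g) = g := fun g => by rw [← mul_assoc, hn, one_mul]
  have hm' : ∀ g, m * (m * g) = g := fun g => by rw [← mul_assoc, hm, one_mul]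
  have br' : ∀ g, m * (n * (m * g)) = n * (m * (n * g)) := fun g => by simp only [← mul_assoc, br]
  have e : a = m * (n * b * n) * m := by rw [nb, ← ma]; simp [mul_assoc, hm, hm']
  let P : S3 → Prop := fun σ => ∃ φ : MulAut G, ∀ i j, i ≠ j → φ (Y i j) = Y (σ i) (σ j)
  have P1 : P (Equiv.swap 0 1) := ⟨MulAut.conj n, fun i j h => by
    fin_cases i <;> fin_cases j <;>
      simp [Y, Equiv.swap_apply_def, inv_eq_of_mul_eq_one_left hn, mul_assoc, hn, hn'] at h ⊢⟩
  have P2 : P (Equiv.swap 1 2) := ⟨MulAut.conj m, fun i j h => by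
    fin_cases i <;> fin_cases j <;> simp [Y, Equiv.swap_apply_def, inv_eq_of_mul_eq_one_left hm, mul_assoc, hm, hm', e,
      br', hn', (mul_assoc n m n).symm.trans (br.trans (mul_assoc m n m))] at h ⊢⟩
  have Pm : ∀ {σ τ}, P σ → P τ → P (σ * τ) := fun {σ τ} ⟨φ, h⟩ ⟨ψ, h'⟩ =>
    ⟨φ * ψ, fun i j hij => by rw [MulAut.mul_apply, h' i j hij, h _ _ (τ.injective.ne hij)]; rfl⟩
  have key : ∀ i j k : Fin 3, i ≠ j → j ≠ k → i ≠ k → ∃ φ : MulAut G, φ a = Y i j ∧ φ b = Y j k ∧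
      φ (n * b * n) = Y i k ∧ φ (m * b * m) = Y k j := fun i j k h1 h2 h3 => by
    obtain ⟨σ, h, rfl, rfl, rfl⟩ : ∃ σ, P σ ∧ σ 0 = i ∧ σ 1 = j ∧ σ 2 = k := by
      revert i j k
      simp only [Fin.forall_fin_succ, ne_eq, not_true, imp_true_iff, true_and, and_true, IsEmpty.forall_iff]
      exact ⟨⟨fun _ _ _ => ⟨_, Pm P1 P1, by decide⟩, fun _ _ _ => ⟨_, P2, by decide⟩⟩,
        ⟨fun _ _ _ => ⟨_, P1, by decide⟩, fun _ _ _ => ⟨_, Pm P1 P2, by decide⟩⟩,
        fun _ _ _ => ⟨_, Pm P2 P1, by decide⟩, fun _ _ _ => ⟨_, Pm P1 (Pm P2 P1), by decide⟩⟩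
    obtain ⟨φ, h⟩ := h
    exact ⟨φ, h 0 1 (by decide), h 1 2 (by decide), h 0 2 (by decide), h 2 1 (by decide)⟩
  have hc : a * b * a * b * (a * b * a * b) = 1 := by rw [← nb]; simp [mul_assoc, hn, hn', ← mul_assoc b b, hb]
  have h0 := eq_inv_of_mul_eq_one_left hc
  simp only [mul_inv_rev, inv_eq_of_mul_eq_one_left ha, inv_eq_of_mul_eq_one_left hb] at h0
  have h1 : Commute (a * b * a * b) a := (congrArg (· * a) h0).trans (by simp [mul_assoc, ha, ← mul_assoc a a])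
  have h2 : Commute (a * b * a * b) b :=
    Eq.trans (by simp [mul_assoc, hb, ← mul_assoc b b]) (congrArg (b * ·) h0).symm
  have ex : ∀ i j : Fin 3, i ≠ j → ∃ k, j ≠ k ∧ i ≠ k := by decide
  refine ⟨fun i j => pw (Y i j), ⟨fun i j h => pw_add ?_, fun i j k h1 h2 h3 t u => ?_, fun i j k l h3 h4 h5 h6 t u => ?_⟩,
    rfl, rfl, rfl, rfl⟩
  · obtain ⟨k, h2, h3⟩ := ex i j h
    obtain ⟨φ, e, -⟩ := key i j k h h2 h3
    rw [← e, ← map_mul, ha, map_one]
  · obtain ⟨φ, e1, e2, e3, -⟩ := key i j k h1 h2 h3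
    rw [pw_comm, ← e1, ← e2, ← e3, ← map_commutatorElement, nb, commutatorElement_def, inv_eq_of_mul_eq_one_left ha,
      inv_eq_of_mul_eq_one_left hb]
  · obtain ⟨x, h7, h8⟩ := ex i j h3
    obtain ⟨φ, e1, -, e3, e4⟩ := key i j x h3 h7 h8
    refine Commute.pow_pow ?_ _ _
    obtain ⟨rfl, rfl⟩ | ⟨rfl, rfl⟩ | ⟨rfl, rfl⟩ : (k = i ∧ l = j) ∨ (k = i ∧ l = x) ∨ (k = x ∧ l = j) := by omega
    · rfl
    · rw [← e1, ← e3, nb]; exact h1.symm.map φ
    · rw [← e1, ← e4, e, nb]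
      simpa [inv_eq_of_mul_eq_one_left hm] using (h2.map (MulAut.conj m)).map φ

theorem ct8 : CT8.{u} := by
  intro G _ _ _ b m a n h hg hZ
  let A : Fin 4 → G := ![a 0, b, a 1, a 2]
  let N : Fin 4 → G := ![n 0, m, n 1, n 2]
  have hA : ∀ i, A i * A i = 1 := fun i => by fin_cases i <;> simp [A, h.asq, h.bsq]
  have hN : ∀ i, N i * N i = 1 := fun i => by fin_cases i <;> simp [N, h.nsq, h.msq]
  have hAN : ∀ i, (A i * N i) ^ 3 = 1 := fun i => by fin_cases i <;> simp [A, N, h.ord, h.bm]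
  have c : ∀ i j, i ≠ j → ∀ t u, Commute (pw (a i) t) (pw (a j) u) ∧ Commute (pw (a i) t) (pw (n j * a j * n j) u) ∧
      Commute (pw (n i * a i * n i) t) (pw (a j) u) ∧ Commute (pw (n i * a i * n i) t) (pw (n j * a j * n j) u) :=
    fun i j hij t u => by
      have h1 := ((h.an i j hij).mul_right (h.aa i j)).mul_right (h.an i j hij)
      have h2 := ((h.nn i j).mul_right (h.an j i hij.symm).symm).mul_right (h.nn i j)
      exact ⟨(h.aa i j).pow_pow _ _, h1.pow_pow _ _, (((h.an j i hij.symm).symm.mul_left (h.aa i j)).mul_left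
        (h.an j i hij.symm).symm).pow_pow _ _, ((h2.mul_left h1).mul_left h2).pow_pow _ _⟩
  have s := fun i => sl3Std_pw (h.asq i) h.bsq (h.nsq i) h.msq (h.nb i) (h.ma i) (h.br i)
  have h3 : 3 ≤ 4 := by norm_num
  have hS := TypeD.sys_faithful (ZMod 2) h3
  obtain ⟨S', e1, e2, e3⟩ := StSys.exists_sys_simply (fun i => pw (A i)) (fun i => pw (N i * A i * N i)) hS.uFaithful
    (TypeD.irred h3) (by simp) (RS.simplyLaced_of_symm (TypeD.irred h3) fun i j => by
      rw [TypeD.cartan h3, TypeD.cartan h3]; revert i j; decide).noG2 (fun i => pw_add (hA i))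
    (fun i => pw_add (by simp [mul_assoc, ← mul_assoc (N i) (N i), ← mul_assoc (A i) (A i), hA, hN])) fun i j hij => by
      rw [TypeD.cartan h3, TypeD.cartan h3]
      fin_cases i <;> fin_cases j <;> first
        | exact absurd rfl hij
        | exact .inr ⟨by decide, by decide, s _⟩
        | exact .inr ⟨by decide, by decide, (s _).symm⟩
        | exact .inl ⟨by decide, c _ _ (by decide)⟩
  obtain ⟨f, hf, -⟩ := StSys.exists_hom_quotient_center e1 hS (TypeD.sys_grp _ h3) (by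
    have h1 : ∀ i, A i ∈ (S'.map (MonoidHom.fst _ _)).grp := fun i =>
      pw_one (A i) ▸ e2 i 1 ▸ (S'.map (MonoidHom.fst _ _)).x_mem_grp _ 1
    have h2 : ∀ i, N i ∈ (S'.map (MonoidHom.fst _ _)).grp := fun i => by
      have := mul_mem (mul_mem (h1 i) (show pw (N i * A i * N i) 1 ∈ _ from
        e3 i 1 ▸ (S'.map (MonoidHom.fst _ _)).x_mem_grp _ 1)) (h1 i)
      rwa [pw_one, eq_inv_of_mul_eq_one_left (show A i * (N i * A i * N i) * A i * N i = 1 by
        rw [← hAN i]; simp [pow_succ, mul_assoc]), inv_mem_iff] at this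
    rw [eq_top_iff, ← hg, gen, closure_le]
    rintro _ (((rfl | rfl) | ⟨i, rfl⟩) | ⟨i, rfl⟩)
    · exact h1 1
    · exact h2 1
    · fin_cases i
      exacts [h1 0, h1 2, h1 3]
    · fin_cases i
      exacts [h2 0, h2 2, h2 3])
  have := Cls.isSimpleGroup_pomega_OG (Cls.nondeg_qfPlus (m := 4) (F := ZMod 2)) (by simp)
  have : IsSimpleGroup (Omega (ZMod 2) (quadFormPlus 4 (ZMod 2))) :=
    (((Cls.omegaEquiv (Cls.qfPlus 4 (ZMod 2))).trans QuotientGroup.quotientBot.symm).trans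
      (QuotientGroup.quotientMulEquivOfEq (Cls.center_commutator_eq_bot (Cls.nondeg_qfPlus (m := 4) (F := ZMod 2))
        (by simp) (Or.inl rfl)).symm)).isSimpleGroup
  let φ : (G ⧸ center G) ≃* G := (QuotientGroup.quotientMulEquivOfEq hZ).trans QuotientGroup.quotientBot
  refine ⟨((MulEquiv.ofBijective f ⟨(MonoidHom.ker_eq_bot_iff f).1
    ((f.normal_ker.eq_bot_or_eq_top).resolve_right fun e => ?_), hf⟩).trans φ).symm⟩
  obtain ⟨y, hy⟩ := exists_ne (1 : G)
  obtain ⟨x, hx⟩ := hf (φ.symm y)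
  exact hy (φ.symm.map_eq_one_iff.1 (hx.symm.trans (e.ge (mem_top x))))

end CL.O8
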