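/-
Centralisers `2^{1+8}.(S₃ × S₃ × S₃)`: generation of the centraliser and simplicity.
-/
import Cfsg.Agent.Spor.O8D

set_option autoImplicit false

namespace CL.O8

open Subgroup CL.Even CL.Grp CL.U6 Cfsg

universe u

variable {G : Type u} [Group G] {z : G} {Q : Subgroup G} {r : G → X} {π : G → V8} {a n : Fin 3 → G}

/-- A subgroup normalised by the `n i` and containing a preimage of a basis vector contains `Q`. -/
theorem TM.le_of_mem (h : TM z Q r π) (L : LV z r a n) {N : Subgroup G} (hN : ∀ i, ∀ y ∈ N, n i * y * (n i)⁻¹ ∈ N)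
    {b : G} (hb : b ∈ Q) (hb' : b ∈ N) {k : Fin 8} (hk : π b = e k) : Q ≤ N := by
  let W : AddSubmonoid V8 :=
    { carrier := {v | ∃ y ∈ Q, y ∈ N ∧ π y = v}
      zero_mem' := ⟨1, one_mem _, one_mem _, h.lm.π_one⟩
      add_mem' := by
        rintro _ _ ⟨x, h1, h2, rfl⟩ ⟨y, h3, h4, rfl⟩
        exact ⟨_, mul_mem h1 h3, mul_mem h2 h4, h.lm.π_mul h1 h3⟩ }
  have h1 : ∀ i, ∀ v ∈ W, act (ν i) v ∈ W := by
    rintro i _ ⟨y, h1, h2, rfl⟩
    exact ⟨_, conjQ h.toXE (L.nz i) h1, hN i y h2, by rw [← h.lm.A_π (L.nz i) h1, L.rn]⟩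
  have h2 : ∀ (i : Fin 3) (k l : Fin 8), (∀ j, mat (ν i) j k = e l j) → e k ∈ W → e l ∈ W := fun i k l h2 h3 =>
    (funext fun j => (act_e _ _ _).trans (h2 j) : act (ν i) (e k) = e l) ▸ h1 i _ h3
  have h3 : ∀ l, e l ∈ W := fun l => by
    obtain ⟨i, j, m, o, x, y, w, e1, e2, e3, e4⟩ := (by decide +kernel : ∀ k l : Fin 8, ∃ i j m o x y w,
      (x = k ∨ ∀ t, mat (ν i) t k = e x t) ∧ (∀ t, mat (ν j) t x = e y t) ∧ (∀ t, mat (ν m) t y = e w t) ∧
        ∀ t, mat (ν o) t w = e l t) k l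
    have h0 : e k ∈ W := ⟨b, hb, hb', hk⟩
    exact h2 _ _ _ e4 (h2 _ _ _ e3 (h2 _ _ _ e2 (e1.elim (· ▸ h0) fun e1 => h2 _ _ _ e1 h0)))
  have h4 : ∀ v, v ∈ W := fun v => by
    rw [← Finset.univ_sum_single v]
    refine sum_mem fun l _ => ?_
    rcases (by decide : ∀ t : ZMod 2, t = 0 ∨ t = 1) (v l) with e1 | e1 <;> rw [e1]
    · rw [Pi.single_zero]; exact zero_mem _
    · exact (funext fun j => (Pi.single_apply _ _ _).symm : e l = Pi.single l 1) ▸ h3 l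
  obtain ⟨x, x1, x2, x3⟩ := h3 0
  obtain ⟨y, y1, y2, y3⟩ := h3 7
  have hz : z ∈ N := (mul_mem_cancel_left x2).1 (h.conj_eq y1 x1 (fun c => by
    have := (h.lm.B_zero y1 x1).mpr c
    rw [x3, y3, B0_e] at this
    exact absurd this (by decide +kernel)) ▸ mul_mem (mul_mem y2 x2) (inv_mem y2))
  intro c hc
  obtain ⟨d, d1, d2, d3⟩ := h4 (π c)
  rcases (h.lm.π_eq hc d1).1 d3.symm with rfl | rfl
  exacts [d2, mul_mem d2 hz]

theorem mem_of_cube {N : Subgroup G} [hN : N.Normal] {x y : G} (h : (x * y) ^ 3 = 1) (hy : y * y = 1) (hx : x ∈ N) :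
    y ∈ N := by
  have : y⁻¹ = x * (y * x * y⁻¹) * x := by
    rw [eq_comm, ← mul_eq_one_iff_eq_inv, inv_eq_of_mul_eq_one_right hy, ← h]; simp [pow_succ, mul_assoc]
  exact inv_mem_iff.1 (this ▸ mul_mem (mul_mem hx (hN.conj_mem x hx y)) hx)

theorem f1 : F1.{u} := by
  intro G _ _ z Q r π h b m a f n R L
  have hm : m⁻¹ = m := inv_eq_of_mul_eq_one_right R.msq
  have m1 : m ∈ gen b m a n := subset_closure (by simp)
  have n1 : ∀ i, n i ∈ gen b m a n := fun i => subset_closure (.inr ⟨i, rfl⟩)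
  have hQ : Q ≤ gen b m a n := h.le_of_mem L (fun i y hy => mul_mem (mul_mem (n1 i) hy) (inv_mem (n1 i))) R.bQ
    (subset_closure (by simp)) R.πb
  have hx : m * z * m⁻¹ ≠ z := fun e => by
    have := R.πx
    rw [← hm, hm] at e
    rw [show m * z * m = z by rwa [hm] at e, (h.lm.π_zero h.mem).2 (.inr rfl)] at this
    exact absurd this (by decide +kernel)
  have h1 : ∀ c, Commute c z → c ∈ gen b m a n := fun c hc => by
    have key : ∀ w ∈ closure (Set.range s ∪ Set.range ν), ∃ l ∈ gen b m a n, Commute l z ∧ r l = w := fun w hw => by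
      induction hw using closure_induction with
      | mem w hw =>
        obtain ⟨i, rfl⟩ | ⟨i, rfl⟩ := hw
        exacts [⟨a i, subset_closure (.inl (.inr ⟨i, rfl⟩)), R.az i, R.ra i⟩, ⟨n i, n1 i, L.nz i, L.rn i⟩]
      | one => exact ⟨1, one_mem _, Commute.one_left z, h.r_one⟩
      | mul _ _ _ _ h1 h2 =>
        obtain ⟨k, k1, k2, rfl⟩ := h1
        obtain ⟨l, l1, l2, rfl⟩ := h2
        exact ⟨_, mul_mem k1 l1, k2.mul_left l2, h.r_mul k2 l2⟩
      | inv _ _ h1 =>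
        obtain ⟨k, k1, k2, rfl⟩ := h1
        exact ⟨_, inv_mem k1, k2.inv_left, h.r_inv k2⟩
    obtain ⟨l, l1, l2, l3⟩ := key (r c) (closure_sν ▸ mem_top _)
    exact (mul_mem_cancel_right (inv_mem l1)).1 (hQ ((h.r_eq hc l2).1 l3.symm))
  refine ⟨h1, eq_bot_iff.2 fun t ht => ?_, ?_⟩
  · have h2 : (t : G) ∈ zpowers z := h.cent_eq ▸ fun y hy => congrArg Subtype.val (mem_center_iff.1 ht ⟨y, hQ hy⟩)
    refine Subtype.ext ((h.mem_Z.1 h2).resolve_right fun e => hx ?_)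
    rw [← e, mul_inv_eq_iff_eq_mul]
    exact congrArg Subtype.val (mem_center_iff.1 ht ⟨m, m1⟩)
  have : Nontrivial G := ⟨z, 1, h.ne_one⟩
  refine ⟨fun N hN => or_iff_not_imp_left.2 fun h0 => ?_⟩
  have h2 : ¬ Odd (Nat.card N) := fun ho => h0 (h.large_of_conj_mem (hm.symm ▸ R.xQ) hx ho
    (normalizer_eq_top_iff.mpr hN ▸ le_top))
  obtain ⟨T, hT⟩ := h.isPGroup.exists_le_sylow
  have hz : z ∈ N := (h.mem_of_normalized (U := N ⊓ T) (T.isPGroup'.to_le inf_le_right)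
    (fun y hy => mem_normalizer_fintype fun x hx => mem_inf.2
      ⟨hN.conj_mem x hx.1 y, mul_mem (mul_mem (hT hy) (mem_inf.1 hx).2) (inv_mem (hT hy))⟩)
    fun e => by
      obtain ⟨t, ht⟩ := exists_prime_orderOf_dvd_card' (G := N) 2 (even_iff_two_dvd.1 (Nat.not_odd_iff_even.1 h2))
      obtain ⟨P, hP⟩ := (IsPGroup.of_card (p := 2) (n := 1) (G := zpowers (t : G)) (by
        rw [Nat.card_zpowers, orderOf_coe, ht, pow_one])).exists_le_sylow
      obtain ⟨g, rfl⟩ := MulAction.exists_smul_eq G P T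
      have : g * t * g⁻¹ ∈ N ⊓ (g • P : Sylow 2 G) := ⟨hN.conj_mem _ t.2 g, t, hP (mem_zpowers _), rfl⟩
      rw [e, mem_bot, conj_eq_one_iff, OneMemClass.coe_eq_one] at this
      simp [this] at ht).1
  have h3 : Q ≤ N := h.le_of_mem L (fun i y hy => hN.conj_mem y hy _) R.xQ (by simpa only [hm] using hN.conj_mem z hz m) R.πx
  have h4 : ∀ i, a i ∈ N := fun i => by simpa only [hm, R.ha] using hN.conj_mem _ (h3 (R.fQ i)) m
  have h5 : gen b m a n ≤ N := (closure_le _).2 (by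
    rintro _ (((rfl | rfl) | ⟨i, rfl⟩) | ⟨i, rfl⟩)
    exacts [h3 R.bQ, mem_of_cube R.ord R.msq (h3 R.bQ), h4 i, mem_of_cube (L.ord i) (L.nsq i) (h4 i)])
  exact (sup_eq_left.2 fun c hc => h5 (h1 c (mem_cent_singleton.1 hc))).symm.trans (h.sup_cent_eq_top h3)

end CL.O8
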