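/-
Centralisers `2^{1+8}.(S₃ × S₃ × S₃)` (helper9): assembly.
-/
import Cfsg.Agent.Spor.O8D
import Cfsg.Agent.Inv.ZStar

set_option autoImplicit false
set_option linter.unusedSectionVars false

namespace CL.O8

open Subgroup CL.Even CL.Grp CL.U6 Cfsg

universe u

variable {G : Type u} [Group G] [Finite G] {z : G} {Q : Subgroup G} {r : G → X}

theorem St.exists_TM (h : St z Q r) (l1 : LN1) (l2 : LN2) {g : G} (N : NX z Q r g) :
    ∃ π, TM z Q r π ∧ π (g * z * g⁻¹) = e 7 := by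
  obtain ⟨π, α, B, q, M, O⟩ := h.exists_om
  have h' := h.conj g
  have hs : ∀ i, α (s i) (π (g * z * g⁻¹)) = π (g * z * g⁻¹) := fun i => by
    obtain ⟨y, hy, hyz, e⟩ := N.img (s i) (by revert i; decide +kernel)
    rw [← e]
    exact (M.fix_iff h.toXE hyz N.mem).mpr (Or.inl (h'.comm hy))
  have h0 : π (g * z * g⁻¹) ≠ 0 := fun e => ((M.π_zero N.mem).mp e).elim h'.ne_one N.ne
  have hf := l1 α B q O _ hs (fun i e => by
    have k : ¬ InA (ρ i) := by clear e; revert i; decide +kernel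
    obtain ⟨c, hc, e'⟩ := h.r_surj (ρ i)
    rw [← e'] at e k
    rcases (M.fix_iff h.toXE hc N.mem).mp e with e1 | e1
    · exact k (N.inA c hc e1)
    obtain ⟨a, ha, e2⟩ := h.exists_conj_eq_mul N.mem (h.not_mem_cent N.mem (by rw [pow_two, h'.mul_self])
      h'.ne_one N.ne)
    have := N.inA (a * c) (Commute.mul_left (h.comm ha) hc) (mul_inv_eq_iff_eq_mul.mp (by
      calc a * c * (g * z * g⁻¹) * (a * c)⁻¹ = a * (c * (g * z * g⁻¹) * c⁻¹) * a⁻¹ := by group
        _ = a * (g * z * g⁻¹) * a⁻¹ * (a * z * a⁻¹) := by rw [e1]; group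
        _ = _ := by rw [e2, h.comm ha, mul_inv_cancel_right, mul_assoc z, h.comm N.mem, ← mul_assoc, h.mul_self,
          one_mul]))
    rw [h.r_mul (h.comm ha) hc, h.r_Q ha, one_mul] at this
    exact k this) fun a ha ha1 => by
      obtain ⟨y, hy, hyz, rfl⟩ := N.img a ha
      obtain ⟨d, hd, e⟩ := N.cm y hy hyz fun hQ => ha1 (h.r_Q hQ)
      exact ⟨π d, by rw [M.A_π hyz hd, ← e, M.π_mul (conjQ h.toXE hyz hd) (inv_mem hd), M.π_inv hd]⟩
  obtain ⟨φ, h1, h2, h3, h4⟩ := l2 α B q O hf _ h0 ((M.q_zero N.mem).mpr h'.mul_self) hs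
  refine ⟨fun a => φ (π a), ⟨h, fun ha hb => by rw [M.π_mul ha hb, map_add], fun v => ?_,
    fun ha => by rw [← M.π_zero ha, φ.map_eq_zero_iff], fun v w => ?_, fun v hv => ?_,
    fun ha => by rw [h2, M.q_zero ha], fun ha hb => by rw [h3, M.B_zero ha hb],
    fun ha hb => by rw [h.r_mul ha hb, act_mul], fun hc ha => by rw [← h1, M.A_π hc ha], fun hc v => ?_,
    fun hc => ?_⟩, h4⟩
  · obtain ⟨a, ha, e⟩ := M.π_surj (φ.symm v)
    exact ⟨a, ha, by rw [e, φ.apply_symm_apply]⟩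
  · obtain ⟨v, rfl⟩ := φ.surjective v
    obtain ⟨w, rfl⟩ := φ.surjective w
    rw [← map_add, h2, h2, h2, h3, O.hq]
  · obtain ⟨v, rfl⟩ := φ.surjective v
    rw [O.hN v fun y => by rw [← h3, hv], map_zero]
  · obtain ⟨v, rfl⟩ := φ.surjective v
    rw [← h1, h2, h2, O.inv]
  · rw [← M.A_ker hc]
    exact ⟨fun k v => φ.injective (by rw [h1, k]), fun k v => by
      obtain ⟨v, rfl⟩ := φ.surjective v
      rw [← h1, k]⟩

namespace RA

variable {π : G → V8} {b m : G} {a f : Fin 3 → G} (h : TM z Q r π) (R : RA z Q r π b m a f)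
include h R

theorem bsq : b * b = 1 := (h.lm.q_zero R.bQ).mp (by rw [R.πb]; decide +kernel)

theorem fsq (i : Fin 3) : f i * f i = 1 := (h.lm.q_zero (R.fQ i)).mp (by rw [R.πf]; revert i; decide +kernel)

theorem ff (i j : Fin 3) : Commute (f i) (f j) :=
  (h.lm.B_zero (R.fQ i) (R.fQ j)).mp (by rw [R.πf, R.πf, B0_e]; revert i j; decide +kernel)

omit [Finite G] h in
theorem minv : m⁻¹ = m := inv_eq_of_mul_eq_one_right R.msq

theorem asq (i : Fin 3) : a i * a i = 1 := by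
  calc _ = m * (f i * (m * m) * f i) * m := by rw [R.ha]; group
    _ = 1 := by rw [R.msq, mul_one, R.fsq h, mul_one, R.msq]

theorem aa (i j : Fin 3) : Commute (a i) (a j) := by
  have := (CL.TT.commute_conj_iff m _ _).mpr (R.ff h i j)
  rwa [R.minv, ← R.ha, ← R.ha] at this

theorem aba (i : Fin 3) : a i * b * a i = f i * b := by
  rw [← R.com, mul_assoc _ b b, R.bsq h, mul_one]

theorem nbn {n : Fin 3 → G} (L : LV z r a n) (i : Fin 3) : n i * b * n i = f i ∨ n i * b * n i = f i * z := by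
  have e := h.lm.A_π (L.nz i) R.bQ
  have k := conjQ h.toXE (L.nz i) R.bQ
  rw [inv_eq_of_mul_eq_one_right (L.nsq i)] at e k
  refine (h.lm.π_eq k (R.fQ i)).mp ?_
  rw [← e, L.rn, R.πb, R.πf, funext_iff]
  simp only [act_e]
  clear e k
  revert i
  decide +kernel

theorem nbn_of {n : Fin 3 → G} (L : LV z r a n) {i j : Fin 3} (hi : n i * b * n i = f i) : n j * b * n j = f j := by
  by_cases hij : i = j
  · exact hij ▸ hi
  refine (R.nbn h L j).resolve_right fun hj => h.ne_one ?_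
  have ni := inv_eq_of_mul_eq_one_right (L.nsq i)
  have nj := inv_eq_of_mul_eq_one_right (L.nsq j)
  have ai := inv_eq_of_mul_eq_one_right (R.asq h i)
  have aj := inv_eq_of_mul_eq_one_right (R.asq h j)
  have c1 : n j * a i * (n j)⁻¹ = a i := by rw [← (L.an i j hij).eq, mul_inv_cancel_right]
  have c2 : n i * a j * (n i)⁻¹ = a j := by rw [← (L.an j i (Ne.symm hij)).eq, mul_inv_cancel_right]
  have c3 : a j * a i * (a j)⁻¹ = a i := by rw [(R.aa h j i).eq, mul_inv_cancel_right]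
  have hi' : n i * b * (n i)⁻¹ = f i := by rwa [ni]
  have hj' : n j * b * (n j)⁻¹ = f j * z := by rwa [nj]
  set g := n j * f i * (n j)⁻¹ with hg
  have e0 : n i * f j * (n i)⁻¹ * z = g := by
    calc _ = n i * (f j * z) * (n i)⁻¹ := by rw [mul_assoc, (L.nz i).inv_left.eq]; group
      _ = n i * n j * b * (n i * n j)⁻¹ := by rw [← hj']; group
      _ = _ := by rw [(L.nn i j).eq, hg, ← hi']; group
  have e1 : a i * (f j * z) * a i = g * (f j * z) := by
    calc _ = n j * (a i * b * a i) * (n j)⁻¹ := by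
          conv_lhs => rw [← c1, ← hj']
          group
      _ = _ := by rw [R.aba h, hg, ← hj']; group
  have e2 : a j * f i * a j = n i * f j * (n i)⁻¹ * f i := by
    calc _ = n i * (a j * b * a j) * (n i)⁻¹ := by
          conv_lhs => rw [← c2, ← hi']
          group
      _ = _ := by rw [R.aba h, ← hi']; group
  have e3 : a i * (f j * b) * a i = a j * f i * a j * (f j * b) := by
    calc _ = a j * (a i * b * a i) * (a j)⁻¹ := by
          conv_lhs => rw [← c3, ← R.aba h]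
          conv_lhs => enter [1, 2, 2]; rw [← aj]
          group
      _ = a j * f i * (a j)⁻¹ * (a j * b * (a j)⁻¹) := by rw [R.aba h]; group
      _ = _ := by rw [aj, R.aba h]
  have e4 : a i * f j * a i = g * f j := by
    rw [← mul_assoc, mul_assoc _ z, ← (R.az i).eq, ← mul_assoc, ← mul_assoc g] at e1
    exact mul_right_cancel e1
  have e5 : a i * (f j * b) * a i = g * f j * (f i * b) := by
    rw [← e4, ← R.aba h i]
    calc _ = a i * f j * (a i * a i) * b * a i := by rw [R.asq h]; group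
      _ = _ := by group
  rw [e5, e2, ← e0, mul_assoc _ z, mul_assoc _ (z * _), mul_assoc _ (f i), mul_right_inj, ← mul_assoc,
    ← mul_assoc, mul_left_inj, mul_assoc, (R.ff h j i).eq, mul_eq_right] at e3
  exact e3

theorem exists_LV (r2 : R2.{u}) : ∃ n, LV z r a n ∧ ∀ i, n i * b * n i = f i := by
  obtain ⟨n, L⟩ := r2 G z Q r π h a (R.asq h) R.az R.ra (R.aa h)
  rcases R.nbn h L 0 with e | e
  · exact ⟨n, L, fun i => R.nbn_of h L e⟩
  set x := m * z * m with hx
  have xx : x * x = 1 := (h.lm.q_zero R.xQ).mp (by rw [R.πx]; decide +kernel)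
  have xi := inv_eq_of_mul_eq_one_right xx
  have xz : Commute x z := h.comm R.xQ
  have xa : ∀ i, x * a i * x⁻¹ = a i := fun i => by
    have := (CL.TT.commute_conj_iff m _ _).mpr (show Commute z (f i) from (h.comm (R.fQ i)).symm)
    rw [R.minv, ← R.ha] at this
    rw [this.eq, mul_inv_cancel_right]
  have L' : LV z r a fun i => x * n i * x⁻¹ := by
    refine ⟨fun i => ?_, fun i => (xz.mul_left (L.nz i)).mul_left xz.inv_left, fun i => ?_, fun i => ?_,
      fun i j hij => ?_, fun i j => (CL.TT.commute_conj_iff x _ _).mpr (L.nn i j)⟩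
    · rw [conj_mul, L.nsq, mul_one, mul_inv_cancel]
    · rw [h.r_conj xz (L.nz i), h.r_Q R.xQ, L.rn]; simp
    · rw [← xa i, conj_mul, conj_pow, L.ord, mul_one, mul_inv_cancel]
    · rw [← xa i]; exact (CL.TT.commute_conj_iff x _ _).mpr (L.an i j hij)
  refine ⟨_, L', fun i => R.nbn_of h L' (i := 0) ?_⟩
  have e1 : x * b * x⁻¹ = b * z := h.conj_eq R.xQ R.bQ fun c => by
    have := (h.lm.B_zero R.xQ R.bQ).mpr c
    rw [R.πx, R.πb, B0_e] at this
    exact absurd this (by decide +kernel)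
  have e2 : Commute x (f 0) := (h.lm.B_zero R.xQ (R.fQ 0)).mp (by rw [R.πx, R.πf, B0_e]; decide +kernel)
  calc _ = x * (n 0 * (x⁻¹ * b * x) * n 0) * x⁻¹ := by group
    _ = x * (n 0 * b * n 0 * z) * x⁻¹ := by
        conv_lhs => enter [1, 2, 1, 2]; rw [xi, ← xi, xi]; enter [2]; rw [← xi]
        rw [e1, ← mul_assoc (n 0), mul_assoc _ z, ← (L.nz 0).eq, ← mul_assoc (n 0 * b)]
    _ = _ := by rw [e, mul_assoc (f 0), h.mul_self, mul_one, e2.eq, mul_inv_cancel_right]

end RA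

theorem St.main (h : St z Q r) (ct : CT8.{u}) (wc : WC.{u}) (n1 : N1.{u}) (l1 : LN1) (l2 : LN2) (r1 : R1.{u})
    (r2 : R2.{u}) (r3 : R3.{u}) (f1 : F1.{u}) (f2 : F2.{u}) (f3 : F3.{u}) :
    (∀ g : G, g * z * g⁻¹ * z⁻¹ ∈ oddCore G) ∨ Nonempty (G ≃* Omega (ZMod 2) (quadFormPlus 4 (ZMod 2))) := by
  by_cases h1 : ∀ k, k * z * k⁻¹ ∈ Q → k * z * k⁻¹ = z
  · refine Or.inl fun g => ?_
    have := inv_mem (CL.Inv.zstar_mem_oddCore ⟨h.ord, fun k hk => wc G z Q r h h1 k hk.symm⟩ g)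
    simpa [mul_assoc] using this
  push Not at h1
  obtain ⟨k, hk, hk'⟩ := h1
  obtain ⟨c, -, N⟩ := n1 G z Q r h k hk hk'
  obtain ⟨π, T, e⟩ := h.exists_TM l1 l2 N
  obtain ⟨b, m, a, f, R⟩ := r1 G z Q r π T _ N e
  obtain ⟨n, L, hn⟩ := R.exists_LV T r2
  obtain ⟨h2, h3, h4⟩ := f1 G z Q r π T b m a f n R L
  obtain ⟨h5, h6⟩ := f2 G z Q r π T b m a f R _ h2 (subset_closure (by simp))
  have h7 := f3 G z Q r h _ h2 h5 h6
  refine Or.inr (ct G b m a n ⟨R.bsq T, R.msq, R.asq T, L.nsq, R.ord, L.ord, R.aa T, L.an, L.nn,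
    fun i => by rw [hn, R.com], fun i => ?_, r3 G z Q r π T b m a f n R L hn⟩ h7 (eq_bot_iff.mpr fun t ht => ?_))
  · rw [R.com, R.ha, ← mul_assoc, ← mul_assoc, R.msq, one_mul, mul_assoc, R.msq, mul_one]
  · have : (⟨t, h7 ▸ mem_top t⟩ : gen b m a n) ∈ center _ :=
      mem_center_iff.mpr fun y => Subtype.ext (mem_center_iff.mp ht y)
    rw [h3] at this
    exact congrArg Subtype.val this

theorem exists_St {t : G} (ht : orderOf t = 2) (hF : IsExtraspecial 2 (generalizedFittingSubgroup (centralizer {t})))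
    (hc : Nat.card (generalizedFittingSubgroup (centralizer ({t} : Set G))) = 2 ^ 9)
    (e : centralizer ({t} : Set G) ⧸ pCore 2 (centralizer ({t} : Set G)) ≃* X) : ∃ Q r, St t Q r := by
  classical
  have h1 : generalizedFittingSubgroup (centralizer ({t} : Set G)) = pCore 2 _ :=
    le_antisymm (le_pCore (IsPGroup.of_card hc)) (CL.Loc.pCore_le_fstar 2)
  have h := xe_of_fstar ht rfl (extra_of_mulEquiv hF (equivMapOfInjective _ _ (subtype_injective _)))
  let φ : centralizer ({t} : Set G) →* X := e.toMonoidHom.comp (QuotientGroup.mk' _)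
  let r : G → X := fun c => if hc : Commute c t then φ ⟨c, mem_cent_singleton.mpr hc⟩ else 1
  have hr : ∀ {c} (hc : Commute c t), r c = φ ⟨c, mem_cent_singleton.mpr hc⟩ := fun hc => dif_pos hc
  refine ⟨_, r, h, by rw [card_map_subtype, hc]; norm_num, fun ha hb => ?_, fun w => ?_, fun {c} hc => ?_⟩
  · rw [hr ha, hr hb, hr (ha.mul_left hb), ← map_mul]; rfl
  · obtain ⟨c, rfl⟩ := (e.surjective.comp QuotientGroup.mk_surjective) w
    exact ⟨c, mem_cent_singleton.mp c.2, hr (mem_cent_singleton.mp c.2)⟩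
  · rw [hr hc, CL.Loc.fstarOf, h1]
    refine (e.map_eq_one_iff.trans (QuotientGroup.eq_one_iff _)).trans ⟨fun k => ⟨_, k, rfl⟩, ?_⟩
    rintro ⟨y, hy, rfl⟩
    exact hy

end CL.O8
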