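/-
Centralisers `2^{1+8}.(S₃ × S₃ × S₃)` (helper9): control of fusion.
-/
import Cfsg.Agent.Spor.O8M

set_option autoImplicit false

namespace CL.O8

open Subgroup CL.Even CL.Grp CL.U6 Cfsg

universe u

variable {G : Type u} [Group G] [Finite G] {z : G} {Q : Subgroup G} {r : G → X} {π : G → V8}

theorem TM.exists_e7 (h : TM z Q r π) (n1 : N1.{u}) {g : G} (hg : g * z * g⁻¹ ∈ Q) (hne : g * z * g⁻¹ ≠ z) :
    ∃ c, Commute c z ∧ π (c * (g * z * g⁻¹) * c⁻¹) = e 7 := by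
  obtain ⟨c, hc, N⟩ := n1 G z Q r h.toSt g hg hne
  have h' := h.toSt.conj (c * g)
  refine ⟨c, hc, ?_⟩
  rw [show c * (g * z * g⁻¹) * c⁻¹ = c * g * z * (c * g)⁻¹ by group]
  refine (eq_of_fix fun i => ?_).resolve_left fun e => ((h.lm.π_zero N.mem).mp e).elim h'.ne_one N.ne
  obtain ⟨y, hy, hyz, e⟩ := N.img (s i) (by clear * -; revert i; decide +kernel)
  rw [← e]
  exact (h.lm.fix_iff h.toXE hyz N.mem).mpr (Or.inl (h'.comm hy))

/-- A preimage under `1 + a`, for `a` moving the `i`-th digit. -/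
def pre (i : Fin 3) (v : V8) : V8 := fun k => if bit i k = 0 then v k + v (k + sg i) else 0

theorem free_aux : ∀ w : X, InA w → w ≠ 1 → ∀ v : V8, (∀ k, mat w k 0 * v 0 + mat w k 1 * v 1 + mat w k 2 * v 2 +
    mat w k 3 * v 3 + mat w k 4 * v 4 + mat w k 5 * v 5 + mat w k 6 * v 6 + mat w k 7 * v 7 = v k) →
    ∃ i, ∀ k, mat w k 0 * pre i v 0 + mat w k 1 * pre i v 1 + mat w k 2 * pre i v 2 + mat w k 3 * pre i v 3 +
      mat w k 4 * pre i v 4 + mat w k 5 * pre i v 5 + mat w k 6 * pre i v 6 + mat w k 7 * pre i v 7 + pre i v k =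
      v k := by decide +kernel

theorem free {w : X} (hw : InA w) (h1 : w ≠ 1) {v : V8} (hv : act w v = v) : ∃ u, act w u + u = v := by
  obtain ⟨i, hi⟩ := free_aux w hw h1 v fun k => by rw [← act_apply, hv]
  exact ⟨pre i v, funext fun k => by rw [Pi.add_apply, act_apply, hi]⟩

theorem RA.exists_word (h : TM z Q r π) {b m : G} {a f : Fin 3 → G} (R : RA z Q r π b m a f) {w : X} (hw : InA w) :
    ∃ p, Commute p z ∧ r p = w ∧ p * p = 1 ∧ m * p * m⁻¹ ∈ Q := by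
  have k : ∀ w : X, InA w → ∃ i j l : Fin 2, w = s 0 ^ i.val * s 1 ^ j.val * s 2 ^ l.val := by decide +kernel
  obtain ⟨i, j, l, rfl⟩ := k w hw
  have k1 : ∀ i (n : ℕ), m * a i ^ n * m⁻¹ ∈ Q := fun i n => by
    rw [← conj_pow, R.ha, R.minv, ← mul_assoc, ← mul_assoc, R.msq, one_mul, mul_assoc, R.msq, mul_one]
    exact pow_mem (R.fQ i) n
  have k2 : ∀ i (n : ℕ), (a i ^ n) ^ 2 = 1 := fun i n => by rw [← pow_mul, mul_comm, pow_mul, pow_two, R.asq h, one_pow]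
  refine ⟨a 0 ^ i.val * a 1 ^ j.val * a 2 ^ l.val,
    (((R.az 0).pow_left _).mul_left ((R.az 1).pow_left _)).mul_left ((R.az 2).pow_left _), ?_, ?_, ?_⟩
  · rw [h.r_mul (((R.az 0).pow_left _).mul_left ((R.az 1).pow_left _)) ((R.az 2).pow_left _),
      h.r_mul ((R.az 0).pow_left _) ((R.az 1).pow_left _), h.r_pow (R.az 0), h.r_pow (R.az 1), h.r_pow (R.az 2),
      R.ra, R.ra, R.ra]
  · rw [← pow_two, Commute.mul_pow (((R.aa h 0 2).pow_pow _ _).mul_left ((R.aa h 1 2).pow_pow _ _)),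
      ((R.aa h 0 1).pow_pow _ _).mul_pow, k2, k2, k2, one_mul, one_mul]
  · rw [← conj_mul, ← conj_mul]
    exact mul_mem (mul_mem (k1 _ _) (k1 _ _)) (k1 _ _)

theorem f2 (n1 : N1.{u}) : F2.{u} := by
  intro G _ _ z Q r π h b m a f R M hC hm
  have L := h.lm
  have hQ : ∀ g, g * z * g⁻¹ ∈ Q → ∃ k ∈ M, k * z * k⁻¹ = g * z * g⁻¹ := fun g hg => by
    by_cases hne : g * z * g⁻¹ = z
    · exact ⟨1, one_mem _, by rw [hne]; simp⟩
    obtain ⟨c, hc, e⟩ := h.exists_e7 n1 hg hne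
    rcases (L.π_eq (conjQ h.toXE hc hg) R.xQ).mp (e.trans R.πx.symm) with e1 | e1
    · refine ⟨c⁻¹ * m, mul_mem (inv_mem (hC c hc)) hm, ?_⟩
      calc _ = c⁻¹ * (m * z * m⁻¹) * c := by group
        _ = _ := by rw [R.minv, ← e1]; group
    · refine ⟨c⁻¹ * b * m, mul_mem (mul_mem (inv_mem (hC c hc)) (hC b (h.comm R.bQ))) hm, ?_⟩
      rw [← h.conj_eq R.bQ R.xQ fun c => by
        have := (L.B_zero R.bQ R.xQ).mpr c
        rw [R.πx, R.πb, B0_e] at this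
        exact absurd this (by decide +kernel)] at e1
      calc _ = c⁻¹ * (b * (m * z * m⁻¹) * b⁻¹) * c := by group
        _ = _ := by rw [R.minv, ← e1]; group
  have tr : ∀ g k, k ∈ M → (∃ l ∈ M, l * z * l⁻¹ = k * g * z * (k * g)⁻¹) → ∃ l ∈ M, l * z * l⁻¹ = g * z * g⁻¹ :=
    fun g k hk ⟨l, hl, e⟩ => ⟨k⁻¹ * l, mul_mem (inv_mem hk) hl, by
      calc _ = k⁻¹ * (l * z * l⁻¹) * k := by group
        _ = _ := by rw [e]; group⟩
  refine ⟨fun g hg => ?_, ?_⟩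
  · obtain ⟨w, hw⟩ := exists_conj_A0 (A := zpowers (r (g * z * g⁻¹))) (IsPGroup.iff_orderOf.mpr fun y =>
      (Nat.dvd_prime_pow (m := 1) Nat.prime_two).mp ((orderOf_dvd_natCard y).trans (by
        rw [Nat.card_zpowers, pow_one]
        exact orderOf_dvd_of_pow_eq_one (by
          rw [← h.r_pow hg, pow_two, (h.toXS.conj g).mul_self, h.r_one]))) |>.imp fun _ h => h.2)
    obtain ⟨c, hc, rfl⟩ := h.r_surj w
    have h1 := hw _ (mem_zpowers _)
    refine tr g c (hC c hc) ?_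
    have hg' := (hc.mul_left hg).mul_left hc.inv_left
    rw [← h.r_conj hc hg] at h1
    rw [show c * (g * z * g⁻¹) * c⁻¹ = c * g * z * (c * g)⁻¹ by group] at h1 hg'
    generalize c * g = g at h1 hg' ⊢
    by_cases h2 : r (g * z * g⁻¹) = 1
    · exact hQ g ((h.r_ker hg').mp h2)
    obtain ⟨p, pz, rp, pp, mp⟩ := R.exists_word h h1
    have h3 := (h.r_eq hg' pz).mp rp.symm
    have tt := (h.toXS.conj g).mul_self
    have pi := inv_eq_of_mul_eq_one_right pp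
    obtain ⟨u, hu⟩ := free h1 h2 (v := π (g * z * g⁻¹ * p⁻¹)) (by
      rw [← rp, L.A_π pz h3, ← L.π_inv h3, mul_inv_rev, inv_inv, inv_eq_of_mul_eq_one_right tt, mul_assoc p,
        mul_assoc _ p⁻¹, pi, pp, mul_one])
    obtain ⟨d, hd, rfl⟩ := L.π_surj u
    rw [← rp, L.A_π pz hd, ← L.π_inv (conjQ h.toXE pz hd), add_comm, ← L.π_mul hd (inv_mem (conjQ h.toXE pz hd)),
      eq_comm, L.π_eq h3 (mul_mem hd (inv_mem (conjQ h.toXE pz hd)))] at hu
    refine tr g (m * d⁻¹) (mul_mem hm (inv_mem (hC d (h.comm hd)))) (hQ _ ?_)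
    rw [show m * d⁻¹ * g * z * (m * d⁻¹ * g)⁻¹ = m * (d⁻¹ * (g * z * g⁻¹ * p⁻¹ * p) * d) * m⁻¹ by group]
    rcases hu with e | e <;> rw [e]
    · rwa [show d⁻¹ * (d * (p * d * p⁻¹)⁻¹ * p) * d = p by group]
    · rw [mul_assoc _ z, ← pz.eq, ← mul_assoc _ p, mul_assoc d⁻¹, mul_assoc _ z, ← (cQ h.toXE hd).eq,
        show d⁻¹ * (d * (p * d * p⁻¹)⁻¹ * p * (d * z)) = p * z by group, ← conj_mul]
      exact mul_mem mp (by rw [R.minv]; exact R.xQ)
  · obtain ⟨t, ht, e⟩ := L.π_surj (e 3 + e 5)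
    have h0 : π t ≠ 0 := by rw [e]; decide +kernel
    refine ⟨t, orderOf_eq_prime (by rw [pow_two, ← L.q_zero ht, e]; decide +kernel)
      fun e' => h0 ((L.π_zero ht).mpr (Or.inl e')), fun hc => ?_⟩
    obtain ⟨g, rfl⟩ := isConj_iff.mp hc
    obtain ⟨c, hc, e'⟩ := h.exists_e7 n1 ht fun e' => h0 ((L.π_zero ht).mpr (Or.inr e'))
    rw [← L.A_π hc ht, e, map_add, funext_iff] at e'
    simp only [Pi.add_apply, act_e] at e'
    revert e'
    generalize r c = w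
    clear * -
    revert w
    decide +kernel

end CL.O8
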