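/-
Centralisers `2^{1+8}.(S₃ × S₃ × S₃)` (helper18 for helper9): a quadratic Sylow 2-subgroup is impossible.
-/
import Cfsg.Agent.Spor.O8D

set_option autoImplicit false

namespace CL.O8

open Subgroup CL.Even CL.Grp CL.U6 Cfsg Module

theorem v8_two : (2 : V8) = 0 := by funext k; rfl

theorem iso_le_four {B : LinearMap.BilinForm (ZMod 2) V8} {q : V8 → ZMod 2}
    (hq : ∀ v w, q (v + w) = q v + q w + B v w) (hN : ∀ r, (∀ y, B r y = 0) → r = 0) {v : Fin 5 → V8}
    (hv : LinearIndependent (ZMod 2) v) (ho : ∀ i j, B (v i) (v j) = 0) : False := by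
  have h1 := two_mul_finrank_le_of_isotropic (quad2_isAlt hq) hN (W := Submodule.span (ZMod 2) (Set.range v)) (by
    refine Submodule.span_le.mpr ?_
    rintro _ ⟨i, rfl⟩ x hx
    induction hx using Submodule.span_induction with
    | mem x hx => obtain ⟨j, rfl⟩ := hx; exact ho j i
    | zero => exact LinearMap.BilinForm.isOrtho_zero_left _
    | add x y _ _ hx hy =>
      change B (x + y) (v i) = 0
      rw [map_add, LinearMap.add_apply, show B x (v i) = 0 from hx, show B y (v i) = 0 from hy, add_zero]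
    | smul a x _ hx =>
      change B (a • x) (v i) = 0
      rw [map_smul, LinearMap.smul_apply, show B x (v i) = 0 from hx, smul_zero])
  rw [finrank_span_eq_card hv, Module.finrank_fin_fun] at h1
  simp at h1

theorem iso_five {B : LinearMap.BilinForm (ZMod 2) V8} {q : V8 → ZMod 2}
    (hq : ∀ v w, q (v + w) = q v + q w + B v w) (hN : ∀ r, (∀ y, B r y = 0) → r = 0) {a b c d e : V8}
    (hv : ∀ x y z t u : ZMod 2, x • a + y • b + z • c + t • d + u • e = 0 → x = 0 ∧ y = 0 ∧ z = 0 ∧ t = 0 ∧ u = 0)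
    (ab : B a b = 0) (ac : B a c = 0) (ad : B a d = 0) (ae : B a e = 0) (bc : B b c = 0) (bd : B b d = 0)
    (be : B b e = 0) (cd : B c d = 0) (ce : B c e = 0) (de : B d e = 0) : False := by
  refine iso_le_four hq hN (v := ![a, b, c, d, e]) (Fintype.linearIndependent_iff.mpr fun g hg i => ?_) fun i j => ?_
  · rw [Fin.sum_univ_five] at hg
    obtain ⟨h0, h1, h2, h3, h4⟩ := hv _ _ _ _ _ hg
    fin_cases i <;> assumption
  · have s := quad2_symm hq
    have t := quad2_isAlt hq
    fin_cases i <;> fin_cases j <;> first | exact t _ | assumption | exact (s _ _).trans (by assumption)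

section Loc

variable {S R : Module.End (ZMod 2) V8}

/-- The part of the module on which an element of order three has no fixed points. -/
def Wp (R : Module.End (ZMod 2) V8) (p : V8) : Prop := p + R p + R (R p) = 0

theorem Wp.add {p p' : V8} (h : Wp R p) (h' : Wp R p') : Wp R (p + p') := by
  unfold Wp at *; simp only [map_add]; linear_combination h + h'

theorem Wp.smul {p : V8} (h : Wp R p) (x : ZMod 2) : Wp R (x • p) := by
  unfold Wp at *; simp only [map_smul]; rw [← smul_add, ← smul_add, h, smul_zero]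

theorem Wp.map {p : V8} (h : Wp R p) (hc : ∀ v, S (R v) = R (S v)) : Wp R (S p) := by
  unfold Wp at *; rw [← hc, ← hc, ← map_add, ← map_add, h, map_zero]

theorem Wp.self {p : V8} (h : Wp R p) : Wp R (R p) := h.map fun _ => rfl

theorem Wp.eq_zero {p : V8} (h : Wp R p) (hp : R p = p) : p = 0 := by
  unfold Wp at h; rw [hp, hp] at h; linear_combination h - p * v8_two

theorem Wp.eq {p : V8} (h : Wp R p) : R (R p) = p + R p := by
  unfold Wp at h; linear_combination h - (p + R p) * v8_two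

theorem Wp.inv {p : V8} (h : Wp R p) (hR : ∀ v, R (R (R v)) = v) (hSR : ∀ v, S (R v) = R (R (S v))) :
    Wp R (S p) := by
  have h1 := congrArg S h
  rw [map_add, map_add, hSR, hSR, hSR, hR, map_zero] at h1
  unfold Wp; linear_combination h1

theorem wp_add_map (hR : ∀ v, R (R (R v)) = v) (x : V8) : Wp R (R x + x) := by
  unfold Wp; simp only [map_add, hR]; linear_combination (x + R x + R (R x)) * v8_two

theorem trick (hR : ∀ v, R (R (R v)) = v) (hSR : ∀ v, S (R v) = R (R (S v))) {u : V8} (h1 : S u = u)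
    (h2 : S (R u) = R u) : R u = u := by
  rw [hSR, h1] at h2
  have h3 := congrArg (fun x => R (R x)) h2
  simpa only [hR] using h3

theorem Wp.ind {u : V8} (h : Wp R u) (h0 : u ≠ 0) (hR : ∀ v, R (R (R v)) = v) {x y : ZMod 2}
    (e : x • u + y • R u = 0) : x = 0 ∧ y = 0 := by
  rcases zmod2_cases x with rfl | rfl <;> rcases zmod2_cases y with rfl | rfl <;>
    simp only [zero_smul, one_smul, zero_add, add_zero] at e
  · exact ⟨rfl, rfl⟩
  · exact absurd (by rw [← hR u, e, map_zero, map_zero]) h0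
  · exact absurd e h0
  · exact absurd (h.eq_zero (by linear_combination e - u * v8_two)) h0

theorem Wp.orth {B : LinearMap.BilinForm (ZMod 2) V8} (hB : ∀ v w, B (R v) (R w) = B v w) {p w : V8} (h : Wp R p)
    (hw : R w = w) : B p w = 0 := by
  have h1 : p = R (R p) + R p := by rw [h.eq]; linear_combination (-R p) * v8_two
  have h2 : B (R (R p)) w = B (R p) w := by conv_lhs => rw [← hw, hB]
  rw [h1, map_add, LinearMap.add_apply, h2, zmod2_add_self]

end Loc

theorem x_facts : (∀ i, s i * s i = 1 ∧ ρ i * (ρ i * ρ i) = 1 ∧ s i * ρ i = ρ i * (ρ i * s i) ∧ ρ i ≠ 1 ∧ InA (s i)) ∧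
    ∀ i j, s i * s j = s j * s i ∧ (i ≠ j → s i * ρ j = ρ j * s i ∧ ρ i * ρ j = ρ j * ρ i ∧ InA (s i * s j) ∧
      s i * s j ≠ 1) := by decide +kernel

section Act

variable (α : X →* Module.End (ZMod 2) V8)

theorem α_mul (a b : X) (v : V8) : α a (α b v) = α (a * b) v := by rw [map_mul]; rfl

theorem α_ss (i : Fin 3) (v : V8) : α (s i) (α (s i) v) = v := by
  rw [α_mul, (x_facts.1 i).1, map_one]; rfl

theorem α_rrr (i : Fin 3) (v : V8) : α (ρ i) (α (ρ i) (α (ρ i) v)) = v := by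
  rw [α_mul α (ρ i) (ρ i) v, α_mul, (x_facts.1 i).2.1, map_one]; rfl

theorem α_sr (i : Fin 3) (v : V8) : α (s i) (α (ρ i) v) = α (ρ i) (α (ρ i) (α (s i) v)) := by
  rw [α_mul, α_mul α (ρ i) (s i), α_mul, (x_facts.1 i).2.2.1]

theorem α_comm {a b : X} (h : a * b = b * a) (v : V8) : α a (α b v) = α b (α a v) := by
  rw [α_mul, α_mul, h]

end Act

theorem lw_aux {α : X →* Module.End (ZMod 2) V8} {B : LinearMap.BilinForm (ZMod 2) V8} {q : V8 → ZMod 2}
    (h : OM α B q) {U : Submodule (ZMod 2) V8} (hU : ∀ u ∈ U, q u = 0) (h1 : ∀ i v, α (s i) v + v ∈ U)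
    (h2 : ∀ i, ∀ u ∈ U, α (s i) u = u) : False := by
  have hB : ∀ w a b, B (α w a) (α w b) = B a b := fun w => quad2_B_map h.hq (h.inv w)
  have k1 : ∀ i j, i ≠ j → ∀ p, Wp (α (ρ i)) p → α (s j) p = p := fun i j hij p hp => by
    have c := α_comm α ((x_facts.2 j i).2 hij.symm).1
    have e := trick (α_rrr α i) (α_sr α i) (h2 i _ (h1 j (α (ρ i) p))) (h2 i _ (by
      rw [map_add, ← c]; exact h1 j _))
    have e2 : p = α (ρ i) (α (ρ i) p) + α (ρ i) p := by rw [hp.eq]; linear_combination (-α (ρ i) p) * v8_two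
    rw [map_add, ← c] at e
    have e3 := congrArg (α (s j)) e2
    rw [map_add] at e3
    linear_combination e3 - e2 + e + (α (s j) (α (ρ i) p) - α (ρ i) (α (ρ i) p)) * v8_two
  have k2 : ∀ i j, i ≠ j → ∀ p, Wp (α (ρ i)) p → α (ρ j) p = p := fun i j hij p hp =>
    trick (α_rrr α j) (α_sr α j) (k1 i j hij p hp)
      (k1 i j hij _ (hp.map (α_comm α ((x_facts.2 j i).2 hij.symm).2.1)))
  have k3 : ∀ i, ∃ u, Wp (α (ρ i)) u ∧ u ≠ 0 ∧ B u (α (ρ i) u) = 0 := fun i => by
    have : ∃ w, Wp (α (ρ i)) w ∧ α (s i) w + w ≠ 0 := by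
      by_contra hc
      push Not at hc
      have hc' : ∀ w, Wp (α (ρ i)) w → α (s i) w = w := fun w hw => eq_of_add_eq_zero_zmod2 (hc w hw)
      refine (x_facts.1 i).2.2.2.1 (h.faith _ fun v => eq_of_add_eq_zero_zmod2 ?_)
      have hw := wp_add_map (α_rrr α i) v
      exact hw.eq_zero (trick (α_rrr α i) (α_sr α i) (hc' _ hw) (hc' _ hw.self))
    obtain ⟨w, hw, h0⟩ := this
    have hu := (hw.inv (α_rrr α i) (α_sr α i)).add hw
    refine ⟨_, hu, h0, ?_⟩
    have e := h.hq (α (s i) w + w) (α (ρ i) (α (s i) w + w))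
    rw [← hu.eq, h.inv, h.inv, hU _ (h1 i w), zero_add, zero_add] at e
    exact e.symm
  obtain ⟨a, ha, a0, ab⟩ := k3 0
  obtain ⟨b, hb, b0, bb⟩ := k3 1
  obtain ⟨c, hc, c0, -⟩ := k3 2
  have o : ∀ i j, i ≠ j → ∀ p p', Wp (α (ρ i)) p → Wp (α (ρ j)) p' → B p p' = 0 := fun i j hij p p' hp hp' =>
    hp.orth (hB _) (k2 j i hij.symm p' hp')
  refine iso_five h.hq h.hN (a := a) (b := α (ρ 0) a) (c := b) (d := α (ρ 1) b) (e := c) (fun x y z t u e => ?_) ab
    (o 0 1 (by decide) _ _ ha hb) (o 0 1 (by decide) _ _ ha hb.self) (o 0 2 (by decide) _ _ ha hc)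
    (o 0 1 (by decide) _ _ ha.self hb) (o 0 1 (by decide) _ _ ha.self hb.self) (o 0 2 (by decide) _ _ ha.self hc) bb
    (o 1 2 (by decide) _ _ hb hc) (o 1 2 (by decide) _ _ hb.self hc)
  have p0 := (ha.smul x).add (ha.self.smul y)
  have p1 := (hb.smul z).add (hb.self.smul t)
  have p2 := hc.smul u
  generalize hP0 : x • a + y • α (ρ 0) a = P0 at p0
  generalize hP1 : z • b + t • α (ρ 1) b = P1 at p1
  generalize hP2 : u • c = P2 at p2
  have e' : P0 + P1 + P2 = 0 := by rw [← hP0, ← hP1, ← hP2, ← e]; abel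
  have z0 : P0 = 0 := p0.eq_zero (by
    have := congrArg (α (ρ 0)) e'
    rw [map_add, map_add, k2 1 0 (by decide) _ p1, k2 2 0 (by decide) _ p2, map_zero] at this
    linear_combination this - e')
  have z1 : P1 = 0 := p1.eq_zero (by
    have := congrArg (α (ρ 1)) e'
    rw [map_add, map_add, k2 0 1 (by decide) _ p0, k2 2 1 (by decide) _ p2, map_zero] at this
    linear_combination this - e')
  rw [z0, z1, zero_add, zero_add] at e'
  obtain ⟨x0, y0⟩ := ha.ind a0 (α_rrr α 0) (hP0.trans z0)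
  obtain ⟨z0, t0⟩ := hb.ind b0 (α_rrr α 1) (hP1.trans z1)
  exact ⟨x0, y0, z0, t0, (smul_eq_zero.mp (hP2.trans e')).resolve_right c0⟩

theorem lw : LW := fun α B q h A U hA hU h1 h2 => by
  obtain ⟨w, hw⟩ := exists_conj_eq_A0 hA
  have hs : ∀ i, w⁻¹ * s i * w ∈ A := fun i => (hw _).mpr (by
    rw [show w * (w⁻¹ * s i * w) * w⁻¹ = s i by group]; exact (x_facts.1 i).2.2.2.2)
  have e : ∀ a, (α.comp (MulAut.conj w⁻¹).toMonoidHom) a = α (w⁻¹ * a * w) := fun a => by simp
  refine lw_aux (α := α.comp (MulAut.conj w⁻¹).toMonoidHom) ⟨h.hq, h.hN, fun a v => by rw [e, h.inv], fun a ha => ?_⟩ hU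
    (fun i v => by rw [e]; exact h1 _ (hs i) v) fun i u hu => by rw [e]; exact h2 _ (hs i) u hu
  have := h.faith (w⁻¹ * a * w) fun v => by rw [← e, ha]
  rw [show a = w * (w⁻¹ * a * w) * w⁻¹ by group, this]; group

end CL.O8
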