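/-
Centralisers `2^{1+8}.(S₃ × S₃ × S₃)` (helper18 for helper9): the elements `ρ i` act without fixed points.
-/
import Cfsg.Agent.Spor.O8LW

set_option autoImplicit false

namespace CL.O8

open Subgroup CL.Even CL.Grp CL.U6 Cfsg Module

section Loc

variable {A A' S R : Module.End (ZMod 2) V8} {B : LinearMap.BilinForm (ZMod 2) V8} {q : V8 → ZMod 2}

/-- The plane spanned by `v` and `R v`. -/
def InP (R : Module.End (ZMod 2) V8) (v y : V8) : Prop := y = 0 ∨ y = v ∨ y = R v ∨ y = R (R v)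

theorem InP.map {v y : V8} (h : InP R v y) (hR : ∀ v, R (R (R v)) = v) : InP R v (R y) := by
  rcases h with e | e | e | e <;> rw [e]
  exacts [Or.inl (map_zero _), Or.inr (Or.inr (Or.inl rfl)), Or.inr (Or.inr (Or.inr rfl)), Or.inr (Or.inl (hR _))]

theorem Wp.inP {v : V8} (h : Wp R v) (x y : ZMod 2) : InP R v (x • v + y • R v) := by
  rcases zmod2_cases x with rfl | rfl <;> rcases zmod2_cases y with rfl | rfl <;>
    simp only [zero_smul, one_smul, zero_add, add_zero]
  exacts [Or.inl rfl, Or.inr (Or.inr (Or.inl rfl)), Or.inr (Or.inl rfl), Or.inr (Or.inr (Or.inr h.eq.symm))]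

theorem wp_T (hR : ∀ v, R (R (R v)) = v) (x : V8) : Wp R (R x + R (R x)) := by
  have := wp_add_map hR (R x)
  rwa [add_comm] at this

/-- An involution commuting with `R`. -/
structure Inv (B : LinearMap.BilinForm (ZMod 2) V8) (R A : Module.End (ZMod 2) V8) (v : V8) : Prop where
  sq : ∀ x, A (A x) = x
  inv : ∀ x y, B (A x) (A y) = B x y
  cm : ∀ x, A (R x) = R (A x)
  ex : ∃ u, Wp R u ∧ A u + u = v

theorem Inv.adj {v : V8} (h : Inv B R A v) (x y : V8) : B (A x + x) y = B x (A y + y) := by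
  have : B (A x) y = B x (A y) := by conv_lhs => rw [← h.sq y, h.inv]
  rw [map_add, LinearMap.add_apply, this, map_add]

theorem Inv.iso {v : V8} (h : Inv B R A v) (x y : V8) : B (A x + x) (A y + y) = 0 := by
  rw [h.adj, map_add A, h.sq, show y + A y + (A y + y) = 0 by linear_combination (y + A y) * v8_two, map_zero]

theorem Inv.N_R {v : V8} (h : Inv B R A v) (x : V8) : R (A x + x) = A (R x) + R x := by rw [map_add, h.cm]

theorem Inv.wp {v : V8} (h : Inv B R A v) {x : V8} (hx : Wp R x) : Wp R (A x + x) := (hx.map h.cm).add hx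

variable (hq : ∀ v w, q (v + w) = q v + q w + B v w) (hN : ∀ r, (∀ y, B r y = 0) → r = 0)
  (hR : ∀ v, R (R (R v)) = v) (hB : ∀ v w, B (R v) (R w) = B v w) {c : V8} (c0 : c ≠ 0) (hc : R c = c)
include hq hN hR hB c0 hc

theorem Inv.inP {v : V8} (h : Inv B R A v) (v0 : v ≠ 0) {x : V8} (hx : Wp R x) : InP R v (A x + x) := by
  by_contra hp
  obtain ⟨u, hu, rfl⟩ := h.ex
  have hv := h.wp hu
  have hw := h.wp hx
  refine iso_five hq hN (a := A u + u) (b := R (A u + u)) (c := A x + x) (d := R (A x + x)) (e := c)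
    (fun a b d e f E => ?_) (by rw [h.N_R, h.iso]) (h.iso _ _) (by rw [h.N_R, h.iso]) (hv.orth hB hc)
    (by rw [h.N_R, h.iso]) (by rw [h.N_R, h.N_R, h.iso]) (hv.self.orth hB hc) (by rw [h.N_R, h.iso])
    (hw.orth hB hc) (hw.self.orth hB hc)
  generalize A u + u = v at *
  generalize A x + x = p at *
  have p0 := (hv.smul a).add (hv.self.smul b)
  have p1 := (hw.smul d).add (hw.self.smul e)
  have i0 := hv.inP a b
  generalize hP0 : a • v + b • R v = P0 at p0 i0
  generalize hP1 : d • p + e • R p = P1 at p1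
  have E' : P0 + P1 + f • c = 0 := by rw [← hP0, ← hP1, ← E]; abel
  have z : P0 + P1 = 0 := (p0.add p1).eq_zero (by
    rw [eq_of_add_eq_zero_zmod2 E', map_smul, hc])
  rw [z, zero_add] at E'
  have f0 := (smul_eq_zero.mp E').resolve_right c0
  have e01 := eq_of_add_eq_zero_zmod2 z
  rw [e01, ← hP1] at i0
  have de : d = 0 ∧ e = 0 := by
    rcases zmod2_cases d with rfl | rfl <;> rcases zmod2_cases e with rfl | rfl <;>
      simp only [zero_smul, one_smul, zero_add, add_zero] at i0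
    · exact ⟨rfl, rfl⟩
    · exact absurd (hR p ▸ (i0.map hR).map hR) hp
    · exact absurd i0 hp
    · rw [← hw.eq] at i0; exact absurd (hR p ▸ i0.map hR) hp
  obtain ⟨rfl, rfl⟩ := de
  rw [zero_smul, zero_smul, add_zero] at hP1
  obtain ⟨a0, b0⟩ := hv.ind v0 hR (hP0.trans (e01.trans hP1.symm))
  exact ⟨a0, b0, rfl, rfl, f0⟩

theorem Inv.ker {v : V8} (h : Inv B R A v) (h' : Inv B R A' v) (v0 : v ≠ 0) {x : V8} (hx : Wp R x)
    (e : A x + x = 0) : A' x + x = 0 := by
  obtain ⟨u, hu, hv⟩ := h.ex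
  have wv : Wp R v := hv ▸ h.wp hu
  have e1 : B x v = 0 := by rw [← hv, ← h.adj, e, map_zero, LinearMap.zero_apply]
  have e2 : B x (R v) = 0 := by rw [← hv, h.N_R, ← h.adj, e, map_zero, LinearMap.zero_apply]
  refine hN _ fun y => ?_
  have e3 : y = (R y + R (R y)) + (y + R y + R (R y)) := by linear_combination (-R y - R (R y)) * v8_two
  have e4 : R (y + R y + R (R y)) = y + R y + R (R y) := by rw [map_add, map_add, hR]; abel
  rw [e3, map_add, (h'.wp hx).orth hB e4, add_zero, h'.adj]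
  rcases h'.inP hq hN hR hB c0 hc v0 (wp_T hR y) with E | E | E | E <;> rw [E]
  exacts [map_zero _, e1, e2, by rw [wv.eq, map_add, e1, e2, add_zero]]

theorem Inv.eq {v : V8} (h : Inv B R A v) (h' : Inv B R A' v) (v0 : v ≠ 0) (hSR : ∀ v, S (R v) = R (R (S v)))
    (hv : S v = v) (hA : ∀ x, A (S x) = S (A x)) (hA' : ∀ x, A' (S x) = S (A' x)) {x : V8} (hx : Wp R x) :
    A x = A' x := by
  obtain ⟨u, hu, e⟩ := h.ex
  have wv : Wp R v := e ▸ h.wp hu
  have nv : R v ≠ v := fun E => v0 (wv.eq_zero E)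
  have e1 := h.ker hq hN hR hB c0 hc h' v0 ((hu.inv hR hSR).add hu) (by
    have := congrArg S e
    rw [map_add, hv, ← hA] at this
    rw [map_add]
    linear_combination this + e + v * v8_two)
  have e2 : S (A' u + u) = A' u + u := by
    rw [map_add, hA'] at e1
    rw [map_add]
    linear_combination e1 - (A' u + u) * v8_two
  have e3 : A' u + u = v := by
    rcases h'.inP hq hN hR hB c0 hc v0 hu with E | E | E | E
    · exact absurd (e.symm.trans (h'.ker hq hN hR hB c0 hc h v0 hu E)) v0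
    · exact E
    · rw [E] at e2; exact absurd (trick hR hSR hv e2) nv
    · rw [E, hSR, hSR, hR, hv] at e2
      have := congrArg (fun y => R (R y)) e2
      simp only [hR] at this
      exact absurd this.symm nv
  have k : ∀ y, Wp R y → A y + y = A' y + y → A x + x = A y + y → A x = A' x := fun y hy E E' => by
    have := h.ker hq hN hR hB c0 hc h' v0 (hx.add hy) (by
      rw [map_add]; linear_combination E' + (A y + y) * v8_two)
    rw [map_add] at this
    linear_combination E' + E + this - (A' x + x) * v8_two + (-A' y - y + A' y + y) * v8_two -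
      (A' y + y - A' y - y) * v8_two - (0 : V8) * v8_two + (x - x) * v8_two
  rcases h.inP hq hN hR hB c0 hc v0 hx with E | E | E | E
  · exact k 0 (by simp [Wp]) (by simp) (by simpa using E)
  · exact k u hu (e.trans e3.symm) (E.trans e.symm)
  · exact k _ hu.self (by rw [← h.N_R, ← h'.N_R, e, e3]) (by rw [← h.N_R, e, E])
  · exact k _ hu.self.self (by rw [← h.N_R, ← h'.N_R, ← h.N_R, ← h'.N_R, e, e3]) (by rw [← h.N_R, ← h.N_R, e, E])

end Loc

theorem x_facts' : ∀ i, ∃ j k, ∀ a ∈ [s j, s k, s j * s k], InA a ∧ a ≠ 1 ∧ a * a = 1 ∧ a * ρ i = ρ i * a ∧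
    a * s i = s i * a := by decide +kernel

theorem ln1 : LN1 := fun α B q h v hs hr hA i c hc => by
  by_contra c0
  have hB : ∀ w a b, B (α w a) (α w b) = B a b := fun w => quad2_B_map h.hq (h.inv w)
  have hR := α_rrr α i
  have hSR := α_sr α i
  obtain ⟨j, k, hjk⟩ := x_facts' i
  have v0 : α (ρ i) v + α (ρ i) (α (ρ i) v) ≠ 0 := fun e => hr i (by
    have := congrArg (fun y => α (ρ i) (α (ρ i) y)) (eq_of_add_eq_zero_zmod2 e)
    simp only [hR] at this
    exact this.symm)
  have hv : α (s i) (α (ρ i) v + α (ρ i) (α (ρ i) v)) = α (ρ i) v + α (ρ i) (α (ρ i) v) := by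
    rw [map_add, hSR, hSR, hSR, hR, hs, add_comm]
  have key : ∀ a ∈ [s j, s k, s j * s k], Inv B (α (ρ i)) (α a) (α (ρ i) v + α (ρ i) (α (ρ i) v)) := fun a ha => by
    obtain ⟨h1, h2, h3, h4, -⟩ := hjk a ha
    obtain ⟨u, rfl⟩ := hA a h1 h2
    refine ⟨fun x => by rw [α_mul, h3, map_one]; rfl, hB a, α_comm α h4, _, wp_T hR u, ?_⟩
    simp only [map_add, α_comm α h4]
    abel
  obtain ⟨u, hu, e⟩ := (key (s j * s k) (by simp)).ex
  have := (key (s j) (by simp)).eq h.hq h.hN hR (hB _) c0 hc (key (s k) (by simp)) v0 hSR hv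
    (α_comm α (hjk _ (by simp)).2.2.2.2) (α_comm α (hjk _ (by simp)).2.2.2.2) hu
  rw [← α_mul, ← this, α_ss, add_self_zmod2] at e
  exact v0 e.symm

end CL.O8
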