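/-
Centralisers `2^{1+8}.(S₃ × S₃ × S₃)`, part LN2: tensor coordinates.
-/
import Cfsg.Agent.Spor.O8D

set_option autoImplicit false

namespace CL.O8

open Subgroup CL.Even CL.Grp CL.U6 Cfsg

/-- the word moving `e 7` to `e k` -/
def ln2w (k : Fin 8) : X :=
  ![ν 0 * ν 1 * ν 2, ν 1 * ν 2, ν 0 * ν 2, ν 2, ν 0 * ν 1, ν 1, ν 0, 1] k

/-- change of the `i`-th binary digit -/
def ln2x (i : Fin 3) (k : Fin 8) : Fin 8 := if bit i k = 1 then k - sg i else k + sg i

theorem ln2_dec : (∀ i k, ν i * ln2w k = ln2w (ln2x i k)) ∧ (∀ (i : Fin 3) k, bit i k = 1 → s i * ln2w k = ln2w k * s i) ∧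
    (∀ (i : Fin 3) k, bit i k ≠ 1 → bit i (ln2x i k) = 1) ∧ (∀ i k, ln2x i (ln2x i k) = k) ∧
    (∀ k, ln2w k * ln2w 0 = ln2w k.rev) ∧ (∀ k l : Fin 8, l.rev ≠ k → ∃ i : Fin 3, bit i k = bit i l) ∧
    (∀ i, ρ i * ρ i = ν i * s i ∧ ρ i * (ρ i * ρ i) = 1 ∧ s i * s i = 1) ∧ ∀ i j, s i * s j = s j * s i := by
  refine ⟨?_, ?_, ?_, ?_, ?_, ?_, ?_, ?_⟩ <;> decide +kernel

theorem ln2_act : (∀ i k, act (ν i) (e k) = e (ln2x i k)) ∧
    ∀ (i : Fin 3) k, act (s i) (e k) = if bit i k = 1 then e k else e k + e (ln2x i k) := by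
  simp only [funext_iff, act_e]
  constructor <;> decide +kernel

theorem ln2_e (k : Fin 8) : Pi.basisFun (ZMod 2) (Fin 8) k = e k := by
  ext l; simp [e, Pi.single_apply]

theorem ln2 : LN2 := by
  intro α B q O fpf v v0 qv hv
  obtain ⟨d1, d2, d3, d4, d5, d6, d7, d8⟩ := ln2_dec
  have mul : ∀ g g' u, α (g * g') u = α g (α g' u) := fun g g' u => by rw [map_mul, Module.End.mul_apply]
  have hB : ∀ g u u', B (α g u) (α g u') = B u u' := fun g => quad2_B_map O.hq (O.inv g)
  have sn : ∀ i u, α (s i) u = u → α (s i) (α (ν i) u) = α (ν i) u + u := fun i u h => by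
    have h1 := fpf i (u + α (ρ i) u + α (ρ i * ρ i) u) (by
      rw [map_add, map_add, ← mul, ← mul, (d7 i).2.1, map_one, Module.End.one_apply]; abel)
    rw [(d7 i).1, mul, h, ρ, mul, add_right_comm, add_comm u] at h1
    exact (eq_of_add_eq_zero_zmod2 h1).symm
  let b : Fin 8 → V8 := fun k => α (ln2w k) v
  have b7 : b 7 = v := by change α 1 v = v; rw [map_one, Module.End.one_apply]
  have nb : ∀ i k, α (ν i) (b k) = b (ln2x i k) := fun i k => by rw [← mul, d1]
  have sb : ∀ (i : Fin 3) k, bit i k = 1 → α (s i) (b k) = b k := fun i k h => by rw [← mul, d2 i k h, mul, hv]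
  let ψ : V8 →ₗ[ZMod 2] V8 := (Pi.basisFun (ZMod 2) (Fin 8)).constr (ZMod 2) b
  have ψe : ∀ k, ψ (e k) = b k := fun k => by rw [← ln2_e]; exact Module.Basis.constr_basis _ _ _ _
  have eqv : ∀ w u, ψ (act w u) = α w (ψ u) := fun w => by
    have hw : w ∈ closure (Set.range s ∪ Set.range ν) := closure_sν ▸ mem_top w
    induction hw using closure_induction with
    | mem g hg =>
      refine LinearMap.congr_fun (f := ψ ∘ₗ act g) (g := α g ∘ₗ ψ) ((Pi.basisFun _ _).ext fun k => ?_)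
      rw [ln2_e, LinearMap.comp_apply, LinearMap.comp_apply, ψe]
      rcases hg with ⟨i, rfl⟩ | ⟨i, rfl⟩
      · rw [ln2_act.2]
        split_ifs with h
        · rw [ψe, sb i k h]
        · rw [map_add, ψe, ψe, ← d4 i k, ← nb, sn i _ (sb i _ (d3 i k h)), nb, d4]
      · rw [ln2_act.1, ψe, nb]
    | one => intro u; rw [act_one, map_one, Module.End.one_apply]
    | mul g w _ _ ih ih' => intro u; rw [act_mul, Module.End.mul_apply, mul, ih, ih']
    | inv g _ ih =>
      intro u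
      have := congrArg (α g⁻¹) (ih (act g⁻¹ u))
      rw [← mul, ← Module.End.mul_apply (act g), ← act_mul, mul_inv_cancel, inv_mul_cancel, act_one, map_one,
        Module.End.one_apply] at this
      exact this.symm
  have inj : Function.Injective ψ := by
    have step : ∀ i u, u ≠ 0 → ψ u = 0 → ∃ u', u' ≠ 0 ∧ ψ u' = 0 ∧ act (s i) u' = u' ∧
        ∀ j, act (s j) u = u → act (s j) u' = u' := fun i u h0 h => by
      by_cases h1 : act (s i) u = u
      · exact ⟨u, h0, h, h1, fun _ h => h⟩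
      · refine ⟨act (s i) u + u, fun e => h1 (eq_of_add_eq_zero_zmod2 e), by rw [map_add, eqv, h, map_zero, add_zero], ?_,
          fun j hj => ?_⟩
        · rw [map_add, ← Module.End.mul_apply, ← act_mul, (d7 i).2.2, act_one, add_comm]
        · rw [map_add, ← Module.End.mul_apply, ← act_mul, d8, act_mul, Module.End.mul_apply, hj]
    refine (injective_iff_map_eq_zero ψ).2 fun u h => by_contra fun h0 => ?_
    obtain ⟨u, h0, h, h1, -⟩ := step 0 u h0 h
    obtain ⟨u, h0, h, h2, h3⟩ := step 1 u h0 h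
    obtain ⟨u, h0, h, h4, h5⟩ := step 2 u h0 h
    rw [(eq_of_fix (v := u) fun i => by fin_cases i; exacts [h5 0 (h3 0 h1), h5 1 h2, h4]).resolve_left h0, ψe, b7] at h
    exact v0 h
  have sur := LinearMap.surjective_of_injective inj
  have B1 : ∀ (i : Fin 3) k l, bit i k = 1 → bit i l = 1 → B (b k) (b l) = 0 := fun i k l h h' => by
    have h1 := hB (s i) (α (ν i) (b k)) (b l)
    rw [sn i _ (sb i k h), sb i l h', map_add, LinearMap.add_apply] at h1
    exact add_eq_left.1 h1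
  have B2 : ∀ k l : Fin 8, l.rev ≠ k → B (b k) (b l) = 0 := fun k l h => by
    obtain ⟨i, hi⟩ := d6 k l h
    by_cases h1 : bit i k = 1
    · exact B1 i k l h1 (hi ▸ h1)
    · rw [← hB (ν i), nb, nb, B1 i _ _ (d3 i k h1) (d3 i l (hi ▸ h1))]
  have B3 : B v (b 0) = 1 := by
    by_contra h
    refine v0 (O.hN v fun y => ?_)
    obtain ⟨y, rfl⟩ := sur y
    refine LinearMap.congr_fun (f := B v ∘ₗ ψ) (g := 0) ((Pi.basisFun _ _).ext fun k => ?_) _
    rw [ln2_e, LinearMap.comp_apply, ψe, LinearMap.zero_apply]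
    rcases eq_or_ne k 0 with rfl | hk
    · revert h; generalize B v (b 0) = c; revert c; decide
    · rw [← b7, B2 7 k (by revert k; decide)]
  have hψB : ∀ u u', B (ψ u) (ψ u') = B0 u u' := fun u u' => by
    refine LinearMap.congr_fun₂ (f := B.comp ψ ψ) (LinearMap.BilinForm.ext_basis (Pi.basisFun _ _) fun k l => ?_) u u'
    rw [ln2_e, ln2_e, LinearMap.BilinForm.comp_apply, ψe, ψe, B0_e, e]
    split_ifs with h
    · rw [← B3, ← hB (ln2w k) v, ← mul, d5, ← h, Fin.rev_rev]
    · exact B2 k l h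
  have hψq : ∀ u, q (ψ u) = q0 u := fun u => by
    have h0 : q 0 = 0 := by simpa using O.hq 0 0
    induction (Pi.basisFun (ZMod 2) (Fin 8)).mem_span u using Submodule.span_induction with
    | mem _ h =>
      obtain ⟨k, rfl⟩ := h
      rw [ln2_e, ψe, O.inv, qv]
      revert k; decide +kernel
    | zero => rw [map_zero, h0]; rfl
    | add x y _ _ hx hy => rw [map_add, O.hq, hx, hy, hψB, B0_apply]; simp only [q0, Pi.add_apply]; ring
    | smul c x _ hx =>
      rcases (by revert c; decide : c = 0 ∨ c = 1) with rfl | rfl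
      · rw [zero_smul, map_zero, h0]; rfl
      · rwa [one_smul]
  let φ := LinearEquiv.ofBijective ψ ⟨inj, sur⟩
  have hφ : ∀ u, ψ (φ.symm u) = u := φ.apply_symm_apply
  exact ⟨φ.symm, fun w u => inj (by rw [eqv, hφ, hφ]), fun u => by rw [← hψq, hφ], fun u u' => by rw [← hψB, hφ, hφ],
    inj (by rw [hφ, ψe, b7])⟩

end CL.O8
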