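/-
Centralisers `2^{1+8}.(S₃ × S₃ × S₃)` (helper9): a conjugate of `z` in `Q` in standard position.
-/
import Cfsg.Agent.Spor.O8D

set_option autoImplicit false

namespace CL.O8

open Subgroup CL.Even CL.Grp CL.U6 Cfsg
open scoped commutatorElement

universe u

variable {G : Type u} [Group G] [Finite G] {z : G} {Q : Subgroup G} {r : G → X}

theorem St.n1_aux (h : St z Q r) {g : G} (hg : g * z * g⁻¹ ∈ Q) (hne : g * z * g⁻¹ ≠ z) :
    (∃ w : X, ∀ a, (∃ y ∈ cj g Q, Commute y z ∧ r y = a) ↔ InA (w * a * w⁻¹)) ∧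
      ∀ y ∈ cj g Q, y ∉ Q → ∃ d ∈ Q, y * d * y⁻¹ * d⁻¹ = g * z * g⁻¹ := by
  have h' := h.conj g
  have hz := h.mem_cj_of_conj_mem hg
  set x := g * z * g⁻¹
  set P := cj g Q
  have hY : ∀ y ∈ P ⊓ centralizer ({z} : Set G), Commute y z := fun y hy => mem_cent_singleton.mp hy.2
  have h1 := idx2 (X := P) (K := centralizer {z}) fun a ha b hb => h'.mul_mem_cent hz ha hb
  have hab : ∀ a ∈ P ⊓ centralizer ({z} : Set G) ⊓ Q, ∀ b ∈ P ⊓ centralizer ({z} : Set G) ⊓ Q, a * b = b * a :=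
    fun a ha b hb => commutatorElement_eq_one_iff_mul_comm.mp
      ((h.mem_Z.mp (h.comm_mem ha.2 hb.2)).resolve_right fun e =>
        (h'.mem_Z.mp (e ▸ h'.comm_mem ha.1.1 hb.1.1)).elim h.ne_one hne.symm)
  have h2 := ab_le h.toXE h.card inf_le_right hab
  have h3 := h.card_eq hY
  have h4 := card_le_eight ((h'.isPGroup.to_le (inf_le_left : P ⊓ centralizer ({z} : Set G) ≤ P)).of_surjective _
    (h.hom hY).rangeRestrict_surjective)
  have h5 := Nat.le_of_dvd (by norm_num) h4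
  rw [h'.card] at h1
  have h6 : Nat.card (h.hom hY).range = 8 := by
    obtain ⟨k, hk⟩ := h4
    by_contra h7
    have : 2 * Nat.card (h.hom hY).range ≤ 8 := by
      rcases k with _ | _ | k
      · omega
      · omega
      · nlinarith
    nlinarith
  rw [h6] at h3
  refine ⟨(exists_conj_eq_A0 h6).imp fun w hw a => ?_, fun y hy hyQ => ?_⟩
  · rw [← hw]
    exact ⟨fun ⟨y, hy, hyz, e⟩ => ⟨⟨y, hy, mem_cent_singleton.mpr hyz⟩, e⟩,
      fun ⟨y, e⟩ => ⟨y, y.2.1, hY y y.2, e⟩⟩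
  · by_contra h7
    refine hyQ (max_ab h'.toXE h'.card (inf_le_left.trans inf_le_left) hab (by omega) hy fun d hd => ?_).2
    by_contra h8
    refine h7 ⟨d, hd.2, ?_⟩
    rw [h'.conj_eq hy hd.1.1 fun e => h8 e.symm, h'.comm hd.1.1, mul_inv_cancel_right]

theorem n1 : N1.{u} := by
  intro G _ _ z Q r h g hg hne
  obtain ⟨⟨w, hw⟩, -⟩ := h.n1_aux hg hne
  obtain ⟨c, hc, rfl⟩ := h.r_surj w
  have e : c * g * z * (c * g)⁻¹ = c * (g * z * g⁻¹) * c⁻¹ := by group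
  have hg' : c * g * z * (c * g)⁻¹ ∈ Q := e ▸ conjQ h.toXE hc hg
  have hne' : c * g * z * (c * g)⁻¹ ≠ z := fun e' => hne (by
    rw [e, mul_inv_eq_iff_eq_mul, ← hc.eq] at e'
    exact mul_left_cancel e')
  have k1 : ∀ a, InA a → ∃ y ∈ cj (c * g) Q, Commute y z ∧ r y = a := fun a ha => by
    obtain ⟨y, hy, hyz, e'⟩ := (hw ((r c)⁻¹ * a * r c)).mpr (by simpa [mul_assoc] using ha)
    exact ⟨c * y * c⁻¹, cj_mul c g Q ▸ conj_mem_cj c hy, (hc.mul_left hyz).mul_left hc.inv_left, by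
      rw [h.r_conj hc hyz, e']; group⟩
  have k2 : ∀ y ∈ cj (c * g) Q, Commute y z → InA (r y) := fun y hy hyz => by
    have := (hw _).mp ⟨c⁻¹ * y * c, mem_cj.mp (cj_mul c g Q ▸ hy), (hc.inv_left.mul_left hyz).mul_left hc, rfl⟩
    rwa [← h.r_conj hc ((hc.inv_left.mul_left hyz).mul_left hc), show c * (c⁻¹ * y * c) * c⁻¹ = y by group] at this
  refine ⟨c, hc, hg', hne', k1, fun y hyz hyx => inA_of_norm _ fun i => ?_,
    fun y hy _ => (h.n1_aux hg' hne').2 y hy⟩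
  obtain ⟨p, hp, hpz, e'⟩ := k1 (s i) (by clear * -; revert i; decide +kernel)
  rw [← e', ← h.r_conj hyz hpz]
  exact k2 _ (conjQ (h.conj _).toXE hyx hp) ((hyz.mul_left hpz).mul_left hyz.inv_left)

end CL.O8
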