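/-
Centralisers `2^{1+8}.(S₃ × S₃ × S₃)` (helper9): the central node and the outer root elements.
-/
import Cfsg.Agent.Spor.O8D

set_option autoImplicit false

namespace CL.O8

open Subgroup CL.Even CL.Grp CL.U6 Cfsg
open scoped commutatorElement

universe u

variable {G : Type u} [Group G]

/-- An involution swapping `z` and `x` and generating `S₃` with `b`. -/
theorem exists_swap {z x b y : G} (hb : b * b = 1) (hy : y * y = 1) (hz : z * z = 1) (hx : x * x = 1)
    (zx : Commute z x) (bz : Commute b z) (bx : b * x * b⁻¹ = x * z) (yx : Commute y x) (yz : y * z * y⁻¹ = z * x)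
    (h24 : Commute ((b * y) ^ 3) z → Commute ((b * y) ^ 3) x → ((b * y) ^ 3) ^ 8 = 1) :
    ∃ m, m * m = 1 ∧ (b * m) ^ 3 = 1 ∧ m * z * m⁻¹ = x ∧ m * x * m⁻¹ = z := by
  have bz' : b * z * b⁻¹ = z := by rw [bz.eq, mul_inv_cancel_right]
  have yx' : y * x * y⁻¹ = x := by rw [yx.eq, mul_inv_cancel_right]
  set w := b * y with hw
  have w1 : w * z * w⁻¹ = x := by
    calc _ = b * (y * z * y⁻¹) * b⁻¹ := by rw [hw]; group
      _ = b * z * b⁻¹ * (b * x * b⁻¹) := by rw [yz]; group
      _ = x := by rw [bz', bx, ← mul_assoc, zx.eq, mul_assoc, hz, mul_one]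
  have w2 : w * x * w⁻¹ = x * z := by
    calc _ = b * (y * x * y⁻¹) * b⁻¹ := by rw [hw]; group
      _ = _ := by rw [yx', bx]
  have w3 : w * (x * z) * w⁻¹ = z := by
    rw [← conj_mul, w1, w2, mul_assoc, zx.eq, ← mul_assoc, hx, one_mul]
  have c3 : ∀ t, w ^ 3 * t * (w ^ 3)⁻¹ = w * (w * (w * t * w⁻¹) * w⁻¹) * w⁻¹ := fun t => by
    rw [pow_three]; group
  have z3 : Commute (w ^ 3) z := mul_inv_eq_iff_eq_mul.mp (by rw [c3, w1, w2, w3])
  have x3 : Commute (w ^ 3) x := mul_inv_eq_iff_eq_mul.mp (by rw [c3, w2, w3, w1])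
  have h1 := h24 z3 x3
  have bw : b * w * b⁻¹ = w⁻¹ := by
    rw [hw, ← mul_assoc, hb, one_mul, mul_inv_rev, inv_eq_of_mul_eq_one_right hy]
  have bk : b * w ^ 16 * b⁻¹ = (w ^ 16)⁻¹ := by rw [← conj_pow, bw, inv_pow]
  have bi := inv_eq_of_mul_eq_one_right hb
  have ck : ∀ t, Commute (w ^ 3) t → w ^ 16 * t * (w ^ 16)⁻¹ = w * t * w⁻¹ := fun t ht => by
    calc _ = w * ((w ^ 3) ^ 5 * t * ((w ^ 3) ^ 5)⁻¹) * w⁻¹ := by group
      _ = _ := by rw [(ht.pow_left 5).eq, mul_inv_cancel_right]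
  refine ⟨w ^ 16 * b, ?_, ?_, ?_, ?_⟩
  · calc _ = w ^ 16 * (b * w ^ 16 * b⁻¹) := by rw [bi]; group
      _ = 1 := by rw [bk, mul_inv_cancel]
  · rw [← mul_assoc, ← bi, bi, show b * w ^ 16 * b = (w ^ 16)⁻¹ by rw [← bk, bi], inv_pow, inv_eq_one]
    calc _ = ((w ^ 3) ^ 8) ^ 2 := by group
      _ = 1 := by rw [h1, one_pow]
  · calc _ = w ^ 16 * (b * z * b⁻¹) * (w ^ 16)⁻¹ := by group
      _ = x := by rw [bz', ck z z3, w1]
  · calc _ = w ^ 16 * (b * x * b⁻¹) * (w ^ 16)⁻¹ := by group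
      _ = z := by rw [bx, ck _ (x3.mul_right z3), w3]

theorem key_s : ∀ (i : Fin 3) (a : X), InA a → (∀ k : Fin 8, k = 1 ∨ k = 2 ∨ k = 4 →
    e (sg i) k + (mat a k 0 + e 0 k) = 0) → a = s i := by decide +kernel

theorem key_E : ∀ v : V8, (∀ j, act (s j) v + v = 0 ∨ act (s j) v + v = e 7) →
    ∀ k : Fin 8, k = 1 ∨ k = 2 ∨ k = 4 → v k = 0 := by
  intro v h
  have h0 := h 0
  have h1 := h 1
  rw [(act_s v).1] at h0
  rw [(act_s v).2.1] at h1
  clear h
  revert v
  decide +kernel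

theorem r1 : R1.{u} := by
  intro G _ _ z Q r π h g N hπ
  have M := h.lm
  have h' := h.toSt.conj g
  have hz := h.mem_cj_of_conj_mem N.mem
  obtain ⟨k, -, k1, k2⟩ := h.exists_conj_pair N.mem N.ne (u := g * z * g⁻¹) (v := z) (subset_closure (by simp))
    (subset_closure (by simp)) h'.ne_one h.ne_one N.ne
  have hP := h.cj_eq_cj k1
  set x := g * z * g⁻¹ with hx
  set P := cj g Q
  obtain ⟨b, bQ, πb⟩ := M.π_surj (e 0)
  have bb : b * b = 1 := (M.q_zero bQ).mp (by rw [πb]; decide +kernel)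
  have bx : b * x * b⁻¹ = x * z := h.conj_eq bQ N.mem fun c => by
    have := (M.B_zero bQ N.mem).mpr c
    rw [hπ, πb, B0_e] at this
    exact absurd this (by decide +kernel)
  have yP : k * b * k⁻¹ ∈ P := hP ▸ conj_mem_cj k bQ
  obtain ⟨m, mm, bm, m1, m2⟩ := exists_swap (y := k * b * k⁻¹) bb (by rw [conj_mul, bb, mul_one, mul_inv_cancel])
    h.mul_self h'.mul_self (h.comm N.mem).symm (h.comm bQ) bx (h'.comm yP) (by
      calc _ = k * (b * x * b⁻¹) * k⁻¹ := by rw [← k2]; group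
        _ = _ := by rw [bx, ← conj_mul, k1, k2]) fun c1 c2 => by
      have e1 : ∀ a : X, InA a → a ^ 2 = 1 := by decide +kernel
      have e2 := (h.r_ker (c1.pow_left 2)).mp (by rw [h.r_pow c1, e1 _ (N.inA _ c1 c2)])
      rw [show 8 = 2 * 2 * 2 from rfl, pow_mul, pow_mul]
      rcases h.mem_Z.mp (h.sq _ e2) with e3 | e3 <;> rw [e3]
      exacts [one_pow 2, by rw [pow_two, h.mul_self]]
  have mi := inv_eq_of_mul_eq_one_right mm
  have bi := inv_eq_of_mul_eq_one_right bb
  have hmP : ∀ a ∈ Q, m * a * m⁻¹ ∈ P := fun a ha =>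
    (h.cj_eq_cj m1).le (conj_mem_cj m ha)
  have br : m * b * m⁻¹ = b * m * b⁻¹ := by
    rw [mi, bi, ← mul_left_inj (m * b * m)]
    calc _ = m * (b * (m * m) * b) * m := by group
      _ = (b * m) ^ 3 := by rw [mm, mul_one, bb, mul_one, mm, bm]
      _ = _ := by rw [pow_three]; group
  choose f fQ πf using fun i => M.π_surj (e (sg i))
  have key : ∀ i, Commute (m * f i * m) z ∧ r (m * f i * m) = s i ∧ m * f i * m * b * (m * f i * m) * b = f i := by
    intro i
    have ff : f i * f i = 1 := (M.q_zero (fQ i)).mp (by rw [πf]; clear * -; revert i; decide +kernel)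
    have fb : Commute (f i) b := (M.B_zero (fQ i) bQ).mp (by rw [πf, πb, B0_e]; clear * -; revert i; decide +kernel)
    have fx : Commute (f i) x :=
      (M.B_zero (fQ i) N.mem).mp (by rw [πf, hπ, B0_e]; clear * -; revert i; decide +kernel)
    have fi := inv_eq_of_mul_eq_one_right ff
    have aP := hmP _ (fQ i)
    have az : Commute (m * f i * m⁻¹) z := m2 ▸ (CL.TT.commute_conj_iff m _ _).mpr fx
    have aa : m * f i * m⁻¹ * (m * f i * m⁻¹) = 1 := by rw [conj_mul, ff, mul_one, mul_inv_cancel]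
    have e2 : b * (m * f i * m⁻¹) * b⁻¹ = m * b * m⁻¹ * f i * (m * b * m⁻¹)⁻¹ := by
      calc _ = b * m * b⁻¹ * (b * f i * b⁻¹) * (b * m * b⁻¹)⁻¹ := by group
        _ = _ := by rw [← br, ← fb.eq, mul_inv_cancel_right]
    have e3 : m * (b * (m * f i * m⁻¹) * b⁻¹) * m⁻¹ = b * (m * f i * m⁻¹) * b⁻¹ := by
      calc _ = m * b * m⁻¹ * (m * m) * f i * (m * b * m⁻¹ * (m * m))⁻¹ := by group
        _ = _ := by rw [mm, mul_one, e2]
    have e4 : m * (m * f i * m⁻¹) * m⁻¹ = f i := by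
      calc _ = m * m * f i * (m * m)⁻¹ := by group
        _ = _ := by rw [mm]; group
    rw [show m * f i * m = m * f i * m⁻¹ by rw [mi]]
    set a := m * f i * m⁻¹ with ha
    have ai := inv_eq_of_mul_eq_one_right aa
    set c := b * a * b⁻¹ with hc
    have dQ : a * c ∈ Q := by
      have := mul_mem (conjQ h.toXE az bQ) (inv_mem bQ)
      rwa [ai, mul_assoc, mul_assoc, ← mul_assoc b] at this
    have πd : π (a * c) = act (r a) (e 0) + e 0 := by
      rw [← πb, M.A_π az bQ, ← M.π_mul (conjQ h.toXE az bQ) bQ, ai, hc, bi]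
      congr 1; group
    have yx : Commute (m * b * m⁻¹) x := h'.comm (hmP b bQ)
    have cx : Commute c x := e2 ▸ (yx.mul_left fx).mul_left yx.inv_left
    have dP : f i * (a * c) ∈ P := by
      have h1 : c * f i ∈ P := by
        have := mul_mem (hmP b bQ) (conjQ h'.toXE fx (inv_mem (hmP b bQ)))
        rwa [fi, ← mul_assoc, ← mul_assoc, ← e2] at this
      have := conjQ h'.toXE cx.inv_left (mul_mem h1 aP)
      rwa [show c⁻¹ * (c * f i * a) * c⁻¹⁻¹ = f i * (a * c) by group] at this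
    have ra : r a = s i := key_s i _ (N.inA a az (h'.comm aP)) fun l hl => by
      have := key_E (π (f i * (a * c))) (fun j => by
        obtain ⟨y, hy, hyz, e1⟩ := N.img (s j) (by clear * -; revert j; decide +kernel)
        have dQ' := mul_mem (fQ i) dQ
        rw [← e1, M.A_π hyz dQ', ← M.π_inv dQ', ← M.π_mul (conjQ h.toXE hyz dQ') (inv_mem dQ')]
        rcases h'.mem_Z.mp (h'.comm_mem hy dP) with e5 | e5 <;> rw [← commutatorElement_def, e5]
        exacts [Or.inl M.π_one, Or.inr hπ]) l hl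
      rwa [M.π_mul (fQ i) dQ, πd, πf, Pi.add_apply, Pi.add_apply, act_e] at this
    have e5 : a * c = f i := ((M.π_eq dQ (fQ i)).mp (by
        rw [πd, ra, πf, funext_iff]
        simp only [Pi.add_apply, act_e]
        clear * -; revert i; decide +kernel)).resolve_right fun e5 => N.ne (by
      have cc : c * c = 1 := by rw [hc, conj_mul, aa, mul_one, mul_inv_cancel]
      have fa : Commute a (f i) := by
        have e6 : a * f i = c * z := by
          rw [← mul_left_inj z, mul_assoc, ← e5, ← mul_assoc, aa, one_mul, mul_assoc, h.mul_self, mul_one]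
        have cz : Commute c z := ((cQ h.toXE bQ).mul_left az).mul_left (cQ h.toXE bQ).inv_left
        have e7 : a * f i * (a * f i) = 1 := by
          rw [e6, mul_assoc, ← mul_assoc z, ← cz.eq, mul_assoc c z, h.mul_self, mul_one, cc]
        have := inv_eq_of_mul_eq_one_right e7
        rw [mul_inv_rev, ai, fi] at this
        exact this.symm
      have e8 := congrArg (fun t => m * t * m⁻¹) e5
      simp only [← conj_mul, e3, e4, m1, ← ha] at e8
      have e9 : a * f i * c = z := by rw [fa.eq, mul_assoc, e5, ← mul_assoc, ff, one_mul]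
      rw [mul_assoc, e8, ← mul_assoc, aa, one_mul] at e9
      exact e9)
    refine ⟨az, ra, ?_⟩
    rw [← e5, hc, bi]; group
  rw [mi] at m1
  exact ⟨b, m, fun i => m * f i * m, f, bQ, πb, mm, bm, m1 ▸ N.mem, m1 ▸ hπ, fQ, πf, fun _ => rfl,
    fun i => (key i).1, fun i => (key i).2.1, fun i => (key i).2.2⟩

end CL.O8
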