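/-
Centralisers `2^{1+8}.(S₃ × S₃ × S₃)`, part R2: the Levi complement.
-/
import Cfsg.Agent.Spor.O8D

set_option autoImplicit false

namespace CL.O8

open Subgroup CL.Even CL.Grp CL.U6 Cfsg

universe u

theorem r2_fpf (v : V8) : (act (ρ 0) v = v → v = 0) ∧ act (ρ 0) v + act (ρ 0) (act (ρ 0) v) = v := by
  simp only [ρ, act_mul, Module.End.mul_apply, (act_ν _).1, (act_s _).1]
  revert v
  decide +kernel

theorem r2_0 (v : V8) (h : act (s 0) v = v) : ∃ u, act (s 0) u + u = v := by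
  refine ⟨![v 1, 0, v 3, 0, v 5, 0, v 7, 0], ?_⟩
  simp only [(act_s _).1] at *
  revert v
  decide +kernel

theorem r2_1 (v : V8) (h : act (s 1) v = v) (h0 : act (s 0) v = v) : ∃ u, act (s 1) u + u = v ∧ act (s 0) u = u := by
  refine ⟨![0, v 3, 0, 0, 0, v 7, 0, 0], ?_⟩
  simp only [(act_s _).1, (act_s _).2.1] at *
  revert v
  decide +kernel

theorem r2_2 (v : V8) (h : act (s 2) v = v) (h0 : act (s 0) v = v) (h1 : act (s 1) v = v) :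
    ∃ u, act (s 2) u + u = v ∧ act (s 0) u = u ∧ act (s 1) u = u := by
  rcases eq_of_fix (v := v) (fun i => by fin_cases i; exacts [h0, h1, h]) with rfl | rfl
  · exact ⟨0, by simp⟩
  · refine ⟨e 3, ?_⟩
    simp only [(act_s _).1, (act_s _).2.1, (act_s _).2.2]
    decide +kernel

theorem r2_X : (∀ i, ρ i * ρ 0 * (ρ i)⁻¹ = ρ 0 ∧ ρ i ^ 3 = 1 ∧ s i * ρ i * (s i)⁻¹ = (ρ i)⁻¹ ∧ s i * ρ i = ν i) ∧
    (∀ i j, i ≠ j → s i * ρ j * (s i)⁻¹ = ρ j) ∧ ∀ i j, ρ i * ρ j * (ρ i)⁻¹ = ρ j := by decide +kernel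

variable {G : Type u} [Group G] {z : G} {Q : Subgroup G} {r : G → X} {π : G → V8} (T : TM z Q r π)
include T

theorem TM.r2_four {c : G} (hc : Commute c z) (h : r c ^ 3 = 1) : r (c ^ 4) = r c ∧ (c ^ 4) ^ 3 = 1 := by
  refine ⟨by rw [T.r_pow hc, pow_succ, h, one_mul], ?_⟩
  have h1 := T.mem_Z.1 (T.sq _ ((T.r_ker (hc.pow_left 3)).1 (by rw [T.r_pow hc, h])))
  rw [← pow_mul, show 4 * 3 = 3 * 2 * 2 by rfl, pow_mul, pow_mul]
  rcases h1 with h1 | h1 <;> rw [h1]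
  exacts [one_pow 2, (pow_two z).trans T.mul_self]

theorem TM.r2_conj {p p' : G} (hp : p ∈ Q) (hp' : p' ∈ Q) (h : π p = π p') {t : G} (ht : Commute t z) :
    p * t * p⁻¹ = p' * t * p'⁻¹ := by
  rcases (T.lm.π_eq hp hp').1 h with rfl | rfl
  · rfl
  · rw [mul_inv_rev, mul_assoc p', ← ht.eq]; group

theorem TM.r2_ne {t t' : G} (ht : Commute t z) (h : t ^ 3 = 1) (h' : t' ^ 3 = 1) : t' ≠ t * z := by
  rintro rfl
  rw [ht.mul_pow, h, one_mul, pow_succ, pow_two, T.mul_self, one_mul] at h'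
  exact T.ne_one h'

variable {t : G} (hz : Commute t z) (hr : r t = ρ 0) (h3 : t ^ 3 = 1)
include hz hr

theorem TM.r2_T1 {p : G} (hp : p ∈ Q) (h : Commute t p) : π p = 0 :=
  (r2_fpf _).1 (by rw [← hr]; exact (T.lm.fix_iff T.toXE hz hp).2 (Or.inl h))

theorem TM.r2_T1' {p p' : G} (hp : p ∈ Q) (hp' : p' ∈ Q) {ε : ℤ} (hε : ε * ε = 1)
    (h : p * t ^ ε * p⁻¹ = p' * t ^ ε * p'⁻¹) : π p = π p' := by
  have h1 : Commute (t ^ ε) (p'⁻¹ * p) := by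
    rw [Commute, SemiconjBy, ← mul_left_cancel_iff (a := p'), ← mul_right_cancel_iff (a := p⁻¹)]
    calc _ = p' * t ^ ε * p'⁻¹ := by group
      _ = _ := by rw [← h]; group
  have h2 := T.r2_T1 hz hr (mul_mem (inv_mem hp') hp) (by simpa [← zpow_mul, hε] using h1.zpow_left ε)
  rw [T.lm.π_mul (inv_mem hp') hp, T.lm.π_inv hp'] at h2
  exact (eq_of_add_eq_zero_zmod2 h2).symm

include h3

theorem TM.r2_T2 {t' : G} (hz' : Commute t' z) (hr' : r t' = ρ 0) (h3' : t' ^ 3 = 1) : ∃ p ∈ Q, p * t * p⁻¹ = t' := by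
  have hd := (T.r_eq hz' hz).1 (hr'.trans hr.symm)
  obtain ⟨p, hp, e⟩ := T.lm.π_surj (act (ρ 0) (π (t' * t⁻¹)))
  have h1 := conjQ T.toXE hz (inv_mem hp)
  have h2 : π (p * (t * p⁻¹ * t⁻¹)) = π (t' * t⁻¹) := by
    rw [T.lm.π_mul hp h1, ← T.lm.A_π hz (inv_mem hp), T.lm.π_inv hp, e, hr, (r2_fpf _).2]
  refine ⟨p, hp, ?_⟩
  rcases (T.lm.π_eq (mul_mem hp h1) hd).1 h2 with h | h
  · exact mul_right_cancel (b := t⁻¹) (by rw [← h]; group)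
  · refine (T.r2_ne (t' := p * t * p⁻¹) hz' h3' (by rw [conj_pow, h3]; simp) (mul_right_cancel (b := t⁻¹) ?_)).elim
    rw [mul_assoc t', ← hz.inv_left.eq, ← mul_assoc t', ← h]; group

omit h3 hr in
theorem TM.r2_keep {a p : G} (ha : Commute a z) (hp : p ∈ Q) (h : act (r a) (π p) = π p) {ε : ℤ}
    (e : a * t * a⁻¹ = t ^ ε) : a * (p * t * p⁻¹) * a⁻¹ = (p * t * p⁻¹) ^ ε := by
  rw [conj_zpow, ← T.r2_conj (conjQ T.toXE ha hp) hp ((T.lm.A_π ha hp).symm.trans h) (hz.zpow_left ε), ← e]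
  group

theorem TM.r2_step {a : G} (ha : a * a = 1) (haz : Commute a z) {ε : ℤ} (hε : ε = 1 ∨ ε = -1)
    (h : r a * ρ 0 * (r a)⁻¹ = ρ 0 ^ ε) : ∃ v : V8, act (r a) v = v ∧
      (∀ (b : G) (δ : ℤ), δ * δ = 1 → Commute b z → Commute a b → b * t * b⁻¹ = t ^ δ → act (r b) v = v) ∧
      ∀ p ∈ Q, act (r a) (π p) + π p = v → a * (p * t * p⁻¹) * a⁻¹ = (p * t * p⁻¹) ^ ε := by
  have h0 : ε * ε = 1 := by rcases hε with rfl | rfl <;> rfl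
  have h1 : Commute (a * t * a⁻¹) z := (haz.mul_left hz).mul_left haz.inv_left
  obtain ⟨p, hp, e⟩ := T.r2_T2 hz hr h3 (t' := (a * t * a⁻¹) ^ ε) (h1.zpow_left ε) (by
    rcases hε with rfl | rfl
    · rw [zpow_one, T.r_conj haz hz, hr, h, zpow_one]
    · rw [zpow_neg_one, T.r_inv h1, T.r_conj haz hz, hr, h, zpow_neg_one, inv_inv]) (by
    rw [← zpow_natCast, ← zpow_mul, mul_comm, zpow_mul, zpow_natCast, conj_pow, h3]; simp)
  have e1 : a * t * a⁻¹ = p * t ^ ε * p⁻¹ := by rw [← conj_zpow, e, ← zpow_mul, h0, zpow_one]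
  have h2 := conjQ T.toXE haz hp
  have ha' := inv_eq_of_mul_eq_one_right ha
  refine ⟨π p, ?_, fun b δ hδ hb hab hbt => ?_, fun p' hp' e' => ?_⟩
  · rw [T.lm.A_π haz hp, ← T.lm.π_inv h2]
    refine T.r2_T1' hz hr (inv_mem h2) hp h0 ?_
    have e2 : t ^ ε = a * (p * t * p⁻¹) * a⁻¹ := by
      rw [e, conj_zpow, ha', ← mul_assoc, ← mul_assoc, ha, one_mul, mul_assoc, ha, mul_one]
    rw [← e1, e2]; group
  · rw [T.lm.A_π hb hp]
    refine T.r2_T1' hz hr (conjQ T.toXE hb hp) hp hδ ?_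
    have e2 : b * (p * t * p⁻¹) * b⁻¹ = (p * t * p⁻¹) ^ δ := by
      rw [e, ← zpow_mul, mul_comm ε, zpow_mul, conj_zpow (a := a) (i := δ), ← hbt, ← conj_zpow]
      congr 1
      calc _ = b * a * t * (b * a)⁻¹ := by group
        _ = _ := by rw [← hab.eq]; group
    rw [← conj_zpow (a := p), ← e2, ← hbt]; group
  · have h4 := conjQ T.toXE haz hp'
    rw [conj_zpow, ← T.r2_conj (mul_mem h4 hp) hp' (by
      rw [T.lm.π_mul h4 hp, ← T.lm.A_π haz hp', ← e', ← add_assoc, add_self_zmod2, zero_add]) (hz.zpow_left ε)]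
    calc _ = a * p' * a⁻¹ * (a * t * a⁻¹) * (a * p' * a⁻¹)⁻¹ := by group
      _ = _ := by rw [e1]; group

omit h3 in
theorem TM.r2_uniq {x y : G} (hx : Commute x z) (hy : Commute y z) (hx' : Commute t x) (hy' : Commute t y)
    (x3 : x ^ 3 = 1) (y3 : y ^ 3 = 1) (h : r x = r y) : x = y := by
  have hd := (T.r_eq hx hy).1 h
  rcases (T.lm.π_zero hd).1 (T.r2_T1 hz hr hd (hx'.mul_right hy'.inv_right)) with e | e
  · exact mul_inv_eq_one.1 e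
  · exact (T.r2_ne hy y3 x3 (by rw [hy.eq, ← e, inv_mul_cancel_right])).elim

theorem TM.r2_lift (i : Fin 3) : ∃ x, Commute x z ∧ Commute t x ∧ r x = ρ i ∧ x ^ 3 = 1 := by
  obtain ⟨c, hc, e⟩ := T.r_surj (ρ i)
  obtain ⟨p, hp, e'⟩ := T.r2_T2 hz hr h3 (t' := c * t * c⁻¹) ((hc.mul_left hz).mul_left hc.inv_left)
    (by rw [T.r_conj hc hz, e, hr, (r2_X.1 i).1]) (by rw [conj_pow, h3]; simp)
  have h1 := (cQ T.toXE hp).inv_left.mul_left hc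
  have h2 : r (p⁻¹ * c) = ρ i := by rw [T.r_mul (cQ T.toXE hp).inv_left hc, T.r_Q (inv_mem hp), one_mul, e]
  obtain ⟨h4, h5⟩ := T.r2_four h1 (by rw [h2, (r2_X.1 i).2.1])
  refine ⟨_, h1.pow_left 4, Commute.pow_right ?_ 4, h4.trans h2, h5⟩
  calc t * (p⁻¹ * c) = p⁻¹ * (p * t * p⁻¹) * c := by group
    _ = _ := by rw [e']; group

omit T hz hr h3 in
theorem r2 : R2.{u} := by
  intro G _ _ z Q r π T a asq az ra aa
  have cc : ∀ {t p : G}, Commute t z → r t = ρ 0 → t ^ 3 = 1 → p ∈ Q →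
      Commute (p * t * p⁻¹) z ∧ r (p * t * p⁻¹) = ρ 0 ∧ (p * t * p⁻¹) ^ 3 = 1 := fun hz hr h3 hp =>
    ⟨((cQ T.toXE hp).mul_left hz).mul_left (cQ T.toXE hp).inv_left,
      by rw [T.r_conj (cQ T.toXE hp) hz, T.r_Q hp, hr]; simp, by rw [conj_pow, h3]; simp⟩
  obtain ⟨t, hz, hr, h3, e0⟩ : ∃ t, Commute t z ∧ r t = ρ 0 ∧ t ^ 3 = 1 ∧ a 0 * t * (a 0)⁻¹ = t ^ (-1 : ℤ) := by
    obtain ⟨c, hc, e⟩ := T.r_surj (ρ 0)
    obtain ⟨h1, h2⟩ := T.r2_four hc (by rw [e]; decide +kernel)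
    obtain ⟨v, v1, -, v3⟩ := T.r2_step (hc.pow_left 4) (h1.trans e) h2 (asq 0) (az 0) (Or.inr rfl)
      (by rw [ra]; decide +kernel)
    rw [ra] at v1 v3
    obtain ⟨u, hu⟩ := r2_0 v v1
    obtain ⟨p, hp, rfl⟩ := T.lm.π_surj u
    obtain ⟨c1, c2, c3⟩ := cc (hc.pow_left 4) (h1.trans e) h2 hp
    exact ⟨_, c1, c2, c3, v3 p hp hu⟩
  obtain ⟨t, hz, hr, h3, e0, e1⟩ : ∃ t, Commute t z ∧ r t = ρ 0 ∧ t ^ 3 = 1 ∧ a 0 * t * (a 0)⁻¹ = t ^ (-1 : ℤ) ∧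
      a 1 * t * (a 1)⁻¹ = t ^ (1 : ℤ) := by
    obtain ⟨v, v1, v2, v3⟩ := T.r2_step hz hr h3 (asq 1) (az 1) (Or.inl rfl) (by rw [ra]; decide +kernel)
    have v4 := v2 _ _ rfl (az 0) (aa 1 0) e0
    rw [ra] at v1 v3 v4
    obtain ⟨u, hu, hu0⟩ := r2_1 v v1 v4
    obtain ⟨p, hp, rfl⟩ := T.lm.π_surj u
    obtain ⟨c1, c2, c3⟩ := cc hz hr h3 hp
    exact ⟨_, c1, c2, c3, T.r2_keep hz (az 0) hp (by rwa [ra]) e0, v3 p hp hu⟩
  obtain ⟨t, hz, hr, h3, e⟩ : ∃ t, Commute t z ∧ r t = ρ 0 ∧ t ^ 3 = 1 ∧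
      ∀ i, ∃ ε : ℤ, ε * ε = 1 ∧ a i * t * (a i)⁻¹ = t ^ ε := by
    obtain ⟨v, v1, v2, v3⟩ := T.r2_step hz hr h3 (asq 2) (az 2) (Or.inl rfl) (by rw [ra]; decide +kernel)
    have v4 := v2 _ _ rfl (az 0) (aa 2 0) e0
    have v5 := v2 _ _ rfl (az 1) (aa 2 1) e1
    rw [ra] at v1 v3 v4 v5
    obtain ⟨u, hu, hu0, hu1⟩ := r2_2 v v1 v4 v5
    obtain ⟨p, hp, rfl⟩ := T.lm.π_surj u
    obtain ⟨c1, c2, c3⟩ := cc hz hr h3 hp
    refine ⟨_, c1, c2, c3, fun i => ?_⟩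
    fin_cases i
    exacts [⟨_, rfl, T.r2_keep hz (az 0) hp (by rwa [ra]) e0⟩, ⟨_, rfl, T.r2_keep hz (az 1) hp (by rwa [ra]) e1⟩,
      ⟨_, rfl, v3 p hp hu⟩]
  choose x xz xt xr x3 using T.r2_lift hz hr h3
  have key : ∀ {c y : G} {ε : ℤ} (j : Fin 3), Commute c z → ε * ε = 1 → c * t * c⁻¹ = t ^ ε → Commute y z →
      Commute t y → y ^ 3 = 1 → r c * ρ j * (r c)⁻¹ = r y → c * x j * c⁻¹ = y := fun {c y ε} j hc hε e y1 y2 y3 h => by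
    refine T.r2_uniq hz hr ((hc.mul_left (xz j)).mul_left hc.inv_left) y1 ?_ y2 (by rw [conj_pow, x3]; simp) y3
      (by rw [T.r_conj hc (xz j), xr, h])
    have := ((xt j).conj c).zpow_left ε
    rwa [e, ← zpow_mul, hε, zpow_one] at this
  have h1 : ∀ i, a i * x i * (a i)⁻¹ = (x i)⁻¹ := fun i => by
    obtain ⟨ε, hε, e⟩ := e i
    exact key i (az i) hε e (xz i).inv_left (xt i).inv_right (by rw [inv_pow, x3, inv_one])
      (by rw [T.r_inv (xz i), ra, xr, (r2_X.1 i).2.2.1])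
  have h2 : ∀ i j, i ≠ j → Commute (a i) (x j) := fun i j hij => by
    obtain ⟨ε, hε, e⟩ := e i
    exact mul_inv_eq_iff_eq_mul.1 (key j (az i) hε e (xz j) (xt j) (x3 j)
      (by rw [ra, xr, r2_X.2.1 i j hij]))
  have h4 : ∀ i j, Commute (x i) (x j) := fun i j => mul_inv_eq_iff_eq_mul.1 (key (ε := 1) j (xz i) rfl
    (by rw [← (xt i).eq, zpow_one, mul_inv_cancel_right]) (xz j) (xt j) (x3 j)
      (by rw [xr, xr, r2_X.2.2]))
  refine ⟨fun i => a i * x i, fun i => ?_, fun i => (az i).mul_left (xz i), fun i => ?_, fun i => ?_,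
    fun i j h => (aa i j).mul_right (h2 i j h), fun i j => ?_⟩
  · rw [← mul_assoc, ← inv_eq_of_mul_eq_one_right (asq i), inv_eq_of_mul_eq_one_right (asq i)]
    nth_rewrite 2 [← inv_eq_of_mul_eq_one_right (asq i)]
    rw [h1, inv_mul_cancel]
  · rw [T.r_mul (az i) (xz i), ra, xr, (r2_X.1 i).2.2.2]
  · rw [← mul_assoc, asq, one_mul, x3]
  · rcases eq_or_ne i j with rfl | h
    · exact Commute.refl _
    · exact ((aa i j).mul_right (h2 i j h)).mul_left ((h2 j i h.symm).symm.mul_right (h4 i j))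

end CL.O8
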