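/-
Centralisers `2^{1+8}.(S₃ × S₃ × S₃)`, part R3: the braid relation.
-/
import Cfsg.Agent.Spor.O8D

set_option autoImplicit false

namespace CL.O8

open Subgroup CL.Even CL.Grp CL.U6 Cfsg

universe u

variable {G : Type u} [Group G]

theorem r3_hom {n : G} (hn : n * n = 1) : ∃ N : G →* G, (∀ g, N g = n * g * n) ∧ ∀ g, N (N g) = g :=
  ⟨(MulAut.conj n).toMonoidHom, fun g => by simp [inv_eq_of_mul_eq_one_right hn], fun g => by
    simp [inv_eq_of_mul_eq_one_right hn, mul_assoc, hn, ← mul_assoc n n]⟩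

theorem r3_tri {n m p q t : G} (hn : n * n = 1) (hm : m * m = 1) (h1 : n * p * n = p) (h2 : n * q * n = t)
    (h3 : m * p * m = q) (h4 : m * t * m = t) :
    Commute ((n * m) ^ 3) p ∧ Commute ((n * m) ^ 3) q ∧ Commute ((n * m) ^ 3) t := by
  obtain ⟨N, hN, hN'⟩ := r3_hom hn
  obtain ⟨M, hM, hM'⟩ := r3_hom hm
  rw [← hN] at h1 h2
  rw [← hM] at h3 h4
  have h5 : N t = q := by rw [← h2, hN']
  have h6 : M q = p := by rw [← h3, hM']
  have key : ∀ g, N (M (N (M (N (M g))))) = g → Commute ((n * m) ^ 3) g := fun g h => by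
    refine mul_inv_eq_iff_eq_mul.1 (Eq.trans ?_ h)
    simp only [hN, hM, pow_succ, pow_zero, one_mul, mul_inv_rev, inv_eq_of_mul_eq_one_right hn,
      inv_eq_of_mul_eq_one_right hm, mul_assoc]
  refine ⟨key _ ?_, key _ ?_, key _ ?_⟩ <;> simp only [h1, h2, h3, h4, h5, h6]

theorem r3_last {a b f m n u x w : G} (bb : b * b = 1) (ff : f * f = 1) (mm : m * m = 1) (nn : n * n = 1)
    (uu : u * u = 1) (ww : w * w = 1) (hf : n * b * n = f) (ha : a = m * f * m) (com : a * b * a * b = f)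
    (ord : (a * n) ^ 3 = 1) (fb : Commute f b) (hw : n * m * n = w * (m * n * m)) (wn : n * w * n = w)
    (wm : m * w * m = w) (haw : a * w * a = w * x) (nx : n * x * n = u) (mu : m * u * m = u) (ub : Commute u b)
    (xa : Commute x a) : u = 1 := by
  obtain ⟨N, hN, hN'⟩ := r3_hom nn
  obtain ⟨M, hM, hM'⟩ := r3_hom mm
  have can : ∀ {g : G}, g * g = 1 → ∀ h, g * (g * h) = h := fun e h => by rw [← mul_assoc, e, one_mul]
  have sq : ∀ (φ : G →* G) {g : G}, g * g = 1 → φ g * φ g = 1 := fun φ g e => by rw [← map_mul, e, map_one]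
  rw [← hN] at hf wn nx
  rw [← hM] at ha wm mu
  have aa : a * a = 1 := ha ▸ sq M ff
  have e1 : N f = b := by rw [← hf, hN']
  have e2 : M a = f := by rw [ha, hM']
  have hw' : n * m * n = m * n * m * w := by
    have := congrArg Inv.inv hw
    simpa only [mul_inv_rev, inv_eq_of_mul_eq_one_right nn, inv_eq_of_mul_eq_one_right mm,
      inv_eq_of_mul_eq_one_right ww, mul_assoc] using this
  have h1 : N (M b) = w * M (N a) * w := by
    calc _ = n * m * n * (m * a * m) * (n * m * n) := by rw [← e1, ← e2]; simp only [hN, hM, mul_assoc]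
      _ = w * (m * n * m) * (m * a * m) * (m * n * m * w) := by nth_rewrite 1 [hw]; rw [hw']
      _ = _ := by simp only [hN, hM, mul_assoc, can mm]
  have h2 := congrArg M (congrArg N haw)
  simp only [map_mul, wn, wm, nx, mu] at h2
  have h3 : b * a * b = a * f := by rw [← com]; simp only [mul_assoc, can aa]
  have h4 : a * b * a = f * b := by rw [← com, mul_assoc _ b b, bb, mul_one]
  have h5 : Commute f a := by
    have : f = b * a * b * a := by
      rw [← inv_eq_of_mul_eq_one_right ff, ← com]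
      simp only [mul_inv_rev, inv_eq_of_mul_eq_one_right aa, inv_eq_of_mul_eq_one_right bb, mul_assoc]
    rw [Commute, SemiconjBy, ← h3, this, mul_assoc, aa, mul_one]
  have h6 := congrArg N (congrArg M h3)
  have h7 := congrArg M (congrArg N h4)
  have h8 := (fb.map M).map N
  have h9 := (h5.map N).map M
  have h10 := fb.map M
  have h11 := xa.map N
  simp only [map_mul, e1, e2, ← ha, hf, nx] at h6 h7 h8 h9 h10 h11
  have h12 : N a * a * N a = n := by
    have e : a * n * a * (n * a * n) = 1 := by rw [← ord]; simp only [pow_succ, pow_zero, one_mul, mul_assoc]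
    have e' : N a = a * n * a := by
      rw [← inv_eq_of_mul_eq_one_right (sq N aa), hN, inv_eq_of_mul_eq_one_left e]
    have e'' : n * a * n = a * n * a := hN a ▸ e'
    rw [e']
    calc _ = a * (n * a * n) * a := by simp only [mul_assoc, can aa]
      _ = n := by rw [e'']; simp only [mul_assoc, can aa, aa, mul_one]
  have yy := sq N aa
  have zz := sq M bb
  have kk := sq M yy
  have h13 : N (M b) = u * M (N a) := by
    rw [h1, ← can ww u, ← h2]; simp only [mul_assoc, kk, mul_one]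
  have h14 : N (M b) = M (N a) * u := by
    rw [← inv_eq_of_mul_eq_one_right (sq N zz), h13, mul_inv_rev, inv_eq_of_mul_eq_one_right kk,
      inv_eq_of_mul_eq_one_right uu]
  have h15 : M (N a) * b * M (N a) = b * N a := by
    rw [← h6]
    nth_rewrite 1 [h14]
    rw [h13, mul_assoc _ u b, ub.eq]
    simp only [mul_assoc, can uu]
  have h16 := congrArg M h15
  simp only [map_mul, hM'] at h16
  have h17 : Commute (N a) (M (N a)) := by
    have := h11.symm.mul_right h8
    rwa [h13, can uu] at this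
  have h18 : a * M (N a) * a = M b * M (N a) := by
    rw [h9.eq, ← can kk (a * M (N a) * a), ← mul_assoc _ (a * _), ← mul_assoc _ a, h7, mul_assoc _ a, aa, mul_one]
  refine mul_right_cancel (b := M (N a)) (h13.symm.trans ?_)
  calc _ = N a * a * (N a * M b * N a) * a * N a := by rw [hN (M b), ← h12]; simp only [mul_assoc]
    _ = N a * M b * (a * M (N a) * a) * N a := by
      rw [h16, ← mul_assoc _ (M b), mul_assoc (N a) a (M b), h10.eq]; simp only [mul_assoc]
    _ = _ := by rw [h18, mul_assoc (N a), can zz, h17.eq, mul_assoc, yy, mul_one, one_mul]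

theorem r3_one : ∀ w : X, (∀ k, mat w k 7 = e 7 k) → (∀ k, mat w k 3 = e 3 k) → (∀ k, mat w k 5 = e 5 k) →
    (∀ k, mat w k 6 = e 6 k) → w = 1 := by decide +kernel

/-- the index of a two element subset -/
def r3d (l l' : Fin 3) : Fin 8 := sg l + sg l'

theorem r3_nu : ∀ l l', l ≠ l' → act (ν l) (e (sg l')) = e (r3d l l') := by
  simp only [funext_iff, act_e]
  decide +kernel

theorem r3_nu' : ∀ i j k, i ≠ j → i ≠ k → j ≠ k → act (ν i) (e (r3d j k)) = e 7 := by
  simp only [funext_iff, act_e]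
  decide +kernel

theorem r3_vec : ∀ i j k, i ≠ j → i ≠ k → j ≠ k → ∀ v : V8, v (sg j).rev = 0 → v (sg k).rev = 0 → v (r3d i j).rev = 0 →
    v (r3d i k).rev = 0 → v (7 : Fin 8).rev = 0 → v (r3d j k).rev = 0 → act (ν i) v = v → v = 0 ∨ v = e (r3d j k) + e 7 := by
  intro i j k h1 h2 h3 v
  fin_cases i <;> simp only [Fin.zero_eta, Fin.mk_one, Fin.reduceFinMk, (act_ν v).1, (act_ν v).2.1, (act_ν v).2.2] <;>
    revert j k v <;> decide +kernel

theorem r3_dec : (∀ k, q0 (e k) = 0) ∧ (∀ l l', l ≠ l' → (r3d l' l).rev ≠ sg l) ∧ (∀ i, (0 : Fin 8).rev ≠ sg i) ∧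
    (∀ j k, j ≠ k → (7 : Fin 8).rev ≠ r3d j k ∧ (0 : Fin 8).rev ≠ r3d j k) ∧ (∀ k, 0 ≠ e k) ∧
    ∀ i j k, i ≠ j → i ≠ k → j ≠ k → (r3d j k).rev = sg i ∧
      ∀ l, l = 3 ∨ l = 5 ∨ l = 6 → l = r3d j k ∨ l = r3d i j ∨ l = r3d i k := by
  refine ⟨?_, ?_, ?_, ?_, ?_, ?_⟩ <;> decide +kernel

theorem r3_sw {p q : G} (h : Commute p q) (g : G) : p * (q * g * q) * p = q * (p * g * p) * q := by
  calc _ = p * q * g * (q * p) := by simp only [mul_assoc]
    _ = _ := by rw [← h.eq]; nth_rewrite 1 [h.eq]; simp only [mul_assoc]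

theorem r3 : R3.{u} := by
  intro G _ _ z Q r π T b m a f n R L nb i
  have L0 := T.lm
  have nn := L.nsq
  have ni := fun l => inv_eq_of_mul_eq_one_right (nn l)
  have can : ∀ {g : G}, g * g = 1 → ∀ h, g * (g * h) = h := fun e h => by rw [← mul_assoc, e, one_mul]
  have sq : ∀ {p : G} {k : Fin 8}, p ∈ Q → π p = e k → p * p = 1 := fun {p k} hp h =>
    (L0.q_zero hp).1 (by rw [h, r3_dec.1])
  have cm : ∀ {p p' : G} {k k' : Fin 8}, p ∈ Q → p' ∈ Q → π p = e k → π p' = e k' → (Commute p p' ↔ k'.rev ≠ k) :=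
    fun {p p' k k'} hp hp' h h' => by rw [← L0.B_zero hp hp', h, h', B0_e, e]; simp
  have nQ : ∀ l {p}, p ∈ Q → n l * p * n l ∈ Q ∧ π (n l * p * n l) = act (ν l) (π p) := fun l p hp => by
    have h1 := conjQ T.toXE (L.nz l) hp
    have h2 := L0.A_π (L.nz l) hp
    rw [ni] at h1 h2
    exact ⟨h1, by rw [← h2, L.rn]⟩
  have bb := sq R.bQ R.πb
  have ff := fun l => sq (R.fQ l) (R.πf l)
  have mam : ∀ l, m * a l * m = f l := fun l => by rw [R.ha]; simp only [mul_assoc, can R.msq, R.msq, mul_one]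
  have aa : ∀ l, a l * a l = 1 := fun l => by
    rw [R.ha]; simp only [mul_assoc, can R.msq, can (ff l), R.msq]
  have gs : ∀ l l', n l * f l' * n l = n l' * f l * n l' := fun l l' => by
    rw [← nb, ← nb, r3_sw (L.nn l l')]
  have gQ : ∀ l l', l ≠ l' → n l * f l' * n l ∈ Q ∧ π (n l * f l' * n l) = e (r3d l l') := fun l l' h =>
    ⟨(nQ l (R.fQ l')).1, by rw [(nQ l (R.fQ l')).2, R.πf, r3_nu l l' h]⟩
  have ag : ∀ l l', l ≠ l' → a l * f l' * a l = n l * f l' * n l * f l' := fun l l' h => by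
    rw [gs, ← nb l', r3_sw (L.an l l' h), ← R.com l]
    simp only [mul_assoc, can (nn l'), can bb]
  have mg : ∀ l l', l ≠ l' → m * (n l * f l' * n l) * m = n l * f l' * n l := fun l l' h => by
    have h1 := ((cm (R.fQ l) (gQ l' l h.symm).1 (R.πf l) (gQ l' l h.symm).2).2 (r3_dec.2.1 l l' h)).eq
    calc _ = m * (a l * f l' * a l * f l') * m := by rw [ag l l' h, mul_assoc _ (f l') (f l'), ff, mul_one]
      _ = f l * (a l' * f l * a l') := by rw [← mam l, R.ha l']; simp only [mul_assoc, can R.msq]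
      _ = _ := by rw [ag l' l h.symm, ← mul_assoc, h1, mul_assoc, ff, mul_one, gs]
  obtain ⟨j, k, hij, hik, hjk⟩ : ∃ j k, i ≠ j ∧ i ≠ k ∧ j ≠ k := by revert i; decide
  obtain ⟨uQ, uπ⟩ := gQ j k hjk
  have mu := mg j k hjk
  set u := n j * f k * n j with hu
  have uu := sq uQ uπ
  have au : a i * u * a i = n i * u * n i * u := by
    rw [hu, r3_sw (L.an i j hij), ag i k hik, r3_sw (L.nn i j)]
    simp only [mul_assoc, can (nn j)]
  have nu : n i * u * n i = m * z * m := by
    have h1 := T.conj_eq (R.fQ i) uQ fun h =>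
      (cm (R.fQ i) uQ (R.πf i) uπ).1 h (r3_dec.2.2.2.2.2 i j k hij hik hjk).1
    rw [inv_eq_of_mul_eq_one_right (ff i)] at h1
    have h2 : m * (n i * u * n i) * m = z := by
      calc _ = m * (a i * u * a i * u) * m := by rw [au, mul_assoc _ u u, uu, mul_one]
        _ = m * a i * m * (m * u * m) * (m * a i * m) * (m * u * m) := by simp only [mul_assoc, can R.msq]
        _ = _ := by rw [mam, mu, h1, T.comm uQ, mul_assoc, uu, mul_one]
    rw [← h2]; simp only [mul_assoc, can R.msq, R.msq, mul_one]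
  obtain ⟨x, hx⟩ : ∃ x, x = m * z * m := ⟨_, rfl⟩
  have xQ : x ∈ Q := hx ▸ R.xQ
  have πx : π x = e 7 := hx ▸ R.πx
  rw [← hx] at nu
  have nx : n i * x * n i = u := by rw [← nu]; simp only [mul_assoc, can (nn i), nn, mul_one]
  have nz : n i * z * n i = z := by rw [(L.nz i).eq, mul_assoc, nn, mul_one]
  have na : ∀ l, i ≠ l → n i * a l * n i = a l := fun l h => by rw [← (L.an l i h.symm).eq, mul_assoc, nn, mul_one]
  obtain ⟨c1, c2, c3⟩ := r3_tri (nn i) R.msq nz nx hx.symm mu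
  obtain ⟨-, c4, c5⟩ := r3_tri (nn i) R.msq (na j hij) rfl (R.ha j ▸ mam j) (mg i j hij)
  obtain ⟨-, c6, c7⟩ := r3_tri (nn i) R.msq (na k hik) rfl (R.ha k ▸ mam k) (mg i k hik)
  set c := (n i * m) ^ 3 with hc
  have fx : ∀ {p : G} {l : Fin 8}, p ∈ Q → π p = e l → Commute c p → ∀ k, mat (r c) k l = e l k := fun hp h h' k => by
    rw [← act_e, ← h, (L0.fix_iff T.toXE c1 hp).2 (Or.inl h')]
  have cQ' : c ∈ Q := by
    have h1 := fx xQ πx c2
    have h2 := fx uQ uπ c3
    have h3 := fx (gQ i j hij).1 (gQ i j hij).2 c5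
    have h4 := fx (gQ i k hik).1 (gQ i k hik).2 c7
    have h5 : ∀ l, l = 3 ∨ l = 5 ∨ l = 6 → ∀ k, mat (r c) k l = e l k := fun l hl => by
      rcases (r3_dec.2.2.2.2.2 i j k hij hik hjk).2 l hl with rfl | rfl | rfl <;> assumption
    exact (T.r_ker c1).1 (r3_one _ h1 (h5 3 (by simp)) (h5 5 (by simp)) (h5 6 (by simp)))
  have b0 : ∀ {p : G} {l : Fin 8}, p ∈ Q → π p = e l → Commute c p → π c l.rev = 0 := fun {p l} hp h h' => by
    rw [← B0_e (π c) l, ← h]; exact (L0.B_zero cQ' hp).2 h'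
  have ci : c⁻¹ = (m * n i) ^ 3 := by rw [hc, ← inv_pow, mul_inv_rev, ni, inv_eq_of_mul_eq_one_right R.msq]
  have nc : n i * c * n i = c⁻¹ := by rw [ci, hc]; simp only [pow_succ, pow_zero, one_mul, mul_assoc, can (nn i)]
  have mc : m * c * m = c⁻¹ := by
    rw [ci, hc]; simp only [pow_succ, pow_zero, one_mul, mul_assoc, R.msq, mul_one]
  have hw : n i * m * n i = c * (m * n i * m) := by
    rw [hc]; simp only [pow_succ, pow_zero, one_mul, mul_assoc, can (nn i), can R.msq, R.msq, mul_one]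
  have xz : x ≠ z := fun h => by
    rw [h, (L0.π_zero T.mem).2 (Or.inr rfl)] at πx
    exact r3_dec.2.2.2.2.1 _ πx
  have zz := T.mul_self
  rcases r3_vec i j k hij hik hjk (π c) (b0 (R.fQ j) (R.πf j) c4) (b0 (R.fQ k) (R.πf k) c6)
    (b0 (gQ i j hij).1 (gQ i j hij).2 c5) (b0 (gQ i k hik).1 (gQ i k hik).2 c7) (b0 xQ πx c2) (b0 uQ uπ c3)
    (by rw [← (nQ i cQ').2, nc, L0.π_inv cQ']) with h | h
  · rcases (L0.π_zero cQ').1 h with h | h
    · rw [hw, h, one_mul]
    · rw [h, T.inv_eq] at mc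
      exact (xz (hx.trans mc)).elim
  have xx := sq xQ πx
  have ux := (cm uQ xQ uπ πx).2 (r3_dec.2.2.2.1 j k hjk).1
  have mx : m * x * m = z := by rw [hx]; simp only [mul_assoc, can R.msq, R.msq, mul_one]
  rw [← uπ, ← πx, ← L0.π_mul uQ xQ, L0.π_eq cQ' (mul_mem uQ xQ)] at h
  exfalso
  rcases h with h | h
  · rw [h, mul_inv_rev, inv_eq_of_mul_eq_one_right uu, inv_eq_of_mul_eq_one_right xx, ← ux.eq] at mc
    refine xz (mul_left_cancel (a := u) (mc.symm.trans ?_))
    calc _ = m * u * m * (m * x * m) := by simp only [mul_assoc, can R.msq]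
      _ = _ := by rw [mu, mx]
  have cc : c * c = 1 := by
    rw [h, mul_assoc, ← mul_assoc z, ← T.comm (mul_mem uQ xQ), mul_assoc _ z z, zz, mul_one, mul_assoc, ← mul_assoc x,
      ← ux.eq, mul_assoc u x x, xx, mul_one, uu]
  rw [inv_eq_of_mul_eq_one_right cc] at nc mc
  have xa : Commute x (a i) := by
    rw [hx, R.ha, Commute, SemiconjBy]
    simp only [mul_assoc, can R.msq]
    rw [← mul_assoc z, ← T.comm (R.fQ i), mul_assoc]
  have := r3_last bb (ff i) R.msq (nn i) uu cc (nb i) (R.ha i) (R.com i) (L.ord i)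
    ((cm (R.fQ i) R.bQ (R.πf i) R.πb).2 (r3_dec.2.2.1 i)) hw nc mc (by
      calc _ = a i * u * a i * (a i * (x * z) * a i) := by rw [h]; simp only [mul_assoc, can (aa i)]
        _ = _ := by
          rw [au, nu, ← (xa.mul_left (R.az i).symm).eq, mul_assoc _ (a i), aa, mul_one, h, ← ux.eq, mul_assoc _ z x,
            ← T.comm xQ]) nx mu ((cm uQ R.bQ uπ R.πb).2 (r3_dec.2.2.2.1 j k hjk).2) xa
  rw [this, L0.π_one] at uπ
  exact r3_dec.2.2.2.2.1 _ uπ

end CL.O8
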