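/-
Centralisers `2^{1+8}.(S₃ × S₃ × S₃)`: counting in the weakly closed case.
-/
import Cfsg.Agent.Spor.O8D

set_option autoImplicit false
set_option linter.unusedSectionVars false

namespace CL.O8

open Subgroup CL.Even CL.Grp CL.U6 Cfsg

universe u

namespace W1J

variable {G : Type u} [Group G] [Finite G] {z x : G} {Q P : Subgroup G} {r r' : G → X}

theorem card_S (Q : Subgroup G) (x : G) : {y | ∃ a ∈ Q, x * a * x⁻¹ * a⁻¹ = y}.ncard *
    Nat.card (Q ⊓ centralizer ({x} : Set G) : Subgroup G) = Nat.card Q := by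
  let _ := MulAction.compHom G (MulAut.conj.comp Q.subtype)
  have h1 : {y | ∃ a ∈ Q, x * a * x⁻¹ * a⁻¹ = y} = (x * ·) '' MulAction.orbit Q x⁻¹ := Set.ext fun y =>
    ⟨fun ⟨a, ha, e⟩ => ⟨_, ⟨⟨a, ha⟩, rfl⟩, e ▸ show x * (a * x⁻¹ * a⁻¹) = _ by group⟩,
      fun ⟨_, ⟨a, rfl⟩, e⟩ => ⟨a, a.2, e ▸ show _ = x * (a * x⁻¹ * (a : G)⁻¹) by group⟩⟩
  have h2 : MulAction.stabilizer Q x⁻¹ = (Q ⊓ centralizer {x}).subgroupOf Q := Subgroup.ext fun a => by
    rw [mem_subgroupOf, mem_inf, and_iff_right a.2, mem_centralizer_singleton_iff]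
    exact mul_inv_eq_iff_eq_mul.trans Commute.inv_right_iff
  rw [h1, Set.ncard_image_of_injective _ (mul_right_injective x), ← MulAction.index_stabilizer, h2,
    ← card_subgroupOf_of_le (inf_le_left (a := Q) (b := centralizer {x})), mul_comm, card_mul_index]

theorem inA_comm : ∀ a : X, InA a → a * a = 1 ∧ ∀ b : X, InA b → a * b = b * a := by decide +kernel

theorem two_comm {A : Subgroup X} (hA : IsPGroup 2 A) {a b : X} (ha : a ∈ A) (hb : b ∈ A) :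
    a * a = 1 ∧ a * b = b * a := by
  obtain ⟨w, hw⟩ := exists_conj_A0 hA
  have := inA_comm _ (hw a ha)
  exact ⟨by simpa using this.1, by simpa using this.2 _ (hw b hb)⟩

theorem elem (h : St z Q r) (h' : St x P r') (hz : z ∉ P) :
    (∀ a ∈ Q ⊓ centralizer {x}, a * a = 1 ∧ ∀ b ∈ Q ⊓ centralizer {x}, a * b = b * a) ∧
      Nat.card (Q ⊓ centralizer {x} : Subgroup G) ≤ Nat.card (Q ⊓ P : Subgroup G) * 8 := by
  have hY : ∀ y ∈ Q ⊓ centralizer {x}, Commute y x := fun y hy => mem_centralizer_singleton_iff.1 hy.2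
  have hp : IsPGroup 2 (h'.hom hY).range := (h.isPGroup.to_inf_left).of_surjective _ (h'.hom hY).rangeRestrict_surjective
  have k : ∀ c, c ∈ zpowers z → c ∈ P → c = 1 := fun c a b => (h.mem_Z.1 a).resolve_right fun e => hz (e ▸ b)
  refine ⟨fun a ha => ⟨k _ (sq a ▸ h.sq a ha.1) ?_, fun b hb =>
    commutatorElement_eq_one_iff_mul_comm.1 (k _ (h.comm_mem ha.1 hb.1) ?_)⟩, ?_⟩
  · rw [← h'.r_ker ((hY a ha).mul_left (hY a ha)), h'.r_mul (hY a ha) (hY a ha)]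
    exact (two_comm hp ⟨⟨a, ha⟩, rfl⟩ ⟨⟨a, ha⟩, rfl⟩).1
  · rw [commutatorElement_def, mul_assoc, ← mul_inv_rev,
      ← h'.r_eq ((hY a ha).mul_left (hY b hb)) ((hY b hb).mul_left (hY a ha)), h'.r_mul (hY a ha) (hY b hb),
      h'.r_mul (hY b hb) (hY a ha)]
    exact (two_comm hp ⟨⟨a, ha⟩, rfl⟩ ⟨⟨b, hb⟩, rfl⟩).2
  · rw [h'.card_eq hY, inf_assoc, inf_eq_right.2 h'.le]
    exact Nat.mul_le_mul_left _ (Nat.le_of_dvd (by norm_num) (card_le_eight hp))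

theorem lin (h : St z Q r) (hc : Commute x z) (h2 : x * x = 1) : ∃ U K : Subgroup G,
    Nat.card U * Nat.card K = 1024 ∧ U ≤ K ∧ (∀ a ∈ K, ∀ b ∈ U, a * b = b * a) ∧
    (∀ a, a ∈ K ↔ a ∈ Q ∧ (Commute x a ∨ x * a * x⁻¹ = a * z)) ∧
    ∀ b, b ∈ U ↔ b ∈ Q ∧ ∃ a ∈ Q, x * a * x⁻¹ * a⁻¹ = b ∨ x * a * x⁻¹ * a⁻¹ = b * z := by
  obtain ⟨H, π, A, -, -, M⟩ := exists_LM h.toXE h.card
  have hA : ∀ v, A x (A x v) = v := fun v => by rw [← Module.End.mul_apply, ← M.A_mul hc hc, h2, M.A_one]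
  obtain ⟨U, u1, u2⟩ := M.card_pre h.toXE (LinearMap.range (A x + 1))
  obtain ⟨K, k1, k2⟩ := M.card_pre h.toXE (LinearMap.ker (A x + 1))
  have e : ∀ v : V8, v + v = 0 := ZModModule.add_self
  have hk : ∀ v, v ∈ LinearMap.ker (A x + 1) ↔ A x v = v := fun v =>
    ⟨eq_of_add_eq_zero_zmod2, fun k => by rw [LinearMap.mem_ker, LinearMap.add_apply, k]; exact e v⟩
  refine ⟨U, K, ?_, fun a ha => ?_, fun a ha b hb => ?_, fun a => ?_, fun b => ?_⟩
  · have := (A x + 1).finrank_range_add_finrank_ker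
    rw [u2, k2, Module.natCard_eq_pow_finrank (K := ZMod 2), Module.natCard_eq_pow_finrank (K := ZMod 2)
      (V := LinearMap.ker _), mul_mul_mul_comm, ← pow_add, this]
    simp
  · obtain ⟨a1, v, a2⟩ := (u1 a).1 ha
    refine (k1 a).2 ⟨a1, (hk _).2 ?_⟩
    rw [← a2, LinearMap.add_apply, map_add, hA, add_comm]; rfl
  · obtain ⟨b1, v, b2⟩ := (u1 b).1 hb
    obtain ⟨a1, a2⟩ := (k1 a).1 ha
    refine (M.B_zero a1 b1).1 ?_
    rw [← b2, LinearMap.add_apply, map_add]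
    nth_rw 1 [← (hk _).1 a2]
    rw [quad2_B_map M.hq (M.A_q hc)]
    exact ZModModule.add_self _
  · rw [k1, hk]; exact and_congr_right (M.fix_iff h.toXE hc)
  · rw [u1]
    refine and_congr_right fun hb => ?_
    have k : ∀ a ∈ Q, (A x + 1) (π a) = π b ↔ x * a * x⁻¹ * a⁻¹ = b ∨ x * a * x⁻¹ * a⁻¹ = b * z := fun a ha => by
      rw [← M.π_eq (mul_mem (conjQ h.toXE hc ha) (inv_mem ha)) hb, M.π_mul (conjQ h.toXE hc ha) (inv_mem ha),
        M.π_inv ha, ← M.A_π hc ha]; rfl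
    refine ⟨fun ⟨v, a⟩ => ?_, fun ⟨a, ha, c⟩ => ⟨_, (k a ha).2 c⟩⟩
    obtain ⟨c, hc, rfl⟩ := M.π_surj v
    exact ⟨c, hc, (k c hc).1 a⟩

theorem main (h : St z Q r) (h' : St x P r') (hc : Commute x z) (hz : z ∉ P)
    (wc : ∀ k, k * x * k⁻¹ ∈ P → k * x * k⁻¹ = x) : WF z Q x P := by
  have h2 := h'.mul_self
  have hs : ∀ a, a * x * a⁻¹ = x * (x * a * x⁻¹ * a⁻¹) := fun a => by
    rw [h'.inv_eq, ← mul_assoc, ← mul_assoc, ← mul_assoc, h2, one_mul]
  have key : ∀ a, x * a * x⁻¹ * a⁻¹ ∈ P → x * a * x⁻¹ * a⁻¹ = 1 := fun a ha =>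
    mul_eq_left.1 ((hs a).symm.trans (wc a (hs a ▸ mul_mem h'.mem ha)))
  obtain ⟨y1, y2⟩ := elem h h' hz
  obtain ⟨U, K, c1, c2, c3, c4, c5⟩ := lin h hc h2
  have s1 := card_S Q x
  have hB : Q ⊓ P ≤ Q ⊓ centralizer {x} := inf_le_inf_left _ h'.le
  have hY : Q ⊓ centralizer {x} ≤ K := fun a ha => (c4 a).2 ⟨ha.1, .inl (mem_centralizer_singleton_iff.1 ha.2).symm⟩
  have y3 := ab_le h.toXE h.card inf_le_left fun a ha => (y1 a ha).2
  have hU : U ≤ Q := fun a ha => ((c5 a).1 ha).1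
  have u1 := ab_le h.toXE h.card hU fun a ha => c3 a (c2 ha)
  have hS : {y | ∃ a ∈ Q, x * a * x⁻¹ * a⁻¹ = y} ⊆ U := fun y ⟨a, ha, e⟩ =>
    (c5 y).2 ⟨e ▸ mul_mem (conjQ h.toXE hc ha) (inv_mem ha), a, ha, .inl e⟩
  have s2 := Set.ncard_le_ncard hS
  have s3 : Nat.card U ≤ _ → P ⊓ U ≤ ⊥ := fun k b hb => by
    obtain ⟨a, -, rfl⟩ := (Set.eq_of_subset_of_ncard_le hS k).ge hb.2
    exact key a hb.1
  rw [h.card] at s1
  change _ ≤ Nat.card U at s2
  generalize {y | ∃ a ∈ Q, x * a * x⁻¹ * a⁻¹ = y}.ncard = n at s1 s2 s3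
  have y4 : Nat.card (Q ⊓ centralizer {x} : Subgroup G) = 32 := by
    obtain ⟨j, -, e⟩ := (Nat.dvd_prime_pow Nat.prime_two (m := 9)).1 (Dvd.intro_left n s1)
    by_contra k
    have a : Nat.card (Q ⊓ centralizer {x} : Subgroup G) ≤ 16 := by
      rw [e] at y3 k ⊢
      exact Nat.pow_le_pow_right two_pos (show j ≤ 4 from by_contra fun b => k (y3.antisymm
        (Nat.pow_le_pow_right two_pos (show 5 ≤ j by omega))))
    have b : 32 ≤ n := by nlinarith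
    have c : U = K := eq_of_le_of_card_ge c2 (by rw [show Nat.card U = 32 by omega] at c1 ⊢; omega)
    rw [eq_bot_iff.2 ((le_inf inf_le_right (hB.trans (hY.trans c.ge))).trans (s3 (by omega))), card_bot] at y2
    nlinarith
  rw [y4] at s1 y2
  have u2 : U ≤ Q ⊓ centralizer {x} := fun a ha =>
    max_ab h.toXE h.card inf_le_left (fun a ha => (y1 a ha).2) y4.ge (hU ha) fun b hb => c3 b (hY hb) a ha
  have u3 : Nat.card U = 32 := by
    obtain ⟨j, j5, e⟩ := (Nat.dvd_prime_pow Nat.prime_two (m := 5)).1 ((card_dvd_of_le u2).trans y4.dvd)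
    by_contra k
    have a : Nat.card U ≤ 16 := by
      rw [e] at k ⊢
      exact Nat.pow_le_pow_right two_pos (show j ≤ 4 from by_contra fun b => k (by rw [show j = 5 by omega]; rfl))
    have b := card_le_of_le (sup_le hB u2)
    rw [card_sup_of_inf_eq_bot (le_trans (fun a ha => mem_centralizer_iff.2 fun b hb => (c3 a (hY (hB ha)) b hb).symm)
      (cent_le_norm U)) (eq_bot_iff.2 ((inf_le_inf_right _ inf_le_right).trans (s3 (by omega)))), y4,
      show Nat.card U = 16 by omega] at b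
    omega
  have u4 := eq_of_le_of_card_ge u2 (y4.trans u3.symm).le
  have u5 := eq_of_le_of_card_ge hY (by rw [u3] at c1; omega)
  have ex : ∀ b ∈ Q ⊓ P, b ≠ 1 → ∃ a ∈ Q, x * a * x⁻¹ * a⁻¹ = b * z := fun b hb b1 => by
    obtain ⟨a, ha, e⟩ := ((c5 b).1 (u4.ge (hB hb))).2
    exact ⟨a, ha, e.resolve_left fun k => b1 (k ▸ key a (k ▸ hb.2))⟩
  have tr : ∀ b ∈ Q ⊓ P, b ≠ 1 → ∃ a ∈ Q, x * a * x⁻¹ * a⁻¹ = b * z ∧
      ∀ b' ∈ Q ⊓ P, b' ≠ 1 → b' ≠ b → ¬ Commute a b' := fun b hb b1 => by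
    obtain ⟨a, ha, e⟩ := ex b hb b1
    refine ⟨a, ha, e, fun d hd d1 d2 k => ?_⟩
    obtain ⟨c, -, e'⟩ := ex _ (mul_mem hb hd) fun k =>
      d2 ((eq_inv_of_mul_eq_one_right k).trans (inv_eq_of_mul_eq_one_right (y1 b (hB hb)).1))
    have f : a⁻¹ * c * x * (a⁻¹ * c)⁻¹ = x * d := by
      calc _ = a⁻¹ * (c * x * c⁻¹) * a := by group
        _ = a⁻¹ * (a * x * a⁻¹ * d) * a := by rw [hs, hs a, e, e', mul_assoc b, h.comm hd.1]; group
        _ = x * (a⁻¹ * (d * a)) := by group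
        _ = _ := by rw [← k.eq, inv_mul_cancel_left]
    exact d1 (mul_eq_left.1 (f.symm.trans (wc _ (f ▸ mul_mem h'.mem hd.2))))
  refine ⟨fun y hy k => (y1 y ⟨hy, mem_centralizer_singleton_iff.2 k⟩).1, y4, le_antisymm ?_ (by omega),
    fun a ha e => h.ne_one ?_, tr⟩
  · obtain ⟨⟨b, hb⟩, b1⟩ := ne_bot_iff_exists_ne_one.1 (show Q ⊓ P ≠ ⊥ from fun k => by rw [k, card_bot] at y2; omega)
    replace b1 : b ≠ 1 := fun k => b1 (Subtype.ext k)
    obtain ⟨a, ha, -, e⟩ := tr b hb b1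
    have o : orderOf b = 2 := orderOf_eq_prime (by rw [sq, (y1 b (hB hb)).1]) b1
    have k := card_le_of_le (show Q ⊓ P ⊓ centralizer {a} ≤ zpowers b from fun d hd => (mem_zpowers_two o).2
      (by_contra fun k => e d hd.1 (fun j => k (.inl j)) (fun j => k (.inr j))
        (mem_centralizer_singleton_iff.1 hd.2).symm))
    have := idx2 (X := Q ⊓ P) (K := centralizer {a}) fun c hc d hd => h.mul_mem_cent ha hc.1 hd.1
    rw [Nat.card_zpowers, o] at k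
    omega
  · have := mem_centralizer_singleton_iff.1 (u5.ge ((c4 a).2 ⟨ha, .inr e⟩)).2
    rw [← this, mul_inv_cancel_right] at e
    exact mul_eq_left.1 e.symm

end W1J

theorem w1 : W1.{u} := fun G _ _ z Q r h wc g hc hne => W1J.main h (h.conj g) hc
  (fun k => hne (by
    have := wc g⁻¹ (by simpa using mem_cj.1 k)
    conv_lhs => rw [← this]
    group))
  fun k hk => by
    have := wc (g⁻¹ * k * g) (by simpa [mul_assoc] using mem_cj.1 hk)
    conv_rhs => rw [← this]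
    group

end CL.O8
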