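/-
Centralisers `2^{1+8}.(S₃ × S₃ × S₃)`: the weakly closed case.
-/
import Cfsg.Agent.Spor.O8D

set_option autoImplicit false

namespace CL.O8

open Subgroup CL.Even CL.Grp CL.U6 Cfsg

universe u

theorem w2_comm {G : Type*} [Group G] {a b : G} (ha : a * a = 1) (hb : b * b = 1) (h : a * b * (a * b) = 1) :
    Commute a b := by
  rw [Commute, SemiconjBy, ← inv_eq_of_mul_eq_one_right h, mul_inv_rev, inv_eq_of_mul_eq_one_right ha,
    inv_eq_of_mul_eq_one_right hb]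

theorem wc_of (h1 : W1.{u}) (h2 : LW) : WC.{u} := fun G _ _ z Q r h wc g hx => by
  by_contra hne
  have F := h1 G z Q r h wc g hx hne
  have hP := h.conj g
  have e1 : g⁻¹ * (g * z * g⁻¹) * g⁻¹⁻¹ = z := by group
  have F' := h1 G _ _ _ hP (fun k hk => by
    have := wc (g⁻¹ * k * g) (by simpa [mul_assoc] using mem_cj.1 hk)
    calc _ = g * (g⁻¹ * k * g * z * (g⁻¹ * k * g)⁻¹) * g⁻¹ := by group
      _ = _ := by rw [this]) g⁻¹ (by rw [e1]; exact hx.symm) (by rw [e1]; exact Ne.symm hne)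
  rw [e1, ← cj_mul, inv_mul_cancel, cj_one] at F'
  generalize g * z * g⁻¹ = x at *
  generalize cj g Q = P at *
  obtain ⟨π, α, B, q, M, O⟩ := h.exists_om
  have hY : ∀ y ∈ P ⊓ centralizer ({z} : Set G), Commute y z := fun y hy => mem_cent_singleton.1 hy.2
  have ab : ∀ a ∈ Q, Commute a x → ∀ b ∈ Q, Commute b x → Commute a b := fun a ha ax b hb bx =>
    w2_comm (F.sq a ha ax) (F.sq b hb bx) (F.sq _ (mul_mem ha hb) (ax.mul_left bx))
  have hB := fun {c} (hc : Commute c z) => quad2_B_map M.hq (M.A_q hc)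
  have hd : ∀ {c a}, Commute c z → a ∈ Q → π (c * a * c⁻¹ * a⁻¹) = α (r c) (π a) + π a := fun hc ha => by
    rw [M.π_mul (conjQ h.toXE hc ha) (inv_mem ha), M.π_inv ha, M.A_π hc ha]
  have hc : ∀ y' ∈ P, Commute y' z → ∀ y ∈ Q, Commute y x → α (r y') (π y) = π y := fun y' p1 p2 y hy yx => by
    have dQ : y' * y * y'⁻¹ * y⁻¹ ∈ Q := mul_mem (conjQ h.toXE p2 hy) (inv_mem hy)
    have dP : y' * y * y'⁻¹ * y⁻¹ ∈ P := by
      rw [mul_assoc, mul_assoc, ← mul_assoc y]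
      exact mul_mem p1 (conjQ hP.toXE yx (inv_mem p1))
    by_cases d1 : y' * y * y'⁻¹ * y⁻¹ = 1
    · rw [M.A_π p2 hy, mul_inv_eq_one.1 d1]
    obtain ⟨b, hb, b1, b2⟩ : ∃ b ∈ Q ⊓ P, b ≠ 1 ∧ b ≠ y' * y * y'⁻¹ * y⁻¹ := by
      by_contra! hb
      have := Set.ncard_le_ncard (s := ((Q ⊓ P : Subgroup G) : Set G)) (t := {1, y' * y * y'⁻¹ * y⁻¹})
        fun b h => (em (b = 1)).imp_right (hb b h)
      have h3 := F.cardB
      rw [Set.ncard_pair (Ne.symm d1)] at this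
      exact absurd (h3.ge.trans ((Nat.card_coe_set_eq _).le.trans this)) (by norm_num)
    obtain ⟨a, ha, a1, a2⟩ := F.tr b hb b1
    refine absurd ((M.B_zero ha dQ).1 ?_) (a2 _ ⟨dQ, dP⟩ d1 b2.symm)
    have pQ : y'⁻¹ * a * y'⁻¹⁻¹ * a⁻¹ ∈ Q := mul_mem (conjQ h.toXE p2.inv_left ha) (inv_mem ha)
    have bz : Commute b z := h.comm hb.1
    have yb : Commute y' b := w2_comm (F'.sq _ p1 p2) (F'.sq _ hb.2 bz) (F'.sq _ (mul_mem p1 hb.2) (p2.mul_left bz))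
    have h3 : x * (y'⁻¹ * a * y'⁻¹⁻¹ * a⁻¹) * x⁻¹ = b * (y'⁻¹ * a * y'⁻¹⁻¹ * a⁻¹) * b⁻¹ := by
      have yx : Commute y' x := hP.comm p1
      calc _ = (x * y'⁻¹ * x⁻¹) * (x * a * x⁻¹ * a⁻¹ * a) * (x * y' * x⁻¹) * (x * a * x⁻¹ * a⁻¹ * a)⁻¹ := by group
        _ = y'⁻¹ * (b * z) * a * y' * a⁻¹ * (b * z)⁻¹ := by
          rw [a1, ← yx.eq, ← yx.inv_left.eq, mul_inv_cancel_right, mul_inv_cancel_right]; group
        _ = b * (z * (y'⁻¹ * a * y'⁻¹⁻¹ * a⁻¹) * z⁻¹) * b⁻¹ := by rw [(yb.mul_right p2).inv_left.eq]; group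
        _ = _ := by rw [← h.comm pQ, mul_inv_cancel_right]
    have h4 : Commute b (y'⁻¹ * a * y'⁻¹⁻¹ * a⁻¹) :=
      by_contra fun e => F.ker _ pQ (h3.trans (h.conj_eq hb.1 pQ e))
    rw [h4.eq, mul_inv_cancel_right] at h3
    have h5 := (M.B_zero pQ hy).2 (ab _ pQ (mul_inv_eq_iff_eq_mul.1 h3).symm y hy yx)
    rw [hd p2.inv_left ha, map_add, LinearMap.add_apply] at h5
    rw [hd p2 hy, map_add, ← hB p2.inv_left, M.A_inv p2, h5]
  let U : Submodule (ZMod 2) V8 := {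
    carrier := {v | ∃ y ∈ Q, Commute y x ∧ π y = v}
    add_mem' := by
      rintro _ _ ⟨a, ha, a1, rfl⟩ ⟨b, hb, b1, rfl⟩
      exact ⟨a * b, mul_mem ha hb, a1.mul_left b1, M.π_mul ha hb⟩
    zero_mem' := ⟨1, one_mem _, Commute.one_left x, M.π_one⟩
    smul_mem' := fun c v hv => by
      rcases (by decide : ∀ c : ZMod 2, c = 0 ∨ c = 1) c with rfl | rfl
      · exact ⟨1, one_mem _, Commute.one_left x, by rw [zero_smul, M.π_one]⟩
      · rwa [one_smul] }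
  refine h2 α B q O (h.hom hY).range U ?_ ?_ ?_ ?_
  · have h3 := h.card_eq hY
    rw [F'.card, inf_assoc, inf_eq_right.2 (show Q ≤ centralizer {z} from fun a ha =>
      mem_cent_singleton.2 (h.comm ha)), F'.cardB] at h3
    omega
  · rintro _ ⟨y, hy, y1, rfl⟩
    exact (M.q_zero hy).2 (F.sq y hy y1)
  · rintro _ ⟨⟨y', p⟩, rfl⟩ v
    obtain ⟨c, hc', rfl⟩ := M.π_surj v
    have dQ : y' * c * y'⁻¹ * c⁻¹ ∈ Q := mul_mem (conjQ h.toXE (hY _ p) hc') (inv_mem hc')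
    have h3 := max_ab h.toXE h.card (S := Q ⊓ centralizer {x}) inf_le_left (fun a ha b hb =>
      ab a ha.1 (mem_cent_singleton.1 ha.2) b hb.1 (mem_cent_singleton.1 hb.2)) F.card.ge dQ fun y hy =>
        ((M.B_zero dQ hy.1).1 (by
          rw [hd (hY _ p) hc', map_add, LinearMap.add_apply, ← hB (hY _ p) (π c),
            hc y' p.1 (hY _ p) y hy.1 (mem_cent_singleton.1 hy.2)]
          exact CharTwo.add_self_eq_zero _)).symm
    exact ⟨_, dQ, mem_cent_singleton.1 h3.2, hd (hY _ p) hc'⟩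
  · rintro _ ⟨⟨y', p⟩, rfl⟩ _ ⟨y, hy, y1, rfl⟩
    exact hc y' p.1 (hY _ p) y hy y1

end CL.O8
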