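/-
Standard subgroups `4.L_3(4)`: the structure of the normalizer.
-/
import Cfsg.Agent.Spor.ONSDat

set_option autoImplicit false

namespace CL.ONT
open CL.PG Subgroup DihedralGroup

variable {Γ A U : Type} [Group Γ] [Group A] [Group U] {D : DX Γ A U} {C : Type*} [Group C]

/-- `M = 4.L_3(4)` is normal in `C`, and `Θ` is the action on `L_3(4)`. -/
structure Cf (D : DX Γ A U) (w : C) (M : Subgroup C) (Θ : C →* Γ) : Prop where
  fin : Finite C
  nor : M.Normal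
  wM : w ∈ M
  w4 : orderOf w = 4
  Θw : Θ w = 1
  ker : ∀ x ∈ M, Θ x = 1 → x ∈ zpowers w
  kc : ∀ k, Θ k = 1 → ∀ x ∈ M, x * k = k * x
  map : M.map Θ = D.L
  perf : commutator M = ⊤

/-- `M` is covered in the same way as the model. -/
structure Cov (D : DX Γ A U) (M : Subgroup C) (Θ : C →* Γ) (η : U →* C) : Prop where
  ran : η.range = M
  lift : ∀ u, Θ (η u) = D.θ (D.ψ u)
  ker : ∀ u, D.ψ u = 1 → η u = 1

theorem Cov.mem {M : Subgroup C} {Θ : C →* Γ} {η : U →* C} (h : Cov D M Θ η) (u : U) : η u ∈ M := h.ran ▸ ⟨u, rfl⟩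

namespace Cf
variable {w : C} {M : Subgroup C} {Θ : C →* Γ} (h : Cf D w M Θ)
include h

theorem cen : ∀ x ∈ M, x * w = w * x := h.kc w h.Θw

theorem memL {x : C} (hx : x ∈ M) : Θ x ∈ D.L := h.map ▸ mem_map_of_mem _ hx

theorem conj (γ : Γ) : Cf D w M ((MulAut.conj γ).toMonoidHom.comp Θ) := by
  have e : ∀ x, ((MulAut.conj γ).toMonoidHom.comp Θ) x = 1 ↔ Θ x = 1 := fun x => by simp
  refine ⟨h.fin, h.nor, h.wM, h.w4, (e _).2 h.Θw, fun x hx hc => h.ker x hx ((e _).1 hc),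
    fun k hk => h.kc k ((e _).1 hk), ?_, h.perf⟩
  rw [← map_map, h.map]
  have := D.normL
  exact Normal.map_conj_eq _ γ

theorem ker_iff {k : C} : Θ k = 1 ↔ ∀ x ∈ M, x * k = k * x := ⟨h.kc k, fun hk => D.centL _ fun l hl => by
  obtain ⟨m, hm, rfl⟩ := h.map.ge hl
  rw [← map_mul, hk m hm, map_mul]⟩

theorem Θz {z : C} (hz : z ∈ zpowers w) : Θ z = 1 := (zpowers_le_of_mem (H := Θ.ker) h.Θw) hz

theorem split {x : C} (hx : Θ x ∈ D.L) : ∃ m ∈ M, ∃ k, Θ k = 1 ∧ x = m * k := by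
  obtain ⟨m, hm, e⟩ := h.map.ge hx
  exact ⟨m, hm, m⁻¹ * x, by rw [map_mul, map_inv, e, inv_mul_cancel], by simp⟩

theorem cw {x : C} (hx : Θ x ∈ D.L) : x * w = w * x := by
  obtain ⟨m, hm, k, hk, rfl⟩ := h.split hx
  exact Commute.mul_left (h.cen m hm) (h.kc k hk w h.wM).symm

theorem diff {x y : C} (hx : x ∈ M) (hy : y ∈ M) (e : Θ x = Θ y) : ∃ z ∈ zpowers w, y = x * z :=
  ⟨x⁻¹ * y, h.ker _ (mul_mem (inv_mem hx) hy) (by rw [map_mul, map_inv, e, inv_mul_cancel]), by simp⟩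

theorem odd {x y : C} (hx : x ∈ M) (hy : y ∈ M) (e : Θ x = Θ y) (h1 : x ^ 15 = 1) (h2 : y ^ 15 = 1) : x = y := by
  obtain ⟨z, hz, rfl⟩ := h.diff hx hy e
  have h3 : Commute x z := comm_of_zpowers hz (h.cen x hx)
  have h4 := pow_four_of_zpowers h.w4 hz
  rw [h3.mul_pow, h1, one_mul] at h2
  have h5 : z ^ 16 = 1 := by rw [show 16 = 4 * 4 from rfl, pow_mul, h4, one_pow]
  rw [pow_succ, h2, one_mul] at h5
  rw [h5, mul_one]

theorem ww : w * w * (w * w) = 1 ∧ w * w ≠ 1 := by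
  refine ⟨?_, fun hc => absurd (h.w4 ▸ orderOf_dvd_of_pow_eq_one (x := w) (n := 2) (by rw [pow_two, hc]))
    (by norm_num)⟩
  have := pow_orderOf_eq_one w
  rw [h.w4] at this
  rw [← this]; simp only [pow_succ, pow_zero, one_mul, mul_assoc]

theorem Θt : Θ (w * w) = 1 := by rw [map_mul, h.Θw, mul_one]

theorem card {T : Subgroup Γ} (hT : T ≤ D.L) : Nat.card (M ⊓ T.comap Θ : Subgroup C) = 4 * Nat.card T := by
  have := h.fin
  have h1 := card_comap (Θ.comp M.subtype) (T := T) (by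
    rw [MonoidHom.range_comp, range_subtype, h.map]; exact hT)
  have h2 : (Θ.comp M.subtype).ker = (zpowers w).subgroupOf M :=
    ext fun x => ⟨h.ker x x.2, fun hx => h.Θz hx⟩
  rw [h2, Nat.card_congr (subgroupOfEquivOfLe (zpowers_le_of_mem h.wM)).toEquiv, Nat.card_zpowers, h.w4] at h1
  rw [← h1, ← comap_comap, ← subgroupOf, ← inf_subgroupOf_left]
  exact (Nat.card_congr (subgroupOfEquivOfLe inf_le_left).toEquiv).symm

theorem cardM : Nat.card M = 80640 := by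
  have h1 := h.card le_rfl
  rwa [inf_of_le_left (fun x hx => h.memL hx : M ≤ D.L.comap Θ), D.cardL] at h1

/-- every element centralizes or inverts `w` -/
theorem ci (x : C) : x * w = w * x ∨ x * w * x⁻¹ = w⁻¹ := by
  have b2 : x * w * x⁻¹ ∈ zpowers w := h.ker _ (h.nor.conj_mem _ h.wM x) (by simp [h.Θw])
  have b1 : x * w * x⁻¹ * (x * w * x⁻¹) = w * w := (inv_of_zpowers h.w4 (mul_mem b2 b2) (by
    rw [conj_mul, conj_mul, h.ww.1]; simp)).resolve_left fun hc => h.ww.2 (by simpa [conj_mul] using hc)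
  have b3 := comm_of_zpowers b2 (rfl : w * w = w * w)
  rcases inv_of_zpowers h.w4 (mul_mem b2 (mem_zpowers w)) (by
    calc _ = x * w * x⁻¹ * (w * (x * w * x⁻¹)) * w := by group
      _ = x * w * x⁻¹ * (x * w * x⁻¹) * (w * w) := by rw [b3]; group
      _ = 1 := by rw [b1, h.ww.1]) with b4 | b4
  · exact Or.inr (eq_inv_of_mul_eq_one_left b4)
  · exact Or.inl (mul_inv_eq_iff_eq_mul.1 (mul_right_cancel b4))

theorem ct (x : C) : x * (w * w) = w * w * x := by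
  rcases h.ci x with e | e
  · exact Commute.mul_right e e
  · rw [← mul_inv_eq_iff_eq_mul, ← conj_mul, e, ← mul_inv_rev]
    exact inv_eq_of_mul_eq_one_right h.ww.1

theorem two {x y : C} (hx : x * w ≠ w * x) (hy : y * w ≠ w * y) : x * y * w = w * (x * y) := by
  calc _ = x * (y * w * y⁻¹) * x⁻¹ * (x * y) := by group
    _ = (x * w * x⁻¹)⁻¹ * (x * y) := by rw [(h.ci y).resolve_left hy]; group
    _ = _ := by rw [(h.ci x).resolve_left hx, inv_inv]

theorem exists_ψ : ∃ η : U →* C, η.range = M ∧ ∀ u, Θ (η u) = D.θ (D.ψ u) := by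
  let ξ : M →* D.L := (Θ.comp M.subtype).codRestrict _ fun x => h.memL x.2
  have hs : Function.Surjective ξ := fun ⟨l, hl⟩ => by
    obtain ⟨m, hm, rfl⟩ := h.map.ge hl
    exact ⟨⟨m, hm⟩, rfl⟩
  have hk : ∀ x ∈ ξ.ker, (x : C) ∈ zpowers w := fun x hx => h.ker x x.2 (congrArg Subtype.val hx)
  have hc : ξ.ker ≤ center M := fun x hx => mem_center_iff.2 fun y =>
    Subtype.ext (comm_of_zpowers (hk x hx) (h.cen y y.2))
  obtain ⟨η, hη⟩ := D.toDL.cov ξ hs hc fun x hx => Subtype.ext (pow_four_of_zpowers h.w4 (hk x hx))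
  have hηs := CL.Schur.surjective_of_stem (CL.Schur.isStem_of_perfect ⟨h.perf⟩ hs hc) η fun ⟨l, hl⟩ => by
    obtain ⟨m, hm, rfl⟩ := D.mapM.ge hl
    obtain ⟨u, rfl⟩ := D.rangeψ.ge hm
    exact ⟨u, Subtype.ext (hη u)⟩
  exact ⟨M.subtype.comp η, by rw [MonoidHom.range_comp, MonoidHom.range_eq_top.2 hηs, ← MonoidHom.range_eq_map,
    range_subtype], hη⟩

theorem outer' {y : C} (hy : y * y = 1) (hr : Θ y ∈ [D.θ D.d, D.φ, D.τ]) :
    ∃ m ∈ M, y * (m * y * m⁻¹) = m * y * m⁻¹ * y ∧ Θ (m * y * m⁻¹ * y) ≠ 1 := by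
  obtain ⟨η, h1, h2⟩ := h.exists_ψ
  obtain ⟨m, n, hm, hn, h3, h4, h5⟩ := D.mn _ hr
  have hM : ∀ u, η u ∈ M := fun u => h1 ▸ ⟨u, rfl⟩
  have h6 : η n = y * (η m)⁻¹ * y⁻¹ := h.odd (hM n) (h.nor.conj_mem _ (inv_mem (hM m)) y)
    (by simp only [map_mul, map_inv, h2, h4])
    (by rw [← map_pow, hn, map_one]) (by rw [conj_pow, inv_pow, ← map_pow, hm]; simp)
  have hi : y⁻¹ = y := inv_eq_of_mul_eq_one_right hy
  have h7 : η m * y * (η m)⁻¹ * y = η (m * n) := by rw [map_mul, h6, hi]; simp only [mul_assoc]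
  refine ⟨η m, hM m, ?_, by rwa [h7, h2]⟩
  have h8 : η (m * n) * η (m * n) = 1 := by rw [← map_mul, h3, map_one]
  rw [← h7] at h8
  rw [eq_inv_of_mul_eq_one_left h8]
  simp only [mul_inv_rev, hi, inv_inv, mul_assoc]

/-- an outer involution commutes with a third conjugate -/
theorem outer {y : C} (hy : y * y = 1) (hM : Θ y ∉ D.L) :
    ∃ m ∈ M, y * (m * y * m⁻¹) = m * y * m⁻¹ * y ∧ Θ (m * y * m⁻¹ * y) ≠ 1 := by
  have h1 : Θ y * Θ y = 1 := by rw [← map_mul, hy, map_one]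
  obtain ⟨r, hr, γ, e⟩ := D.cls4 (Θ y) (by rw [show 4 = 2 * 2 from rfl, pow_mul, pow_two (Θ y), h1, one_pow])
  have h2 : r = γ⁻¹ * Θ y * γ⁻¹⁻¹ := by rw [← e]; group
  have h3 : r * r = 1 := by
    rw [h2]
    calc _ = γ⁻¹ * (Θ y * Θ y) * γ := by group
      _ = 1 := by rw [h1]; group
  have h4 : r ∉ D.L := fun hc => hM (e ▸ D.normL.conj_mem _ hc γ)
  obtain ⟨m, hm, a1, a2⟩ := (h.conj γ⁻¹).outer' hy (by
    show γ⁻¹ * Θ y * γ⁻¹⁻¹ ∈ _
    rw [← h2]
    simp only [List.mem_cons, List.not_mem_nil, or_false] at hr ⊢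
    rcases hr with rfl | rfl | rfl | rfl | rfl | rfl | rfl | rfl
    · exact absurd D.L.one_mem h4
    · exact absurd (D.θL D.toDA.aM) h4
    · simp
    · simp
    · simp
    · exact absurd h3 D.sqj
    · exact absurd h3 D.sq1
    · exact absurd h3 D.sq2)
  exact ⟨m, hm, a1, fun hc => a2 (by rw [MonoidHom.comp_apply, hc, map_one])⟩

theorem inner' {y : C} (hy : y * y = 1) (e : Θ y = D.θ D.a) :
    128 ≤ Nat.card (M ⊓ centralizer {y} : Subgroup C) := by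
  have := h.fin
  let P := M ⊓ (D.L ⊓ centralizer {D.θ D.a} : Subgroup Γ).comap Θ
  have h1 : Nat.card P = 4 * _ := h.card inf_le_left
  have hyw := h.cw (e ▸ D.θL D.toDA.aM)
  have h3 : ∀ x ∈ P, x ∉ centralizer {y} → x * y * x⁻¹ = y * (w * w) := fun x hx hc => by
    obtain ⟨z, hz, h4⟩ : ∃ z ∈ zpowers w, x * y * x⁻¹ = y * z := ⟨y⁻¹ * x * y⁻¹⁻¹ * x⁻¹,
      h.ker _ (mul_mem (h.nor.conj_mem _ hx.1 _) (inv_mem hx.1)) (by
        simp only [map_mul, map_inv, e, inv_inv, mul_assoc]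
        rw [← mul_assoc (Θ x), mem_centralizer_singleton_iff.1 hx.2.2]; group), by group⟩
    have h5 : z * z = 1 := by
      calc z * z = y * y * (z * z) := by rw [hy, one_mul]
        _ = y * z * (y * z) := by
          rw [mul_assoc, mul_assoc, ← mul_assoc z y, ← comm_of_zpowers hz hyw, mul_assoc]
        _ = x * (y * y) * x⁻¹ := by rw [← h4]; group
        _ = 1 := by rw [hy]; group
    rcases inv_of_zpowers h.w4 hz h5 with rfl | rfl
    · exact absurd (mem_centralizer_singleton_iff.2 (mul_inv_eq_iff_eq_mul.1 (h4.trans (mul_one y)))) hc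
    · exact h4
  have h4 := card_le_two_mul (P := P) (N := centralizer {y}) fun x hx x' hx' hc hc' =>
    mem_centralizer_singleton_iff.2 (by
      calc x * x' * y = x * (x' * y * x'⁻¹) * x' := by group
        _ = x * y * x⁻¹ * (x * (w * w)) * x' := by rw [h3 x' hx' hc']; group
        _ = y * (w * w * (w * w)) * (x * x') := by rw [h3 x hx hc, h.ct x]; group
        _ = _ := by rw [h.ww.1, mul_one])
  have h5 := D.ca
  have h6 : Nat.card (P ⊓ centralizer {y} : Subgroup C) ≤ _ :=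
    card_le_of_le (inf_le_inf_right (centralizer {y}) (inf_le_left : P ≤ M))
  omega

theorem inner {y : C} (hy : y * y = 1) (hM : Θ y ∈ D.L) (h1 : Θ y ≠ 1) :
    128 ≤ Nat.card (M ⊓ centralizer {y} : Subgroup C) := by
  obtain ⟨r, hr, γ, e⟩ := D.cls2 (Θ y) hM (by rw [← map_pow, pow_two, hy, map_one])
  simp only [List.mem_cons, List.not_mem_nil, or_false] at hr
  rcases hr with rfl | rfl
  · exact absurd (by rw [← e]; group) h1
  · exact (h.conj γ⁻¹).inner' hy (by show γ⁻¹ * Θ y * γ⁻¹⁻¹ = _; rw [← e]; group)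

theorem map_cent {w' : C} (hV : 64 ≤ Nat.card (M ⊓ centralizer {w'} : Subgroup C)) :
    (M ⊓ centralizer {w'} : Subgroup C).map Θ ≤ D.L ⊓ centralizer {Θ w'} ∧
      16 ≤ Nat.card ((M ⊓ centralizer {w'} : Subgroup C).map Θ) := by
  have := h.fin
  have h0 : (M ⊓ centralizer {w'} : Subgroup C).map Θ ≤ D.L ⊓ centralizer {Θ w'} := by
    rintro _ ⟨x, hx, rfl⟩
    exact ⟨h.memL hx.1, mem_centralizer_singleton_iff.2 (by
      rw [← map_mul, mem_centralizer_singleton_iff.1 hx.2, map_mul])⟩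
  have h1 := h.card (h0.trans inf_le_left)
  have h2 := card_le_of_le (le_inf inf_le_left (le_comap_map Θ (M ⊓ centralizer {w'})))
  exact ⟨h0, by omega⟩

theorem root {w' : C} (hV : 64 ≤ Nat.card (M ⊓ centralizer {w'} : Subgroup C)) (hy : w' * w' * (w' * w') = 1)
    (h1 : Θ (w' * w') ≠ 1) : ∃ γ : Γ, γ * Θ w' * γ⁻¹ = D.θ D.j := by
  have := D.toDL.finΓ
  obtain ⟨r, hr, γ, e⟩ := D.cls4 (Θ w') (by
    rw [← map_pow, ← map_one Θ, ← hy]; simp only [pow_succ, pow_zero, one_mul, mul_assoc])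
  have h3 : γ⁻¹ * Θ w' * γ⁻¹⁻¹ = r := by rw [← e]; group
  have h4 : r * r ≠ 1 := fun hc => h1 (by
    rw [map_mul, ← e]
    calc _ = γ * (r * r) * γ⁻¹ := by group
      _ = 1 := by rw [hc]; group)
  obtain ⟨h5, h6⟩ := (h.conj γ⁻¹).map_cent hV
  have h7 : 16 ≤ Nat.card (D.L ⊓ centralizer {r} : Subgroup Γ) := h3 ▸ h6.trans (card_le_of_le h5)
  simp only [List.mem_cons, List.not_mem_nil, or_false] at hr
  rcases hr with rfl | rfl | rfl | rfl | rfl | rfl | rfl | rfl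
  · exact absurd (mul_one 1) h4
  · exact absurd (by rw [← map_mul, D.aa, map_one]) h4
  · exact absurd (by rw [← map_mul, D.dd, map_one]) h4
  · exact absurd D.φφ h4
  · exact absurd D.ττ h4
  · exact ⟨_, h3⟩
  · rw [D.c1] at h7; omega
  · rw [D.c2] at h7; omega

/-- the cover of the group is the cover of the model -/
theorem exists_cov {w' : C} (hV : 64 ≤ Nat.card (M ⊓ centralizer {w'} : Subgroup C)) (e : Θ w' = D.θ D.j) :
    ∃ η : U →* C, Cov D M Θ η := by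
  have := D.toDL.finΓ
  obtain ⟨η, h1, h2⟩ := h.exists_ψ
  obtain ⟨h5, h6⟩ := h.map_cent hV
  have hM : ∀ u, η u ∈ M := fun u => h1 ▸ ⟨u, rfl⟩
  rw [e] at h5
  obtain ⟨v, hv, h7⟩ := (eq_of_le_of_card_ge h5 (D.c0.le.trans h6)).ge
    (mem_inf.2 ⟨D.θL D.vM, mem_centralizer_singleton_iff.2 D.cjv.symm⟩ : D.θ D.v ∈ _)
  have h8 : Commute v ((η D.jh)⁻¹ * w') := h.kc _ (by rw [map_mul, map_inv, h2, D.ψj, e, inv_mul_cancel]) v hv.1
  obtain ⟨z, hz, h9⟩ := h.diff hv.1 (hM D.vh) (by rw [h2, D.ψv, h7])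
  have h10 : Commute (η D.jh) (η D.vh) := by
    have a1 : Commute v w' := mem_centralizer_singleton_iff.1 hv.2
    have a2 : Commute v (η D.jh) := by simpa using a1.mul_right h8.inv_right
    exact h9 ▸ a2.symm.mul_right (comm_of_zpowers hz (h.cen _ (hM _)))
  refine ⟨η, h1, h2, fun u hu => ?_⟩
  refine (zpowers_le_of_mem (H := η.ker) ?_) (D.toDL.kerψ.le hu)
  rw [MonoidHom.mem_ker]
  simp only [map_mul, map_inv, h10.eq, mul_inv_cancel_right, mul_inv_cancel]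

theorem exists_Φ {η : U →* C} (hη : Cov D M Θ η) {c' : C} (hc : c' * c' = 1) (e' : Θ c' = D.θ (D.a * D.d)) :
    ∃ Φ : A →* C, Function.Injective Φ ∧ (∀ x, Θ (Φ x) = D.θ x) ∧ D.M.map Φ = M ∧ Φ (D.a * D.d) = c' := by
  have := h.fin
  have := D.toDA.finite
  have hM : c' ∉ M := fun hc => absurd (D.lad.symm.trans ((D.lker _).2 (e' ▸ h.memL hc))) (by decide)
  obtain ⟨a1, a2, a3⟩ := id hη
  let F : A → C := fun x => η (Function.invFun D.ψ x)
  have hF : ∀ u, F (D.ψ u) = η u := fun u => by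
    have := a3 (Function.invFun D.ψ (D.ψ u) * u⁻¹) (by
      rw [map_mul, map_inv, Function.invFun_eq (f := D.ψ) ⟨u, rfl⟩, mul_inv_cancel])
    rwa [map_mul, map_inv, mul_inv_eq_one] at this
  have hm : ∀ x ∈ D.M, ∀ y ∈ D.M, F (x * y) = F x * F y := fun x hx y hy => by
    obtain ⟨u, rfl⟩ := D.rangeψ.ge hx
    obtain ⟨v, rfl⟩ := D.rangeψ.ge hy
    rw [← map_mul, hF, hF, hF, map_mul]
  have hd : D.a * D.d ∉ D.M := fun hc => D.toDA.dM ((mul_mem_cancel_left D.toDA.aM).1 hc)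
  have hdd : D.a * D.d * (D.a * D.d) = 1 := by
    rw [mul_assoc, ← mul_assoc D.d, ← D.ad, mul_assoc, D.dd, mul_one, D.aa]
  generalize D.a * D.d = d at hd hdd e'
  have hi : d⁻¹ = d := inv_eq_of_mul_eq_one_right hdd
  have hi' : c'⁻¹ = c' := inv_eq_of_mul_eq_one_right hc
  have hn : ∀ u, d * D.ψ u * d⁻¹ ∈ D.M := fun u => D.toDA.normal.conj_mem _ (D.rangeψ ▸ ⟨u, rfl⟩) d
  let β : U →* C := MonoidHom.mk' (fun u => F (d * D.ψ u * d⁻¹)) fun u v => by
    rw [← hm _ (hn u) _ (hn v), map_mul]; congr 1; group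
  have hβ : ∀ u, β u ∈ M ∧ Θ (β u) = D.θ (d * D.ψ u * d⁻¹) := fun u => by
    obtain ⟨u', h1⟩ := D.rangeψ.ge (hn u)
    show F _ ∈ M ∧ Θ (F _) = _
    rw [← h1, hF]
    exact ⟨hη.mem _, a2 _⟩
  have key : ∀ u, u ^ 15 = 1 → u ∈ β.eqLocus ((MulAut.conj c').toMonoidHom.comp η) := fun u hu =>
    h.odd (hβ u).1 (h.nor.conj_mem _ (hη.mem u) c') (by
      show _ = Θ (c' * η u * c'⁻¹)
      simp only [(hβ u).2, map_mul, map_inv, a2, e']) (by rw [← map_pow, hu, map_one])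
      (by rw [← map_pow, hu, map_one])
  have hK := D.genM ((β.eqLocus ((MulAut.conj c').toMonoidHom.comp η)).map D.ψ)
    ⟨_, key D.x (by rw [show 15 = 3 * 5 from rfl, pow_mul, D.x3, one_pow]), D.ψx⟩
    ⟨_, key D.y (by rw [show 15 = 5 * 3 from rfl, pow_mul, D.y5, one_pow]), D.ψy⟩
  obtain ⟨Φ, b1, b2⟩ := exists_ext_two D.toDA.idx F hm hd hdd hc fun x hx => by
    obtain ⟨u, hu, rfl⟩ := hK hx
    have : F (d * D.ψ u * d⁻¹) = c' * η u * c'⁻¹ := hu
    rwa [hi, hi', ← hF] at this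
  have b3 : ∀ u, Φ (D.ψ u) = η u := fun u => (b1 _ (D.rangeψ ▸ ⟨u, rfl⟩)).trans (hF u)
  have b4 : D.M.map Φ = M := by
    rw [← D.rangeψ, ← MonoidHom.range_comp, ← a1]; congr 1; exact MonoidHom.ext b3
  refine ⟨Φ, ?_, fun x => ?_, b4, b2⟩
  · have b5 : M ≤ Φ.range := b4 ▸ map_le_range _ _
    obtain ⟨k, hk⟩ := card_dvd_of_le b5
    have b6 := Φ.ker.card_mul_index
    have b7 : k ≠ 1 := fun e => hM ((eq_of_le_of_card_ge b5 (by rw [hk, e, mul_one])).ge ⟨_, b2⟩)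
    have b8 : 0 < Nat.card Φ.ker := Nat.card_pos
    rw [index_ker, hk, h.cardM, D.card] at b6
    have b9 : Nat.card Φ.ker * k = 2 := by nlinarith
    refine (MonoidHom.ker_eq_bot_iff _).1 (card_eq_one.1 ?_)
    have b10 : 2 ≤ k := by
      rcases k with _ | _ | k
      · simp at b9
      · exact absurd rfl b7
      · omega
    nlinarith
  · refine (eq_top_two D.toDA.idx (K := (Θ.comp Φ).eqLocus D.θ) (fun x hx => ?_) hd
      (by show Θ (Φ d) = _; rw [b2, e'])).ge (mem_top x)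
    obtain ⟨u, rfl⟩ := D.rangeψ.ge hx
    show Θ (Φ _) = _
    rw [b3, a2]

theorem not_φ {η : U →* C} (hη : Cov D M Θ η) {c' : C} (e' : D.lam (Θ c') = sr 0) : c' * w = w * c' := by
  obtain ⟨a1, a2, a3⟩ := id hη
  obtain ⟨l, hl, h1⟩ := h.map.ge ((D.lker (Θ c' * D.φ⁻¹)).1 (by rw [map_mul, map_inv, e', D.lφ, mul_inv_cancel]))
  have h2 : Θ (l⁻¹ * c') = D.φ := by rw [map_mul, map_inv, h1]; group
  suffices hs : l⁻¹ * c' * w = w * (l⁻¹ * c') by
    calc c' * w = l * (l⁻¹ * c' * w) := by group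
      _ = l * w * (l⁻¹ * c') := by rw [hs, mul_assoc]
      _ = w * c' := by rw [h.cen l hl]; group
  generalize l⁻¹ * c' = c at h2
  have key : ∀ u u', u ^ 15 = 1 → u' ^ 15 = 1 → D.φ * D.θ (D.ψ u) * D.φ⁻¹ = D.θ (D.ψ u') →
      η u' = c * η u * c⁻¹ := fun u u' hu hu' h3 =>
    h.odd (hη.mem _) (h.nor.conj_mem _ (hη.mem u) c) (by simp only [map_mul, map_inv, a2, h2, h3])
      (by rw [← map_pow, hu', map_one]) (by rw [conj_pow, ← map_pow, hu]; simp)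
  have k1 := key D.x D.x' (by rw [show 15 = 3 * 5 from rfl, pow_mul, D.x3, one_pow])
    (by rw [show 15 = 3 * 5 from rfl, pow_mul, D.x3', one_pow]) (by rw [D.ψx, D.φx])
  have k2 := key D.y D.y' (by rw [show 15 = 5 * 3 from rfl, pow_mul, D.y5, one_pow])
    (by rw [show 15 = 5 * 3 from rfl, pow_mul, D.y5', one_pow]) (by rw [D.ψy, D.φy])
  have k3 : c * η D.ih * c⁻¹ = η D.ih := by
    have h3 := map_wordG ((MulAut.conj c).toMonoidHom.comp η) [D.x, D.y] D.W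
    have h4 := map_wordG η [D.x', D.y'] D.W
    rw [D.hW', map_mul, a3 _ (D.toDL.kerψ.ge (mem_zpowers _)), mul_one] at h4
    rw [← D.hW] at h3
    refine h3.trans (Eq.trans ?_ h4.symm)
    simp only [List.map_cons, List.map_nil, k1, k2]
    rfl
  obtain ⟨u, hu⟩ := a1.ge h.wM
  have k4 : D.ψ u ∈ zpowers D.i := by
    have := D.toDA.finite
    have h3 := D.θ.ker.card_mul_index
    have h4 := D.rangeθ
    rw [index_ker, D.card] at h3
    refine (eq_of_le_of_card_ge (zpowers_le_of_mem (H := D.θ.ker) D.θi) ?_).ge ?_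
    · rw [Nat.card_zpowers, D.toDA.i4]
      by_contra h5
      have h6 : 5 ≤ Nat.card D.θ.ker := by omega
      nlinarith
    · rw [MonoidHom.mem_ker, ← a2, hu]; exact h.Θw
  obtain ⟨k, hk⟩ := k4
  have k5 := a3 (D.ih ^ k * u⁻¹) (by rw [map_mul, map_zpow, map_inv, D.ψi, mul_inv_eq_one]; exact hk)
  rw [map_mul, map_zpow, map_inv, mul_inv_eq_one, hu] at k5
  exact comm_of_zpowers ⟨k, k5⟩ (mul_inv_eq_iff_eq_mul.1 k3)

/-- an involution of `M` that centralizes `w' ^ 2` but not `w'` -/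
theorem exists_u {w' : C} (hV : 64 ≤ Nat.card (M ⊓ centralizer {w'} : Subgroup C)) (hy : w' * w' * (w' * w') = 1)
    (h1 : Θ (w' * w') ≠ 1) : ∃ u ∈ M, u * u = 1 ∧ u * (w' * w') = w' * w' * u ∧ u * w' ≠ w' * u := by
  obtain ⟨γ, e⟩ := h.root hV hy h1
  obtain ⟨η, hη⟩ := (h.conj γ).exists_cov hV e
  obtain ⟨a1, a2, a3⟩ := id hη
  obtain ⟨c, hc⟩ := D.rangeψ.ge D.toDA.cM
  obtain ⟨z, hz, a4⟩ : ∃ z, (∀ x ∈ M, x * z = z * x) ∧ w' = η D.jh * z := ⟨(η D.jh)⁻¹ * w', (h.conj γ).kc _ (by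
    rw [map_mul, map_inv, a2, D.ψj, inv_mul_eq_one]; exact e.symm), by simp⟩
  have b1 : η c * η c = 1 := by rw [← map_mul]; exact a3 _ (by rw [map_mul, hc, D.cc])
  have b2 : η c * η D.jh * η c * η D.jh = 1 := by
    simp only [← map_mul]; exact a3 _ (by simp only [map_mul, hc, D.ψj, D.cj])
  have b3 : Commute (η c) (η D.jh * η D.jh) := by
    have := a3 (c * (D.jh * D.jh) * c⁻¹ * (D.jh * D.jh)⁻¹) (by
      have e1 : D.c * D.a = D.a * D.c := mem_centralizer_singleton_iff.1 (D.cU.ge (subset_closure (by simp)))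
      simp only [map_mul, map_inv, hc, D.ψj, D.jj, e1, mul_inv_cancel_right, mul_inv_cancel])
    simp only [map_mul, map_inv] at this
    exact commutatorElement_eq_one_iff_commute.1 this
  have b4 : Commute (η c) z := hz _ (hη.mem c)
  have b5 : Commute (η D.jh) z := hz _ (hη.mem _)
  refine ⟨η c, hη.mem c, b1, ?_, fun hc => D.sqj ?_⟩
  · rw [a4, b5.symm.mul_mul_mul_comm]
    exact b3.mul_right (b4.mul_right b4)
  · rw [a4, mul_assoc, ← b4, ← mul_assoc, ← mul_assoc] at hc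
    rw [mul_right_cancel hc, mul_assoc (η D.jh), b1, mul_one] at b2
    rw [← D.ψj, ← a2, ← map_mul, b2, map_one]

theorem fus {w' c' : C} (hV : 64 ≤ Nat.card (M ⊓ centralizer {w'} : Subgroup C)) (hy : w' * w' * (w' * w') = 1)
    (h1 : Θ (w' * w') ≠ 1) (hc : c' * c' = 1) (h3 : w' * c' = c' * w') (h4 : c' * w ≠ w * c') :
    ∃ (γ : Γ) (Φ : A →* C), γ * Θ w' * γ⁻¹ = D.θ D.j ∧ Function.Injective Φ ∧ (∀ x, γ * Θ (Φ x) * γ⁻¹ = D.θ x) ∧
      D.M.map Φ = M ∧ Φ (D.a * D.d) = c' := by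
  obtain ⟨γ, e⟩ := h.root hV hy h1
  obtain ⟨δ, r, a1, a2, a3⟩ := D.clsJ (γ * Θ c' * γ⁻¹) (by
    rw [← e]
    calc _ = γ * Θ (w' * c') * γ⁻¹ := by rw [map_mul]; group
      _ = _ := by rw [h3, map_mul]; group) (by rw [conj_pow, ← map_pow, pow_two, hc]; simp)
  have h' := h.conj (δ⁻¹ * γ)
  have e1 : ((MulAut.conj (δ⁻¹ * γ)).toMonoidHom.comp Θ) w' = D.θ D.j := by
    show δ⁻¹ * γ * Θ w' * (δ⁻¹ * γ)⁻¹ = _
    calc _ = δ⁻¹ * (γ * Θ w' * γ⁻¹ * δ) := by group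
      _ = _ := by rw [e, a1]; group
  have e2 : ((MulAut.conj (δ⁻¹ * γ)).toMonoidHom.comp Θ) c' = r := by
    show δ⁻¹ * γ * Θ c' * (δ⁻¹ * γ)⁻¹ = _
    calc _ = δ⁻¹ * (γ * Θ c' * γ⁻¹) * δ := by group
      _ = _ := by rw [← a2]; group
  obtain ⟨η, hη⟩ := h'.exists_cov hV e1
  rcases a3 with a3 | a3 | a3
  · exact absurd (h'.cw (e2 ▸ a3)) h4
  · obtain ⟨Φ, b⟩ := h'.exists_Φ hη hc (e2.trans a3)
    exact ⟨_, Φ, e1, b⟩
  · refine absurd (h'.not_φ hη ?_) h4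
    have := (D.lker _).2 a3
    rwa [map_mul, map_inv, D.lφ, mul_inv_eq_one, ← e2] at this

end Cf

end CL.ONT
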