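/-
Standard subgroups `4.L_3(4)`: the central involution fuses into the component.
-/
import Cfsg.Agent.Spor.ONSLoc
import Cfsg.Agent.Spor.ONTFus

set_option autoImplicit false

namespace CL.ONT
open CL.PG Subgroup DihedralGroup

variable {Γ A U : Type} [Group Γ] [Group A] [Group U] {D : DX Γ A U} {C : Type*} [Group C]
  {G : Type*} [Group G] {w w' w'' : C} {M : Subgroup C} {Θ Θ' : C →* Γ} {ι : C →* G} {g : G} {Φ Φ' : A →* C}

/-- `M` is a standard subgroup of `G` with normalizer `C`. -/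
structure St (D : DX Γ A U) (w : C) (M : Subgroup C) (Θ : C →* Γ) (ι : C →* G) : Prop where
  cf : Cf D w M Θ
  emb : Emb w ι
  tight : ∀ g x x', Θ x = 1 → Θ x' = 1 → ι x' = g * ι x * g⁻¹ →
    Odd (orderOf x) ∨ g * ι (w * w) = ι (w * w) * g

/-- the conjugate of `w` by `g` lies in `C`, and `g` is not in `C` -/
structure Rt (w : C) (ι : C →* G) (g : G) (w' : C) : Prop where
  cj : ι w' = g * ι w * g⁻¹
  ne : w' * w' ≠ w * w

theorem Rt.sq (r : Rt w ι g w') : ι (w' * w') = g * ι (w * w) * g⁻¹ := cj_mul r.cj r.cj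

theorem Emb.comm_iff (hι : Emb w ι) {x y x' y' : C} (hx : ι x' = g * ι x * g⁻¹) (hy : ι y' = g * ι y * g⁻¹) :
    x' * y' = y' * x' ↔ x * y = y * x := ⟨hι.comm (flip hx) (flip hy), hι.comm hx hy⟩

theorem Emb.lift' (hι : Emb w ι) {y : C} (hy : ι y = g * ι (w * w) * g⁻¹) {x : C} (hx : x * y = y * x) :
    ∃ c, ι x = g * ι c * g⁻¹ := let ⟨c, hc⟩ := hι.lift hy hx; ⟨c, flip' hc⟩

namespace St
variable (h : St D w M Θ ι)
include h

theorem conj (γ : Γ) : St D w M ((MulAut.conj γ).toMonoidHom.comp Θ) ι :=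
  ⟨h.cf.conj γ, h.emb, fun g x x' hx hx' => h.tight g x x' (by simpa using hx) (by simpa using hx')⟩

theorem cj_inv {y : C} (hy : ι y = g * ι (w * w) * g⁻¹) : y * y = 1 ∧ y ≠ 1 := by
  obtain ⟨h1, h2⟩ := h.cf.ww
  refine ⟨h.emb.inj (by rw [cj_mul hy hy, h1]; simp), fun hc => h2 (h.emb.inj ?_)⟩
  rw [flip hy, hc]; simp

theorem ot : orderOf (w * w) = 2 := orderOf_eq_prime (by rw [pow_two, h.cf.ww.1]) h.cf.ww.2

theorem eq_t {y : C} (hy : ι y = g * ι (w * w) * g⁻¹) (h1 : Θ y = 1) : y = w * w := by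
  rcases h.tight g _ y h.cf.Θt h1 hy with e | e
  · rw [h.ot] at e; exact absurd e (by decide)
  · exact h.emb.inj (by rw [hy, e, mul_inv_cancel_right])

theorem rt_ne (r : Rt w ι g w') : Θ (w' * w') ≠ 1 := fun hc => r.ne (h.eq_t r.sq hc)

theorem rt_L (r : Rt w ι g w') : Θ (w' * w') ∈ D.L := (D.lker _).1 (by
  have h1 := congrArg (D.lam.comp Θ) (h.cj_inv r.sq).1
  simp only [map_mul, map_one, MonoidHom.comp_apply] at h1 ⊢
  exact (by decide : ∀ d : DihedralGroup 6, d * d * (d * d) = 1 → d * d = 1) _ h1)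

theorem rt_of_comm {y : C} (hy : ι y = g * ι (w * w) * g⁻¹) (h1 : y ≠ w * w) (hw : w * y = y * w) :
    ∃ w'', Rt w ι g⁻¹ w'' :=
  let ⟨c, hc⟩ := h.emb.lift hy hw
  ⟨c, hc, h.emb.ne' hy (cj_mul hc hc) h1⟩

theorem rt_inv (r : Rt w ι g w') : ∃ w'', Rt w ι g⁻¹ w'' := h.rt_of_comm r.sq r.ne (h.cf.cw (h.rt_L r)).symm

theorem rt_of_comm' {y : C} (hy : ι y = g * ι (w * w) * g⁻¹) (h1 : y ≠ w * w) (hw : w * y = y * w) :
    ∃ w', Rt w ι g w' ∧ w' * w' = y := by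
  obtain ⟨_, r⟩ := h.rt_of_comm hy h1 hw
  obtain ⟨w', r⟩ := h.rt_inv r
  rw [inv_inv] at r
  exact ⟨w', r, h.emb.inj (r.sq.trans hy.symm)⟩

theorem rt_two (r : Rt w ι g w') {x x' : C} (hx : x * (w' * w') = w' * w' * x) (hx' : x' * (w' * w') = w' * w' * x')
    (h1 : x * w' ≠ w' * x) (h2 : x' * w' ≠ w' * x') : x * x' * w' = w' * (x * x') := by
  obtain ⟨c, hc⟩ := h.emb.lift' r.sq hx
  obtain ⟨c', hc'⟩ := h.emb.lift' r.sq hx'
  exact h.emb.comm (cj_mul hc hc') r.cj (h.cf.two (fun e => h1 (h.emb.comm hc r.cj e))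
    fun e => h2 (h.emb.comm hc' r.cj e))

theorem rt_card (r : Rt w ι g w') : 64 ≤ Nat.card (M ⊓ centralizer {w'} : Subgroup C) := by
  have := h.cf.fin
  have h4 := h.cf.inner (h.cj_inv r.sq).1 (h.rt_L r) (h.rt_ne r)
  have h6 := card_le_two_mul (P := M ⊓ centralizer {w' * w'}) (N := centralizer {w'}) fun x hx x' hx' hc hc' =>
    mem_centralizer_singleton_iff.2 (h.rt_two r (mem_centralizer_singleton_iff.1 hx.2)
      (mem_centralizer_singleton_iff.1 hx'.2) (fun e => hc (mem_centralizer_singleton_iff.2 e))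
      fun e => hc' (mem_centralizer_singleton_iff.2 e))
  have h7 := card_le_of_le (inf_le_inf_right (centralizer {w'}) (inf_le_left : M ⊓ centralizer {w' * w'} ≤ M))
  omega

theorem inv_cj {y : C} (hw : y * w ≠ w * y) : w * y * w⁻¹ = w * w * y := by
  have e := (h.cf.ci y).resolve_left hw
  calc _ = w * (y * w * y⁻¹)⁻¹ * y := by group
    _ = _ := by rw [e, inv_inv]

/-- a conjugate of the central involution that inverts `w` -/
theorem triple {y : C} (hy : ι y = g * ι (w * w) * g⁻¹) (hw : y * w ≠ w * y) :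
    ∃ z ∈ M, z * z = 1 ∧ z ≠ 1 ∧ z * y = y * z ∧ (z = w * w ∨ ∃ m, z * y = m * y * m⁻¹) ∧
      ∃ c, ι z = g * ι c * g⁻¹ ∧ c * w = w * c := by
  obtain ⟨h4, -⟩ := h.cj_inv hy
  obtain ⟨m, hm, a1, a2⟩ := h.cf.outer h4 fun hc => hw (h.cf.cw hc)
  have hi : y⁻¹ = y := inv_eq_of_mul_eq_one_right h4
  have a3 : m * y * m⁻¹ * y ∈ M := by
    simpa only [mul_assoc, hi] using mul_mem hm (h.cf.nor.conj_mem _ (inv_mem hm) y)
  have a4 : m * y * m⁻¹ * y * y = m * y * m⁻¹ := by rw [mul_assoc, h4, mul_one]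
  have a5 : m * y * m⁻¹ * y * y = y * (m * y * m⁻¹ * y) := by rw [← mul_assoc y, a1]
  have a6 : m * y * m⁻¹ * y * (m * y * m⁻¹ * y) = 1 := by
    rw [← mul_assoc, mul_assoc _ y, a1, ← mul_assoc, conj_mul, h4, mul_assoc, h4]; simp
  have a7 : m * y * m⁻¹ * w ≠ w * (m * y * m⁻¹) := fun e => hw (by
    calc y * w = m⁻¹ * (m * y * m⁻¹ * (m * w)) := by group
      _ = m⁻¹ * (m * y * m⁻¹ * w * m) := by rw [h.cf.cen m hm]; group
      _ = m⁻¹ * w * m * y := by rw [e]; group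
      _ = w * y := by rw [h.cf.cen _ (inv_mem hm)]; group)
  generalize hp : m * y * m⁻¹ * y = p at a2 a3 a4 a5 a6
  obtain ⟨t', ht'⟩ := h.emb.lift' hy (h.cf.ct y).symm
  obtain ⟨p', hp'⟩ := h.emb.lift' hy a5
  by_cases b1 : t' * w = w * t'
  · exact ⟨_, mul_mem h.cf.wM h.cf.wM, h.cf.ww.1, h.cf.ww.2, (h.cf.ct y).symm, Or.inl rfl, t', ht', b1⟩
  by_cases b2 : p' * w = w * p'
  · exact ⟨p, a3, a6, fun e => a2 (by rw [e, map_one]), a5, Or.inr ⟨m, a4⟩, p', hp', b2⟩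
  refine ⟨w * w * p, mul_mem (mul_mem h.cf.wM h.cf.wM) a3, ?_, fun e => a2 ?_,
    Commute.mul_left (h.cf.ct y).symm a5, Or.inr ⟨w * m, ?_⟩, _, cj_mul ht' hp', h.cf.two b1 b2⟩
  · rw [Commute.mul_mul_mul_comm (h.cf.ct p), h.cf.ww.1, a6, one_mul]
  · simpa only [map_mul, h.cf.Θw, one_mul, map_one] using congrArg Θ e
  · rw [mul_assoc, a4, ← h.inv_cj a7]; group

theorem exists_rt [Finite G] [IsSimpleGroup G] : ∃ g w', Rt w ι g w' := by
  obtain ⟨g, h1, h2⟩ := CL.Inv.exists_commuting_conj_of_simple (G := G) (z := ι (w * w)) (fun hc => by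
    have := orderOf_dvd_natCard (ι w)
    rw [hc, orderOf_injective ι h.emb.inj, h.cf.w4] at this
    norm_num at this) (by rw [orderOf_injective ι h.emb.inj, h.ot])
  obtain ⟨y, hy⟩ := h.emb.sur _ h1.symm
  have h3 : y ≠ w * w := fun e => h2 (by rw [← hy, e])
  by_cases hw : y * w = w * y
  · exact ⟨_, h.rt_of_comm hy h3 hw.symm⟩
  obtain ⟨z, -, -, a1, -, a2, c, a3, a4⟩ := h.triple hy hw
  rcases a2 with rfl | ⟨m, a2⟩
  · exact ⟨_, h.rt_of_comm (flip a3) (h.emb.ne' hy (flip a3) h3) a4.symm⟩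
  · refine ⟨_, h.rt_of_comm (g := g⁻¹ * ι m * g) (y := c * (w * w)) ?_ (fun e => a1 (h.emb.inj ?_))
      (Commute.mul_right a4.symm ((Commute.refl w).mul_right (Commute.refl w)))⟩
    · rw [flip (cj_mul a3 hy), a2, map_mul, map_mul, map_inv, hy]; group
    · rw [a3, mul_eq_right.1 e]; simp

end St

/-- coordinates adapted to a conjugate of `w` -/
structure Fr (D : DX Γ A U) (w : C) (M : Subgroup C) (Θ : C →* Γ) (ι : C →* G) (g : G) (w' : C) (Φ : A →* C) :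
    Prop where
  st : St D w M Θ ι
  rt : Rt w ι g w'
  Θw : Θ w' = D.θ D.j
  inj : Function.Injective Φ
  lift : ∀ x, Θ (Φ x) = D.θ x
  ΦM : D.M.map Φ = M
  u : ∃ u ∈ M, ι (Φ (D.a * D.d)) = g * ι u * g⁻¹
  cw : Φ (D.a * D.d) * w ≠ w * Φ (D.a * D.d)

theorem St.exists_fr (h : St D w M Θ ι) (r : Rt w ι g w') :
    ∃ (γ : Γ) (Φ : A →* C), Fr D w M ((MulAut.conj γ).toMonoidHom.comp Θ) ι g w' Φ := by
  obtain ⟨w'', r'⟩ := h.rt_inv r
  obtain ⟨u, hu, c1, c2, c3⟩ := h.cf.exists_u (h.rt_card r') (h.cj_inv r'.sq).1 (h.rt_ne r')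
  obtain ⟨c, hc⟩ := h.emb.lift r'.sq c2
  rw [inv_inv] at hc
  have c4 : c * w ≠ w * c := fun e => c3 (h.emb.comm (flip hc) r'.cj e)
  obtain ⟨γ, Φ, d1, d2, d3, d4, rfl⟩ := h.cf.fus (h.rt_card r) (h.cj_inv r.sq).1 (h.rt_ne r) (c' := c)
    (h.emb.inj (by rw [cj_mul hc hc, c1]; simp)) (h.emb.comm r.cj hc (h.cf.cen u hu).symm) c4
  exact ⟨γ, Φ, h.conj γ, r, d1, d2, d3, d4, ⟨u, hu, hc⟩, c4⟩

namespace Fr
variable (F : Fr D w M Θ ι g w' Φ)
include F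

theorem mem {x : A} (hx : x ∈ D.M) : Φ x ∈ M := F.ΦM ▸ mem_map_of_mem _ hx

theorem nφ {x : C} (e : D.lam (Θ x) = sr 0) : x * w = w * x :=
  F.st.cf.not_φ (η := Φ.comp D.ψ) ⟨by rw [MonoidHom.range_comp, D.rangeψ, F.ΦM], fun u => F.lift _,
    fun u hu => by rw [MonoidHom.comp_apply, hu, map_one]⟩ e

theorem lc : D.lam (Θ (Φ (D.a * D.d))) = r 3 := by rw [F.lift, D.lad]

theorem ne3 {x : C} (hx : x * w = w * x) : D.lam (Θ x) ≠ r 3 ∧ D.lam (Θ x) ≠ sr 3 := by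
  have key : x * Φ (D.a * D.d) * w ≠ w * (x * Φ (D.a * D.d)) := fun e => F.cw (by
    simpa using (Commute.mul_left (Commute.inv_left hx) e).eq)
  exact ⟨fun e => key (F.st.cf.cw ((D.lker _).1 (by rw [map_mul, map_mul, e, F.lc]; decide))),
    fun e => key (F.nφ (by rw [map_mul, map_mul, e, F.lc]; decide))⟩

theorem Φf : Φ D.f = w * w :=
  (inv_of_zpowers F.st.cf.w4 (F.st.cf.ker _ (F.mem D.toDA.fM) (by rw [F.lift, ← D.ii, map_mul, D.θi, mul_one]))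
    (by rw [← map_mul, D.ff, map_one])).resolve_left fun hc => D.f1 (F.inj (hc.trans (map_one Φ).symm))

theorem kw : ∀ x ∈ M, x * ((Φ D.j)⁻¹ * w') = (Φ D.j)⁻¹ * w' * x :=
  F.st.cf.kc _ (by rw [map_mul, map_inv, F.lift, F.Θw, inv_mul_cancel])

theorem cj {x : C} (hx : x ∈ M) : x * w' = w' * x ↔ x * Φ D.j = Φ D.j * x :=
  ⟨fun e => by simpa using (Commute.mul_right e (Commute.inv_right (F.kw x hx))).eq,
    fun e => by simpa using (Commute.mul_right e (F.kw x hx)).eq⟩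

theorem Φa : Φ D.a = w' * w' := by
  have h := F.st
  have k1 : Commute (Φ D.j) ((Φ D.j)⁻¹ * w') := F.kw _ (F.mem D.toDA.jM)
  have k2 : Commute (Φ D.c) ((Φ D.j)⁻¹ * w') := F.kw _ (F.mem D.toDA.cM)
  obtain ⟨k, rfl⟩ : ∃ k, w' = Φ D.j * k := ⟨(Φ D.j)⁻¹ * w', by simp⟩
  rw [inv_mul_cancel_left] at k1 k2
  have e1 : Φ D.j * k * (Φ D.j * k) = Φ D.a * (k * k) := by rw [k1.symm.mul_mul_mul_comm, ← map_mul, D.jj]
  have e2 : Φ D.c * Φ D.j * (Φ D.c)⁻¹ = (Φ D.j)⁻¹ := by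
    rw [← map_inv, inv_eq_of_mul_eq_one_right D.cc]
    exact eq_inv_of_mul_eq_one_left (by simp only [← map_mul, D.cj, map_one])
  have e3 : Commute (Φ D.c) (Φ D.a) := by
    show _ * _ = _ * _
    rw [← map_mul, mem_centralizer_singleton_iff.1 (D.cU.ge (subset_closure (by simp)) : D.c ∈ _), map_mul]
  obtain ⟨c, hc⟩ := h.emb.lift' F.rt.sq (x := Φ D.c) (e1 ▸ e3.mul_right (k2.mul_right k2))
  have e4 : Φ D.c * (Φ D.j * k) * (Φ D.c)⁻¹ = (Φ D.j)⁻¹ * k := by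
    rw [← e2, mul_assoc _ _ k, k2.inv_left.eq]; group
  rcases h.cf.ci c with e | e
  · have := h.emb.comm hc F.rt.cj e
    rw [this, mul_inv_cancel_right, mul_left_inj] at e4
    exact absurd (F.inj (by rw [← D.jj, map_mul, map_one]; exact mul_eq_one_iff_eq_inv.2 e4)) D.a1
  · have e5 : Φ D.c * (Φ D.j * k) * (Φ D.c)⁻¹ = (Φ D.j * k)⁻¹ := h.emb.inj (by
      rw [map_mul, map_mul ι (Φ D.c), map_inv, map_inv, hc, F.rt.cj]
      calc _ = g * ι (c * w * c⁻¹) * g⁻¹ := by rw [map_mul, map_mul, map_inv]; group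
        _ = _ := by rw [e, map_inv]; group)
    rw [e4, k1.mul_inv, mul_right_inj] at e5
    rw [e1, mul_eq_one_iff_eq_inv.2 e5, mul_one]

theorem yM : w' * w' ∈ M := F.Φa ▸ F.mem D.toDA.aM

theorem cv {x : C} (hx : x ∈ M) (e : x * w' = w' * x) : x * Φ D.v = Φ D.v * x := by
  obtain ⟨_, ⟨m, rfl⟩, b, -, h1⟩ := D.form (F.st.cf.memL hx) (by rw [← F.Θw, ← map_mul, e, map_mul])
  obtain ⟨z, hz, rfl⟩ := F.st.cf.diff (F.mem (mul_mem (zpow_mem D.toDA.jM m) (pow_mem D.vM b))) hx (by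
    rw [F.lift, map_mul, map_zpow, map_pow, h1])
  refine Commute.mul_left (Commute.map ?_ Φ) (comm_of_zpowers hz (F.st.cf.cen _ (F.mem D.vM))).symm
  exact (Commute.zpow_left D.jv m).mul_left ((Commute.refl _).pow_left b)

theorem cls {x : A} (hx : x * x = 1) : (x ∈ D.M → x = 1 ∨ x = D.f ∨ ∃ m, m * D.a * m⁻¹ = x) ∧
    (x ∉ D.M → ∃ m, m * D.d * m⁻¹ = x) := by
  obtain ⟨s, hs, y, rfl⟩ := D.cls x (by rw [pow_two, hx])
  have hn := D.toDA.normal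
  simp only [List.mem_cons, List.not_mem_nil, or_false] at hs
  rcases hs with rfl | rfl | rfl | rfl
  · exact ⟨fun _ => Or.inl (by simp), fun hc => absurd (by simp) hc⟩
  · exact ⟨fun _ => Or.inr (Or.inl (by rw [D.toDA.fc, mul_inv_cancel_right])),
      fun hc => absurd (hn.conj_mem _ D.toDA.fM y) hc⟩
  · exact ⟨fun _ => Or.inr (Or.inr ⟨y, rfl⟩), fun hc => absurd (hn.conj_mem _ D.toDA.aM y) hc⟩
  · exact ⟨fun hc => absurd (by simpa [mul_assoc] using hn.conj_mem _ hc y⁻¹) D.toDA.dM, fun _ => ⟨y, rfl⟩⟩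

/-- the involutions of `M` -/
theorem inv {x : C} (hx : x ∈ M) (h2 : x * x = 1) : x = 1 ∨ x = w * w ∨ ∃ m, m * (w' * w') * m⁻¹ = x := by
  obtain ⟨x, hx', rfl⟩ := F.ΦM.ge hx
  rcases (F.cls (F.inj (by rw [map_mul, h2, map_one]))).1 hx' with rfl | rfl | ⟨m, rfl⟩
  · exact Or.inl (map_one Φ)
  · exact Or.inr (Or.inl F.Φf)
  · exact Or.inr (Or.inr ⟨Φ m, by rw [map_mul, map_mul, map_inv, F.Φa]⟩)

variable (F' : Fr D w M Θ' ι g⁻¹ w'' Φ')
include F'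

theorem far {x c : C} (hx : x ∈ M) (h2 : x * x = 1) (h3 : Θ x ∉ zpowers (D.θ D.j)) (hc : ι x = g * ι c * g⁻¹) :
    Θ' c ≠ 1 := fun e => h3 (by
  rcases F.inv hx h2 with rfl | rfl | ⟨m, rfl⟩
  · rw [map_one]; exact one_mem _
  · rw [F.st.cf.Θt]; exact one_mem _
  · have h4 := F'.st.eq_t (g := g⁻¹ * ι m * g) (by rw [flip hc, map_mul, map_mul, map_inv, F.rt.sq]; group) e
    rw [F.st.emb.inj (hc.trans (h4 ▸ F.rt.sq.symm)), map_mul, F.Θw]
    exact mul_mem (mem_zpowers _) (mem_zpowers _))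

theorem cmj {x c : C} (hc : ι x = g * ι c * g⁻¹) (hw : x * w = w * x) : Θ' c * D.θ D.j = D.θ D.j * Θ' c := by
  rw [← F'.Θw, ← map_mul, F.st.emb.comm (flip hc) F'.rt.cj hw, map_mul]

theorem key {x c : C} (hc : ι x = g * ι c * g⁻¹) (hw : x * w = w * x) (hv : x * Φ D.v = Φ D.v * x) :
    D.lam (Θ' c) = 1 := by
  have hM := F.mem D.vM
  have h1 : Φ D.v * w' = w' * Φ D.v := (F.cj hM).2 (by rw [← map_mul, ← D.jv, map_mul])
  obtain ⟨v', hv'⟩ := F.st.emb.lift' F.rt.sq (Commute.mul_right h1 h1)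
  have h2 := F.cmj F' hv' (F.st.cf.cen _ hM)
  have h3 : Φ D.v * Φ D.v * (Φ D.v * Φ D.v) = 1 := by
    rw [← map_one Φ, ← D.v4]; simp only [pow_succ, pow_zero, one_mul, mul_assoc, map_mul]
  have h4 : Θ (Φ D.v * Φ D.v) ∉ zpowers (D.θ D.j) := by rw [map_mul, F.lift, ← pow_two]; exact D.v2
  have h5 : Θ' v' * Θ' v' ∉ zpowers (D.θ D.j) := fun hs => by
    have a1 : v' * v' * (v' * v') = 1 := F.st.emb.inj (by
      rw [flip (cj_mul (cj_mul hv' hv') (cj_mul hv' hv')), h3]; simp)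
    rcases inv_of_zpowers D.j4 hs (by simpa only [map_mul, map_one] using congrArg Θ' a1) with e | e
    · exact F.far F' (mul_mem hM hM) h3 h4 (cj_mul hv' hv') (by rw [map_mul, e])
    · refine F.far F' (mul_mem (mul_mem hM hM) (mul_mem F.st.cf.wM F.st.cf.wM)) ?_ ?_
        (cj_mul (cj_mul hv' hv') (flip' F'.rt.sq)) ?_
      · rw [Commute.mul_mul_mul_comm (F.st.cf.ct _).symm, h3, F.st.cf.ww.1, one_mul]
      · rwa [map_mul, F.st.cf.Θt, mul_one]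
      · rw [map_mul, map_mul, map_mul, e, F'.Θw, ← map_mul, D.jj, ← map_mul, D.aa, map_one]
  have h6 : D.lam (Θ' v') = 1 := (D.cm1 h2 ((D.cm3 ((D.lker _).1 (by
      rw [map_mul]; rcases D.lJ _ h2 with e | e | e | e <;> rw [e] <;> decide)) (Commute.mul_left h2 h2) h2
      (mul_assoc _ _ _).symm).1 h5)).resolve_right (F'.ne3 ((F.st.emb.comm_iff hv' F.rt.cj).1 h1)).2
  have h7 := F.cmj F' hc hw
  exact D.cm2 h7 ((D.cm3 ((D.lker _).1 h6) h2 h7 (by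
    rw [← map_mul, (F.st.emb.comm_iff hc hv').1 hv, map_mul])).2 h5)

theorem ker {κ : C} (hκ : Θ κ = 1) : ∃ z ∈ zpowers w, ∃ o', Θ' o' = 1 ∧ ι (z⁻¹ * κ) = g * ι o' * g⁻¹ := by
  have hk := F.st.cf.kc κ hκ
  obtain ⟨c, hc⟩ := F.st.emb.lift' F.rt.sq (hk _ F.yM).symm
  obtain ⟨u, hu, e⟩ := F'.u
  have h1 := F.key F' hc (hk _ F.st.cf.wM).symm (hk _ (F.mem D.vM)).symm
  obtain ⟨n, hn⟩ : Θ' c ∈ zpowers (D.θ D.j) := by
    by_contra hs
    refine D.nd ((D.cm3 ((D.lker _).1 h1) (F.cmj F' hc (hk _ F.st.cf.wM).symm) D.dj ?_).1 hs)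
    rw [← F'.lift, ← map_mul, F.st.emb.comm e (flip hc) (hk u hu), map_mul]
  refine ⟨w ^ n, ⟨n, rfl⟩, (w'' ^ n)⁻¹ * c, by rw [map_mul, map_inv, map_zpow, F'.Θw, ← hn, inv_mul_cancel], ?_⟩
  rw [map_mul, map_mul, map_inv, map_inv, map_zpow, map_zpow, hc, flip' F'.rt.cj, conj_zpow]; group

theorem klm {x c : C} (hx : x ∈ M) (hc : ι x = g * ι c * g⁻¹) : D.lam (Θ' c) = 1 ∨ D.lam (Θ' c) = r 3 := by
  by_cases h1 : x * w' = w' * x
  · exact Or.inl (F.key F' hc (F.st.cf.cen x hx) (F.cv hx h1))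
  obtain ⟨u, hu, e⟩ := F'.u
  have h2 := F.key F' (cj_mul hc (flip' e)) (F.st.cf.cen _ (mul_mem hx hu)) (F.cv (mul_mem hx hu)
    (F.st.rt_two F.rt (F.st.emb.comm hc F.rt.sq (F.st.cf.ct _)) (F.st.emb.comm (flip' e) F.rt.sq (F.st.cf.ct _)) h1
      fun hc => F'.cw ((F.st.emb.comm_iff (flip' e) F.rt.cj).1 hc)))
  rw [map_mul, map_mul, F'.lc] at h2
  exact Or.inr ((eq_inv_of_mul_eq_one_left h2).trans (by decide))

end Fr

end CL.ONT
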