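/-
Standard subgroups `4.L_3(4)`: control of fusion.
-/
import Cfsg.Agent.Spor.ONSFus
import Cfsg.Agent.Inv.StrongEmb
import Cfsg.Agent.Inv.Dihedral
import Cfsg.Agent.Transfer.Control
import Cfsg.Agent.Char.Orth2

set_option autoImplicit false

namespace CL.ONT
open CL.PG Subgroup DihedralGroup

theorem eq_one_of_odd {H : Type*} [Group H] {z : H} {n k : ℕ} (h1 : z ^ n = 1) (hn : Odd n) (h2 : z ^ 2 ^ k = 1) :
    z = 1 := orderOf_eq_one_iff.1 (Nat.eq_one_of_dvd_coprimes ((Nat.coprime_two_right.2 hn).pow_right k)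
      (orderOf_dvd_of_pow_eq_one h1) (orderOf_dvd_of_pow_eq_one h2))

theorem odd_index_of {G : Type*} [Group G] [Finite G] {z : G} (zz : z * z = 1) (z1 : z ≠ 1)
    (hcj : ∀ x, IsConj z x → x * z = z * x → x ≠ z → IsConj z (x * z)) : Odd (centralizer {z}).index := by
  classical
  rw [← CL.Char.card_isConj_eq_index_centralizer]
  let f : {x : G // IsConj z x} → {x : G // IsConj z x} := fun x =>
    if h1 : x.1 * z = z * x.1 then (if h2 : x.1 = z then x else ⟨x.1 * z, hcj x x.2 h1 h2⟩)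
    else ⟨z * x.1 * z⁻¹, x.2.trans (isConj_iff.2 ⟨z, rfl⟩)⟩
  have hf1 : ∀ x, x.1 = z → f x = x := fun x h => by simp only [f, h, dif_pos]
  have hf2 : ∀ x, x.1 * z = z * x.1 → x.1 ≠ z → (f x).1 = x.1 * z := fun x h1 h2 => by
    simp only [f, h1, h2, dif_pos, dif_neg, not_false_eq_true]
  have hf3 : ∀ x, x.1 * z ≠ z * x.1 → (f x).1 = z * x.1 * z⁻¹ := fun x h1 => by
    simp only [f, h1, dif_neg, not_false_eq_true]
  have hinv : Function.Involutive f := fun x => by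
    by_cases h1 : x.1 * z = z * x.1
    · by_cases h2 : x.1 = z
      · rw [hf1 x h2, hf1 x h2]
      · refine Subtype.ext ?_
        rw [hf2 (f x) (by rw [hf2 x h1 h2, ← mul_assoc, ← h1]) (by
          rw [hf2 x h1 h2, Ne, mul_eq_right]
          exact fun e => z1 (isConj_one_left.1 (e ▸ x.2))), hf2 x h1 h2, mul_assoc, zz, mul_one]
    · refine Subtype.ext ?_
      rw [hf3 (f x) (fun e => h1 (by
        rw [hf3 x h1] at e
        calc _ = z⁻¹ * (z * x.1 * z⁻¹ * z) * z := by group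
          _ = _ := by rw [e]; group)), hf3 x h1, inv_eq_of_mul_eq_one_right zz]
      calc _ = (z * z) * x.1 * (z * z) := by group
        _ = _ := by rw [zz]; group
  refine CL.Inv.SE.odd_of_existsUnique (t := hinv.toPerm) (Equiv.ext hinv) ⟨⟨z, IsConj.refl _⟩, hf1 _ rfl, fun x hx => ?_⟩
  replace hx : (f x).1 = x.1 := congrArg Subtype.val hx
  by_contra hne
  have h2 : x.1 ≠ z := fun e => hne (Subtype.ext e)
  by_cases h1 : x.1 * z = z * x.1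
  · exact z1 (by simpa [hf2 x h1 h2] using hx)
  · exact h1 (mul_inv_eq_iff_eq_mul.1 (hf3 x h1 ▸ hx)).symm

variable {Γ A U : Type} [Group Γ] [Group A] [Group U] {D : DX Γ A U} {C : Type*} [Group C]
  {G : Type*} [Group G] {w w' w'' : C} {M : Subgroup C} {Θ Θ' : C →* Γ} {ι : C →* G} {g : G} {Φ Φ' : A →* C}

/-- the outer automorphism induced by `x` is central -/
def Rot (D : DX Γ A U) (Θ : C →* Γ) (x : C) : Prop := D.lam (Θ x) = 1 ∨ D.lam (Θ x) = r 3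

theorem rot_aux (a b : DihedralGroup 6) : (a * b * a⁻¹ = 1 ∨ a * b * a⁻¹ = r 3) ↔ (b = 1 ∨ b = r 3) := by
  revert a b; decide

theorem rot_conj (γ : Γ) (x : C) : Rot D ((MulAut.conj γ).toMonoidHom.comp Θ) x ↔ Rot D Θ x := by
  simpa [Rot] using rot_aux _ _

theorem rot_cj (m x : C) : Rot D Θ (m * x * m⁻¹) ↔ Rot D Θ x := by
  simpa [Rot] using rot_aux _ _

theorem Rot.mul {x y : C} (hx : Rot D Θ x) (hy : Rot D Θ y) : Rot D Θ (x * y) := by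
  unfold Rot at *
  rw [map_mul, map_mul]
  rcases hx with e | e <;> rcases hy with e' | e' <;> rw [e, e'] <;> decide

theorem Cf.rot (h : Cf D w M Θ) {x : C} (hx : x ∈ M) : Rot D Θ x := Or.inl ((D.lker _).2 (h.memL hx))

namespace St
variable (h : St D w M Θ ι) (r : Rt w ι g w')
include h r

theorem odd_of {o o' : C} (h1 : Θ o = 1) (h2 : Θ o' = 1) (e : ι o = g * ι o' * g⁻¹) : Odd (orderOf o) :=
  (h.tight g⁻¹ o o' h1 h2 (flip e)).resolve_right fun hc => r.ne (h.emb.inj (by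
    rw [r.sq, mul_assoc, ← hc, mul_inv_cancel_left]))

theorem ko {κ : C} (hκ : Θ κ = 1) : ∃ z ∈ zpowers w, ∃ o o', κ = z * o ∧ Θ o = 1 ∧ Θ o' = 1 ∧
    ι o = g * ι o' * g⁻¹ ∧ Odd (orderOf o) := by
  obtain ⟨_, r'⟩ := h.rt_inv r
  obtain ⟨γ, Φ, F⟩ := h.exists_fr r
  obtain ⟨γ', Φ', F'⟩ := h.exists_fr r'
  obtain ⟨z, hz, o', h1, h2⟩ := F.ker F' (κ := κ) (by simpa using hκ)
  have h3 : Θ (z⁻¹ * κ) = 1 := by rw [map_mul, map_inv, h.cf.Θz hz, hκ]; simp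
  have h4 : Θ o' = 1 := by simpa using h1
  exact ⟨z, hz, _, o', by simp, h3, h4, h2, h.odd_of r h3 h4 h2⟩

theorem odd_K {κ : C} (hκ : Θ κ = 1) (ho : Odd (orderOf κ)) : ∃ κ', Θ κ' = 1 ∧ ι κ = g * ι κ' * g⁻¹ := by
  obtain ⟨z, hz, o, o', rfl, h1, h2, h3, h4⟩ := h.ko r hκ
  have h5 : Commute z o := h.cf.kc o h1 z (zpowers_le_of_mem h.cf.wM hz)
  have h6 := congrArg (· ^ orderOf o) (pow_orderOf_eq_one (z * o))
  simp only [h5.mul_pow, (h5.pow_pow _ _).mul_pow, ← pow_mul, one_pow] at h6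
  rw [mul_comm _ (orderOf o), pow_mul o, pow_orderOf_eq_one, one_pow, mul_one] at h6
  rw [eq_one_of_odd (k := 2) h6 (h4.mul ho) (pow_four_of_zpowers h.cf.w4 hz), one_mul]
  exact ⟨o', h2, h3⟩

theorem odd_mul {κ κ' : C} (hκ : Θ κ = 1) (ho : Odd (orderOf κ)) (hκ' : Θ κ' = 1) (ho' : Odd (orderOf κ')) :
    Odd (orderOf (κ * κ')) := by
  obtain ⟨o, h1, h2⟩ := h.odd_K r hκ ho
  obtain ⟨o', h3, h4⟩ := h.odd_K r hκ' ho'
  exact h.odd_of r (by rw [map_mul, hκ, hκ', mul_one]) (by rw [map_mul, h1, h3, mul_one]) (cj_mul h2 h4)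

theorem split {x : C} (hx : Θ x ∈ D.L) : ∃ m ∈ M, ∃ o o', x = m * o ∧ Θ o = 1 ∧ Θ o' = 1 ∧
    ι o = g * ι o' * g⁻¹ ∧ Odd (orderOf o) := by
  obtain ⟨m, hm, κ, hκ, rfl⟩ := h.cf.split hx
  obtain ⟨z, hz, o, o', rfl, h1⟩ := h.ko r hκ
  exact ⟨m * z, mul_mem hm (zpowers_le_of_mem h.cf.wM hz), o, o', (mul_assoc _ _ _).symm, h1⟩

omit r in
theorem odd_M {o : C} (hM : o ∈ M) (h1 : Θ o = 1) (ho : Odd (orderOf o)) : o = 1 :=
  eq_one_of_odd (k := 2) (pow_orderOf_eq_one o) ho (pow_four_of_zpowers h.cf.w4 (h.cf.ker o hM h1))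

theorem two_M {x : C} (hx : Θ x ∈ D.L) {n : ℕ} (h2 : x ^ 2 ^ n = 1) : x ∈ M := by
  obtain ⟨m, hm, o, o', rfl, h1, -, -, h3⟩ := h.split r hx
  rw [Commute.mul_pow (h.cf.kc o h1 m hm)] at h2
  have h4 := h.odd_M (eq_inv_of_mul_eq_one_right h2 ▸ inv_mem (pow_mem hm _)) (by rw [map_pow, h1, one_pow])
    (h3.of_dvd_nat (orderOf_pow_dvd _))
  rwa [eq_one_of_odd (pow_orderOf_eq_one o) h3 h4, mul_one]

theorem kl {x c : C} (hc : ι x = g * ι c * g⁻¹) (hx : Rot D Θ x) : Rot D Θ c := by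
  obtain ⟨_, r'⟩ := h.rt_inv r
  obtain ⟨γ, Φ, F⟩ := h.exists_fr r
  obtain ⟨γ', Φ', F'⟩ := h.exists_fr r'
  have key : ∀ x c, ι x = g * ι c * g⁻¹ → D.lam (((MulAut.conj γ).toMonoidHom.comp Θ) x) = 1 → Rot D Θ c :=
    fun x c hc hx => by
      obtain ⟨m, hm, o, o', rfl, -, h1, h2, -⟩ := F.st.split r ((D.lker _).1 hx)
      have h3 := (rot_conj γ' _).1 (F.klm F' (c := c * o'⁻¹) hm (by
        rw [map_mul, map_inv, flip hc, flip h2, map_mul]; group))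
      simpa only [inv_mul_cancel_right] using h3.mul ((rot_conj γ o').1 (Or.inl (by rw [h1, map_one])))
  rcases (rot_conj γ _).2 hx with e | e
  · exact key x c hc e
  · obtain ⟨u, hu, h1⟩ := F.u
    simpa using (key _ _ (cj_mul hc h1) (by rw [map_mul, map_mul, e, F.lc]; decide)).mul (h.cf.rot (inv_mem hu))

omit r in
theorem kl' {y x c : C} (hM : y ∈ M) (hy : ι y = g * ι (w * w) * g⁻¹) (hc : ι x = g * ι c * g⁻¹) :
    Rot D Θ x ↔ Rot D Θ c := by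
  by_cases h1 : y = w * w
  · obtain ⟨m, rfl⟩ := h.emb.sur g (by rw [← mul_inv_eq_iff_eq_mul, ← hy, h1])
    rw [h.emb.inj (hc.trans (by rw [map_mul, map_mul, map_inv] : _ = ι (m * c * m⁻¹))), rot_cj]
  · obtain ⟨_, r, -⟩ := h.rt_of_comm' hy h1 (h.cf.cen y hM).symm
    obtain ⟨_, r'⟩ := h.rt_inv r
    exact ⟨h.kl r hc, h.kl r' (flip hc)⟩

theorem fuM {N : Subgroup G} (hN : ι.range ≤ N) (hg : g ∈ N) {x : C} (hx : x ∈ M) (h2 : x * x = 1) (h1 : x ≠ 1) :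
    ∃ n ∈ N, ι x = n * ι (w * w) * n⁻¹ := by
  obtain ⟨γ, Φ, F⟩ := h.exists_fr r
  rcases F.inv hx h2 with e | rfl | ⟨m, rfl⟩
  · exact absurd e h1
  · exact ⟨1, one_mem _, by simp⟩
  · exact ⟨ι m * g, mul_mem (hN ⟨m, rfl⟩) hg, by rw [map_mul, map_mul, map_inv, r.sq]; group⟩

theorem fu {N : Subgroup G} (hN : ι.range ≤ N) (hg : g ∈ N) {x : C} (hx : Rot D Θ x) (h2 : x * x = 1) (h1 : x ≠ 1) :
    ∃ n ∈ N, ι x = n * ι (w * w) * n⁻¹ := by
  have := h.cf.fin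
  obtain ⟨γ, Φ, F⟩ := h.exists_fr r
  rcases (rot_conj γ _).2 hx with e | e
  · exact h.fuM r hN hg (F.st.two_M r ((D.lker _).1 e) (n := 1) (by rwa [pow_one, pow_two])) h2 h1
  obtain ⟨m, hm, o, -, a1, a2, -, -, a3⟩ := F.st.split r (x := x * Φ (D.a * D.d)) ((D.lker _).1 (by
    rw [map_mul, map_mul, e, F.lc]; decide))
  obtain ⟨α, hα, rfl⟩ := F.ΦM.ge hm
  have hd : D.a * D.d ∉ D.M := fun hc => D.toDA.dM ((mul_mem_cancel_left D.toDA.aM).1 hc)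
  have hdd : D.a * D.d * (D.a * D.d) = 1 := by
    rw [mul_assoc, ← mul_assoc D.d, ← D.ad, mul_assoc, D.dd, mul_one, D.aa]
  obtain ⟨β, hβ, rfl⟩ : ∃ β ∉ D.M, x = o * Φ β := ⟨α * (D.a * D.d)⁻¹,
    fun hc => hd (inv_mem_iff.1 ((mul_mem_cancel_left hα).1 hc)), by
      rw [map_mul, map_inv, ← mul_assoc, ← F.st.cf.kc o a2 _ hm, ← a1, mul_inv_cancel_right]⟩
  have b1 : Φ β * Φ β = 1 := by
    have c1 : o * (Φ β * o * (Φ β)⁻¹) * (Φ β * Φ β) = 1 := by rw [← h2]; group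
    have c2 : ((MulAut.conj γ).toMonoidHom.comp Θ) (Φ β * o * (Φ β)⁻¹) = 1 := by
      rw [map_mul, map_mul, a2, map_inv, mul_one, mul_inv_cancel]
    have c3 := F.st.odd_M (eq_inv_of_mul_eq_one_left c1 ▸ inv_mem (by
      rw [← map_mul]; exact F.mem (mul_mem_two D.toDA.idx hβ hβ))) (by rw [map_mul, a2, c2, mul_one])
      (F.st.odd_mul r a2 a3 c2 (by rwa [show orderOf (Φ β * o * (Φ β)⁻¹) = _ from (MulAut.conj (Φ β)).orderOf_eq o]))
    rwa [c3, one_mul] at c1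
  obtain ⟨k, b2⟩ := CL.Inv.exists_pow_conj_of_odd h2 b1 (by rwa [mul_assoc, b1, mul_one])
  obtain ⟨m1, b3⟩ := (F.cls (F.inj (by rw [map_mul, b1, map_one]))).2 hβ
  obtain ⟨m2, b4⟩ := (F.cls hdd).2 hd
  obtain ⟨u, hu, b5⟩ := F.u
  obtain ⟨n, hn, b6⟩ := h.fuM r hN hg hu (h.emb.inj (by rw [flip (cj_mul b5 b5), ← map_mul, hdd]; simp))
    fun hc => F.cw (by rw [h.emb.inj (b5.trans (by rw [hc]; simp) : _ = ι 1)]; simp)
  generalize (o * Φ β * Φ β) ^ k = s at b2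
  refine ⟨ι (s⁻¹ * Φ (m1 * m2⁻¹)) * g * n, mul_mem (mul_mem (hN ⟨_, rfl⟩) hg) hn, ?_⟩
  calc _ = ι (s⁻¹ * Φ (m1 * m2⁻¹)) * ι (Φ (D.a * D.d)) * (ι (s⁻¹ * Φ (m1 * m2⁻¹)))⁻¹ := by
        rw [← map_inv, ← map_mul, ← map_mul, ← b4]
        congr 1
        calc _ = s⁻¹ * (s * (o * Φ β) * s⁻¹) * s := by group
          _ = _ := by rw [b2, ← b3]; simp only [map_mul, map_inv]; group
    _ = _ := by rw [b5, b6]; group

theorem rot_of_cj {g' : G} {x : C} (hx : ι x = g' * ι (w * w) * g'⁻¹) : Rot D Θ x := by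
  have key : ∀ g' x, ι x = g' * ι (w * w) * g'⁻¹ → w * x = x * w → x ∈ M := fun g' x hx hw => by
    by_cases h1 : x = w * w
    · exact h1 ▸ mul_mem h.cf.wM h.cf.wM
    · obtain ⟨_, r', rfl⟩ := h.rt_of_comm' hx h1 hw
      obtain ⟨_, _, F⟩ := h.exists_fr r'
      exact F.yM
  by_cases hw : x * w = w * x
  · exact h.cf.rot (key _ x hx hw.symm)
  obtain ⟨z, a1, a2, a3, a4, -, c, a5, a6⟩ := h.triple hx hw
  obtain ⟨n, -, a7⟩ := h.fuM r le_top trivial a1 a2 a3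
  obtain ⟨x', a8⟩ := h.emb.lift' a7 a4.symm
  have a9 : ι c = g'⁻¹ * n * ι (w * w) * (g'⁻¹ * n)⁻¹ := by rw [flip a5, a7]; group
  obtain ⟨_, r', -⟩ := h.rt_of_comm' a9 (fun e => hw (by
    rw [e, ← hx] at a5
    exact h.emb.inj a5 ▸ h.cf.cen z a1)) a6.symm
  obtain ⟨w'', r''⟩ := h.rt_inv r'
  obtain ⟨_, _, F⟩ := h.exists_fr r''
  rw [h.kl' a1 a7 a8, h.emb.inj (show ι x' = ι (w'' * w'') by rw [r''.sq, flip a8, hx]; group)]
  exact h.cf.rot F.yM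

theorem nf {g' : G} {x x' : C} {n : ℕ} (h2 : x ^ 2 ^ n = 1) (hc : ι x' = g' * ι x * g'⁻¹) (hx : Rot D Θ x') :
    Rot D Θ x := by
  classical
  have pw : ∀ k : ℕ, ι (x' ^ k) = g' * ι (x ^ k) * g'⁻¹ := fun k => by rw [map_pow, map_pow, hc, conj_pow]
  by_cases h1 : x * x = 1
  · by_cases h0 : x = 1
    · exact h0 ▸ h.cf.rot (one_mem _)
    obtain ⟨m, -, e⟩ := h.fu r le_top trivial hx (h.emb.inj (by rw [cj_mul hc hc, h1]; simp))
      fun e => h0 (h.emb.inj (by rw [flip hc, e]; simp))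
    exact h.rot_of_cj r (g' := g'⁻¹ * m) (by rw [flip hc, e]; group)
  have sq : ∀ y : C, y ^ 2 ^ n = 1 → y * y ∈ M := fun y hy => h.two_M r (n := n) ((D.lker _).1 (by
    refine eq_one_of_odd (n := 3) (k := n) ?_ (by decide) ?_
    · rw [map_mul, map_mul]; exact (by decide : ∀ d : DihedralGroup 6, (d * d) ^ 3 = 1) _
    · rw [← map_pow, ← map_pow, ← pow_two, ← pow_mul, mul_comm, pow_mul, hy]; simp))
    (by rw [← pow_two, ← pow_mul, mul_comm, pow_mul, hy, one_pow])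
  have h3 : x' ^ 2 ^ n = 1 := h.emb.inj (by rw [pw, h2]; simp)
  obtain ⟨k, a1, a2⟩ : ∃ k, x ^ (2 * k) ≠ 1 ∧ x ^ (2 * k) * x ^ (2 * k) = 1 := by
    have a0 : ∃ k, x ^ 2 ^ (k + 2) = 1 := ⟨n, by rw [pow_add, pow_mul, h2, one_pow]⟩
    refine ⟨2 ^ Nat.find a0, ?_, by
      rw [← pow_add]; refine Eq.trans ?_ (Nat.find_spec a0); congr 1; ring⟩
    rcases e : Nat.find a0 with _ | k
    · simpa [pow_two] using h1
    · have := Nat.find_min a0 (m := k) (by omega)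
      rwa [show 2 * 2 ^ (k + 1) = 2 ^ (k + 2) by ring]
  have a3 : ∀ y : C, y ^ 2 ^ n = 1 → y ^ (2 * k) ∈ M := fun y hy => by
    rw [pow_mul, pow_two]; exact pow_mem (sq y hy) k
  obtain ⟨m, -, e⟩ := h.fuM r le_top trivial (a3 x h2) a2 a1
  obtain ⟨x₁, e1⟩ := h.emb.lift' e (x := x) ((Commute.refl x).pow_right _)
  exact (h.kl' (a3 x h2) e e1).2 ((h.kl' (g := g' * m) (a3 x' h3) (by rw [pw, e]; group)
    (by rw [hc, e1]; group)).1 hx)

omit r in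
theorem odd_index [Finite G] : Odd ι.range.index := by
  have e : ι.range = centralizer {ι (w * w)} := ext fun x => ⟨by
    rintro ⟨c, rfl⟩
    exact mem_centralizer_singleton_iff.2 (by rw [← map_mul, h.cf.ct, map_mul]),
    fun hx => h.emb.sur x (mem_centralizer_singleton_iff.1 hx)⟩
  rw [e]
  refine odd_index_of (by rw [← map_mul, h.cf.ww.1, map_one])
    (fun hc => h.cf.ww.2 (h.emb.inj (hc.trans (map_one ι).symm))) fun x hx h1 h2 => hx.trans ?_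
  obtain ⟨y, rfl⟩ := h.emb.sur x h1
  obtain ⟨g, hg⟩ := isConj_iff.1 hx
  rw [← map_mul]
  refine ι.map_isConj (isConj_iff.2 ?_)
  by_cases hw : y * w = w * y
  · obtain ⟨_, r, rfl⟩ := h.rt_of_comm' hg.symm (fun e => h2 (congrArg ι e)) hw.symm
    obtain ⟨_, Φ, F⟩ := h.exists_fr r
    exact ⟨Φ D.s, by rw [← F.Φa, ← F.Φf, ← map_inv, ← map_mul, ← map_mul, D.hs, map_mul]⟩
  · exact ⟨w, by rw [h.inv_cj hw, h.cf.ct]⟩

end St

end CL.ONT
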